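import Mathlib
import Cfsg.Agent.MaxClass.Pres

set_option autoImplicit false

/-!
# Centralizers of involutions in `A₆`
-/

namespace Cfsg.Agent.H55.A6Cen

open Equiv

def a0 : Perm (Fin 6) := swap 0 1 * swap 2 3
def rho : Perm (Fin 6) := swap 0 2 * swap 2 1 * swap 1 3 * swap 4 5
def sig : Perm (Fin 6) := swap 0 2 * swap 1 3

theorem rho2 : rho * rho = a0 := by decide
theorem sig2 : sig * sig = 1 := by decide
theorem a02 : a0 * a0 = 1 := by decide
theorem sigrho : sig * rho * sig = rho⁻¹ := by decide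
theorem sign_rho : Perm.sign rho = 1 := by decide
theorem sign_sig : Perm.sign sig = 1 := by decide
theorem sign_a0 : Perm.sign a0 = 1 := by decide
theorem sig_a0 : sig * a0 = a0 * sig := by decide
theorem rho_a0 : rho * a0 = a0 * rho := by decide

set_option maxRecDepth 10000 in
theorem card_cen : Fintype.card {σ : Perm (Fin 6) // σ * a0 = a0 * σ ∧ Perm.sign σ = 1} = 8 := by
  decide +kernel

/-- transport of centralizers -/
def cenEquiv {A B : Type*} [Group A] [Group B] (φ : A ≃* B) (x : A) :
    Subgroup.centralizer ({x} : Set A) ≃* Subgroup.centralizer ({φ x} : Set B) where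
  toFun y := ⟨φ y, by
    have := Subgroup.mem_centralizer_singleton_iff.1 y.2
    rw [Subgroup.mem_centralizer_singleton_iff, ← map_mul, this, map_mul]⟩
  invFun y := ⟨φ.symm y, by
    have := Subgroup.mem_centralizer_singleton_iff.1 y.2
    rw [Subgroup.mem_centralizer_singleton_iff]
    apply φ.injective
    rw [map_mul, map_mul, φ.apply_symm_apply, this]⟩
  left_inv y := by apply Subtype.ext; simp
  right_inv y := by apply Subtype.ext; simp
  map_mul' y z := by apply Subtype.ext; simp

def a0' : alternatingGroup (Fin 6) := ⟨a0, sign_a0⟩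

theorem cen_a0 : Nonempty (Subgroup.centralizer ({a0'} : Set (alternatingGroup (Fin 6))) ≃*
    DihedralGroup 4) := by
  have hm : ∀ y : alternatingGroup (Fin 6),
      y ∈ Subgroup.centralizer ({a0'} : Set (alternatingGroup (Fin 6))) ↔ (y : Perm (Fin 6)) * a0 =
        a0 * y := by
    intro y
    rw [Subgroup.mem_centralizer_singleton_iff, Subtype.ext_iff]
    rfl
  have hcard : Nat.card (Subgroup.centralizer ({a0'} : Set (alternatingGroup (Fin 6)))) = 8 := by
    rw [← card_cen, ← Nat.card_eq_fintype_card]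
    refine Nat.card_congr
      { toFun := fun y => ⟨(y : alternatingGroup (Fin 6)), (hm _).1 y.2, (y : alternatingGroup (Fin 6)).2⟩
        invFun := fun y => ⟨⟨y.1, y.2.2⟩, (hm _).2 y.2.1⟩
        left_inv := fun y => rfl
        right_inv := fun y => rfl }
  let ρ : Subgroup.centralizer ({a0'} : Set (alternatingGroup (Fin 6))) :=
    ⟨⟨rho, sign_rho⟩, (hm _).2 rho_a0⟩
  let σ : Subgroup.centralizer ({a0'} : Set (alternatingGroup (Fin 6))) :=
    ⟨⟨sig, sign_sig⟩, (hm _).2 sig_a0⟩
  have hcomm : ¬ σ * ρ = ρ * σ := by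
    intro e
    have e1 : sig * rho = rho * sig := congrArg (fun z :
      Subgroup.centralizer ({a0'} : Set (alternatingGroup (Fin 6))) => ((z : alternatingGroup (Fin 6)) :
        Perm (Fin 6))) e
    exact absurd e1 (by decide)
  have hσ2 : σ * σ = 1 := Subtype.ext (Subtype.ext sig2)
  apply Cfsg.Agent.MaxClass.nonempty_mulEquiv_dihedral (a := ρ) (b := σ) (m := 4) (by norm_num)
  · have h4 : ρ ^ 4 = 1 := by
      apply Subtype.ext; apply Subtype.ext
      show rho ^ 4 = 1
      decide
    have h2 : ¬ ρ ^ 2 = 1 := by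
      intro e
      have e1 : rho ^ 2 = 1 := congrArg (fun z :
        Subgroup.centralizer ({a0'} : Set (alternatingGroup (Fin 6))) => ((z : alternatingGroup (Fin 6)) :
          Perm (Fin 6))) e
      exact absurd e1 (by decide)
    exact orderOf_eq_prime_pow (p := 2) (n := 1) (by rw [pow_one]; exact h2) h4
  · intro hz
    obtain ⟨n, hn⟩ := Subgroup.mem_zpowers_iff.1 hz
    apply hcomm
    rw [← hn]
    exact ((Commute.refl ρ).zpow_left n).eq
  · rw [sq]; exact hσ2
  · have hσi : σ⁻¹ = σ := inv_eq_of_mul_eq_one_left hσ2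
    rw [hσi]
    exact Subtype.ext (Subtype.ext sigrho)
  · exact hcard

theorem a6_cen (x : alternatingGroup (Fin 6)) (hx : orderOf x = 2)
    (hs : (x : Perm (Fin 6)).support.card = 4) :
    Nonempty (Subgroup.centralizer ({x} : Set (alternatingGroup (Fin 6))) ≃* DihedralGroup 4) := by
  have hxo : orderOf (x : Perm (Fin 6)) = 2 := by rw [Subgroup.orderOf_coe, hx]
  have hct : (x : Perm (Fin 6)).cycleType = {2, 2} := by
    have h1 := Equiv.Perm.sum_cycleType (x : Perm (Fin 6))
    rw [hs] at h1
    have h2 : ∀ n ∈ (x : Perm (Fin 6)).cycleType, n = 2 := by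
      intro n hn
      have h3 := Equiv.Perm.dvd_of_mem_cycleType hn
      rw [hxo] at h3
      have h4 := Equiv.Perm.two_le_of_mem_cycleType hn
      have h5 := Nat.le_of_dvd (by norm_num) h3
      omega
    have h3 := Multiset.eq_replicate_card.2 h2
    rw [h3, Multiset.sum_replicate, smul_eq_mul] at h1
    have h4 : Multiset.card (x : Perm (Fin 6)).cycleType = 2 := by omega
    rw [h3, h4]; rfl
  have hct0 : a0.cycleType = {2, 2} := by
    have hd : Perm.Disjoint (swap (0 : Fin 6) 1) (swap 2 3) := by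
      rw [Perm.disjoint_iff_eq_or_eq]; decide
    rw [show a0 = swap (0 : Fin 6) 1 * swap 2 3 from rfl, hd.cycleType_mul,
      (Perm.isSwap_iff_cycleType).1 ⟨0, 1, by decide, rfl⟩,
      (Perm.isSwap_iff_cycleType).1 ⟨2, 3, by decide, rfl⟩]
    rfl
  have hconj : IsConj (x : Perm (Fin 6)) a0 := by
    rw [Perm.isConj_iff_cycleType_eq, hct, hct0]
  obtain ⟨g, hg⟩ := isConj_iff.1 hconj
  let φ : alternatingGroup (Fin 6) ≃* alternatingGroup (Fin 6) := MulAut.conjNormal g
  have hφ : φ x = a0' := by
    apply Subtype.ext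
    show (MulAut.conjNormal g x : Perm (Fin 6)) = a0
    rw [MulAut.conjNormal_apply, hg]
  obtain ⟨e⟩ := cen_a0
  rw [← hφ] at e
  exact ⟨(cenEquiv φ x).trans e⟩

end Cfsg.Agent.H55.A6Cen
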