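import Mathlib

/-!
# A divisibility fact on numbers `2ⁿ - 1`
-/

set_option autoImplicit false

namespace Cfsg.Agent.H55

theorem gcd_two_mul_aux {a b : ℕ} (ha : Odd a) : Nat.gcd a (2 * b) = Nat.gcd a b :=
  Nat.Coprime.gcd_mul_left_cancel_right b (Nat.coprime_two_left.2 ha)

theorem numth (n j : ℕ) (hj : 1 ≤ j) (hjn : j ≤ n)
    (h : (2 ^ n - 1) / Nat.gcd (2 ^ n - 1) (2 ^ j - 2) ∣ 2 ^ j - 1) : j = 1 ∨ j = n := by
  rcases Nat.eq_or_lt_of_le hj with h1 | h1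
  · exact Or.inl h1.symm
  right
  obtain ⟨k, rfl⟩ : ∃ k, j = k + 1 := ⟨j - 1, by omega⟩
  have hk : 1 ≤ k := by omega
  have hn : 1 ≤ n := by omega
  have hodd : Odd (2 ^ n - 1) := by
    obtain ⟨m, rfl⟩ : ∃ m, n = m + 1 := ⟨n - 1, by omega⟩
    refine ⟨2 ^ m - 1, ?_⟩
    have : 1 ≤ 2 ^ m := Nat.one_le_two_pow
    rw [pow_succ]
    omega
  have e1 : 2 ^ (k + 1) - 2 = 2 * (2 ^ k - 1) := by rw [pow_succ]; omega
  rw [e1, gcd_two_mul_aux hodd, Nat.pow_sub_one_gcd_pow_sub_one] at h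
  set g1 := Nat.gcd n k with hg1
  set g2 := Nat.gcd n (k + 1) with hg2
  have d1 : g1 ∣ n := Nat.gcd_dvd_left _ _
  have d1' : g1 ∣ k := Nat.gcd_dvd_right _ _
  have d2 : g2 ∣ n := Nat.gcd_dvd_left _ _
  have d2' : g2 ∣ k + 1 := Nat.gcd_dvd_right _ _
  have p1 : 1 ≤ g1 := Nat.gcd_pos_of_pos_left _ (by omega)
  have p2 : 1 ≤ g2 := Nat.gcd_pos_of_pos_left _ (by omega)
  have hd : 2 ^ g1 - 1 ∣ 2 ^ n - 1 := Nat.pow_sub_one_dvd_pow_sub_one _ d1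
  have q1 : (2 ^ n - 1) / (2 ^ g1 - 1) ∣ 2 ^ g2 - 1 := by
    have := Nat.dvd_gcd (Nat.div_dvd_of_dvd hd) h
    rw [Nat.pow_sub_one_gcd_pow_sub_one 2 n (k + 1)] at this
    exact this
  have q2 : 2 ^ n - 1 ∣ (2 ^ g1 - 1) * (2 ^ g2 - 1) := by
    have := Nat.mul_dvd_mul_left (2 ^ g1 - 1) q1
    rwa [Nat.mul_div_cancel' hd] at this
  have r1 : 2 ≤ 2 ^ g1 := by
    calc 2 = 2 ^ 1 := rfl
      _ ≤ 2 ^ g1 := Nat.pow_le_pow_right (by norm_num) p1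
  have r2 : 2 ≤ 2 ^ g2 := by
    calc 2 = 2 ^ 1 := rfl
      _ ≤ 2 ^ g2 := Nat.pow_le_pow_right (by norm_num) p2
  have q3 : 2 ^ n - 1 ≤ (2 ^ g1 - 1) * (2 ^ g2 - 1) := Nat.le_of_dvd (Nat.mul_pos (by omega) (by omega)) q2
  have q4 : n < g1 + g2 := by
    by_contra hcon
    push Not at hcon
    have s1 : 2 ^ (g1 + g2) ≤ 2 ^ n := Nat.pow_le_pow_right (by norm_num) hcon
    rw [pow_add] at s1
    obtain ⟨a, ha⟩ : ∃ a, 2 ^ g1 = a + 2 := ⟨2 ^ g1 - 2, by omega⟩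
    obtain ⟨b, hb⟩ : ∃ b, 2 ^ g2 = b + 2 := ⟨2 ^ g2 - 2, by omega⟩
    rw [ha, hb] at s1 q3
    have t1 : a + 2 - 1 = a + 1 := rfl
    have t2 : b + 2 - 1 = b + 1 := rfl
    rw [t1, t2] at q3
    have t3 : (a + 1) * (b + 1) + 2 ≤ (a + 2) * (b + 2) := by nlinarith
    omega
  have hcop : Nat.Coprime g1 g2 := by
    apply Nat.Coprime.coprime_dvd_left d1'
    apply Nat.Coprime.coprime_dvd_right d2'
    exact (Nat.coprime_self_add_right).2 (Nat.coprime_one_right k)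
  have hmul : g1 * g2 ≤ n := Nat.le_of_dvd (by omega) (hcop.mul_dvd_of_dvd_of_dvd d1 d2)
  rcases Nat.eq_or_lt_of_le p1 with c1 | c1
  · -- g1 = 1
    have : g2 ≤ n := Nat.le_of_dvd (by omega) d2
    have e : g2 = n := by omega
    rw [e] at d2'
    have := Nat.le_of_dvd (by omega) d2'
    omega
  · rcases Nat.eq_or_lt_of_le p2 with c2 | c2
    · have : g1 ≤ n := Nat.le_of_dvd (by omega) d1
      have e : g1 = n := by omega
      rw [e] at d1'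
      have := Nat.le_of_dvd (by omega) d1'
      omega
    · exfalso
      have : g1 + g2 ≤ g1 * g2 := by
        obtain ⟨a, ha⟩ : ∃ a, g1 = a + 2 := ⟨g1 - 2, by omega⟩
        obtain ⟨b, hb⟩ : ∃ b, g2 = b + 2 := ⟨g2 - 2, by omega⟩
        rw [ha, hb]
        nlinarith [Nat.zero_le (a * b)]
      omega

end Cfsg.Agent.H55
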