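import Cfsg.Agent.H55.BTF2
import Cfsg.Agent.P3.Pl2
import Cfsg.Agent.H10.No22

/-!
# The Borel type is impossible
-/

set_option autoImplicit false
set_option linter.all false

namespace Cfsg.Agent.H55

open Subgroup MulAction Cfsg.Agent.P3 BTF

namespace BTF

variable {G Ω : Type*} [Group G] [Finite G] [Finite Ω] [MulAction G Ω] {q : ℕ} {N : Ω → Subgroup G}
  {U : Ω → Ω → Subgroup G}

theorem BU.ct_bot (D : BU N q U) (F : Fam G Ω q N)
    (fx : ∀ a b c : Ω, a ≠ b → U a b ≤ stabilizer G c → c = a ∨ c = b) {a : Ω} {c : G}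
    (hc : c ∈ centralizer (N a : Set G)) : c = 1 := by
  have hca : c • a = a := F.ct_le hc
  apply F.faith
  intro b
  by_cases hab : a = b
  · rw [← hab]; exact hca
  apply D.cj_fix F fx hab hca
  exact cj_of_comm fun x hx => mem_centralizer_iff'.1 hc x ((D.fl a b hab).le hx)

/-- elements of `G_ab` normalising `A` -/
theorem BU.K_le (D : BU N 2 U) (F : Fam G Ω 2 N)
    (fx : ∀ a b c : Ω, a ≠ b → U a b ≤ stabilizer G c → c = a ∨ c = b) {a b : Ω} (hab : a ≠ b)
    {P L : Set (Subgroup G)} (h : PS (N a) 2 P L) {A B : Subgroup G} (hA : A ∈ P) (hB : B ∈ L) (hAB : A ⊓ B ≠ ⊥)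
    (hU : U a b = A ⊔ B) {g : G} (hga : g • a = a) (hgb : g • b = b) (hgA : cj g A = A) : g ∈ A ⊔ B := by
  classical
  have hNz : Nz g (N a) := F.Nz hga
  have hgU : cj g (U a b) = U a b := by rw [D.conj F hab, hga, hgb]
  -- the general facts for such elements
  have hgenB : ∀ x : G, x • a = a → x • b = b → cj x A = A → cj x B = B := by
    intro x hxa hxb hxA
    have hxU : cj x (U a b) = U a b := by rw [D.conj F hab, hxa, hxb]
    have h1 : cj x B ∈ L := (h.pres (F.Nz hxa) hA (by rw [hxA]; exact hA)).2 B hB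
    have h2 : cj x B ≤ A ⊔ B := by
      rw [← hU, ← hxU, hU]; exact cj_mono le_sup_right
    rcases h.char_U hA hB hAB (h.h2.card _ h1) (h.h2.sq _ h1) h2 with h3 | h3
    · exact absurd (h3 ▸ h1) (h.disj hA)
    · exact h3
  -- odd order elements are trivial
  have hodd : ∀ x : G, x • a = a → x • b = b → cj x A = A → Odd (orderOf x) → x = 1 := by
    intro x hxa hxb hxA hx
    have hxB := hgenB x hxa hxb hxA
    obtain ⟨z, hz, hz1⟩ := exists_mem_of_ne_bot hAB
    have hcardZ : Nat.card ↥(A ⊓ B) = 2 := h.h1.inc A hA B hB hAB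
    have hZ : ∀ y ∈ A ⊓ B, y = 1 ∨ y = z := by
      intro y hy
      by_contra hcon
      push Not at hcon
      have h3 : ({1, y, z} : Set G) ⊆ ((A ⊓ B : Subgroup G) : Set G) := by
        rintro w (rfl | rfl | rfl)
        · exact one_mem _
        · exact hy
        · exact hz
      have h4 := Set.ncard_le_ncard h3
      rw [Set.ncard_eq_three.2 ⟨1, y, z, Ne.symm hcon.1, Ne.symm hz1, hcon.2, rfl⟩] at h4
      have h5 : ((A ⊓ B : Subgroup G) : Set G).ncard = 2 := by
        rw [← hcardZ]; exact Nat.card_coe_set_eq _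
      omega
    have hzx : x * z * x⁻¹ = z := by
      have h3 : x * z * x⁻¹ ∈ A ⊓ B := Subgroup.mem_inf.2 ⟨conj_mem_of_cj hxA (Subgroup.mem_inf.1 hz).1,
        conj_mem_of_cj hxB (Subgroup.mem_inf.1 hz).2⟩
      rcases hZ _ h3 with h4 | h4
      · exfalso; apply hz1
        have h5 : z = x⁻¹ * (x * z * x⁻¹) * x := by group
        rw [h5, h4]; group
      · exact h4
    -- `x` acts trivially on `A / (A ⊓ B)`
    have hcentA : ∀ y ∈ A, x * y = y * x := by
      intro y hy
      by_cases hyZ : y ∈ A ⊓ B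
      · rcases hZ y hyZ with rfl | rfl
        · simp
        · have := hzx
          rw [mul_inv_eq_iff_eq_mul] at this
          exact this
      · -- `x y x⁻¹ = y` or `y z`
        have hyB : y ∉ B := fun h3 => hyZ (Subgroup.mem_inf.2 ⟨hy, h3⟩)
        have hy2 := h.h1.sq A hA y hy
        have hcardA : Nat.card A = 4 := by rw [h.h1.card A hA]; norm_num
        have hzA := (Subgroup.mem_inf.1 hz).1
        have hfour : ∀ w ∈ A, w = 1 ∨ w = z ∨ w = y ∨ w = y * z := by
          intro w hw
          by_contra hcon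
          push Not at hcon
          obtain ⟨c1, c2, c3, c4⟩ := hcon
          have e1 : (1 : G) ≠ z := Ne.symm hz1
          have e2 : (1 : G) ≠ y := by rintro rfl; exact hyZ (one_mem _)
          have e3 : z ≠ y := by rintro rfl; exact hyZ hz
          have e4 : (1 : G) ≠ y * z := by
            intro e
            apply e3
            have h6 : y⁻¹ = z := inv_eq_of_mul_eq_one_right e.symm
            rw [← h6]; exact inv_of_sq hy2
          have e5 : z ≠ y * z := by
            intro e
            have e' : y = 1 := by simpa using e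
            exact e2 e'.symm
          have e6 : y ≠ y * z := by
            intro e
            have e' : z = 1 := by simpa using e
            exact e1 e'.symm
          have h3 : ((({w, 1, z, y, y * z} : Finset G) : Finset G) : Set G) ⊆ (A : Set G) := by
            intro v hv
            simp only [Finset.coe_insert, Finset.coe_singleton, Set.mem_insert_iff, Set.mem_singleton_iff] at hv
            rcases hv with rfl | rfl | rfl | rfl | rfl
            · exact hw
            · exact one_mem _
            · exact hzA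
            · exact hy
            · exact A.mul_mem hy hzA
          have h4 := Set.ncard_le_ncard h3
          rw [Set.ncard_coe_finset] at h4
          have h5 : (A : Set G).ncard = 4 := by rw [← hcardA]; exact Nat.card_coe_set_eq _
          have h6 : ({w, 1, z, y, y * z} : Finset G).card = 5 := by
            rw [Finset.card_insert_of_notMem, Finset.card_insert_of_notMem, Finset.card_insert_of_notMem,
              Finset.card_insert_of_notMem, Finset.card_singleton]
            · simpa using e6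
            · simp only [Finset.mem_insert, Finset.mem_singleton, not_or]; exact ⟨e3, e5⟩
            · simp only [Finset.mem_insert, Finset.mem_singleton, not_or]; exact ⟨e1, e2, e4⟩
            · simp only [Finset.mem_insert, Finset.mem_singleton, not_or]; exact ⟨c1, c2, c3, c4⟩
          omega
        have hxy : x * y * x⁻¹ ∈ A := conj_mem_of_cj hxA hy
        have hcomm : y * z = z * y := h.comm hA hy hzA
        rcases hfour _ hxy with h3 | h3 | h3 | h3
        · exfalso; apply hyZ
          have : y = 1 := by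
            have h5 : y = x⁻¹ * (x * y * x⁻¹) * x := by group
            rw [h5, h3]; group
          rw [this]; exact one_mem _
        · exfalso; apply hyZ
          have : y = z := by
            have h5 : y = x⁻¹ * (x * y * x⁻¹) * x := by group
            rw [h5, h3]
            rw [mul_assoc, inv_mul_eq_iff_eq_mul]
            rw [mul_inv_eq_iff_eq_mul] at hzx
            exact hzx.symm
          rw [this]; exact hz
        · rwa [mul_inv_eq_iff_eq_mul] at h3
        · -- `x²` centralises `y`, odd order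
          exfalso
          have hz2 : z * z = 1 := h.h1.sq A hA z hzA
          have h4 : (x ^ 2) * y * (x ^ 2)⁻¹ = y := by
            have e : (x ^ 2) * y * (x ^ 2)⁻¹ = x * (x * y * x⁻¹) * x⁻¹ := by
              simp only [pow_two, _root_.mul_inv_rev, mul_assoc]
            rw [e, h3]
            have e' : x * (y * z) * x⁻¹ = (x * y * x⁻¹) * (x * z * x⁻¹) := by group
            rw [e', h3, hzx, mul_assoc, hz2, mul_one]
          have h5 : Commute (x ^ 2) y := by
            rw [mul_inv_eq_iff_eq_mul] at h4; exact h4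
          obtain ⟨m, hm⟩ := hx
          have h6 : x = (x ^ 2) ^ (m + 1) := by
            rw [← pow_mul]
            have : 2 * (m + 1) = orderOf x + 1 := by omega
            rw [this, pow_succ, pow_orderOf_eq_one, one_mul]
          have h7 : Commute x y := by rw [h6]; exact h5.pow_left _
          have h8 : x * y * x⁻¹ = y := by rw [h7.eq]; group
          rw [h8] at h3
          exact hz1 (by simpa using h3)
    obtain ⟨a', ha', c, hc, h3⟩ := h.K6 hA (F.Nz hxa) hcentA
    have hc1 : c = 1 := D.ct_bot F fx hc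
    rw [hc1, mul_one] at h3
    have h4 : x ^ 2 = 1 := by rw [h3, pow_two]; exact h.h1.sq A hA a' ha'
    have h5 : orderOf x ∣ 2 := orderOf_dvd_of_pow_eq_one h4
    rcases (Nat.dvd_prime Nat.prime_two).1 h5 with h6 | h6
    · exact orderOf_eq_one_iff.1 h6
    · rw [h6] at hx; exact absurd hx (by decide)
  -- every such element is a 2-element
  have h2el : ∀ x : G, x • a = a → x • b = b → cj x A = A → ∃ k : ℕ, x ^ 2 ^ k = 1 := by
    intro x hxa hxb hxA
    obtain ⟨k, m, hm, hkm⟩ := Nat.exists_eq_two_pow_mul_odd (orderOf_pos x).ne'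
    refine ⟨k, hodd _ ?_ ?_ (cj_pow_eq hxA _) ?_⟩
    · exact (stabilizer G a).pow_mem (show x ∈ stabilizer G a from hxa) _
    · exact (stabilizer G b).pow_mem (show x ∈ stabilizer G b from hxb) _
    · rw [orderOf_pow, hkm, Nat.gcd_eq_right (Dvd.intro _ rfl), Nat.mul_div_cancel_left _ (by positivity)]
      exact hm
  -- the third and fourth line
  have hgB := hgenB g hga hgb hgA
  have hdeg := h.h1.deg A hA
  obtain ⟨B₁, hB₁, hB₁A, hne1, -⟩ := h.symm.third hA B B
  obtain ⟨B₂, hB₂, hB₂A, hne2, hne12⟩ := h.symm.third hA B B₁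
  have i1 := inf_ne hB₁A
  have i2 := inf_ne hB₂A
  have hall : ∀ X ∈ L, A ⊓ X ≠ ⊥ → X = B ∨ X = B₁ ∨ X = B₂ := by
    intro X hX hAX
    have h3 : ({B, B₁, B₂} : Set (Subgroup G)) = {B | B ∈ L ∧ A ⊓ B ≠ ⊥} := by
      refine Set.eq_of_subset_of_ncard_le ?_ ?_ (Set.toFinite _)
      · rintro Y (rfl | rfl | rfl)
        · exact ⟨hB, hAB⟩
        · exact ⟨hB₁, i1⟩
        · exact ⟨hB₂, i2⟩
      · rw [hdeg, Set.ncard_eq_three.2 ⟨B, B₁, B₂, Ne.symm hne1, Ne.symm hne2, Ne.symm hne12, rfl⟩]
    have h4 : X ∈ ({B, B₁, B₂} : Set (Subgroup G)) := by rw [h3]; exact ⟨hX, hAX⟩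
    exact h4
  have hfin : ∀ x : G, x • a = a → x • b = b → cj x A = A → cj x B₁ = B₁ → x ∈ A := by
    intro x hxa hxb hxA hx1
    have hxB := hgenB x hxa hxb hxA
    obtain ⟨a', ha', c, hc, h3⟩ := h.K0 hA (F.Nz hxa) (h2el x hxa hxb hxA) hxA (by
      intro X hX hAX
      rcases hall X hX hAX with rfl | rfl | rfl
      · exact hxB
      · exact hx1
      · have h4 : cj x X ∈ L := (h.pres (F.Nz hxa) hA (by rw [hxA]; exact hA)).2 X hX
        have h5 : A ⊓ cj x X ≠ ⊥ := by
          have h6 : cj x A ⊓ cj x X ≠ ⊥ := by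
            rw [← cj_inf]; exact fun h7 => hAX (cj_eq_bot.1 h7)
          rwa [hxA] at h6
        rcases hall _ h4 h5 with h6 | h6 | h6
        · exact absurd (cj_inj (h6.trans hxB.symm)) hne2
        · exact absurd (cj_inj (h6.trans hx1.symm)) hne12
        · exact h6)
    rw [D.ct_bot F fx hc, mul_one] at h3
    rw [h3]; exact ha'
  have h4 : cj g B₁ ∈ L := (h.pres hNz hA (by rw [hgA]; exact hA)).2 B₁ hB₁
  have h5 : A ⊓ cj g B₁ ≠ ⊥ := by
    have h6 : cj g A ⊓ cj g B₁ ≠ ⊥ := by
      rw [← cj_inf]; exact fun h7 => i1 (cj_eq_bot.1 h7)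
    rwa [hgA] at h6
  rcases hall _ h4 h5 with h6 | h6 | h6
  · exact absurd (cj_inj (h6.trans hgB.symm)) hne1
  · exact mem_sup_left (hfin g hga hgb hgA h6)
  · obtain ⟨b', hb', h7⟩ := h.trans_lines hA hB hAB hB₁ i1 hne1 hB₂ i2 hne2
    have hb'a : b' • a = a := F.le a b' (h.h2.le B hB hb')
    have hb'b : b' • b = b := D.st a b hab (by rw [hU]; exact mem_sup_right hb')
    have hb'A : cj b' A = A := h.h2.norm B hB A hA (inf_ne hAB) b' hb'
    have h8 : b'⁻¹ * g ∈ A := by
      refine hfin _ ?_ ?_ ?_ ?_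
      · rw [mul_smul, hga, inv_smul_eq_iff, hb'a]
      · rw [mul_smul, hgb, inv_smul_eq_iff, hb'b]
      · rw [cj_mul, hgA, cj_inv_eq hb'A]
      · rw [cj_mul, h6, cj_inv_eq h7]
    have h9 : g = b' * (b'⁻¹ * g) := by group
    rw [h9]
    exact (A ⊔ B).mul_mem (mem_sup_right hb') (mem_sup_left h8)

theorem q_two_false (F : Fam G Ω 2 N) (D : BU N 2 U)
    (fx : ∀ a b c : Ω, a ≠ b → U a b ≤ stabilizer G c → c = a ∨ c = b) (hΩ : Nat.card Ω = 22) : False := by
  classical
  obtain ⟨a⟩ := F.ne
  obtain ⟨b, hba⟩ := F.exists_ne a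
  have hab := Ne.symm hba
  obtain ⟨P, L, h⟩ := F.ps a
  obtain ⟨A, hA, B, hB, hAB, hU⟩ := h.fl (D.fl a b hab)
  set S : Subgroup G := stabilizer G a ⊓ stabilizer G b with hS
  have hUS : A ⊔ B ≤ S := by
    rw [← hU]
    exact le_inf (fun x hx => F.le a x ((D.fl a b hab).le hx)) (D.st a b hab)
  have hcardU : Nat.card ↥(A ⊔ B) = 8 := by rw [h.card_U hA hB hAB]; norm_num
  have hK : ∀ g ∈ S, cj g A = A → g ∈ A ⊔ B := fun g hg hgA =>
    D.K_le F fx hab h hA hB hAB hU (Subgroup.mem_inf.1 hg).1 (Subgroup.mem_inf.1 hg).2 hgA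
  have hsw : ∀ g ∈ S, g ∉ A ⊔ B → cj g A = B ∧ cj g B = A := by
    intro g hg hgn
    have hgU : cj g (A ⊔ B) = A ⊔ B := by
      rw [← hU, D.conj F hab, (Subgroup.mem_inf.1 hg).1, (Subgroup.mem_inf.1 hg).2]
    have e1 : cj g A = B := by
      have h1 : cj g A ≤ A ⊔ B := by rw [← hgU]; exact cj_mono le_sup_left
      rcases h.char_U hA hB hAB (by rw [card_cj, h.h1.card A hA]) (sq_cj (h.h1.sq A hA) g) h1 with h2 | h2
      · exact absurd (hK g hg h2) hgn
      · exact h2
    have e2 : cj g B = A := by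
      have h1 : cj g B ≤ A ⊔ B := by rw [← hgU]; exact cj_mono le_sup_right
      rcases h.char_U hA hB hAB (by rw [card_cj, h.h2.card B hB]) (sq_cj (h.h2.sq B hB) g) h1 with h2 | h2
      · exact h2
      · exact absurd (cj_inj (e1.trans h2.symm)) (fun e => h.disj hA (e ▸ hB))
    exact ⟨e1, e2⟩
  -- index at most two
  have hcardS : Nat.card S = 8 ∨ Nat.card S = 16 := by
    by_cases hex : ∃ g ∈ S, g ∉ A ⊔ B
    · right
      obtain ⟨g, hg, hgn⟩ := hex
      obtain ⟨e1, e2⟩ := hsw g hg hgn
      have hidx : ((A ⊔ B).subgroupOf S).index = 2 := by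
        rw [Subgroup.index_eq_two_iff]
        refine ⟨⟨g, hg⟩, ?_⟩
        rintro ⟨x, hx⟩
        by_cases hxn : x ∈ A ⊔ B
        · right
          refine ⟨hxn, fun h1 => ?_⟩
          have h1' : x * g ∈ A ⊔ B := h1
          exact hgn ((Subgroup.mul_mem_cancel_left _ hxn).1 h1')
        · left
          obtain ⟨e3, e4⟩ := hsw x hx hxn
          refine ⟨?_, hxn⟩
          show x * g ∈ A ⊔ B
          exact hK _ (S.mul_mem hx hg) (by rw [cj_mul, e1, e4])
      have h1 := Subgroup.card_mul_index ((A ⊔ B).subgroupOf S)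
      rw [hidx, Nat.card_congr (Subgroup.subgroupOfEquivOfLe hUS).toEquiv, hcardU] at h1
      omega
    · left
      push Not at hex
      rw [← hcardU]
      congr 2
      · exact congrArg (fun K : Subgroup G => (K : Set G)) (le_antisymm hex hUS) |> fun e => by
          rw [le_antisymm hex hUS]
  -- orders
  have o1 := orb_card (stabilizer G a) b
  have o2 := orb_card (⊤ : Subgroup G) a
  have hset1 : {y : Ω | ∃ g ∈ stabilizer G a, g • b = y} = ({a}ᶜ : Set Ω) := by
    ext y
    constructor
    · rintro ⟨g, hg, rfl⟩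
      intro e
      apply hba
      have e' : g • b = a := e
      exact smul_left_cancel g (e'.trans (show g • a = a from hg).symm)
    · intro hy
      obtain ⟨g, hga, hgb⟩ := F.tt a b a y hab (fun e => hy e.symm)
      exact ⟨g, hga, hgb⟩
  have hset2 : {y : Ω | ∃ g ∈ (⊤ : Subgroup G), g • a = y} = Set.univ := by
    ext y
    simp only [Set.mem_setOf_eq, Set.mem_univ, iff_true]
    by_cases hy : y = a
    · exact ⟨1, mem_top _, by rw [one_smul, hy]⟩
    · obtain ⟨g, hga, -⟩ := F.tt a b y a hab hy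
      exact ⟨g, mem_top _, hga⟩
  have h3 := Set.ncard_add_ncard_compl ({a} : Set Ω)
  rw [Set.ncard_singleton, hΩ] at h3
  have h4 : ({a}ᶜ : Set Ω).ncard = 21 := by omega
  rw [hset1, h4] at o1
  rw [hset2, Set.ncard_univ, hΩ, top_inf_eq, Subgroup.card_top] at o2
  have hG : Nat.card G = 3696 ∨ Nat.card G = 7392 := by
    rw [← o2, ← o1]
    rcases hcardS with h5 | h5
    · left; rw [h5]
    · right; rw [h5]
  haveI : Fintype Ω := Fintype.ofFinite Ω
  haveI : FaithfulSMul G Ω := ⟨fun {g g'} hgg => by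
    have : g'⁻¹ * g = 1 := F.faith _ fun x => by
      rw [mul_smul, hgg x, inv_smul_smul]
    exact (inv_mul_eq_one.1 this).symm⟩
  have hmt : MulAction.IsMultiplyPretransitive G Ω 2 := by
    rw [MulAction.is_two_pretransitive_iff]
    intro x y z w hxy hzw
    exact F.tt x y z w hxy hzw
  exact H10.No22.no22 hmt (by rw [← Nat.card_eq_fintype_card, hΩ]) hG

end BTF

theorem bt_false {G Ω : Type*} [Group G] [Finite G] [Finite Ω] [MulAction G Ω] {q : ℕ} {N : Ω → Subgroup G}
    (F : Fam G Ω q N) (hBT : ∀ a b : Ω, a ≠ b → BT N q a b)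
    (hk : ∀ a b : Ω, a ≠ b → (ln N q a b).ncard = 2 ∨ (ln N q a b).ncard = q) : False := by
  haveI := F.ne
  obtain ⟨U, D⟩ := exists_BU hBT
  have R := F.gp_BT hBT
  obtain ⟨a⟩ := F.ne
  obtain ⟨b, hba⟩ := F.exists_ne a
  have hab := Ne.symm hba
  obtain ⟨P, L, h⟩ := F.ps a
  obtain ⟨n, hn, hq⟩ := h.pow
  by_cases hk2 : (ln N q a b).ncard = 2
  · have fx : ∀ a b c : Ω, a ≠ b → U a b ≤ stabilizer G c → c = a ∨ c = b := by
      intro x y c hxy hc
      have h1 : (ln N q x y).ncard = 2 := by rw [R.ln_card F hxy hab, hk2]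
      have h2 : ({x, y} : Set Ω) = ln N q x y := by
        refine Set.eq_of_subset_of_ncard_le ?_ ?_ (Set.toFinite _)
        · rintro e (rfl | rfl)
          · exact ln_left F _ _
          · exact ln_right _ _
        · rw [h1, Set.ncard_pair hxy]
      have h3 : c ∈ ln N q x y := (R.mem_ln hxy (D.fl x y hxy) (D.st x y hxy)).2 hc
      rw [← h2] at h3
      exact h3
    by_cases hn1 : n = 1
    · rw [hn1, pow_one] at hq
      subst hq
      have h1 := omega_card F hBT hab
      rw [hk2] at h1
      exact q_two_false F D fx (by rw [h1]; norm_num)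
    · refine k_two_false F D fx ?_
      rw [hq]
      calc 4 = 2 ^ 2 := by norm_num
        _ ≤ 2 ^ n := Nat.pow_le_pow_right (by norm_num) (by omega)
  · have h1 := (hk a b hab).resolve_left hk2
    refine big_k_false F hBT hab h1 ?_
    have := h.two_le
    rw [h1] at hk2
    omega

end Cfsg.Agent.H55
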