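import Cfsg.Agent.P3.Pl1

/-!
# Borel type: counting, and the case of lines with two points
-/

set_option autoImplicit false
set_option linter.all false

namespace Cfsg.Agent.H55.BTF

open Subgroup MulAction Cfsg.Agent.P3

section one
variable {G : Type*} [Group G] [Finite G] {N : Subgroup G} {q : ℕ} {P L : Set (Subgroup G)}

theorem fl_ncard (h : PS N q P L) : {U | IsFl N q U}.ncard = (q ^ 2 + q + 1) * (q + 1) := by
  have h1 : {U | IsFl N q U} = ⋃ A ∈ P, (fun B => A ⊔ B) '' {B | B ∈ L ∧ A ⊓ B ≠ ⊥} := by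
    ext U
    simp only [Set.mem_iUnion, Set.mem_image, Set.mem_setOf_eq, exists_prop]
    constructor
    · intro hU
      obtain ⟨A, hA, B, hB, hAB, rfl⟩ := h.fl hU
      exact ⟨A, hA, B, ⟨hB, hAB⟩, rfl⟩
    · rintro ⟨A, hA, B, ⟨hB, hAB⟩, rfl⟩
      exact h.isFl hA hB hAB
  rw [h1, ncard_biUnion_const P (fun A => (fun B => A ⊔ B) '' {B | B ∈ L ∧ A ⊓ B ≠ ⊥}) (q + 1), h.h1.ncard]
  · intro A hA
    rw [Set.ncard_image_of_injOn, h.h1.deg A hA]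
    rintro B ⟨hB, hAB⟩ B' ⟨hB', hAB'⟩ he
    have he' : A ⊔ B = A ⊔ B' := he
    have h2 : B' ≤ A ⊔ B := by rw [he']; exact le_sup_right
    rcases h.char_U hA hB hAB (h.h2.card B' hB') (h.h2.sq B' hB') h2 with h3 | h3
    · exact absurd (h3 ▸ hB') (h.disj hA)
    · exact h3.symm
  · intro A hA A' hA' hne
    rw [Set.disjoint_left]
    rintro U ⟨B, ⟨hB, hAB⟩, rfl⟩ ⟨B', ⟨hB', hAB'⟩, he⟩
    have he' : A' ⊔ B' = A ⊔ B := he
    have h2 : A' ≤ A ⊔ B := by rw [← he']; exact le_sup_left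
    rcases h.char_U hA hB hAB (h.h1.card A' hA') (h.h1.sq A' hA') h2 with h3 | h3
    · exact hne h3.symm
    · exact h.disj hA' (h3 ▸ hB)

theorem isE_ncard (h : PS N q P L) : {E | IsE N q E}.ncard = 2 * (q ^ 2 + q + 1) := by
  have h1 : {E | IsE N q E} = P ∪ L := by
    ext E
    constructor
    · intro hE; exact h.char hE.le hE.card hE.sq
    · rintro (hE | hE)
      · exact h.isE hE
      · exact h.symm.isE hE
  rw [h1, Set.ncard_union_eq, h.h1.ncard, h.h2.ncard]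
  · ring
  · rw [Set.disjoint_left]
    intro E hE hE'
    exact h.disj hE hE'

theorem mem_flag_iff (h : PS N q P L) {A₁ B₁ A B : Subgroup G} (hA₁ : A₁ ∈ P) (hB₁ : B₁ ∈ L) (h1 : A₁ ⊓ B₁ ≠ ⊥)
    (hA : A ∈ P) (hB : B ∈ L) {z : G} (hzA : z ∈ A) (hzB : z ∈ B) (hz1 : z ≠ 1) :
    z ∈ A₁ ⊔ B₁ ↔ A ⊓ B₁ ≠ ⊥ ∧ B ⊓ A₁ ≠ ⊥ := by
  constructor
  · intro hz
    obtain ⟨e1, e2⟩ := h.U_norm hA₁ hB₁ h1 hz
    exact ⟨(h.fix_iff hA hB₁ hzA hz1).1 e2, (h.symm.fix_iff hB hA₁ hzB hz1).1 e1⟩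
  · rintro ⟨h2, h3⟩
    refine h.syl A₁ hA₁ B₁ hB₁ h1 z (h.h1.le A hA hzA) ⟨1, ?_⟩ ((h.symm.fix_iff hB hA₁ hzB hz1).2 h3)
      ((h.fix_iff hA hB₁ hzA hz1).2 h2)
    have := h.h1.sq A hA z hzA
    simpa [pow_two] using this

omit [Finite G] in
theorem Zc_cj (g : G) (U : Subgroup G) : cj g (Zc U) = Zc (cj g U) := by
  ext x
  rw [mem_cj, mem_Zc, mem_Zc, mem_cj]
  constructor
  · rintro ⟨h1, h2⟩
    refine ⟨h1, fun u hu => ?_⟩
    rw [mem_cj] at hu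
    have h3 := h2 _ hu
    have h4 : g * (g⁻¹ * x * g * (g⁻¹ * u * g)) * g⁻¹ = g * (g⁻¹ * u * g * (g⁻¹ * x * g)) * g⁻¹ := by rw [h3]
    simpa [mul_assoc] using h4
  · rintro ⟨h1, h2⟩
    refine ⟨h1, fun u hu => ?_⟩
    have h3 := h2 _ (cj_mem (g := g) hu)
    have h4 : g⁻¹ * (x * (g * u * g⁻¹)) * g = g⁻¹ * (g * u * g⁻¹ * x) * g := by rw [h3]
    simpa [mul_assoc] using h4

end one

variable {G Ω : Type*} [Group G] [Finite G] [Finite Ω] [MulAction G Ω] {q : ℕ} {N : Ω → Subgroup G}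

/-- the flag groups `U a b` -/
structure BU (N : Ω → Subgroup G) (q : ℕ) (U : Ω → Ω → Subgroup G) : Prop where
  fl : ∀ a b, a ≠ b → IsFl (N a) q (U a b)
  st : ∀ a b, a ≠ b → U a b ≤ stabilizer G b
  mx : ∀ a b, a ≠ b → ∀ T, T ≤ N a → T ≤ stabilizer G b → IsPGroup 2 T → T ≤ U a b

omit [Finite G] [Finite Ω] in
theorem exists_BU [Nonempty Ω] (hBT : ∀ a b : Ω, a ≠ b → BT N q a b) : ∃ U, BU N q U := by
  choose! U hU1 hU2 hU3 using hBT
  exact ⟨U, hU1, hU2, hU3⟩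

variable {U : Ω → Ω → Subgroup G}

theorem BU.eq (D : BU N q U) {a b : Ω} (hab : a ≠ b) {V : Subgroup G} (hV : IsFl (N a) q V)
    (hVb : V ≤ stabilizer G b) : V = U a b :=
  Subgroup.eq_of_le_of_card_ge (D.mx a b hab V hV.le hVb hV.pg) (by rw [hV.card, (D.fl a b hab).card])

theorem BU.symm (D : BU N q U) (F : Fam G Ω q N) {a b : Ω} (hab : a ≠ b) : U b a = U a b :=
  (D.eq (Ne.symm hab) (F.star_fl (D.fl a b hab) (D.st a b hab))
    (fun x hx => F.le a x ((D.fl a b hab).le hx))).symm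

theorem BU.conj (D : BU N q U) (F : Fam G Ω q N) {a b : Ω} (hab : a ≠ b) (g : G) :
    cj g (U a b) = U (g • a) (g • b) :=
  D.eq (Fam.smul_ne hab) (by rw [← F.conj]; exact (D.fl a b hab).cj g) (cj_le_stab (D.st a b hab))

theorem BU.mem_iff (D : BU N q U) {a e : Ω} (hae : a ≠ e) {z : G} (hz : z ∈ N a) (hz2 : z * z = 1) :
    z • e = e ↔ z ∈ U a e := by
  constructor
  · intro h
    exact D.mx a e hae (zpowers z) (by rwa [Subgroup.zpowers_le]) (by rwa [Subgroup.zpowers_le])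
      (isPGroup_zpowers_sq hz2) (mem_zpowers z)
  · intro h
    exact D.st a e hae h

/-- counting the points -/
theorem omega_card (F : Fam G Ω q N) (hBT : ∀ a b : Ω, a ≠ b → BT N q a b) {a₀ b₀ : Ω} (h0 : a₀ ≠ b₀) :
    Nat.card Ω = 1 + (q ^ 2 + q + 1) * (q + 1) * ((ln N q a₀ b₀).ncard - 1) := by
  have R := F.gp_BT hBT
  obtain ⟨P, L, h⟩ := F.ps a₀
  have h1 : ({a₀}ᶜ : Set Ω) = ⋃ V ∈ {V | IsFl (N a₀) q V}, (pln V : Set Ω) \ {a₀} := by
    ext c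
    simp only [Set.mem_iUnion, Set.mem_compl_iff, Set.mem_diff, Set.mem_singleton_iff, Set.mem_setOf_eq, exists_prop]
    constructor
    · intro hc
      obtain ⟨V, hV, hVc, -⟩ := hBT a₀ c (Ne.symm hc)
      exact ⟨V, hV, hVc, hc⟩
    · rintro ⟨V, hV, hVc, hc⟩
      exact hc
  have h2 := ncard_biUnion_const {V | IsFl (N a₀) q V} (fun V => (pln V : Set Ω) \ {a₀})
    ((ln N q a₀ b₀).ncard - 1) (by
      intro V hV
      obtain ⟨b, hba, hVb⟩ := F.flag_fix hV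
      have h3 : (pln V : Set Ω) = ln N q a₀ b := by
        ext c; rw [R.mem_ln (Ne.symm hba) hV hVb]; rfl
      rw [h3, Set.ncard_diff_singleton_of_mem (ln_left F a₀ b), R.ln_card F (Ne.symm hba) h0]) (by
      intro V hV V' hV' hne
      rw [Set.disjoint_left]
      rintro c ⟨hc, hca⟩ ⟨hc', _⟩
      exact hne ((hBT a₀ c (Ne.symm hca)).eq hV hc hV' hc'))
  rw [← h1, fl_ncard h] at h2
  have h3 := Set.ncard_add_ncard_compl ({a₀} : Set Ω)
  rw [Set.ncard_singleton, h2] at h3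
  omega

/-- double counting (point, plane) flags -/
theorem pair_card (F : Fam G Ω q N) (hBT : ∀ a b : Ω, a ≠ b → BT N q a b) {a₀ b₀ : Ω} (h0 : a₀ ≠ b₀) :
    ∃ m : ℕ, m * (1 + (q + 1) * ((ln N q a₀ b₀).ncard - 1)) = Nat.card Ω * (2 * (q ^ 2 + q + 1)) := by
  have R := F.gp_BT hBT
  set T : Set (Ω × Subgroup G) := {p | IsE (N p.1) q p.2} with hT
  have e1 : T = ⋃ c ∈ (Set.univ : Set Ω), (fun E => (c, E)) '' {E | IsE (N c) q E} := by
    ext ⟨c, E⟩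
    simp only [hT, Set.mem_iUnion, Set.mem_image, Set.mem_setOf_eq, Set.mem_univ, exists_prop, true_and]
    constructor
    · intro h; exact ⟨c, E, h, rfl⟩
    · rintro ⟨c', E', h, he⟩
      cases he
      exact h
  have c1 := ncard_biUnion_const (Set.univ : Set Ω) (fun c => (fun E => (c, E)) '' {E | IsE (N c) q E})
    (2 * (q ^ 2 + q + 1)) (by
      intro c _
      obtain ⟨P, L, h⟩ := F.ps c
      rw [Set.ncard_image_of_injective _ (fun x y hxy => (Prod.mk.inj hxy).2), isE_ncard h]) (by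
      intro c _ c' _ hne
      rw [Set.disjoint_left]
      rintro p ⟨E, _, rfl⟩ ⟨E', _, he⟩
      exact hne (Prod.mk.inj he).1.symm)
  rw [← e1, Set.ncard_univ] at c1
  have e2 : T = ⋃ E ∈ {E | ∃ a : Ω, IsE (N a) q E}, (fun c => (c, E)) '' (pln E : Set Ω) := by
    ext ⟨c, E⟩
    simp only [hT, Set.mem_iUnion, Set.mem_image, Set.mem_setOf_eq, exists_prop]
    constructor
    · intro h
      exact ⟨E, ⟨c, h⟩, c, fun x hx => F.le c x (h.le hx), rfl⟩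
    · rintro ⟨E', ⟨a, hE'⟩, c', hc', he⟩
      cases he
      exact F.star_E hE' hc'
  have c2 := ncard_biUnion_const {E | ∃ a : Ω, IsE (N a) q E} (fun E => (fun c => (c, E)) '' (pln E : Set Ω))
    (1 + (q + 1) * ((ln N q a₀ b₀).ncard - 1)) (by
      rintro E ⟨a, hE⟩
      rw [Set.ncard_image_of_injective _ (fun x y hxy => (Prod.mk.inj hxy).1)]
      exact R.pln_card F h0 hE) (by
      intro E _ E' _ hne
      rw [Set.disjoint_left]
      rintro p ⟨c, _, rfl⟩ ⟨c', _, he⟩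
      exact hne (Prod.mk.inj he).2.symm)
  rw [← e2] at c2
  exact ⟨_, c2.symm.trans c1⟩

theorem big_k_false (F : Fam G Ω q N) (hBT : ∀ a b : Ω, a ≠ b → BT N q a b) {a₀ b₀ : Ω} (h0 : a₀ ≠ b₀)
    (hk : (ln N q a₀ b₀).ncard = q) (hq : 3 ≤ q) : False := by
  have h1 := omega_card F hBT h0
  obtain ⟨m, h2⟩ := pair_card F hBT h0
  rw [hk] at h1 h2
  rw [h1] at h2
  obtain ⟨p, rfl⟩ : ∃ p, q = p + 1 := ⟨q - 1, by omega⟩
  rw [Nat.add_sub_cancel] at h2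
  have h3 : ((m * (1 + (p + 1 + 1) * p) : ℕ) : ℤ) = ((1 + ((p + 1) ^ 2 + (p + 1) + 1) * (p + 1 + 1) * p) * (2 * ((p + 1) ^ 2 + (p + 1) + 1)) : ℕ) := by
    exact_mod_cast h2
  push_cast at h3
  set Q : ℤ := (p : ℤ) + 1 with hQ
  have hp : (p : ℤ) = Q - 1 := by rw [hQ]; ring
  rw [hp] at h3
  have hQ0 : Q ≠ 0 := by rw [hQ]; positivity
  have h4 : Q * (Q * m) = Q * (2 * (Q ^ 2 + Q + 1) * (Q ^ 3 + Q ^ 2 - 1)) := by
    linear_combination h3
  have h5 := mul_left_cancel₀ hQ0 h4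
  have h6 : Q ∣ 2 := by
    refine ⟨(2 * Q ^ 4 + 4 * Q ^ 3 + 4 * Q ^ 2 - 2) - m, ?_⟩
    linear_combination h5
  have h7 := Int.le_of_dvd (by norm_num) h6
  omega

end Cfsg.Agent.H55.BTF
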