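import Cfsg.Agent.H55.BTF1

/-!
# Borel type, lines with two points, `q ≥ 4`
-/

set_option autoImplicit false
set_option linter.all false

namespace Cfsg.Agent.H55.BTF

open Subgroup MulAction Cfsg.Agent.P3

variable {G Ω : Type*} [Group G] [Finite G] [Finite Ω] [MulAction G Ω] {q : ℕ} {N : Ω → Subgroup G}
  {U : Ω → Ω → Subgroup G}

/-- the structure of `U a c` when `B ≤ stab c` -/
theorem BU.plane (D : BU N q U) {a c : Ω} (hac : a ≠ c) {P L : Set (Subgroup G)} (h : PS (N a) q P L)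
    {B : Subgroup G} (hB : B ∈ L) (hBc : B ≤ stabilizer G c) : ∃ A ∈ P, A ⊓ B ≠ ⊥ ∧ U a c = A ⊔ B := by
  have h1 : B ≤ U a c := D.mx a c hac B (h.h2.le B hB) hBc (h.symm.isPGroup hB)
  exact h.fl_mem hB (D.fl a c hac) h1

theorem isE_mem {K : Subgroup G} {P₀ L₀ : Set (Subgroup G)} (h₀ : PS K q P₀ L₀) {B : Subgroup G} (hB : IsE K q B) :
    ∃ P L, PS K q P L ∧ B ∈ L := by
  obtain ⟨P, L, h, h1⟩ := h₀.of_isE hB
  exact ⟨L, P, h.symm, h1⟩

/-- (I) -/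
theorem BU.fix_indep (D : BU N q U) (F : Fam G Ω q N) {a c : Ω} (hac : a ≠ c) {z z' : G}
    (hz : z ∈ Zc (U a c)) (hz1 : z ≠ 1) (hz' : z' ∈ Zc (U a c)) (hz1' : z' ≠ 1) (e : Ω) :
    z • e = e ↔ z' • e = e := by
  obtain ⟨P, L, h⟩ := F.ps a
  obtain ⟨A, hA, B, hB, hAB, hU⟩ := h.fl (D.fl a c hac)
  rw [hU, h.zc hA hB hAB, Subgroup.mem_inf] at hz hz'
  have hzN := h.h1.le A hA hz.1
  have hzN' := h.h1.le A hA hz'.1
  by_cases hae : a = e
  · subst hae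
    exact ⟨fun _ => F.le a z' hzN', fun _ => F.le a z hzN⟩
  rw [D.mem_iff hae hzN (h.h1.sq A hA z hz.1), D.mem_iff hae hzN' (h.h1.sq A hA z' hz'.1)]
  obtain ⟨A₁, hA₁, B₁, hB₁, h1, hU₁⟩ := h.fl (D.fl a e hae)
  rw [hU₁, mem_flag_iff h hA₁ hB₁ h1 hA hB hz.1 hz.2 hz1, mem_flag_iff h hA₁ hB₁ h1 hA hB hz'.1 hz'.2 hz1']

/-- (II') -/
theorem BU.same (D : BU N q U) (F : Fam G Ω q N) {c : Ω} {P L : Set (Subgroup G)} (h : PS (N c) q P L)
    {B : Subgroup G} (hB : B ∈ L) {z z' : G} (hz : z ∈ B) (hz1 : z ≠ 1) (hz' : z' ∈ B) (hz1' : z' ≠ 1)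
    (hfix : ∀ e : Ω, z • e = e ↔ z' • e = e) {A : Subgroup G} (hA : A ∈ P) (hzA : z ∈ A) : z' ∈ A := by
  obtain ⟨A', hA', hzA'⟩ := h.symm.cover hB hz' hz1'
  by_cases hne : A = A'
  · rw [hne]; exact hzA'
  exfalso
  have i1 : A ⊓ B ≠ ⊥ := inf_ne_of_mem hzA hz hz1
  have i2 : A' ⊓ B ≠ ⊥ := inf_ne_of_mem hzA' hz' hz1'
  obtain ⟨B₂, hB₂, i3, hne2, -⟩ := h.symm.third hA B B
  have i4 := inf_ne i3
  obtain ⟨e, hec, hst⟩ := F.flag_fix (h.isFl hA hB₂ i4)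
  have hce := Ne.symm hec
  have hV := D.eq hce (h.isFl hA hB₂ i4) hst
  have h1 : z • e = e := hst (mem_sup_left hzA)
  have h2 := (hfix e).1 h1
  rw [D.mem_iff hce (h.h2.le B hB hz') (h.h2.sq B hB z' hz'), ← hV] at h2
  have h3 := (h.U_norm hA hB₂ i4 h2).2
  have i5 := (h.fix_iff hA' hB₂ hzA' hz1').1 h3
  exact hne2 (h.join_eq hA hA' hne hB hB₂ i1 i2 i4 i5).symm

/-- (II) -/
theorem BU.trans (D : BU N q U) (F : Fam G Ω q N) {a c c' : Ω} (hac : a ≠ c) {B : Subgroup G}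
    (hB : IsE (N a) q B) (hBc : B ≤ stabilizer G c) (hBc' : B ≤ stabilizer G c') :
    ∃ d, d ≠ c' ∧ B ≤ stabilizer G d ∧ Zc (U c' d) = Zc (U a c) := by
  obtain ⟨P₀, L₀, h₀⟩ := F.ps a
  obtain ⟨P, L, h, hBL⟩ := isE_mem h₀ hB
  obtain ⟨A, hA, hAB, hU⟩ := D.plane hac h hBL hBc
  have hX : Zc (U a c) = A ⊓ B := by rw [hU, h.zc hA hBL hAB]
  obtain ⟨P₁, L₁, h₁⟩ := F.ps c'
  obtain ⟨P', L', h', hBL'⟩ := isE_mem h₁ (F.star_E hB hBc')
  obtain ⟨z, hz, hz1⟩ := exists_mem_of_ne_bot hAB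
  obtain ⟨hzA, hzB⟩ := Subgroup.mem_inf.1 hz
  obtain ⟨A', hA', hzA'⟩ := h'.symm.cover hBL' hzB hz1
  have i1 : A' ⊓ B ≠ ⊥ := inf_ne_of_mem hzA' hzB hz1
  obtain ⟨d, hdc, hst⟩ := F.flag_fix (h'.isFl hA' hBL' i1)
  have hV := D.eq (Ne.symm hdc) (h'.isFl hA' hBL' i1) hst
  refine ⟨d, hdc, le_sup_right.trans hst, ?_⟩
  rw [← hV, h'.zc hA' hBL' i1, hX]
  symm
  apply Subgroup.eq_of_le_of_card_ge
  · intro y hy
    by_cases hy1 : y = 1
    · rw [hy1]; exact one_mem _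
    refine Subgroup.mem_inf.2 ⟨?_, (Subgroup.mem_inf.1 hy).2⟩
    exact D.same F h' hBL' hzB hz1 (Subgroup.mem_inf.1 hy).2 hy1
      (D.fix_indep F hac (hX ▸ hz) hz1 (hX ▸ hy) hy1) hA' hzA'
  · rw [h'.h1.inc A' hA' B hBL' i1, h.h1.inc A hA B hBL hAB]

/-- (IV) -/
theorem BU.part (D : BU N q U) (F : Fam G Ω q N)
    (fx : ∀ a b c : Ω, a ≠ b → U a b ≤ stabilizer G c → c = a ∨ c = b) {e d d' : Ω} (h1 : e ≠ d) (h2 : e ≠ d')
    {B : Subgroup G} (hB : IsE (N e) q B) (hBd : B ≤ stabilizer G d) (hBd' : B ≤ stabilizer G d')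
    (hX : Zc (U e d) = Zc (U e d')) : d = d' := by
  obtain ⟨P₀, L₀, h₀⟩ := F.ps e
  obtain ⟨P, L, h, hBL⟩ := isE_mem h₀ hB
  obtain ⟨A, hA, hAB, hU⟩ := D.plane h1 h hBL hBd
  obtain ⟨A', hA', hAB', hU'⟩ := D.plane h2 h hBL hBd'
  rw [hU, hU', h.zc hA hBL hAB, h.zc hA' hBL hAB'] at hX
  obtain ⟨z, hz, hz1⟩ := exists_mem_of_ne_bot hAB
  have hz' := hz
  rw [hX] at hz'
  have hAA : A = A' := h.ti' hA hA' (Subgroup.mem_inf.1 hz).1 (Subgroup.mem_inf.1 hz').1 hz1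
  have h3 : U e d ≤ stabilizer G d' := by
    rw [hU, hAA, ← hU']; exact D.st e d' h2
  rcases fx e d d' h1 h3 with h4 | h4
  · exact absurd h4.symm h2
  · exact h4.symm

theorem BU.cj_fix (D : BU N q U) (F : Fam G Ω q N)
    (fx : ∀ a b c : Ω, a ≠ b → U a b ≤ stabilizer G c → c = a ∨ c = b) {a c : Ω} (hac : a ≠ c) {t : G}
    (hta : t • a = a) (htU : cj t (U a c) = U a c) : t • c = c := by
  have h1 := D.conj F hac t
  rw [htU, hta] at h1
  have hne : a ≠ t • c := by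
    intro e
    apply hac
    exact smul_left_cancel t (hta.trans e)
  have h2 : U a c ≤ stabilizer G (t • c) := by rw [h1]; exact D.st a _ hne
  rcases fx a c _ hac h2 with h3 | h3
  · exact absurd h3.symm hne
  · exact h3

theorem k_two_false (F : Fam G Ω q N) (D : BU N q U)
    (fx : ∀ a b c : Ω, a ≠ b → U a b ≤ stabilizer G c → c = a ∨ c = b) (hq : 4 ≤ q) : False := by
  obtain ⟨a⟩ := F.ne
  obtain ⟨P, L, h⟩ := F.ps a
  obtain ⟨B, hB⟩ : L.Nonempty := by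
    rw [Set.nonempty_iff_ne_empty]; intro h1
    have := h.h2.ncard
    rw [h1, Set.ncard_empty] at this
    omega
  obtain ⟨A, hA, hAB, -, -⟩ := h.third hB ⊥ ⊥
  obtain ⟨A', hA', hAB', hne, -⟩ := h.third hB A A
  obtain ⟨t, htY, hto, htA, htA', htB, hfree, -⟩ := h.h1.torus B hB A hA A' hA' (Ne.symm hne) hAB hAB'
  have htN := h.YY_le_N htY
  have hta : t • a = a := F.le a t htN
  have hBE : IsE (N a) q B := h.symm.isE hB
  obtain ⟨c, hca, hst⟩ := F.flag_fix (h.isFl hA hB hAB)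
  obtain ⟨c', hca', hst'⟩ := F.flag_fix (h.isFl hA' hB hAB')
  have hac := Ne.symm hca
  have hac' := Ne.symm hca'
  have hU := D.eq hac (h.isFl hA hB hAB) hst
  have hU' := D.eq hac' (h.isFl hA' hB hAB') hst'
  have hBc : B ≤ stabilizer G c := le_sup_right.trans hst
  have hBc' : B ≤ stabilizer G c' := le_sup_right.trans hst'
  have key : ∀ X ∈ P, ∀ Y ∈ P, X ⊓ B ≠ ⊥ → Y ≤ X ⊔ B → Y = X := by
    intro X hX Y hY hXB hle
    rcases h.char_U hX hB hXB (h.h1.card Y hY) (h.h1.sq Y hY) hle with h3 | h3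
    · exact h3
    · exact absurd (h3 ▸ hB) (h.disj hY)
  have hcc : c ≠ c' := by
    intro e
    rw [← e, ← hU] at hU'
    exact hne (key A hA A' hA' hAB (by rw [← hU']; exact le_sup_left))
  have htU : cj t (U a c) = U a c := by rw [← hU, cj_sup, htA, htB]
  have htU' : cj t (U a c') = U a c' := by rw [← hU', cj_sup, htA', htB]
  have htc := D.cj_fix F fx hac hta htU
  have htc' := D.cj_fix F fx hac' hta htU'
  obtain ⟨d, hdc', hBd, hX⟩ := D.trans F hac hBE hBc hBc'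
  have hBE' : IsE (N c') q B := F.star_E hBE hBc'
  have htd : t • d = d := by
    symm
    refine D.part F fx (Ne.symm hdc') (e := c') (d := d) (d' := t • d) ?_ hBE' hBd ?_ ?_
    · intro e
      apply hdc'
      exact (smul_left_cancel t (htc'.trans e)).symm
    · have := cj_le_stab (g := t) hBd
      rwa [htB] at this
    · have h1 := D.conj F (Ne.symm hdc') t
      rw [htc'] at h1
      rw [← h1, ← Zc_cj, hX, Zc_cj, htU]
  have ht1 : t ^ 1 ≠ 1 := by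
    intro e
    rw [pow_one] at e
    rw [e, orderOf_one] at hto
    omega
  -- `d = a` or `d = c`
  have hd : d = a ∨ d = c := by
    by_cases hda : d = a
    · exact Or.inl hda
    right
    have had := Ne.symm hda
    obtain ⟨X, hX1, hXB, hUd⟩ := D.plane had h hB hBd
    have h1 : cj t (U a d) = U a d := by
      have := D.conj F had t
      rwa [hta, htd] at this
    have h2 : cj t X = X := by
      apply key X hX1 _ (h.h1.conj t htN X hX1) hXB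
      rw [← hUd, ← h1]
      exact cj_mono (by rw [hUd]; exact le_sup_left)
    rcases hfree X hX1 hXB 1 ht1 (by rw [pow_one]; exact h2) with h3 | h3
    · rcases fx a c d hac (by rw [← hU, ← h3, ← hUd]; exact D.st a d had) with h4 | h4
      · exact absurd h4 hda
      · exact h4
    · rcases fx a c' d hac' (by rw [← hU', ← h3, ← hUd]; exact D.st a d had) with h4 | h4
      · exact absurd h4 hda
      · exact absurd h4 hdc'
  rcases hd with rfl | rfl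
  · rw [D.symm F hac'] at hX
    exact hcc (D.part F fx hac' hac hBE hBc' hBc hX).symm
  · rw [D.symm F hcc, ← D.symm F hac] at hX
    have := D.part F fx hcc (Ne.symm hac) (F.star_E hBE hBc) hBc' (fun x hx => F.le a x (hBE.le hx)) hX
    exact hca' this

end Cfsg.Agent.H55.BTF
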