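import Mathlib
import Cfsg.Agent.H14.D8Cent
import Cfsg.Agent.S0848
import Cfsg.Agent.H55.BswR

set_option autoImplicit false
set_option linter.style.haveILetI false

/-!
# Groups without subgroups of index two in which an involution has centralizer `D₈`
-/

namespace Cfsg.Agent.H55.D8Simple

open Cfsg.Agent.H55.BswGrp

universe u

theorem sylow_le_of_odd {G : Type u} [Group G] [Finite G] (M : Subgroup G) [M.Normal]
    (hM : ¬ 2 ∣ M.index) (S : Sylow 2 G) : (S : Subgroup G) ≤ M := by
  haveI : Fact (Nat.Prime 2) := ⟨Nat.prime_two⟩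
  intro g hg
  obtain ⟨k, hk⟩ := S.isPGroup' ⟨g, hg⟩
  have hk' : g ^ 2 ^ k = 1 := congrArg Subtype.val hk
  rw [← QuotientGroup.eq_one_iff]
  have h1 : orderOf (QuotientGroup.mk g : G ⧸ M) ∣ 2 ^ k := by
    apply orderOf_dvd_of_pow_eq_one
    rw [← QuotientGroup.mk_pow, hk']; rfl
  have h2 : orderOf (QuotientGroup.mk g : G ⧸ M) ∣ M.index := orderOf_dvd_natCard _
  have h3 : Nat.Coprime (2 ^ k) M.index := by
    apply Nat.Coprime.pow_left
    exact (Nat.Prime.coprime_iff_not_dvd Nat.prime_two).2 hM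
  exact orderOf_eq_one_iff.1 (Nat.eq_one_of_dvd_coprimes h3 h1 h2)

theorem perfect_of {G : Type u} [Group G] [Finite G] (hG : ∀ H : Subgroup G, H.index ≠ 2)
    (S : Sylow 2 G) (hS : Subgroup.normalizer ((S : Subgroup G) : Set G) ≤ S) :
    commutator G = ⊤ := by
  haveI : Fact (Nat.Prime 2) := ⟨Nat.prime_two⟩
  rcases eq_top_or_exists_le_coatom (commutator G) with h | ⟨M, hM, hle⟩
  · exact h
  · exfalso
    haveI hMn : M.Normal := by
      constructor
      intro n hn g
      have h1 : g * n * g⁻¹ * n⁻¹ ∈ commutator G :=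
        Subgroup.commutator_mem_commutator (Subgroup.mem_top g) (Subgroup.mem_top n)
      have h2 : g * n * g⁻¹ = (g * n * g⁻¹ * n⁻¹) * n := by group
      rw [h2]; exact M.mul_mem (hle h1) hn
    have hodd : ¬ 2 ∣ M.index := by
      intro hd
      have hd' : 2 ∣ Nat.card (G ⧸ M) := hd
      obtain ⟨q, hq⟩ := exists_prime_orderOf_dvd_card' 2 hd'
      let Z := (Subgroup.zpowers q).comap (QuotientGroup.mk' M)
      have hMZ : M ≤ Z := by
        intro x hx
        show QuotientGroup.mk x ∈ Subgroup.zpowers q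
        rw [(QuotientGroup.eq_one_iff x).2 hx]; exact Subgroup.one_mem _
      have hne : M ≠ Z := by
        intro e
        obtain ⟨x, rfl⟩ := QuotientGroup.mk_surjective q
        have h1 : x ∈ Z := Subgroup.mem_zpowers (QuotientGroup.mk x : G ⧸ M)
        rw [← e, ← QuotientGroup.eq_one_iff] at h1
        rw [h1, orderOf_one] at hq
        omega
      have hZ : Z = ⊤ := hM.2 Z (lt_of_le_of_ne hMZ hne)
      have htop : Subgroup.zpowers q = ⊤ := by
        rw [eq_top_iff]
        intro y _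
        obtain ⟨x, rfl⟩ := QuotientGroup.mk_surjective y
        have : x ∈ Z := by rw [hZ]; trivial
        exact this
      apply hG M
      show Nat.card (G ⧸ M) = 2
      rw [← Subgroup.card_top, ← htop, Nat.card_zpowers, hq]
    have h1 := sylow_le_of_odd M hodd S
    have h2 : Subgroup.normalizer ((S : Subgroup G) : Set G) ⊔ M = ⊤ := S.normalizer_sup_eq_top' h1
    apply hM.1
    rw [← h2]
    symm
    exact sup_eq_right.2 (hS.trans h1)

section

variable {G : Type u} [Group G] [Finite G] {t : G}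

open DihedralGroup

theorem sylow_eq (e : Subgroup.centralizer ({t} : Set G) ≃* DihedralGroup 4) (S : Sylow 2 G)
    (hS : ∀ s ∈ (S : Subgroup G), s * t = t * s) :
    (S : Subgroup G) = Subgroup.centralizer ({t} : Set G) := by
  haveI : Fact (Nat.Prime 2) := ⟨Nat.prime_two⟩
  have hp : IsPGroup 2 (Subgroup.centralizer ({t} : Set G)) := by
    apply IsPGroup.of_card (n := 3)
    rw [Cfsg.Agent.H14.D8Cent.card_centralizer e]; norm_num
  exact (S.3 hp (fun s hs => mem_cen.2 (hS s hs))).symm

theorem norm_le (ht : orderOf t = 2) (e : Subgroup.centralizer ({t} : Set G) ≃* DihedralGroup 4)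
    (S : Sylow 2 G) (hS : ∀ s ∈ (S : Subgroup G), s * t = t * s) :
    Subgroup.normalizer ((S : Subgroup G) : Set G) ≤ S := by
  have hSe := sylow_eq e S hS
  intro g hg
  have htS : t ∈ (S : Subgroup G) := by rw [hSe]; exact mem_cen.2 rfl
  have h1 : g * t * g⁻¹ ∈ (S : Subgroup G) := mem_norm.1 hg t htS
  rw [hSe] at h1
  have h2 : e ⟨g * t * g⁻¹, h1⟩ = r 2 := by
    apply Cfsg.Agent.H14.D8Cent.d8_central
    · intro x
      rw [← e.apply_symm_apply x, ← map_mul, ← map_mul]
      congr 1
      apply Subtype.ext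
      have h3 : ((e.symm x : Subgroup.centralizer ({t} : Set G)) : G) ∈ (S : Subgroup G) := by
        rw [hSe]; exact (e.symm x).2
      obtain ⟨w, hw⟩ : ∃ w : G, w = ((e.symm x : Subgroup.centralizer ({t} : Set G)) : G) := ⟨_, rfl⟩
      rw [← hw] at h3
      have h4 : g⁻¹ * w * g ∈ (S : Subgroup G) := by
        have := mem_norm.1 (Subgroup.inv_mem _ hg) w h3
        rwa [inv_inv] at this
      have h5 := hS _ h4
      show ((e.symm x : Subgroup.centralizer ({t} : Set G)) : G) * (g * t * g⁻¹) =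
        (g * t * g⁻¹) * ((e.symm x : Subgroup.centralizer ({t} : Set G)) : G)
      rw [← hw]
      calc w * (g * t * g⁻¹) = g * ((g⁻¹ * w * g) * t) * g⁻¹ := by group
        _ = g * (t * (g⁻¹ * w * g)) * g⁻¹ := by rw [h5]
        _ = _ := by group
    · rw [Ne, EmbeddingLike.map_eq_one_iff]
      intro h
      have h3 : g * t * g⁻¹ = 1 := congrArg Subtype.val h
      rw [conj_eq_one_iff] at h3
      exact ne_one_of_order ht h3
  rw [← Cfsg.Agent.H14.D8Cent.e_t ht e] at h2
  have h3 : g * t * g⁻¹ = t := congrArg Subtype.val (e.injective h2)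
  rw [hSe, mem_cen]
  exact mul_inv_eq_iff_eq_mul.1 h3

theorem all_conj (ht : orderOf t = 2) (e : Subgroup.centralizer ({t} : Set G) ≃* DihedralGroup 4)
    (hperf : commutator G = ⊤)
    (S : Sylow 2 G) (hS : ∀ s ∈ (S : Subgroup G), s * t = t * s) (u : G) (hu : orderOf u = 2) :
    IsConj t u := by
  haveI : Fact (Nat.Prime 2) := ⟨Nat.prime_two⟩
  have hSe := sylow_eq e S hS
  have hp : IsPGroup 2 (Subgroup.zpowers u) := by
    apply IsPGroup.of_card (n := 1)
    rw [Nat.card_zpowers, hu, pow_one]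
  obtain ⟨P, hP⟩ := hp.exists_le_sylow
  obtain ⟨g, hg⟩ := MulAction.exists_smul_eq G P S
  have h1 : g * u * g⁻¹ ∈ (S : Subgroup G) := by
    rw [← hg, mem_sylow_smul]
    have : g⁻¹ * (g * u * g⁻¹) * g = u := by group
    rw [this]; exact hP (Subgroup.mem_zpowers u)
  rw [hSe] at h1
  have h2 : orderOf (g * u * g⁻¹) = 2 := by rw [orderOf_conj, hu]
  have h3 : IsConj t (g * u * g⁻¹) := by
    obtain ⟨d, hd⟩ : ∃ d, e ⟨g * u * g⁻¹, h1⟩ = d := ⟨_, rfl⟩
    rcases d with i | i
    · have : g * u * g⁻¹ = t :=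
        Cfsg.Agent.H14.D8Cent.eq_t_of_mem ht e ⟨h1, i, hd⟩ h2
      rw [this]
    · have h4 := Cfsg.Agent.H14.D8Cent.isConj_sr hperf ht e i
      rw [← hd, e.symm_apply_apply] at h4
      exact h4
  exact h3.trans (isConj_iff.2 ⟨g⁻¹, by group⟩)

theorem simple (ht : orderOf t = 2) (e : Subgroup.centralizer ({t} : Set G) ≃* DihedralGroup 4)
    (hperf : commutator G = ⊤)
    (S : Sylow 2 G) (hS : ∀ s ∈ (S : Subgroup G), s * t = t * s) : IsSimpleGroup G := by
  haveI : Fact (Nat.Prime 2) := ⟨Nat.prime_two⟩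
  have hSe := sylow_eq e S hS
  have hconj := all_conj ht e hperf S hS
  haveI : Nontrivial G := ⟨⟨t, 1, ne_one_of_order ht⟩⟩
  refine ⟨fun N hN => ?_⟩
  -- involutions of the dihedral group
  have hsr : ∀ i : ZMod 4, orderOf ((e.symm (sr i) : Subgroup.centralizer ({t} : Set G)) : G) = 2 := by
    intro i
    rw [Subgroup.orderOf_coe, MulEquiv.orderOf_eq]
    apply orderOf_eq_prime
    · rw [pow_two, sr_mul_sr, sub_self]; rfl
    · intro h; cases h
  by_cases h2 : 2 ∣ Nat.card N
  · right
    obtain ⟨u, hu⟩ := exists_prime_orderOf_dvd_card' 2 h2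
    have huo : orderOf (u : G) = 2 := by rw [Subgroup.orderOf_coe, hu]
    have hall : ∀ v : G, orderOf v = 2 → v ∈ N := by
      intro v hv
      obtain ⟨g, hg⟩ := isConj_iff.1 ((hconj u huo).symm.trans (hconj v hv))
      rw [← hg]; exact hN.conj_mem _ u.2 g
    have hSN : (S : Subgroup G) ≤ N := by
      intro y hy
      rw [hSe] at hy
      obtain ⟨d, hd⟩ : ∃ d, e ⟨y, hy⟩ = d := ⟨_, rfl⟩
      have hy' : y = ((e.symm d : Subgroup.centralizer ({t} : Set G)) : G) := by
        rw [← hd, e.symm_apply_apply]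
      rcases d with i | i
      · have h3 : (r i : DihedralGroup 4) = sr 0 * sr i := by rw [sr_mul_sr, sub_zero]
        rw [hy', h3, map_mul]
        exact N.mul_mem (hall _ (hsr 0)) (hall _ (hsr i))
      · rw [hy']; exact hall _ (hsr i)
    have h3 : Subgroup.normalizer ((S : Subgroup G) : Set G) ⊔ N = ⊤ := S.normalizer_sup_eq_top' hSN
    rw [← h3]
    symm
    exact sup_eq_right.2 ((norm_le ht e S hS).trans hSN)
  · left
    have hfix : ∀ u : G, orderOf u = 2 → ∀ c ∈ N, u * c * u⁻¹ = c → c = 1 := by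
      intro u hu c hc hcu
      obtain ⟨g, hg⟩ := isConj_iff.1 (hconj u hu)
      have h3 : g⁻¹ * c * g ∈ Subgroup.centralizer ({t} : Set G) := by
        rw [mem_cen]
        have h4 : t = g⁻¹ * u * g := by rw [← hg]; group
        have h5 : c * u = u * c := by
          calc c * u = u * c * u⁻¹ * u := by rw [hcu]
            _ = u * c := by group
        rw [h4]
        calc g⁻¹ * c * g * (g⁻¹ * u * g) = g⁻¹ * (c * u) * g := by group
          _ = g⁻¹ * u * g * (g⁻¹ * c * g) := by rw [h5]; group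
      have h4 : orderOf c ∣ 8 := by
        have h5 := Subgroup.orderOf_dvd_natCard _ h3
        rw [Cfsg.Agent.H14.D8Cent.card_centralizer e] at h5
        have h6 := orderOf_conj g⁻¹ c
        rw [inv_inv] at h6
        rw [← h6]; exact h5
      have h5 : orderOf c ∣ Nat.card N := Subgroup.orderOf_dvd_natCard N hc
      have h6 : Nat.Coprime 8 (Nat.card N) := by
        rw [show 8 = 2 ^ 3 by norm_num]
        apply Nat.Coprime.pow_left
        exact (Nat.Prime.coprime_iff_not_dvd Nat.prime_two).2 h2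
      exact orderOf_eq_one_iff.1 (Nat.eq_one_of_dvd_coprimes h6 h4 h5)
    have hinv : ∀ u : G, orderOf u = 2 → ∀ c ∈ N, u * c * u⁻¹ = c⁻¹ := fun u hu =>
      (inverts N (sq_one_of_order hu) (fun c hc => hN.conj_mem c hc u) (hfix u hu)).1
    obtain ⟨b, hb⟩ : ∃ b, b = ((e.symm (sr 0) : Subgroup.centralizer ({t} : Set G)) : G) := ⟨_, rfl⟩
    have hbo : orderOf b = 2 := by rw [hb]; exact hsr 0
    have hbt : b * t = t * b := by rw [hb]; exact mem_cen.1 (e.symm (sr 0)).2
    have hne : b ≠ t := by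
      intro h3
      have h4 : (e.symm (sr 0) : Subgroup.centralizer ({t} : Set G)) =
          ⟨t, Cfsg.Agent.H14.D8Cent.t_mem⟩ := Subtype.ext (by rw [← hb, h3])
      have h5 := congrArg e h4
      rw [e.apply_symm_apply, Cfsg.Agent.H14.D8Cent.e_t ht e] at h5
      cases h5
    have hbto : orderOf (b * t) = 2 := by
      apply order_two
      · intro h3
        apply hne
        have h4 := eq_inv_of_mul_eq_one_left h3
        rw [inv_self_of ht] at h4
        exact h4
      · calc b * t * (b * t) = b * (t * b) * t := by group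
          _ = (b * b) * (t * t) := by rw [← hbt]; group
          _ = 1 := by rw [sq_one_of_order hbo, sq_one_of_order ht, one_mul]
    rw [eq_bot_iff]
    intro c hc
    rw [Subgroup.mem_bot]
    have h3 := hinv _ hbto c hc
    have h4 : b * t * c * (b * t)⁻¹ = c := by
      calc b * t * c * (b * t)⁻¹ = b * (t * c * t⁻¹) * b⁻¹ := by group
        _ = b * c⁻¹ * b⁻¹ := by rw [hinv t ht c hc]
        _ = (c⁻¹)⁻¹ := hinv b hbo c⁻¹ (N.inv_mem hc)
        _ = c := inv_inv c
    exact hfix _ hbto c hc h4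

end

end Cfsg.Agent.H55.D8Simple
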