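import Mathlib
import Cfsg.Prelude.Def_LocalEven
import Cfsg.Agent.H48.PMin
import Cfsg.Agent.H48.PMin2
import Cfsg.Agent.H47.Core
import Cfsg.Agent.H47.Syl

set_option autoImplicit false
open Cfsg Subgroup Cfsg.Agent.H47

namespace Cfsg.Agent.H55

universe u

variable {G : Type u} [Group G] [Finite G] {p : ℕ} [Fact p.Prime]

/-- `X` is generated by `N_X(S)` and the `p`-minimal subgroups of `X` containing `S`. -/
theorem le_of_pmin (S : Sylow p G) (T : Subgroup G) : ∀ n : ℕ, ∀ X : Subgroup G, Nat.card X ≤ n →
    (S : Subgroup G) ≤ X → X ⊓ normalizer ((S : Subgroup G) : Set G) ≤ T →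
    (∀ P' : Subgroup G, (S : Subgroup G) ≤ P' → P' ≤ X → Cfsg.IsPMinimal p ↥P' → P' ≤ T) → X ≤ T := by
  intro n
  induction n with
  | zero =>
    intro X h
    exact absurd h (by have := Nat.card_pos (α := X); omega)
  | succ n ih =>
    intro X hcard hSX hN hP
    by_cases hSn : X ≤ normalizer ((S : Subgroup G) : Set G)
    · rwa [inf_eq_left.mpr hSn] at hN
    · let S' : Sylow p X := S.subtype hSX
      have hS'n : ¬ (S' : Subgroup X).Normal := by
        intro h
        apply hSn
        intro x hx
        rw [mem_normalizer_iff]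
        have key : ∀ y ∈ X, ∀ s ∈ (S : Subgroup G), y * s * y⁻¹ ∈ (S : Subgroup G) := by
          intro y hy s hs
          exact h.conj_mem ⟨s, hSX hs⟩ hs ⟨y, hy⟩
        intro s
        constructor
        · exact key x hx s
        · intro hs
          have := key x⁻¹ (inv_mem hx) _ hs
          simpa [mul_assoc] using this
      have hS'top : (S' : Subgroup X) ≠ ⊤ := by
        intro h
        apply hS'n
        rw [h]
        infer_instance
      obtain ⟨M, hM, hSM⟩ := (eq_top_or_exists_le_coatom (S' : Subgroup X)).resolve_left hS'top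
      have hcoat : ∀ M : Subgroup X, IsCoatom M → (S' : Subgroup X) ≤ M → M.map X.subtype ≤ T := by
        intro M hM hSM
        have h1 : Nat.card ↥(M.map X.subtype) < Nat.card X := by
          rw [Subgroup.card_map_of_injective Subtype.coe_injective]
          have h2 : M < ⊤ := hM.lt_top
          by_contra hc
          apply hM.1
          apply Subgroup.eq_top_of_card_eq
          have := Nat.card_le_card_of_injective _ (Subtype.coe_injective : Function.Injective (fun x : M => (x : X)))
          omega
        have hle : M.map X.subtype ≤ X := Subgroup.map_subtype_le M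
        apply ih _ (by omega)
        · intro s hs
          exact ⟨⟨s, hSX hs⟩, hSM hs, rfl⟩
        · exact (inf_le_inf_right _ hle).trans hN
        · intro P' h1 h2 h3
          exact hP P' h1 (h2.trans hle) h3
      by_cases huniq : ∀ M' : Subgroup X, IsCoatom M' → (S' : Subgroup X) ≤ M' → M' = M
      · apply hP X hSX le_rfl
        apply H48.isPMinimal_of_sylow S' hS'n M hM hSM
        intro Y hSY hY
        obtain ⟨M', hM', hle⟩ := (eq_top_or_exists_le_coatom Y).resolve_left hY
        rw [huniq M' hM' (hSY.trans hle)] at hle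
        exact hle
      · push Not at huniq
        obtain ⟨M', hM', hSM', hne⟩ := huniq
        have h1 : M' ⊔ M = ⊤ := by
          apply hM'.2
          apply lt_of_le_of_ne le_sup_left
          intro h
          have h2 : M ≤ M' := by rw [h]; exact le_sup_right
          rcases h2.lt_or_eq with h3 | h3
          · exact hM'.1 (hM.2 _ h3)
          · exact hne h3.symm
        have h2 : (M' ⊔ M).map X.subtype ≤ T := by
          rw [Subgroup.map_sup]
          exact sup_le (hcoat M' hM' hSM') (hcoat M hM hSM)
        rw [h1] at h2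
        intro x hx
        exact h2 ⟨⟨x, hx⟩, trivial, rfl⟩

/-- The abstract configuration of an isolated subgroup. -/
structure Iso (p : ℕ) (S P R Y : Subgroup G) : Prop where
  hS : SylIn p S ⊤
  hSP : S ≤ P
  hRS : R ≤ S
  hSR : S ≤ normalizer (R : Set G)
  hRP : ¬ P ≤ normalizer (R : Set G)
  h0 : ∀ N : Subgroup G, P ≤ normalizer (N : Set G) → R ≤ N → pRes p P ≤ N
  hX : ∀ X : Subgroup G, S ≤ X → P ≤ X ∨ X ≤ normalizer (R : Set G)
  hgen : ∀ X : Subgroup G, S ≤ X → X ≤ P ⊔ (X ⊓ normalizer (R : Set G))
  hY : Y = normalClosure (pRes p P : Set G)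

theorem pmin_h0 {S : Sylow p G} {P R : Subgroup G} (hSP : (S : Subgroup G) ≤ P)
    (hP : Cfsg.IsPMinimal p ↥P) (hRS : R ≤ (S : Subgroup G)) (hR : ¬ R ≤ pCoreOf p P)
    (N : Subgroup G) (hPN : P ≤ normalizer (N : Set G)) (hRN : R ≤ N) : pRes p P ≤ N := by
  let S' : Sylow p P := S.subtype hSP
  obtain ⟨M, ⟨hM, hSM⟩, -⟩ := (hP S').2
  have hn : (N.subgroupOf P).Normal := normal_subgroupOf_of_le hPN
  rcases H48.PMin.pResidual_le_or hP S' M hM hSM hn with h | h
  · unfold pRes
    rw [Subgroup.map_le_iff_le_comap]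
    exact h
  · exfalso
    apply hR
    have h1 := H48.PMin.normal_inf_le hP S' M hM hSM hn (h.trans (Subgroup.normalCore_le M))
    intro x hx
    have h2 : (⟨x, hSP (hRS hx)⟩ : P) ∈ N.subgroupOf P ⊓ (S' : Subgroup P) :=
      ⟨hRN hx, hRS hx⟩
    exact ⟨_, h1 h2, rfl⟩

end Cfsg.Agent.H55
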