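import Cfsg.Agent.H55.Iso1

set_option autoImplicit false
open Cfsg Subgroup Cfsg.Agent.H47

namespace Cfsg.Agent.H55

universe u

variable {G : Type u} [Group G] [Finite G] {p : ℕ} [Fact p.Prime]

/-- a `p`-subgroup normalised by `P` and contained in `P` is in `O_p(P)`. -/
theorem le_pCoreOf' {P R : Subgroup G} (hR : IsPGroup p R) (hRP : R ≤ P)
    (h : P ≤ normalizer (R : Set G)) : R ≤ pCoreOf p P := le_pCoreOf hRP h hR

theorem iso_of (S : Sylow p G) (P L Y : Subgroup G) (hSP : (S : Subgroup G) ≤ P)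
    (hPmin : Cfsg.IsPMinimal p ↥P)
    (hL : L = Subgroup.normalizer ((S : Subgroup G) : Set G) ⊔ ⨆ P' : {P' : Subgroup G // (S : Subgroup G) ≤ P' ∧ Cfsg.IsPMinimal p ↥P' ∧ P' ≠ P}, (P' : Subgroup G))
    (hiso : ¬ pCoreOf p L ≤ pCoreOf p P)
    (hY : Y = normalClosure (pRes p P : Set G)) : Iso p (S : Subgroup G) P (pCoreOf p L) Y := by
  have hSL : (S : Subgroup G) ≤ L := by
    rw [hL]
    exact le_normalizer.trans le_sup_left
  have hRS : pCoreOf p L ≤ (S : Subgroup G) := pCoreOf_le_sylIn (sylIn_of_sylow S hSL)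
  have hLR : L ≤ normalizer (pCoreOf p L : Set G) := le_normalizer_pCoreOf p L
  have hP'L : ∀ P' : Subgroup G, (S : Subgroup G) ≤ P' → Cfsg.IsPMinimal p ↥P' → P' ≠ P → P' ≤ L := by
    intro P' h1 h2 h3
    rw [hL]
    exact (le_iSup (fun P' : {P' : Subgroup G // (S : Subgroup G) ≤ P' ∧ Cfsg.IsPMinimal p ↥P' ∧ P' ≠ P} =>
      (P' : Subgroup G)) ⟨P', h1, h2, h3⟩).trans le_sup_right
  have hNL : normalizer ((S : Subgroup G) : Set G) ≤ L := by rw [hL]; exact le_sup_left
  refine ⟨sylIn_top S, hSP, hRS, hSL.trans hLR, ?_, ?_, ?_, ?_, hY⟩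
  · intro h
    exact hiso (le_pCoreOf (hRS.trans hSP) h (pCoreOf_isPGroup p L))
  · exact pmin_h0 hSP hPmin hRS hiso
  · intro X hX
    by_cases hPX : P ≤ X
    · exact Or.inl hPX
    · right
      refine le_trans ?_ hLR
      refine le_of_pmin S L _ X le_rfl hX (inf_le_right.trans hNL) ?_
      intro P' h1 h2 h3
      apply hP'L P' h1 h3
      rintro rfl
      exact hPX h2
  · intro X hX
    refine le_of_pmin S _ _ X le_rfl hX ?_ ?_
    · exact (inf_le_inf_left X (hNL.trans hLR)).trans le_sup_right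
    · intro P' h1 h2 h3
      by_cases h4 : P' = P
      · rw [h4]; exact le_sup_left
      · exact (le_inf h2 ((hP'L P' h1 h3 h4).trans hLR)).trans le_sup_right

namespace Iso

variable {S P R Y : Subgroup G}

theorem isPGroup (h : Iso p S P R Y) : IsPGroup p S := h.hS.isPGroup

theorem isPGroup_R (h : Iso p S P R Y) : IsPGroup p R := h.hS.isPGroup.to_le h.hRS

theorem sylIn (h : Iso p S P R Y) {X : Subgroup G} (hX : S ≤ X) : SylIn p S X := h.hS.of_le hX le_top

theorem pRes_sup (h : Iso p S P R Y) : pRes p P ⊔ S = P := (h.sylIn h.hSP).pRes_sup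

theorem normal_Y (h : Iso p S P R Y) : Y.Normal := by rw [h.hY]; infer_instance

theorem pRes_le_Y (h : Iso p S P R Y) : pRes p P ≤ Y := by rw [h.hY]; exact le_normalClosure

theorem le_of_normal (h : Iso p S P R Y) {N : Subgroup G} (hN : N.Normal) (hle : pRes p P ≤ N) : Y ≤ N := by
  rw [h.hY]; exact normalClosure_le_normal hle

/-- the dichotomy -/
theorem dich (h : Iso p S P R Y) {N : Subgroup G} (hN : S ≤ normalizer (N : Set G)) :
    pRes p P ≤ N ∨ (N ⊔ S ≤ normalizer (R : Set G) ∧ ⁅N, R⁆ ≤ pCoreOf p N) := by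
  rcases h.hX (N ⊔ S) le_sup_right with h1 | h1
  · left
    have h2 : pRes p P ≤ pRes p (N ⊔ S) := pRes_mono h1
    refine h2.trans ?_
    apply pRes_le_of
    intro x hx
    rw [sup_comm] at hx
    exact pow_mem_of_sup h.isPGroup hN hx
  · right
    refine ⟨h1, ?_⟩
    have h2 : N ≤ normalizer (R : Set G) := le_sup_left.trans h1
    have h3 : R ≤ normalizer (N : Set G) := h.hRS.trans hN
    have h4 : ⁅N, R⁆ ≤ N ⊓ R := by
      rw [Subgroup.commutator_le]
      intro n hn r hr
      rw [commutatorElement_def]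
      constructor
      · have : r * n⁻¹ * r⁻¹ ∈ N := (mem_normalizer_iff.mp (h3 hr) _).mp (N.inv_mem hn)
        have h5 := mul_mem hn this
        simpa [mul_assoc] using h5
      · have : n * r * n⁻¹ ∈ R := (mem_normalizer_iff.mp (h2 hn) _).mp hr
        exact R.mul_mem this (R.inv_mem hr)
    refine h4.trans ?_
    apply le_pCoreOf inf_le_left
    · exact le_normalizer_inf le_normalizer h2
    · exact h.isPGroup_R.to_le inf_le_right

theorem sup_eq_top (h : Iso p S P R Y) : Y ⊔ normalizer (R : Set G) = ⊤ := by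
  rw [eq_top_iff]
  refine (h.hgen ⊤ le_top).trans ?_
  apply sup_le _ (inf_le_right.trans le_sup_right)
  rw [← h.pRes_sup]
  exact sup_le_sup h.pRes_le_Y h.hSR

theorem pRes_ne_bot (h : Iso p S P R Y) : pRes p P ≠ ⊥ := by
  intro h1
  apply h.hRP
  rw [← h.pRes_sup, h1, bot_sup_eq]
  exact h.hSR

end Iso

end Cfsg.Agent.H55
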