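import Cfsg.Agent.H55.Iso2
import Cfsg.Agent.FStar.CompAct
import Cfsg.Agent.Solv.MinNormal

set_option autoImplicit false
open Cfsg Subgroup Cfsg.Agent.H47
open scoped commutatorElement

namespace Cfsg.Agent.H55

universe u

variable {G : Type u} [Group G] [Finite G] {p : ℕ} [Fact p.Prime]

/-- If `⁅Y, R⁆` is abelian and centralised by the `p`-group `R`, it is a `p`-group. -/
theorem isPGroup_commutator {Y R : Subgroup G} (hR : IsPGroup p R)
    (h1 : ⁅⁅Y, R⁆, R⁆ = ⊥) (h2 : ⁅⁅Y, R⁆, ⁅Y, R⁆⁆ = ⊥) : IsPGroup p ↥⁅Y, R⁆ := by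
  obtain ⟨k, hk⟩ := IsPGroup.iff_card.mp hR
  rw [FStar.commutator_eq_bot_iff_forall] at h1 h2
  let T : Subgroup G :=
    { carrier := {x | x ∈ ⁅Y, R⁆ ∧ x ^ (p ^ k) = 1}
      one_mem' := ⟨one_mem _, one_pow _⟩
      mul_mem' := by
        rintro a b ⟨ha, ha'⟩ ⟨hb, hb'⟩
        refine ⟨mul_mem ha hb, ?_⟩
        have hc : Commute a b := h2 a ha b hb
        rw [hc.mul_pow, ha', hb', one_mul]
      inv_mem' := by
        rintro a ⟨ha, ha'⟩
        refine ⟨inv_mem ha, ?_⟩
        rw [inv_pow, ha', inv_one] }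
  have hT : ⁅Y, R⁆ ≤ T := by
    rw [Subgroup.commutator_le]
    intro y hy r hr
    refine ⟨commutator_mem_commutator hy hr, ?_⟩
    have hc : Commute ⁅y, r⁆ r := h1 _ (commutator_mem_commutator hy hr) r hr
    have h3 : (y * r * y⁻¹) = ⁅y, r⁆ * r := by rw [commutatorElement_def]; group
    have h4 : r ^ (p ^ k) = 1 := by
      have := pow_card_eq_one' (x := (⟨r, hr⟩ : R))
      rw [hk] at this
      exact congrArg Subtype.val this
    have h5 : (y * r * y⁻¹) ^ (p ^ k) = 1 := by
      rw [conj_pow, h4]; group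
    rw [h3, hc.mul_pow, h4, mul_one] at h5
    exact h5
  intro x
  refine ⟨k, ?_⟩
  exact Subtype.ext (hT x.2).2

namespace Iso

variable {S P R Y : Subgroup G}

/-- dichotomy for normal subgroups in `Y`. -/
theorem dichN (h : Iso p S P R Y) (hO : pCoreOf p Y = ⊥) {N : Subgroup G} (hN : N.Normal) (hNY : N ≤ Y) :
    N = Y ∨ (⁅N, Y⁆ = ⊥ ∧ ⁅N, R⁆ = ⊥) := by
  have hY := h.normal_Y
  rcases h.dich (N := N) le_normalizer_of_normal with h1 | ⟨h1, h2⟩
  · exact Or.inl (le_antisymm hNY (h.le_of_normal hN h1))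
  · right
    have h3 : pCoreOf p N ≤ pCoreOf p Y := by
      apply le_pCoreOf ((pCoreOf_le p N).trans hNY) _ (pCoreOf_isPGroup p N)
      exact le_normalizer_pCoreOf_of_le le_normalizer_of_normal
    rw [hO, le_bot_iff] at h3
    rw [h3, le_bot_iff] at h2
    refine ⟨?_, h2⟩
    rw [Subgroup.commutator_comm, Subgroup.commutator_eq_bot_iff_le_centralizer]
    apply h.le_of_normal inferInstance
    apply h.h0 _ le_normalizer_of_normal
    rw [← Subgroup.commutator_eq_bot_iff_le_centralizer, Subgroup.commutator_comm]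
    exact h2

theorem not_commute (h : Iso p S P R Y) : ⁅Y, R⁆ ≠ ⊥ := by
  intro h1
  apply h.hRP
  rw [← h.pRes_sup]
  apply sup_le _ h.hSR
  refine h.pRes_le_Y.trans ?_
  rw [Subgroup.commutator_eq_bot_iff_le_centralizer] at h1
  exact h1.trans (centralizer_le_normalizer _)

theorem commutator_normal (h : Iso p S P R Y) : (⁅Y, R⁆ : Subgroup G).Normal := by
  have hY := h.normal_Y
  rw [← normalizer_eq_top_iff, eq_top_iff, ← h.sup_eq_top]
  apply sup_le
  · exact normalizer_commutator_ge_left Y R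
  · exact le_normalizer_commutator (L := normalizer (R : Set G)) le_normalizer_of_normal le_rfl

/-- `Y = [Y, R]`. -/
theorem commutator_eq (h : Iso p S P R Y) (hO : pCoreOf p Y = ⊥) : ⁅Y, R⁆ = Y := by
  have hY := h.normal_Y
  have hle : ⁅Y, R⁆ ≤ Y := le_normalizer_iff_commutator_le_left.1 le_normalizer_of_normal
  rcases h.dichN hO h.commutator_normal hle with h1 | ⟨h1, h2⟩
  · exact h1
  · exfalso
    have h3 : ⁅⁅Y, R⁆, ⁅Y, R⁆⁆ = ⊥ := by
      rw [eq_bot_iff, ← h1]
      exact Subgroup.commutator_mono le_rfl hle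
    have h4 := isPGroup_commutator (p := p) h.isPGroup_R h2 h3
    have h5 : ⁅Y, R⁆ ≤ pCoreOf p Y := le_pCoreOf hle (normalizer_commutator_ge_left Y R) h4
    rw [hO, le_bot_iff] at h5
    exact h.not_commute h5

theorem ne_bot (h : Iso p S P R Y) : Y ≠ ⊥ := by
  intro h1
  apply h.not_commute
  rw [h1, Subgroup.commutator_bot_left]

theorem normal_pCoreOf (h : Iso p S P R Y) (q : ℕ) : (pCoreOf q Y).Normal := by
  have hY := h.normal_Y
  rw [← normalizer_eq_top_iff, eq_top_iff]
  exact le_normalizer_pCoreOf_of_le (by rw [normalizer_eq_top])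

theorem exists_isPGroup (h : Iso p S P R Y) (hO : pCoreOf p Y = ⊥) (hs : Group.IsSolvable Y) :
    ∃ t : ℕ, t.Prime ∧ t ≠ p ∧ IsPGroup t Y := by
  by_contra hcon
  push Not at hcon
  have hY := h.normal_Y
  have key : ∀ q : Nat.Primes, ⁅pCoreOf (q : ℕ) Y, Y⁆ = ⊥ ∧ ⁅pCoreOf (q : ℕ) Y, R⁆ = ⊥ := by
    intro q
    haveI : Fact (q : ℕ).Prime := ⟨q.2⟩
    rcases h.dichN hO (h.normal_pCoreOf q) (pCoreOf_le _ _) with h1 | h1
    · exfalso
      by_cases hq : (q : ℕ) = p
      · rw [hq, hO] at h1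
        exact h.ne_bot h1.symm
      · apply hcon q q.2 hq
        rw [← h1]
        exact pCoreOf_isPGroup _ _
    · exact h1
  have hF : (fittingSubgroup ↥Y).map Y.subtype = ⨆ q : Nat.Primes, pCoreOf (q : ℕ) Y := by
    rw [Solv.fitting_eq_iSup_pCore, Subgroup.map_iSup]
    rfl
  have h1 : (⨆ q : Nat.Primes, pCoreOf (q : ℕ) Y) ≤ centralizer (Y : Set G) := by
    apply iSup_le
    intro q
    rw [← Subgroup.commutator_eq_bot_iff_le_centralizer]
    exact (key q).1
  have h2 : (⨆ q : Nat.Primes, pCoreOf (q : ℕ) Y) ≤ centralizer (R : Set G) := by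
    apply iSup_le
    intro q
    rw [← Subgroup.commutator_eq_bot_iff_le_centralizer]
    exact (key q).2
  have h3 : Y ≤ (fittingSubgroup ↥Y).map Y.subtype := by
    intro y hy
    have h4 : (⟨y, hy⟩ : Y) ∈ centralizer (fittingSubgroup ↥Y : Set ↥Y) := by
      rw [mem_centralizer_iff]
      intro x hx
      have h5 : (x : G) ∈ centralizer (Y : Set G) := by
        apply h1
        rw [← hF]
        exact ⟨x, hx, rfl⟩
      exact Subtype.ext ((mem_centralizer_iff.mp h5) y hy).symm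
    exact ⟨_, Solv.centralizer_fitting_le h4, rfl⟩
  apply h.not_commute
  rw [Subgroup.commutator_eq_bot_iff_le_centralizer]
  exact (h3.trans hF.le).trans h2

theorem class_le (h : Iso p S P R Y) (hO : pCoreOf p Y = ⊥) (hs : Group.IsSolvable Y) :
    ⁅⁅Y, Y⁆, Y⁆ = ⊥ := by
  have hY := h.normal_Y
  rcases h.dichN hO (N := ⁅Y, Y⁆) inferInstance (Subgroup.commutator_le_self Y) with h1 | h1
  · exfalso
    have h2 : ∀ n : ℕ, derivedSeries ↥Y n = ⊤ := by
      intro n
      induction n with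
      | zero => rfl
      | succ n ih =>
        rw [derivedSeries_succ, ih]
        apply Subgroup.map_injective Y.subtype_injective
        rw [Subgroup.map_commutator, ← MonoidHom.range_eq_map, Subgroup.range_subtype]
        exact h1
    obtain ⟨n, hn⟩ := hs.solvable
    rw [h2 n] at hn
    apply h.ne_bot
    rw [eq_bot_iff]
    intro y hy
    have : (⟨y, hy⟩ : Y) ∈ (⊤ : Subgroup Y) := trivial
    rw [hn, mem_bot] at this
    rw [mem_bot]
    exact congrArg Subtype.val this
  · exact h1.1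

end Iso

end Cfsg.Agent.H55
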