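import Cfsg.Agent.H55.Iso3
import Cfsg.Agent.H91.CoprimeAb

set_option autoImplicit false
open Cfsg Subgroup Cfsg.Agent.H47
open scoped commutatorElement

namespace Cfsg.Agent.H55

universe u

variable {G : Type u} [Group G] [Finite G] {p : ℕ} [Fact p.Prime]

/-- If `N` is normal, `N = [N,K]` and the action is coprime, then `C_N(K) ≤ N'`. -/
theorem inf_centralizer_le_derived {N K : Subgroup G} [N.Normal]
    (hcop : (Nat.card K).Coprime (Nat.card N)) (h : ⁅N, K⁆ = N) :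
    N ⊓ centralizer (K : Set G) ≤ ⁅N, N⁆ := by
  set π := QuotientGroup.mk' ⁅N, N⁆ with hπ
  have hπ1 : ∀ x : G, π x = 1 ↔ x ∈ ⁅N, N⁆ := by
    intro x
    rw [hπ, QuotientGroup.mk'_apply, QuotientGroup.eq_one_iff]
  have hc : IsMulCommutative (N.map π) := by
    refine ⟨⟨?_⟩⟩
    rintro ⟨_, a, ha, rfl⟩ ⟨_, b, hb, rfl⟩
    apply Subtype.ext
    change π a * π b = π b * π a
    rw [← map_mul, ← map_mul, ← mul_inv_eq_one, ← map_inv, ← map_mul, hπ1]
    have : a * b * (b * a)⁻¹ = ⁅a, b⁆ := by rw [commutatorElement_def]; group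
    rw [this]
    exact commutator_mem_commutator ha hb
  have hn : (N.map π).Normal := Subgroup.Normal.map inferInstance _ (QuotientGroup.mk'_surjective _)
  obtain ⟨h1, -⟩ := H91.abelian_decomp (K.map π) (N.map π) le_normalizer_of_normal
    (Nat.Coprime.coprime_dvd_left (Subgroup.card_map_dvd _ _)
      (Nat.Coprime.coprime_dvd_right (Subgroup.card_map_dvd _ _) hcop))
  rw [← Subgroup.map_commutator, h] at h1
  rintro x ⟨hx1, hx2⟩
  rw [← hπ1, ← Subgroup.mem_bot, ← h1]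
  refine ⟨⟨Subgroup.mem_map_of_mem _ hx1, ?_⟩, Subgroup.mem_map_of_mem _ hx1⟩
  have hx2' := Subgroup.mem_centralizer_iff.mp hx2
  refine Subgroup.mem_centralizer_iff.mpr ?_
  rintro _ ⟨k, hk, rfl⟩
  rw [← map_mul, ← map_mul, hx2' k hk]

/-- In a group of class `≤ 2`, a subgroup supplementing the derived subgroup is everything. -/
theorem le_of_le_derived_sup {Y H : Subgroup G} (hc : ⁅⁅Y, Y⁆, Y⁆ = ⊥) (hH : H ≤ Y)
    (hY : Y ≤ ⁅Y, Y⁆ ⊔ H) : Y ≤ H := by
  rw [FStar.commutator_eq_bot_iff_forall] at hc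
  have h1 : H ≤ normalizer ((⁅Y, Y⁆ : Subgroup G) : Set G) :=
    hH.trans (normalizer_commutator_ge_left Y Y)
  have h2 : ⁅Y, Y⁆ ≤ H := by
    rw [Subgroup.commutator_le]
    intro a ha b hb
    have ha' := hY ha
    have hb' := hY hb
    rw [sup_comm, mem_sup_of_le_normalizer h1] at ha' hb'
    obtain ⟨a1, ha1, a2, ha2, rfl⟩ := ha'
    obtain ⟨b1, hb1, b2, hb2, rfl⟩ := hb'
    have e1 : a2 * b1 = b1 * a2 := hc a2 ha2 b1 (hH hb1)
    have e2 : a2 * b2 = b2 * a2 := hc a2 ha2 b2 (Subgroup.commutator_le_self Y hb2)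
    have e3 : b2 * a1 = a1 * b2 := hc b2 hb2 a1 (hH ha1)
    have e4 : ⁅a1 * a2, b1 * b2⁆ = ⁅a1, b1⁆ := by
      rw [commutatorElement_def, commutatorElement_def]
      calc a1 * a2 * (b1 * b2) * (a1 * a2)⁻¹ * (b1 * b2)⁻¹
          = a1 * (a2 * b1) * b2 * a2⁻¹ * a1⁻¹ * b2⁻¹ * b1⁻¹ := by group
        _ = a1 * b1 * (a2 * b2) * a2⁻¹ * a1⁻¹ * b2⁻¹ * b1⁻¹ := by rw [e1]; group
        _ = a1 * b1 * (b2 * a1⁻¹) * b2⁻¹ * b1⁻¹ := by rw [e2]; group
        _ = a1 * b1 * a1⁻¹ * b1⁻¹ := by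
          have : b2 * a1⁻¹ = a1⁻¹ * b2 := by
            rw [eq_inv_mul_iff_mul_eq, ← mul_assoc, ← e3]; group
          rw [this]; group
    rw [e4]
    rw [commutatorElement_def]
    exact mul_mem (mul_mem (mul_mem ha1 hb1) (inv_mem ha1)) (inv_mem hb1)
  exact hY.trans (sup_le h2 le_rfl)

namespace Iso

variable {S P R Y : Subgroup G}

theorem le_P (h : Iso p S P R Y) (hO : pCoreOf p Y = ⊥) (hs : Group.IsSolvable Y) : Y ≤ P := by
  have hY := h.normal_Y
  obtain ⟨t, ht, htp, hYt⟩ := h.exists_isPGroup hO hs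
  haveI : Fact t.Prime := ⟨ht⟩
  have hcl := h.class_le hO hs
  have hcop : ∀ Q : Subgroup G, IsPGroup p Q → (Nat.card Q).Coprime (Nat.card Y) := by
    intro Q hQ
    obtain ⟨a, ha⟩ := IsPGroup.iff_card.mp hQ
    obtain ⟨b, hb⟩ := IsPGroup.iff_card.mp hYt
    rw [ha, hb]
    exact Nat.Coprime.pow _ _ ((Nat.coprime_primes Fact.out ht).mpr (fun h => htp h.symm))
  have hSY : S ⊓ Y = ⊥ := Cop.inf_eq_bot_of_coprime (hcop S h.isPGroup)
  have hC : Y ⊓ normalizer (R : Set G) ≤ ⁅Y, Y⁆ := by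
    refine le_trans ?_ (inf_centralizer_le_derived (hcop R h.isPGroup_R) (h.commutator_eq hO))
    refine le_inf inf_le_left ?_
    rw [← Subgroup.commutator_eq_bot_iff_le_centralizer, eq_bot_iff, ← hSY]
    rw [Subgroup.commutator_le]
    rintro y ⟨hy, hy'⟩ r hr
    rw [commutatorElement_def]
    have h1 : y * r * y⁻¹ ∈ R := (mem_normalizer_iff.mp hy' _).mp hr
    have h2 : r * y⁻¹ * r⁻¹ ∈ Y := hY.conj_mem _ (Y.inv_mem hy) r
    refine ⟨h.hRS (mul_mem h1 (inv_mem hr)), ?_⟩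
    have := mul_mem hy h2
    simpa [mul_assoc] using this
  have hST : S ≤ normalizer ((⁅Y, Y⁆ ⊔ (Y ⊓ P) : Subgroup G) : Set G) := by
    apply le_normalizer_sup le_normalizer_of_normal
    exact le_normalizer_inf le_normalizer_of_normal (h.hSP.trans le_normalizer)
  have h1 : Y ⊔ S ≤ (⁅Y, Y⁆ ⊔ (Y ⊓ P)) ⊔ S := by
    refine (h.hgen (Y ⊔ S) le_sup_right).trans ?_
    apply sup_le
    · rw [← h.pRes_sup]
      apply sup_le_sup _ le_rfl
      rw [h.pRes_sup]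
      exact (le_inf h.pRes_le_Y (pRes_le p P)).trans le_sup_right
    · rintro x ⟨hx1, hx2⟩
      have hx1' : x ∈ Y ⊔ S := hx1
      rw [Subgroup.mem_sup_of_normal_left] at hx1'
      obtain ⟨y, hy, s, hs, rfl⟩ := hx1' 
      have h2 : y ∈ normalizer (R : Set G) := by
        have := (normalizer (R : Set G)).mul_mem hx2 ((normalizer (R : Set G)).inv_mem (h.hSR hs))
        simpa using this
      exact mul_mem_sup (mem_sup_left (hC ⟨hy, h2⟩)) hs
  have h2 : Y ≤ ⁅Y, Y⁆ ⊔ (Y ⊓ P) := by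
    intro y hy
    have h3 := h1 (mem_sup_left hy)
    rw [sup_comm, mem_sup_of_le_normalizer' hST] at h3
    obtain ⟨a, ha, s, hs, rfl⟩ := h3
    have haY : a ∈ Y := (sup_le (Subgroup.commutator_le_self Y) inf_le_left) ha
    have h4 : s ∈ S ⊓ Y := ⟨hs, by
      have := mul_mem (inv_mem haY) hy
      simpa using this⟩
    rw [hSY, mem_bot] at h4
    rw [h4, mul_one]
    exact ha
  exact (le_of_le_derived_sup hcl inf_le_left h2).trans inf_le_right

theorem eq_pRes (h : Iso p S P R Y) (hO : pCoreOf p Y = ⊥) (hs : Group.IsSolvable Y) : pRes p P = Y := by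
  apply le_antisymm h.pRes_le_Y
  obtain ⟨t, ht, htp, hYt⟩ := h.exists_isPGroup hO hs
  haveI : Fact t.Prime := ⟨ht⟩
  intro y hy
  apply mem_pRes_of_coprime (h.le_P hO hs hy)
  obtain ⟨k, hk⟩ := hYt ⟨y, hy⟩
  have h1 : y ^ t ^ k = 1 := congrArg Subtype.val hk
  refine Nat.Coprime.coprime_dvd_left (orderOf_dvd_of_pow_eq_one h1) ?_
  exact Nat.Coprime.pow_left _ ((Nat.coprime_primes ht Fact.out).mpr htp)

end Iso

end Cfsg.Agent.H55
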