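import Cfsg.Agent.H55.Iso4

set_option autoImplicit false
open Cfsg Subgroup Cfsg.Agent.H47
open scoped commutatorElement

namespace Cfsg.Agent.H55

universe u

variable {G : Type u} [Group G] [Finite G] {p : ℕ} [Fact p.Prime]

theorem pRes_map {H : Type*} [Group H] (f : G →* H) (L : Subgroup G) :
    pRes p (L.map f) = (pRes p L).map f := by
  apply le_antisymm
  · rw [pRes_le_iff]
    rintro _ ⟨y, hy, rfl⟩ h1
    obtain ⟨k, hk⟩ := pow_mem_pRes (p := p) hy
    apply mem_of_pow_mem h1 (k := k)
    rw [← map_pow]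
    exact Subgroup.mem_map_of_mem f hk
  · rw [pRes_eq_closure, MonoidHom.map_closure, closure_le]
    rintro _ ⟨x, ⟨hx1, hx2⟩, rfl⟩
    apply mem_pRes_of_coprime (Subgroup.mem_map_of_mem f hx1)
    exact Nat.Coprime.coprime_dvd_left (orderOf_map_dvd f x) hx2

theorem isPGroup_comap {H : Type*} [Group H] (f : G →* H) (hker : IsPGroup p f.ker) {N : Subgroup H}
    (hN : IsPGroup p N) : IsPGroup p ↥(N.comap f) := hN.comap_of_ker_isPGroup f hker

theorem pCoreOf_map_eq_bot {Y Q : Subgroup G} [Q.Normal] (hQ : pCoreOf p Y = Q) :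
    pCoreOf p (Y.map (QuotientGroup.mk' Q)) = ⊥ := by
  have hQp : IsPGroup p Q := by rw [← hQ]; exact pCoreOf_isPGroup p Y
  have hQY : Q ≤ Y := by rw [← hQ]; exact pCoreOf_le p Y
  set π := QuotientGroup.mk' Q with hπ
  have hker : π.ker = Q := QuotientGroup.ker_mk' Q
  have hsurj : Function.Surjective π := QuotientGroup.mk'_surjective Q
  set N := pCoreOf p (Y.map π) with hN
  have h1 : N.comap π ≤ pCoreOf p Y := by
    apply le_pCoreOf
    · have h2 := Subgroup.comap_mono (f := π) (pCoreOf_le p (Y.map π))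
      rw [Subgroup.comap_map_eq, hker, sup_eq_left.mpr hQY] at h2
      exact h2
    · rw [← Subgroup.comap_normalizer_eq_of_surjective N hsurj]
      rw [← Subgroup.map_le_iff_le_comap]
      exact le_normalizer_pCoreOf p (Y.map π)
    · apply isPGroup_comap π (by rw [hker]; exact hQp)
      exact pCoreOf_isPGroup p _
  rw [eq_bot_iff]
  intro x hx
  obtain ⟨y, rfl⟩ := hsurj x
  have h2 : y ∈ Q := by rw [← hQ]; exact h1 hx
  rw [mem_bot]
  exact (QuotientGroup.eq_one_iff y).mpr h2

theorem Iso.map {S P R Y : Subgroup G} (h : Iso p S P R Y) {H : Type u} [Group H] [Finite H]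
    (f : G →* H) (hf : Function.Surjective f) (hker : f.ker ≤ R) :
    Iso p (S.map f) (P.map f) (R.map f) (Y.map f) := by
  have hcomap : ∀ X : Subgroup G, f.ker ≤ X → (X.map f).comap f = X := by
    intro X hX
    rw [Subgroup.comap_map_eq, sup_eq_left.mpr hX]
  refine ⟨?_, Subgroup.map_mono h.hSP, Subgroup.map_mono h.hRS, ?_, ?_, ?_, ?_, ?_, ?_⟩
  · apply sylIn_of_not_dvd_index le_top (h.isPGroup.map f)
    intro h1
    apply h.hS.not_dvd_index
    rw [relIndex_top_right] at h1 ⊢
    exact h1.trans (S.index_map_dvd hf)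
  · exact (Subgroup.map_mono h.hSR).trans (Subgroup.le_normalizer_map f)
  · intro h1
    apply h.hRP
    rw [Subgroup.map_le_iff_le_comap, Subgroup.comap_normalizer_eq_of_surjective _ hf, hcomap R hker] at h1
    exact h1
  · intro N h1 h2
    rw [pRes_map, Subgroup.map_le_iff_le_comap]
    apply h.h0
    · rw [← Subgroup.comap_normalizer_eq_of_surjective _ hf, ← Subgroup.map_le_iff_le_comap]
      exact h1
    · rw [← Subgroup.map_le_iff_le_comap]
      exact h2
  · intro X h1
    rcases h.hX (X.comap f) (Subgroup.map_le_iff_le_comap.mp h1) with h2 | h2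
    · exact Or.inl (Subgroup.map_le_iff_le_comap.mpr h2)
    · right
      rw [← Subgroup.map_comap_eq_self_of_surjective hf X]
      exact (Subgroup.map_mono h2).trans (Subgroup.le_normalizer_map f)
  · intro X h1
    have h2 := h.hgen (X.comap f) (Subgroup.map_le_iff_le_comap.mp h1)
    rw [← Subgroup.map_comap_eq_self_of_surjective hf X]
    refine (Subgroup.map_mono h2).trans ?_
    rw [Subgroup.map_sup]
    apply sup_le_sup le_rfl
    apply le_inf (Subgroup.map_mono inf_le_left)
    exact (Subgroup.map_mono inf_le_right).trans (Subgroup.le_normalizer_map f)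
  · rw [h.hY, Subgroup.map_normalClosure _ f hf, pRes_map]
    rfl

namespace Iso

variable {S P R Y : Subgroup G}

/-- `O^p(P)` is in the generalised Fitting subgroup modulo `O_p(G)`. -/
theorem pRes_le_gen (h : Iso p S P R Y) {Q : Subgroup G} [Q.Normal] (hQ : pCore p G = Q) (hQR : Q ≤ R) :
    pRes p P ≤ (Cfsg.generalizedFittingSubgroup (G ⧸ Q)).comap (QuotientGroup.mk' Q) := by
  have hker : (QuotientGroup.mk' Q).ker = Q := QuotientGroup.ker_mk' Q
  have h1 := h.map (QuotientGroup.mk' Q) (QuotientGroup.mk'_surjective Q) (by rw [hker]; exact hQR)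
  rw [← Subgroup.map_le_iff_le_comap, ← pRes_map]
  set N := Cfsg.generalizedFittingSubgroup (G ⧸ Q) with hN
  have hNn : N.Normal := by
    rw [hN]; unfold generalizedFittingSubgroup; infer_instance
  rcases h1.dich (N := N) le_normalizer_of_normal with h2 | ⟨-, h3⟩
  · exact h2
  · have h4 : pCore p (G ⧸ Q) = ⊥ := by
      have h5 := pCoreOf_map_eq_bot (p := p) (Y := (⊤ : Subgroup G)) (Q := Q) (by rw [pCoreOf_top, hQ])
      rw [← MonoidHom.range_eq_map, MonoidHom.range_eq_top.mpr (QuotientGroup.mk'_surjective Q), pCoreOf_top] at h5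
      exact h5
    have h5 : pCoreOf p N ≤ pCore p (G ⧸ Q) := by
      apply le_pCore _ (pCoreOf_isPGroup p N)
      rw [← normalizer_eq_top_iff, eq_top_iff]
      exact le_normalizer_pCoreOf_of_le (by rw [normalizer_eq_top])
    rw [h4, le_bot_iff] at h5
    rw [h5, le_bot_iff] at h3
    refine le_trans ?_ (FStar.centralizer_generalizedFitting_le)
    apply h1.h0 _ le_normalizer_of_normal
    rw [← Subgroup.commutator_eq_bot_iff_le_centralizer, Subgroup.commutator_comm]
    exact h3

/-- from the quotient modulo `O_p(Y)` back to `G`. -/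
theorem eq_of_quot (h : Iso p S P R Y) {Q : Subgroup G} [Q.Normal] (hQ : pCoreOf p Y = Q) (hQR : Q ≤ R)
    (hq : pRes p (P.map (QuotientGroup.mk' Q)) = Y.map (QuotientGroup.mk' Q)) : pRes p P = Y := by
  have hY := h.normal_Y
  have hker : (QuotientGroup.mk' Q).ker = Q := QuotientGroup.ker_mk' Q
  have hQY : Q ≤ Y := by rw [← hQ]; exact pCoreOf_le p Y
  have hQP : Q ≤ P := (hQR.trans h.hRS).trans h.hSP
  have h1 : Y = pRes p P ⊔ Q := by
    rw [pRes_map] at hq
    have h2 := congrArg (Subgroup.comap (QuotientGroup.mk' Q)) hq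
    rw [Subgroup.comap_map_eq, Subgroup.comap_map_eq, hker, sup_eq_left.mpr hQY] at h2
    exact h2.symm
  have hYP : Y ≤ P := by
    rw [h1]
    exact sup_le (pRes_le p P) hQP
  have h2 : pRes p P = pRes p Y := by
    apply le_antisymm
    · exact pRes_le_of_le h.pRes_le_Y
    · exact pRes_mono hYP
  have h3 : (pRes p P).Normal := by
    rw [h2, ← normalizer_eq_top_iff, eq_top_iff]
    exact normalizer_le_normalizer_pRes (by rw [normalizer_eq_top])
  exact le_antisymm h.pRes_le_Y (h.le_of_normal h3 le_rfl)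

end Iso

/-- the quotient `Y/O_p(Y)`, as the image of `Y`. -/
theorem exists_quotEquiv {Y Q : Subgroup G} [Q.Normal] [(pCore p ↥Y).Normal] (hQ : pCoreOf p Y = Q) :
    ∃ e : (↥Y ⧸ pCore p ↥Y) ≃* ↥(Y.map (QuotientGroup.mk' Q)),
      ∀ y : Y, (e (QuotientGroup.mk y) : G ⧸ Q) = QuotientGroup.mk' Q (y : G) := by
  set π := QuotientGroup.mk' Q with hπ
  have hk : (π.subgroupMap Y).ker = pCore p ↥Y := by
    ext y
    rw [MonoidHom.mem_ker]
    constructor
    · intro h
      have h1 : π (y : G) = 1 := congrArg Subtype.val h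
      have h2 : (y : G) ∈ Q := (QuotientGroup.eq_one_iff (y : G)).mp h1
      rw [← hQ] at h2
      obtain ⟨z, hz, hzy⟩ := h2
      have : z = y := Subtype.ext hzy
      rw [← this]; exact hz
    · intro h
      apply Subtype.ext
      have h2 : (y : G) ∈ Q := by rw [← hQ]; exact ⟨y, h, rfl⟩
      exact (QuotientGroup.eq_one_iff (y : G)).mpr h2
  refine ⟨(QuotientGroup.quotientMulEquivOfEq hk.symm).trans
    (QuotientGroup.quotientKerEquivOfSurjective (π.subgroupMap Y) (π.subgroupMap_surjective Y)), ?_⟩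
  intro y
  rfl

end Cfsg.Agent.H55
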