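import Cfsg.Agent.H55.Iso5
import Cfsg.Agent.H67.Kazarin

set_option autoImplicit false
open Cfsg Subgroup Cfsg.Agent.H47
open scoped commutatorElement

namespace Cfsg.Agent.H55

universe u

variable {G : Type u} [Group G] [Finite G] {p : ℕ} [Fact p.Prime]

omit [Fact p.Prime] in
theorem kaz1 (Y : Subgroup G) [Y.Normal] (ρ : G) (htop : Y ⊔ zpowers ρ = ⊤) {r : ℕ} (hr : r.Prime)
    (hq : ∀ q : ℕ, q.Prime → q ≠ r → ∃ Q : Sylow q Y, (Q : Subgroup Y).map Y.subtype ≤ centralizer ({ρ} : Set G)) :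
    Group.IsSolvable (normalClosure ({ρ} : Set G)) := by
  set N := centralizer ({ρ} : Set G) with hN
  have hNY : N ⊔ Y = ⊤ := by
    rw [eq_top_iff, ← htop]
    apply sup_le le_sup_right
    refine le_trans ?_ le_sup_left
    rw [zpowers_le, hN, mem_centralizer_singleton_iff]
  have hidx := H48.index_mul_card_inf_of_sup_eq_top hNY
  have hne : N.index ≠ 0 := Subgroup.index_ne_zero_of_finite
  apply H67.kazarin_aux _ rfl ρ hr (N.index.primeFactorsList.length)
  refine Nat.eq_prime_pow_of_unique_prime_dvd hne ?_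
  intro q hqp hqd
  by_contra hqr
  haveI : Fact q.Prime := ⟨hqp⟩
  obtain ⟨Q, hQ⟩ := hq q hqp hqr
  apply Q.not_dvd_index
  have h1 : (Q : Subgroup Y).map Y.subtype ≤ Y ⊓ N := le_inf (Subgroup.map_subtype_le _) hQ
  have h2 : Nat.card (Q : Subgroup Y) ∣ Nat.card ↥(Y ⊓ N) := by
    rw [← Subgroup.card_map_of_injective (f := Y.subtype) Y.subtype_injective]
    exact Subgroup.card_dvd_of_le h1
  have h3 : q * Nat.card (Q : Subgroup Y) ∣ Nat.card Y := by
    rw [← hidx]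
    exact Nat.mul_dvd_mul hqd h2
  rw [← Subgroup.index_mul_card (Q : Subgroup Y)] at h3
  exact Nat.dvd_of_mul_dvd_mul_right Nat.card_pos h3

omit [Fact p.Prime] in
theorem kaz2 (Y : Subgroup G) [hY : Y.Normal] (ρ : G) {r : ℕ} (hr : r.Prime)
    (hq : ∀ q : ℕ, q.Prime → q ≠ r → ∃ Q : Sylow q Y, (Q : Subgroup Y).map Y.subtype ≤ centralizer ({ρ} : Set G))
    {y : G} (hy : y ∈ Y) : ⁅y, ρ⁆ ∈ (solvableRadical ↥Y).map Y.subtype := by
  set Γ := Y ⊔ zpowers ρ with hΓ
  have hYΓ : Y ≤ Γ := le_sup_left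
  have hρΓ : ρ ∈ Γ := mem_sup_right (mem_zpowers ρ)
  have hYn : (Y.subgroupOf Γ).Normal := inferInstance
  have htop : Y.subgroupOf Γ ⊔ zpowers (⟨ρ, hρΓ⟩ : Γ) = ⊤ := by
    apply Subgroup.map_injective Γ.subtype_injective
    rw [Subgroup.map_sup, MonoidHom.map_zpowers, Subgroup.map_subgroupOf_eq_of_le hYΓ,
      ← MonoidHom.range_eq_map, Subgroup.range_subtype]
    rfl
  have h1 : Group.IsSolvable (normalClosure ({(⟨ρ, hρΓ⟩ : Γ)} : Set Γ)) := by
    apply kaz1 (Y.subgroupOf Γ) ⟨ρ, hρΓ⟩ htop hr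
    intro q hqp hqr
    obtain ⟨Q, hQ⟩ := hq q hqp hqr
    let e : ↥(Y.subgroupOf Γ) ≃* ↥Y := Subgroup.subgroupOfEquivOfLe hYΓ
    refine ⟨Q.comapOfInjective e.toMonoidHom e.injective (by
      rw [MonoidHom.range_eq_top.mpr e.surjective]; exact le_top), ?_⟩
    rintro _ ⟨x, hx, rfl⟩
    rw [mem_centralizer_singleton_iff]
    have h2 : ((e x : Y) : G) ∈ centralizer ({ρ} : Set G) := hQ ⟨e x, hx, rfl⟩
    rw [mem_centralizer_singleton_iff] at h2
    exact Subtype.ext h2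
  have h2 := H67.mem_solvableRadical_of_isSolvable_normalClosure h1
  have hradn : (solvableRadical ↥Γ).Normal := H67.solvableRadical_normal Γ
  set W : Subgroup G := (solvableRadical ↥Γ).map Γ.subtype ⊓ Y with hW
  have hWY : Y ≤ normalizer (W : Set G) := by
    apply le_normalizer_inf _ le_normalizer
    rw [le_normalizer_iff]
    rintro g hg _ ⟨x, hx, rfl⟩
    exact ⟨⟨g, hYΓ hg⟩ * x * ⟨g, hYΓ hg⟩⁻¹, hradn.conj_mem x hx _, rfl⟩
  have hWn : (W.subgroupOf Y).Normal := normal_subgroupOf_of_le hWY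
  have hWs : Group.IsSolvable (W.subgroupOf Y) := by
    haveI := H67.solvableRadical_isSolvable Γ
    have h3 : Group.IsSolvable ↥((solvableRadical ↥Γ).map Γ.subtype) :=
      Group.isSolvable_of_surjective (Γ.subtype.subgroupMap_surjective _)
    have h4 : Group.IsSolvable ↥W :=
      Group.isSolvable_of_isSolvable_injective (Subgroup.inclusion_injective (inf_le_left : W ≤ _))
    exact Group.isSolvable_of_isSolvable_injective
      (f := (Subgroup.subgroupOfEquivOfLe (inf_le_right : W ≤ Y)).toMonoidHom) (MulEquiv.injective _)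
  have h5 := H67.le_solvableRadical hWn hWs
  have h6 : ⁅y, ρ⁆ ∈ W := by
    refine ⟨?_, ?_⟩
    · refine ⟨⁅(⟨y, hYΓ hy⟩ : Γ), ⟨ρ, hρΓ⟩⁆, ?_, rfl⟩
      rw [commutatorElement_def]
      have := hradn.conj_mem _ h2 (⟨y, hYΓ hy⟩ : Γ)
      exact (solvableRadical ↥Γ).mul_mem this ((solvableRadical ↥Γ).inv_mem h2)
    · rw [commutatorElement_def]
      have := Y.mul_mem hy (hY.conj_mem _ (Y.inv_mem hy) ρ)
      simpa [mul_assoc] using this
  exact ⟨⟨⁅y, ρ⁆, h6.2⟩, h5 h6, rfl⟩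

namespace Iso

variable {S P R Y : Subgroup G}

theorem dvd_card (h : Iso p S P R Y) (hO : pCoreOf p Y = ⊥) (hs : ¬ Group.IsSolvable Y) :
    p ∣ Nat.card Y := by
  by_contra hp
  have hY := h.normal_Y
  have hcop : (Nat.card S).Coprime (Nat.card Y) := by
    obtain ⟨a, ha⟩ := IsPGroup.iff_card.mp h.isPGroup
    rw [ha]
    exact Nat.Coprime.pow_left _ ((Nat.Prime.coprime_iff_not_dvd Fact.out).mpr hp)
  have hsS : Group.IsSolvable S := by
    have := h.isPGroup.isNilpotent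
    infer_instance
  have hex : ∀ q : ℕ, q.Prime → ∃ Q : Sylow q Y, S ≤ normalizer ((Q : Subgroup Y).map Y.subtype : Set G) := by
    intro q hq
    haveI : Fact q.Prime := ⟨hq⟩
    exact Cop.exists_invariant_sylow le_normalizer_of_normal hcop (Or.inl hsS) q
  have hd : ∀ (q : ℕ) (hq : q.Prime) (Q : Sylow q Y), S ≤ normalizer ((Q : Subgroup Y).map Y.subtype : Set G) →
      pRes p P ≤ (Q : Subgroup Y).map Y.subtype ∨ ⁅(Q : Subgroup Y).map Y.subtype, R⁆ = ⊥ := by
    intro q hq Q hQ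
    rcases h.dich hQ with h1 | ⟨-, h1⟩
    · exact Or.inl h1
    · right
      rw [eq_bot_iff]
      refine h1.trans ?_
      have h2 : Nat.card ↥(pCoreOf p ((Q : Subgroup Y).map Y.subtype)) ∣ Nat.card Y :=
        Subgroup.card_dvd_of_le ((pCoreOf_le _ _).trans (Subgroup.map_subtype_le _))
      obtain ⟨k, hk⟩ := IsPGroup.iff_card.mp (pCoreOf_isPGroup p ((Q : Subgroup Y).map Y.subtype))
      rw [hk] at h2
      have hk0 : k = 0 := by
        by_contra hk0
        exact hp ((dvd_pow_self p hk0).trans h2)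
      rw [hk0, pow_zero] at hk
      rw [Subgroup.card_eq_one.mp hk]
  -- the prime r
  obtain ⟨r, hr, hrq⟩ : ∃ r : ℕ, r.Prime ∧ ∀ q : ℕ, q.Prime → q ≠ r →
      ∃ Q : Sylow q Y, ⁅(Q : Subgroup Y).map Y.subtype, R⁆ = ⊥ := by
    by_cases hc : ∃ r : ℕ, r.Prime ∧ ∃ Q : Sylow r Y, pRes p P ≤ (Q : Subgroup Y).map Y.subtype
    · obtain ⟨r, hr, Q₀, hQ₀⟩ := hc
      refine ⟨r, hr, ?_⟩
      intro q hq hqr
      obtain ⟨Q, hQ⟩ := hex q hq
      refine ⟨Q, ?_⟩
      rcases hd q hq Q hQ with h1 | h1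
      · exfalso
        apply h.pRes_ne_bot
        haveI : Fact r.Prime := ⟨hr⟩
        haveI : Fact q.Prime := ⟨hq⟩
        exact FStar.eq_bot_of_isPGroup_of_isPGroup hqr ((Q₀.2.map _).to_le hQ₀) ((Q.2.map _).to_le h1)
      · exact h1
    · push Not at hc
      refine ⟨2, Nat.prime_two, ?_⟩
      intro q hq _
      obtain ⟨Q, hQ⟩ := hex q hq
      refine ⟨Q, (hd q hq Q hQ).resolve_left (hc q hq Q)⟩
  apply hs
  have h1 : Y ≤ (solvableRadical ↥Y).map Y.subtype := by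
    have h2 : ⁅Y, R⁆ ≤ (solvableRadical ↥Y).map Y.subtype := by
      rw [Subgroup.commutator_le]
      intro y hy ρ hρ
      apply kaz2 Y ρ hr _ hy
      intro q hq hqr
      obtain ⟨Q, hQ⟩ := hrq q hq hqr
      refine ⟨Q, ?_⟩
      rw [Subgroup.commutator_eq_bot_iff_le_centralizer] at hQ
      exact hQ.trans (centralizer_le (Set.singleton_subset_iff.mpr hρ))
    rwa [h.commutator_eq hO] at h2
  haveI := H67.solvableRadical_isSolvable ↥Y
  have h3 : Group.IsSolvable ↥((solvableRadical ↥Y).map Y.subtype) :=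
    Group.isSolvable_of_surjective (Y.subtype.subgroupMap_surjective _)
  exact Group.isSolvable_of_isSolvable_injective (Subgroup.inclusion_injective h1)

end Iso

end Cfsg.Agent.H55
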