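import Cfsg.Agent.H55.Iso6

set_option autoImplicit false
open Cfsg Subgroup Cfsg.Agent.H47
open scoped commutatorElement

namespace Cfsg.Agent.H55

universe u

variable {G : Type u} [Group G] [Finite G] {p : ℕ} [Fact p.Prime]

namespace Iso

variable {S P R Y : Subgroup G}

theorem layer_eq_top (h : Iso p S P R Y) (hO : pCoreOf p Y = ⊥) (hs : ¬ Group.IsSolvable Y) :
    Cfsg.layer ↥Y = ⊤ := by
  have hY := h.normal_Y
  set E := (Cfsg.layer ↥Y).map Y.subtype with hE
  have hEn : E.Normal := inferInstance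
  have htop : ∀ A : Subgroup Y, A.map Y.subtype = Y → A = ⊤ := by
    intro A hA
    apply Subgroup.map_injective Y.subtype_injective
    rw [hA, ← MonoidHom.range_eq_map, Subgroup.range_subtype]
  rcases h.dichN hO hEn (Subgroup.map_subtype_le _) with h1 | ⟨h1, -⟩
  · exact htop _ h1
  · exfalso
    have h2 : Cfsg.layer ↥Y = ⊥ := by
      rw [← FStar.commutator_layer, eq_bot_iff]
      rw [← Subgroup.map_le_map_iff_of_injective Y.subtype_injective, Subgroup.map_commutator, Subgroup.map_bot]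
      rw [← h1]
      exact Subgroup.commutator_mono le_rfl (Subgroup.map_subtype_le _)
    have h3 := FStar.centralizer_generalizedFitting_le (G := ↥Y)
    rw [generalizedFittingSubgroup, h2, bot_sup_eq] at h3
    have hnil := Solv.fitting_isNilpotent (G := ↥Y)
    have hcon : fittingSubgroup ↥Y = ⊤ → False := by
      intro h4
      apply hs
      haveI : Group.IsNilpotent ↥(⊤ : Subgroup ↥Y) := by rw [← h4]; exact hnil
      have h5 : Group.IsSolvable ↥(⊤ : Subgroup ↥Y) := inferInstance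
      exact Group.isSolvable_of_surjective (f := (Subgroup.topEquiv (G := ↥Y)).toMonoidHom)
        (MulEquiv.surjective _)
    rcases h.dichN hO (N := (fittingSubgroup ↥Y).map Y.subtype) inferInstance (Subgroup.map_subtype_le _) with h4 | ⟨h4, -⟩
    · exact hcon (htop _ h4)
    · apply hcon
      rw [eq_top_iff]
      refine le_trans ?_ h3
      intro y _
      rw [FStar.commutator_eq_bot_iff_forall] at h4
      rw [mem_centralizer_iff]
      intro x hx
      exact Subtype.ext (h4 x ⟨x, hx, rfl⟩ y y.2)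

theorem Y_eq_sSup (h : Iso p S P R Y) (hO : pCoreOf p Y = ⊥) (hs : ¬ Group.IsSolvable Y) :
    Y = sSup {L : Subgroup G | Cfsg.IsComponent L ∧ L ≤ Y} := by
  have hY := h.normal_Y
  rw [← FStar.map_layer_subtype hY.isSubnormal, h.layer_eq_top hO hs, ← MonoidHom.range_eq_map,
    Subgroup.range_subtype]

theorem le_iff_of_components (h : Iso p S P R Y) (hO : pCoreOf p Y = ⊥) (hs : ¬ Group.IsSolvable Y)
    {T : Subgroup G} (hT : ∀ K : Subgroup G, Cfsg.IsComponent K → K ≤ Y → K ≤ T) : Y ≤ T := by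
  have h1 := h.Y_eq_sSup hO hs
  calc Y = sSup {L : Subgroup G | Cfsg.IsComponent L ∧ L ≤ Y} := h1
    _ ≤ T := sSup_le fun L hL => hT L hL.1 hL.2

theorem Y_le_normalizer (h : Iso p S P R Y) (hO : pCoreOf p Y = ⊥) (hs : ¬ Group.IsSolvable Y)
    {K : Subgroup G} (hK : Cfsg.IsComponent K) : Y ≤ normalizer (K : Set G) :=
  h.le_iff_of_components hO hs fun L hL _ => (FStar.component_le_layer hL).trans (FStar.layer_le_normalizer hK)

theorem orb_le_Y (h : Iso p S P R Y) {K : Subgroup G} (hK : K ≤ Y) : FStar.orb S K ≤ Y := by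
  have hY := h.normal_Y
  rw [FStar.orb_le_iff]
  rintro s - _ ⟨x, hx, rfl⟩
  exact hY.conj_mem x (hK hx) s

theorem Y_le_normalizer_orb (h : Iso p S P R Y) (hO : pCoreOf p Y = ⊥) (hs : ¬ Group.IsSolvable Y)
    {K : Subgroup G} (hK : Cfsg.IsComponent K) : Y ≤ normalizer (FStar.orb S K : Set G) := by
  intro g hg
  apply H21.mem_normalizer_of_map_conj_le
  rw [Subgroup.map_le_iff_le_comap, FStar.orb_le_iff]
  intro y hy
  rw [← Subgroup.map_le_iff_le_comap]
  have h1 := h.Y_le_normalizer hO hs ((FStar.isComponent_conj y).2 hK) hg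
  rw [H21.mem_normalizer_iff_map_conj] at h1
  rw [h1]
  exact FStar.le_orb hy

theorem dich_orb (h : Iso p S P R Y) (hO : pCoreOf p Y = ⊥) (hs : ¬ Group.IsSolvable Y)
    {K : Subgroup G} (hK : Cfsg.IsComponent K) (hKY : K ≤ Y) :
    pRes p P ≤ FStar.orb S K ∨ ⁅FStar.orb S K, R⁆ = ⊥ := by
  rcases h.dich (FStar.le_normalizer_orb S K) with h1 | ⟨-, h1⟩
  · exact Or.inl h1
  · right
    rw [eq_bot_iff]
    refine h1.trans ?_
    rw [← hO]
    apply le_pCoreOf ((pCoreOf_le _ _).trans (h.orb_le_Y hKY)) _ (pCoreOf_isPGroup _ _)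
    exact le_normalizer_pCoreOf_of_le (h.Y_le_normalizer_orb hO hs hK)

/-- if `K₂` is not `S`-conjugate to `K₁` then it commutes with the orbit product of `K₁`. -/
theorem commute_orb {K₁ K₂ : Subgroup G} (hK₁ : Cfsg.IsComponent K₁) (hK₂ : Cfsg.IsComponent K₂)
    (hne : ∀ s ∈ S, K₂ ≠ K₁.map (MulAut.conj s).toMonoidHom) : K₂ ≤ centralizer (FStar.orb S K₁ : Set G) := by
  rw [← Subgroup.commutator_eq_bot_iff_le_centralizer, Subgroup.commutator_comm,
    Subgroup.commutator_eq_bot_iff_le_centralizer, FStar.orb_le_iff]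
  intro s hs
  rw [← Subgroup.commutator_eq_bot_iff_le_centralizer, Subgroup.commutator_comm]
  exact FStar.component_commute hK₂ ((FStar.isComponent_conj s).2 hK₁) (hne s hs)

theorem exists_orbit (h : Iso p S P R Y) (hO : pCoreOf p Y = ⊥) (hs : ¬ Group.IsSolvable Y) :
    ∃ K₀ : Subgroup G, Cfsg.IsComponent K₀ ∧ K₀ ≤ Y ∧ ∀ K : Subgroup G, Cfsg.IsComponent K → K ≤ Y →
      ∃ s ∈ S, K = K₀.map (MulAut.conj s).toMonoidHom := by
  have hY := h.normal_Y
  -- one orbit contains `O^p(P)`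
  have hex : ∃ K₀ : Subgroup G, Cfsg.IsComponent K₀ ∧ K₀ ≤ Y ∧ pRes p P ≤ FStar.orb S K₀ := by
    by_contra hcon
    push Not at hcon
    apply h.not_commute
    rw [Subgroup.commutator_eq_bot_iff_le_centralizer]
    apply h.le_iff_of_components hO hs
    intro K hK hKY
    rw [← Subgroup.commutator_eq_bot_iff_le_centralizer, eq_bot_iff]
    have h1 := (h.dich_orb hO hs hK hKY).resolve_left (hcon K hK hKY)
    rw [← h1]
    exact Subgroup.commutator_mono (FStar.self_le_orb S K) le_rfl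
  obtain ⟨K₀, hK₀, hK₀Y, hP⟩ := hex
  refine ⟨K₀, hK₀, hK₀Y, ?_⟩
  set M := FStar.orb S K₀ with hM
  -- other components are centralised by `R`
  have hcent : ∀ K : Subgroup G, Cfsg.IsComponent K → K ≤ Y →
      (∀ s ∈ S, K ≠ K₀.map (MulAut.conj s).toMonoidHom) → K ≤ centralizer (R : Set G) := by
    intro K hK hKY hne
    rcases h.dich_orb hO hs hK hKY with h1 | h1
    · exfalso
      have hne' : ∀ L : Subgroup G, Cfsg.IsComponent L → L ≤ Y →
          L ≤ centralizer ((M ⊓ FStar.orb S K : Subgroup G) : Set G) := by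
        intro L hL hLY
        by_cases hL0 : ∀ s ∈ S, L ≠ K₀.map (MulAut.conj s).toMonoidHom
        · refine (commute_orb hK₀ hL hL0).trans (centralizer_le ?_)
          exact fun x hx => hx.1
        · push Not at hL0
          obtain ⟨s, hs1, hs2⟩ := hL0
          refine (commute_orb (S := S) hK hL ?_).trans (centralizer_le ?_)
          · intro t ht hLt
            apply hne (t⁻¹ * s) (mul_mem (inv_mem ht) hs1)
            rw [H21.map_conj_mul, ← hs2, hLt, ← H21.map_conj_mul, inv_mul_cancel, H21.map_conj_one]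
          · exact fun x hx => hx.2
      have h2 := h.le_iff_of_components hO hs hne'
      have h3 : pRes p P ≤ centralizer (Y : Set G) := by
        refine (le_inf hP h1).trans ?_
        rw [← Subgroup.commutator_eq_bot_iff_le_centralizer, Subgroup.commutator_comm,
          Subgroup.commutator_eq_bot_iff_le_centralizer]
        exact h2
      have h4 : Y ≤ centralizer (Y : Set G) := h.le_of_normal inferInstance h3
      apply FStar.commutator_self_ne_bot hK₀.2
      rw [Subgroup.commutator_eq_bot_iff_le_centralizer]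
      exact (hK₀Y.trans h4).trans (centralizer_le hK₀Y)
    · rw [← Subgroup.commutator_eq_bot_iff_le_centralizer, eq_bot_iff, ← h1]
      exact Subgroup.commutator_mono (FStar.self_le_orb S K) le_rfl
  -- `Y = M (Y ∩ C(R))`
  have hMY : M ≤ Y := h.orb_le_Y hK₀Y
  have h5 : Y ≤ M ⊔ (Y ⊓ centralizer (R : Set G)) := by
    apply h.le_iff_of_components hO hs
    intro K hK hKY
    by_cases hK0 : ∀ s ∈ S, K ≠ K₀.map (MulAut.conj s).toMonoidHom
    · exact (le_inf hKY (hcent K hK hKY hK0)).trans le_sup_right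
    · push Not at hK0
      obtain ⟨s, hs1, hs2⟩ := hK0
      rw [hs2]
      exact (FStar.le_orb hs1).trans le_sup_left
  have h6 : Y ≤ M := by
    rw [← h.commutator_eq hO]
    rw [Subgroup.commutator_le]
    intro y hy r hr
    have hy' := h5 hy
    rw [sup_comm] at hy'
    have hnn : Y ⊓ centralizer (R : Set G) ≤ normalizer (M : Set G) :=
      inf_le_left.trans (h.Y_le_normalizer_orb hO hs hK₀)
    obtain ⟨m, hm, c, hc, rfl⟩ := (mem_sup_of_le_normalizer' (A := Y ⊓ centralizer (R : Set G)) (B := M) hnn).mp hy'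
    have h7 : r * c = c * r := mem_centralizer_iff.mp hc.2 r hr
    have h8 : r ∈ normalizer (M : Set G) := FStar.le_normalizer_orb S K₀ (h.hRS hr)
    have h9 : r * m⁻¹ * r⁻¹ ∈ M := (mem_normalizer_iff.mp h8 _).mp (M.inv_mem hm)
    have h10 : ⁅m * c, r⁆ = m * (r * m⁻¹ * r⁻¹) := by
      rw [commutatorElement_def]
      calc m * c * r * (m * c)⁻¹ * r⁻¹ = m * (c * r) * c⁻¹ * m⁻¹ * r⁻¹ := by group
        _ = m * (r * m⁻¹ * r⁻¹) := by rw [← h7]; group
    rw [h10]
    exact M.mul_mem hm h9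
  intro K hK hKY
  by_contra hcon
  push Not at hcon
  have h7 := commute_orb (S := S) hK₀ hK hcon
  apply FStar.commutator_self_ne_bot hK.2
  rw [Subgroup.commutator_eq_bot_iff_le_centralizer]
  exact h7.trans (centralizer_le (hKY.trans h6))

theorem trans (h : Iso p S P R Y) (hO : pCoreOf p Y = ⊥) (hs : ¬ Group.IsSolvable Y)
    {K₁ K₂ : Subgroup G} (hK₁ : Cfsg.IsComponent K₁) (hK₁Y : K₁ ≤ Y) (hK₂ : Cfsg.IsComponent K₂) (hK₂Y : K₂ ≤ Y) :
    ∃ s ∈ S, K₂ = K₁.map (MulAut.conj s).toMonoidHom := by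
  obtain ⟨K₀, -, -, hK⟩ := h.exists_orbit hO hs
  obtain ⟨s, hs1, hs2⟩ := hK K₁ hK₁ hK₁Y
  obtain ⟨t, ht1, ht2⟩ := hK K₂ hK₂ hK₂Y
  refine ⟨t * s⁻¹, mul_mem ht1 (inv_mem hs1), ?_⟩
  rw [hs2, ← H21.map_conj_mul, inv_mul_cancel_right, ht2]

end Iso

end Cfsg.Agent.H55
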