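import Cfsg.Agent.H55.Iso7

set_option autoImplicit false
open Cfsg Subgroup Cfsg.Agent.H47
open scoped commutatorElement

namespace Cfsg.Agent.H55

universe u

variable {G : Type u} [Group G] [Finite G] {p : ℕ} [Fact p.Prime]

omit [Finite G] [Fact p.Prime] in
theorem comap_conj_map {Q : Subgroup G} [Q.Normal] (K : Subgroup (G ⧸ Q)) (s : G) :
    (K.map (MulAut.conj (QuotientGroup.mk' Q s)).toMonoidHom).comap (QuotientGroup.mk' Q) =
      (K.comap (QuotientGroup.mk' Q)).map (MulAut.conj s).toMonoidHom := by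
  ext x
  rw [Subgroup.mem_comap, H21.mem_map_conj, H21.mem_map_conj, Subgroup.mem_comap]
  simp only [map_mul, map_inv]

omit [Finite G] [Fact p.Prime] in
theorem comap_map_equiv {Y Q : Subgroup G} [Q.Normal] [(pCore p ↥Y).Normal] (hQY : Q ≤ Y)
    (e : (↥Y ⧸ pCore p ↥Y) ≃* ↥(Y.map (QuotientGroup.mk' Q)))
    (he : ∀ y : Y, (e (QuotientGroup.mk y) : G ⧸ Q) = QuotientGroup.mk' Q (y : G))
    (K : Subgroup (↥Y ⧸ pCore p ↥Y)) :
    (K.comap (QuotientGroup.mk' (pCore p ↥Y))).map Y.subtype =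
      ((K.map e.toMonoidHom).map (Y.map (QuotientGroup.mk' Q)).subtype).comap (QuotientGroup.mk' Q) := by
  ext x
  constructor
  · rintro ⟨y, hy, rfl⟩
    refine ⟨e (QuotientGroup.mk y), ⟨_, hy, rfl⟩, he y⟩
  · rintro ⟨_, ⟨k, hk, rfl⟩, hx⟩
    obtain ⟨y, rfl⟩ := QuotientGroup.mk_surjective k
    have h1 : QuotientGroup.mk' Q (y : G) = QuotientGroup.mk' Q x := by
      rw [← he y]; exact hx
    have h2 : (y : G)⁻¹ * x ∈ Q := QuotientGroup.eq.mp h1
    have h3 : x ∈ Y := by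
      have := Y.mul_mem y.2 (hQY h2)
      simpa using this
    refine ⟨⟨x, h3⟩, ?_, rfl⟩
    have h4 : (QuotientGroup.mk (⟨x, h3⟩ : Y) : ↥Y ⧸ pCore p ↥Y) = QuotientGroup.mk y := by
      apply e.injective
      apply Subtype.ext
      rw [he, he, h1]
    change (QuotientGroup.mk (⟨x, h3⟩ : Y) : ↥Y ⧸ pCore p ↥Y) ∈ K
    rw [h4]
    exact hk

/-- the third clause -/
theorem Iso.final {S P R Y : Subgroup G} (h : Iso p S P R Y) (hQR : pCoreOf p Y ≤ R) :
    pRes p P = Y ∨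
     ∃ _ : (Cfsg.pCore p ↥Y).Normal,
       p ∣ Nat.card (↥Y ⧸ Cfsg.pCore p ↥Y) ∧ Cfsg.layer (↥Y ⧸ Cfsg.pCore p ↥Y) = ⊤ ∧
       ∀ K₁ K₂ : Subgroup (↥Y ⧸ Cfsg.pCore p ↥Y), Cfsg.IsComponent K₁ → Cfsg.IsComponent K₂ →
         ∃ s ∈ S, ((K₂.comap (QuotientGroup.mk' (Cfsg.pCore p ↥Y))).map Y.subtype) = (((K₁.comap (QuotientGroup.mk' (Cfsg.pCore p ↥Y))).map Y.subtype)).map (MulAut.conj s).toMonoidHom := by
  have hYn := h.normal_Y
  have hQn : (pCoreOf p Y).Normal := h.normal_pCoreOf p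
  have hcn : (Cfsg.pCore p ↥Y).Normal := H47.pCore_normal p Y
  have hker : (QuotientGroup.mk' (pCoreOf p Y)).ker = pCoreOf p Y := QuotientGroup.ker_mk' _
  have hI' := h.map (QuotientGroup.mk' (pCoreOf p Y)) (QuotientGroup.mk'_surjective _)
    (by rw [hker]; exact hQR)
  have hO : pCoreOf p (Y.map (QuotientGroup.mk' (pCoreOf p Y))) = ⊥ := H55.pCoreOf_map_eq_bot rfl
  by_cases hs' : Group.IsSolvable ↥(Y.map (QuotientGroup.mk' (pCoreOf p Y)))
  · left
    exact h.eq_of_quot rfl hQR (hI'.eq_pRes hO hs')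
  · right
    obtain ⟨e, he⟩ := H55.exists_quotEquiv (Y := Y) (Q := pCoreOf p Y) (p := p) rfl
    have hYn' := hI'.normal_Y
    refine ⟨hcn, ?_, ?_, ?_⟩
    · rw [Nat.card_congr e.toEquiv]
      exact hI'.dvd_card hO hs'
    · have h1 := FStar.map_layer e.symm
      rw [hI'.layer_eq_top hO hs'] at h1
      rw [← h1, ← MonoidHom.range_eq_map, MonoidHom.range_eq_top]
      exact e.symm.surjective
    · intro K₁ K₂ hK₁ hK₂
      have hK₁' : Cfsg.IsComponent ((K₁.map e.toMonoidHom).map (Y.map (QuotientGroup.mk' (pCoreOf p Y))).subtype) :=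
        (FStar.isComponent_map_subtype_iff hYn'.isSubnormal _).2 ((FStar.isComponent_map_equiv e).2 hK₁)
      have hK₂' : Cfsg.IsComponent ((K₂.map e.toMonoidHom).map (Y.map (QuotientGroup.mk' (pCoreOf p Y))).subtype) :=
        (FStar.isComponent_map_subtype_iff hYn'.isSubnormal _).2 ((FStar.isComponent_map_equiv e).2 hK₂)
      obtain ⟨s, ⟨s, hs, rfl⟩, h2⟩ := hI'.trans hO hs' hK₁' (Subgroup.map_subtype_le _) hK₂' (Subgroup.map_subtype_le _)
      refine ⟨s, hs, ?_⟩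
      rw [comap_map_equiv (pCoreOf_le p Y) e he K₂, comap_map_equiv (pCoreOf_le p Y) e he K₁, h2, comap_conj_map]

theorem Y_sup_L (S : Sylow p G) (P L Y : Subgroup G) (hSP : (S : Subgroup G) ≤ P)
    (hL : L = Subgroup.normalizer ((S : Subgroup G) : Set G) ⊔ ⨆ P' : {P' : Subgroup G // (S : Subgroup G) ≤ P' ∧ Cfsg.IsPMinimal p ↥P' ∧ P' ≠ P}, (P' : Subgroup G))
    (hY : pRes p P ≤ Y) : Y ⊔ L = ⊤ := by
  have hNL : normalizer ((S : Subgroup G) : Set G) ≤ L := by rw [hL]; exact le_sup_left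
  rw [eq_top_iff]
  refine le_of_pmin S _ _ ⊤ le_rfl le_top ((inf_le_right.trans hNL).trans le_sup_right) ?_
  intro P' h1 _ h3
  by_cases h4 : P' = P
  · rw [h4, ← (sylIn_of_sylow S hSP).pRes_sup]
    exact sup_le_sup hY (le_normalizer.trans hNL)
  · refine le_trans ?_ le_sup_right
    rw [hL]
    exact (le_iSup (fun P' : {P' : Subgroup G // (S : Subgroup G) ≤ P' ∧ Cfsg.IsPMinimal p ↥P' ∧ P' ≠ P} =>
      (P' : Subgroup G)) ⟨P', h1, h3, h4⟩).trans le_sup_right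

end Cfsg.Agent.H55
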