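import Cfsg.Agent.H55.L33X2

set_option autoImplicit false
set_option maxHeartbeats 1000000
set_option linter.unusedSectionVars false

/-!
Simple groups of order 5616: a part of the character table.
-/

namespace Cfsg.Agent.H55.L33

open scoped ComplexConjugate BigOperators
open Cfsg Cfsg.Agent.CharBase Cfsg.Agent.Char
open Cfsg.Agent.SuzDeg

universe u

theorem peel {ι : Type*} [DecidableEq ι] (S : Finset ι) (f : ι → ℤ) (n : ℕ) (hn : n ≤ 2) (h : ∑ i ∈ S, f i ^ 2 = (n : ℤ) + 1) :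
    ∃ a ∈ S, (f a = 1 ∨ f a = -1) ∧ ∑ i ∈ S.erase a, f i ^ 2 = (n : ℤ) := by
  have h1 : ∃ a ∈ S, f a ≠ 0 := by
    by_contra hcon
    push Not at hcon
    rw [Finset.sum_eq_zero (fun i hi => by rw [hcon i hi]; norm_num)] at h
    omega
  obtain ⟨a, ha, hfa⟩ := h1
  have h2 := Finset.add_sum_erase S (fun i => f i ^ 2) ha
  have h3 : 0 ≤ ∑ i ∈ S.erase a, f i ^ 2 := Finset.sum_nonneg fun i _ => sq_nonneg _
  have h4 : f a ^ 2 ≤ 3 := by
    have : (n : ℤ) ≤ 2 := by exact_mod_cast hn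
    linarith
  have h5 : -2 < f a := by nlinarith
  have h6 : f a < 2 := by nlinarith
  have h7 : f a = 1 ∨ f a = -1 := by omega
  refine ⟨a, ha, h7, ?_⟩
  have h8 : f a ^ 2 = 1 := by rcases h7 with h | h <;> rw [h] <;> norm_num
  rw [h8, h] at h2
  linarith

theorem all_zero {ι : Type*} (S : Finset ι) (f : ι → ℤ) (h : ∑ i ∈ S, f i ^ 2 = 0) : ∀ i ∈ S, f i = 0 := by
  intro i hi
  have := (Finset.sum_eq_zero_iff_of_nonneg (fun i _ => sq_nonneg (f i))).1 h i hi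
  exact pow_eq_zero_iff (two_ne_zero) |>.1 this

theorem deg_pos_case : ∀ d : ℕ, d < 75 → d ∣ 5616 → (13 : ℤ) ∣ (d : ℤ) - 1 → d = 1 ∨ d = 27 := by decide +kernel

theorem deg_neg_case : ∀ d : ℕ, d < 75 → d ∣ 5616 → (13 : ℤ) ∣ (d : ℤ) - (-1) → d = 12 := by decide +kernel

theorem exc_pos_case : ∀ d : ℕ, d < 38 → d ∣ 5616 → (13 : ℤ) ∣ (d : ℤ) - 3 → d = 3 ∨ d = 16 := by decide +kernel

theorem exc_neg_case : ∀ d : ℕ, d < 38 → d ∣ 5616 → (13 : ℤ) ∣ (d : ℤ) + 3 → d = 36 := by decide +kernel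

theorem exc_case {d : ℕ} {ε : ℤ} (hε : ε = 1 ∨ ε = -1) (h1 : d < 38) (h2 : d ∣ 5616) (h3 : (13 : ℤ) ∣ (d : ℤ) - 0 - ε * (3 : ℕ)) :
    (ε = 1 ∧ (d = 3 ∨ d = 16)) ∨ (ε = -1 ∧ d = 36) := by
  rcases hε with rfl | rfl
  · left
    refine ⟨rfl, exc_pos_case d h1 h2 ?_⟩
    have : (d : ℤ) - 0 - 1 * ((3 : ℕ) : ℤ) = (d : ℤ) - 3 := by push_cast; ring
    rwa [this] at h3
  · right
    refine ⟨rfl, exc_neg_case d h1 h2 ?_⟩
    have : (d : ℤ) - 0 - (-1) * ((3 : ℕ) : ℤ) = (d : ℤ) + 3 := by push_cast; ring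
    rwa [this] at h3

/-- `ce = 0` -/
theorem ce_zero {Q ce ε d : ℤ} (hε : ε = 1 ∨ ε = -1) (hQ : 1 ≤ Q) (h : Q + 4 * ce ^ 2 - 2 * ε * ce = 3)
    (hsum : Q = 1 → 1 + 4 * ce * d = ε * d) : ce = 0 := by
  by_contra hne
  have h1 : ce ≤ 1 := by
    rcases hε with rfl | rfl <;> nlinarith [sq_nonneg (ce - 1), sq_nonneg (ce + 1)]
  have h2 : -1 ≤ ce := by
    rcases hε with rfl | rfl <;> nlinarith [sq_nonneg (ce - 1), sq_nonneg (ce + 1)]
  have h3 : ce = 1 ∨ ce = -1 := by omega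
  rcases hε with rfl | rfl <;> rcases h3 with rfl | rfl
  · have := hsum (by linarith)
    omega
  · norm_num at h; omega
  · norm_num at h; omega
  · have := hsum (by linarith)
    omega

variable {G : Type*} [Group G] [Fintype G] [IsSimpleGroup G]

/-- the structure of the characters at the elements of order 13 -/
theorem pre (hG : Nat.card G = 5616) [Fintype (IrrCharacter G)] [DecidableEq (IrrCharacter G)] :
    ∃ (T : Subgroup G) (E : Finset (IrrCharacter G)) (χ ψ : IrrCharacter G), Nat.card T = 13 ∧ ST T 3 ∧ E.card = 4 ∧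
      oneIrr G ∉ E ∧ χ ∉ E ∧ ψ ∉ E ∧ χ ≠ oneIrr G ∧ ψ ≠ oneIrr G ∧ χ ≠ ψ ∧ dg χ = 12 ∧ dg ψ = 27 ∧ (∀ ζ ∈ E, dg ζ = 16) ∧
      (∀ ζ ∈ E, ¬ ∃ s : ℤ, ∀ y ∈ T, y ≠ 1 → (ζ : G → ℂ) y = s) ∧
      (∀ y ∈ T, y ≠ 1 → (χ : G → ℂ) y = -1) ∧ (∀ y ∈ T, y ≠ 1 → (ψ : G → ℂ) y = 1) ∧
      (∀ ζ ∉ E, ζ ≠ oneIrr G → ζ ≠ χ → ζ ≠ ψ → ∀ y ∈ T, y ≠ 1 → (ζ : G → ℂ) y = 0) := by
  have hna := not_comm hG
  obtain ⟨T, hTc, hT⟩ := st13 hG
  obtain ⟨E, ε, ce, c, d, hε, hcE, hEd, hnd, hEdvd, hEc, hsq, hone, hsum, hconst⟩ := hT.main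
  rw [hTc] at hnd hEdvd hEc
  have hE4 : E.card = 4 := by push_cast at hEc; omega
  have h1E : oneIrr G ∉ E := hone (by omega)
  rw [hE4] at hsq
  obtain ⟨x, hxT, hx1⟩ : ∃ y ∈ T, y ≠ 1 := by
    have : Nontrivial T := by
      rw [← Finite.one_lt_card_iff_nontrivial, hTc]
      norm_num
    obtain ⟨y, hy⟩ := exists_ne (1 : T)
    exact ⟨y, y.2, fun h => hy (Subtype.ext h)⟩
  have hc1 : c (oneIrr G) = 1 := by
    have h := hcE _ h1E x hxT hx1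
    rw [oneIrr_apply] at h
    exact_mod_cast h.symm
  set F := Finset.univ.filter (· ∉ E) with hF
  have h1F : oneIrr G ∈ F := by rw [hF, Finset.mem_filter]; exact ⟨Finset.mem_univ _, h1E⟩
  have hEF : ∀ f : IrrCharacter G → ℤ, ∑ ζ, f ζ = ∑ ζ ∈ F, f ζ + ∑ ζ ∈ E, f ζ := by
    intro f
    rw [← Finset.sum_filter_add_sum_filter_not Finset.univ (· ∉ E)]
    congr 1
    have : Finset.univ.filter (fun ζ => ¬ ζ ∉ E) = E := by ext ζ; simp
    rw [this]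
  have hQ1 : (1 : ℤ) ≤ ∑ ζ ∈ F, c ζ ^ 2 := by
    have h := Finset.single_le_sum (f := fun ζ => c ζ ^ 2) (fun ζ _ => sq_nonneg (c ζ)) h1F
    simp only [hc1] at h
    linarith
  have hEsum : ∑ ζ ∈ E, c ζ * dg ζ = 4 * ce * d := by
    rw [Finset.sum_congr rfl (fun ζ hζ => by rw [(hEd ζ hζ).1, (hEd ζ hζ).2]), Finset.sum_const, hE4, nsmul_eq_mul]
    push_cast; ring
  have hce : ce = 0 := by
    refine ce_zero (Q := ∑ ζ ∈ F, c ζ ^ 2) (d := d) hε hQ1 (by push_cast at hsq; linarith) ?_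
    intro hQ
    have h2 := Finset.add_sum_erase F (fun ζ => c ζ ^ 2) h1F
    simp only [hc1, one_pow, hQ] at h2
    have h3 := all_zero (F.erase (oneIrr G)) c (by linarith)
    rw [hEF, hEsum, ← Finset.add_sum_erase F (fun ζ => c ζ * dg ζ) h1F, hc1, dg_one,
      Finset.sum_eq_zero (fun ζ hζ => by rw [h3 ζ hζ, zero_mul])] at hsum
    push_cast at hsum
    linarith
  subst hce
  have hQ : ∑ ζ ∈ F, c ζ ^ 2 = 3 := by push_cast at hsq; linarith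
  have hQ2 : ∑ ζ ∈ F.erase (oneIrr G), c ζ ^ 2 = ((1 : ℕ) : ℤ) + 1 := by
    have h2 := Finset.add_sum_erase F (fun ζ => c ζ ^ 2) h1F
    simp only [hc1, one_pow, hQ] at h2
    push_cast
    linarith
  obtain ⟨a, ha, hca, hQ3⟩ := peel _ c 1 (by norm_num) hQ2
  have hQ3' : ∑ i ∈ (F.erase (oneIrr G)).erase a, c i ^ 2 = ((0 : ℕ) : ℤ) + 1 := by rw [hQ3]; norm_num
  obtain ⟨b, hb, hcb, hQ4⟩ := peel _ c 0 (by norm_num) hQ3'
  have hz := all_zero _ c (by rw [hQ4]; rfl)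
  have ha1 : a ≠ oneIrr G := Finset.ne_of_mem_erase ha
  have haE : a ∉ E := (Finset.mem_filter.1 (Finset.mem_of_mem_erase ha)).2
  have hba : b ≠ a := Finset.ne_of_mem_erase hb
  have hb' := Finset.mem_of_mem_erase hb
  have hb1 : b ≠ oneIrr G := Finset.ne_of_mem_erase hb'
  have hbE : b ∉ E := (Finset.mem_filter.1 (Finset.mem_of_mem_erase hb')).2
  have hzero : ∀ ζ ∉ E, ζ ≠ oneIrr G → ζ ≠ a → ζ ≠ b → c ζ = 0 := by
    intro ζ h1 h2 h3 h4
    apply hz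
    rw [Finset.mem_erase, Finset.mem_erase, Finset.mem_erase, hF, Finset.mem_filter]
    exact ⟨h4, h3, h2, Finset.mem_univ _, h1⟩
  have hs : (1 : ℤ) + (c a * dg a + c b * dg b) = ε * d := by
    rw [hEF, hEsum, ← Finset.add_sum_erase F (fun ζ => c ζ * dg ζ) h1F, ← Finset.add_sum_erase _ (fun ζ => c ζ * dg ζ) ha,
      ← Finset.add_sum_erase _ (fun ζ => c ζ * dg ζ) hb, hc1, dg_one,
      Finset.sum_eq_zero (fun ζ hζ => by rw [hz ζ hζ, zero_mul])] at hsum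
    push_cast at hsum
    linarith
  -- bounds for the degrees
  have hdsq := sum_dg_sq (G := G)
  rw [hG] at hdsq
  have hdlt : ∀ ζ : IrrCharacter G, dg ζ < 75 := by
    intro ζ
    have h := Finset.single_le_sum (f := fun ζ : IrrCharacter G => (dg ζ : ℤ) ^ 2) (fun ζ _ => sq_nonneg _) (Finset.mem_univ ζ)
    rw [hdsq] at h
    push_cast at h
    have h' : dg ζ ^ 2 ≤ 5616 := by exact_mod_cast h
    nlinarith
  have hddvd : ∀ ζ : IrrCharacter G, dg ζ ∣ 5616 := by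
    intro ζ
    rw [← hG]
    exact dg_dvd ζ
  have hcase : ∀ ζ : IrrCharacter G, ζ ∉ E → ζ ≠ oneIrr G → (c ζ = 1 ∨ c ζ = -1) → (c ζ = 1 ∧ dg ζ = 27) ∨ (c ζ = -1 ∧ dg ζ = 12) := by
    intro ζ h1 h2 h3
    have h4 := hnd ζ h1
    rcases h3 with h3 | h3
    · left
      rw [h3] at h4
      refine ⟨h3, (deg_pos_case _ (hdlt ζ) (hddvd ζ) (by exact_mod_cast h4)).resolve_left (deg_ne_one hna h2)⟩
    · right
      rw [h3] at h4
      exact ⟨h3, deg_neg_case _ (hdlt ζ) (hddvd ζ) (by exact_mod_cast h4)⟩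
  obtain ⟨e, heE⟩ : ∃ e, e ∈ E := by
    have : E.Nonempty := by rw [← Finset.card_pos]; omega
    exact this
  have hed := (hEd e heE).2
  have hd38 : d < 38 := by
    have h1 : ∑ ζ ∈ E, (dg ζ : ℤ) ^ 2 ≤ ∑ ζ, (dg ζ : ℤ) ^ 2 :=
      Finset.sum_le_sum_of_subset_of_nonneg (Finset.subset_univ _) (fun ζ _ _ => sq_nonneg _)
    rw [hdsq, Finset.sum_congr rfl (fun ζ hζ => by rw [(hEd ζ hζ).2]), Finset.sum_const, hE4, nsmul_eq_mul] at h1
    push_cast at h1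
    have h' : 4 * d ^ 2 ≤ 5616 := by exact_mod_cast h1
    nlinarith
  have hexc := exc_case hε hd38 (by rw [← hed]; exact hddvd e) (by
    have := hEdvd e heE
    rw [hed] at this
    exact_mod_cast this)
  have hAcase := hcase a haE ha1 hca
  have hBcase := hcase b hbE hb1 hcb
  have hfin : d = 16 ∧ ((c a = 1 ∧ dg a = 27 ∧ c b = -1 ∧ dg b = 12) ∨ (c a = -1 ∧ dg a = 12 ∧ c b = 1 ∧ dg b = 27)) := by
    rcases hAcase with ⟨h1, h2⟩ | ⟨h1, h2⟩ <;> rcases hBcase with ⟨h3, h4⟩ | ⟨h3, h4⟩ <;>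
      rw [h1, h2, h3, h4] at hs <;> rcases hexc with ⟨h5, h6⟩ | ⟨h5, h6⟩ <;> rw [h5] at hs <;> push_cast at hs
    · exfalso; rcases h6 with h6 | h6 <;> rw [h6] at hs <;> norm_num at hs
    · exfalso; rw [h6] at hs; norm_num at hs
    · rcases h6 with h6 | h6
      · exfalso; rw [h6] at hs; norm_num at hs
      · exact ⟨h6, Or.inl ⟨h1, h2, h3, h4⟩⟩
    · exfalso; rw [h6] at hs; norm_num at hs
    · rcases h6 with h6 | h6
      · exfalso; rw [h6] at hs; norm_num at hs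
      · exact ⟨h6, Or.inr ⟨h1, h2, h3, h4⟩⟩
    · exfalso; rw [h6] at hs; norm_num at hs
    · exfalso; rcases h6 with h6 | h6 <;> rw [h6] at hs <;> norm_num at hs
    · exfalso; rw [h6] at hs; norm_num at hs
  obtain ⟨hd16, hab⟩ := hfin
  have hval : ∀ ζ ∉ E, ∀ k : ℤ, c ζ = k → ∀ y ∈ T, y ≠ 1 → (ζ : G → ℂ) y = k := by
    intro ζ h1 k hk y hy hy1
    rw [hcE ζ h1 y hy hy1, hk]
  have hnon : ∀ ζ ∈ E, ¬ ∃ s : ℤ, ∀ y ∈ T, y ≠ 1 → (ζ : G → ℂ) y = s := by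
    rintro ζ hζ ⟨s, hs'⟩
    have := hconst ζ hζ s hs'
    omega
  rcases hab with ⟨h1, h2, h3, h4⟩ | ⟨h1, h2, h3, h4⟩
  · refine ⟨T, E, b, a, hTc, hT, hE4, h1E, hbE, haE, hb1, ha1, hba, h4, h2, fun ζ hζ => by rw [(hEd ζ hζ).2, hd16], hnon, ?_, ?_, ?_⟩
    · intro y hy hy1; rw [hval b hbE _ h3 y hy hy1]; norm_num
    · intro y hy hy1; rw [hval a haE _ h1 y hy hy1]; norm_num
    · intro ζ e1 e2 e3 e4 y hy hy1; rw [hval ζ e1 _ (hzero ζ e1 e2 e4 e3) y hy hy1]; norm_num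
  · refine ⟨T, E, a, b, hTc, hT, hE4, h1E, haE, hbE, ha1, hb1, hba.symm, h2, h4, fun ζ hζ => by rw [(hEd ζ hζ).2, hd16], hnon, ?_, ?_, ?_⟩
    · intro y hy hy1; rw [hval a haE _ h1 y hy hy1]; norm_num
    · intro y hy hy1; rw [hval b hbE _ h3 y hy hy1]; norm_num
    · intro ζ e1 e2 e3 e4 y hy hy1; rw [hval ζ e1 _ (hzero ζ e1 e2 e3 e4) y hy hy1]; norm_num

theorem class_const {G : Type*} [Group G] [Finite G] [Fintype (IrrCharacter G)] (a b c : G) :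
    (Nat.card G : ℂ) * ∑ χ : IrrCharacter G, (χ : G → ℂ) a * (χ : G → ℂ) b * conj ((χ : G → ℂ) c) / (χ : G → ℂ) 1 =
      (Nat.card {p : G × G // IsConj a p.1 ∧ IsConj b p.2 ∧ p.1 * p.2 = c} : ℂ) *
        (Nat.card (Subgroup.centralizer ({a} : Set G)) : ℂ) * (Nat.card (Subgroup.centralizer ({b} : Set G)) : ℂ) := by
  have h := H14.ClassMul.card_mul_eq a b c
  have ha := card_isConj_mul_card_centralizer a
  have hb := card_isConj_mul_card_centralizer b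
  have hg : (Nat.card G : ℂ) ≠ 0 := by exact_mod_cast Nat.card_pos.ne'
  have ha' : (Nat.card {x : G // IsConj a x} : ℂ) * (Nat.card (Subgroup.centralizer ({a} : Set G)) : ℂ) = Nat.card G := by
    exact_mod_cast ha
  have hb' : (Nat.card {x : G // IsConj b x} : ℂ) * (Nat.card (Subgroup.centralizer ({b} : Set G)) : ℂ) = Nat.card G := by
    exact_mod_cast hb
  rw [h]
  set S := ∑ χ : IrrCharacter G, (χ : G → ℂ) a * (χ : G → ℂ) b * conj ((χ : G → ℂ) c) / (χ : G → ℂ) 1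
  set x := (Nat.card {x : G // IsConj a x} : ℂ)
  set y := (Nat.card {x : G // IsConj b x} : ℂ)
  set p := (Nat.card (Subgroup.centralizer ({a} : Set G)) : ℂ)
  set q := (Nat.card (Subgroup.centralizer ({b} : Set G)) : ℂ)
  have : x * y / (Nat.card G : ℂ) * S * p * q = (x * p) * (y * q) / (Nat.card G : ℂ) * S := by ring
  rw [this, ha', hb']
  field_simp

theorem data (hG : Nat.card G = 5616) : ∃ χ ψ θ : IrrCharacter G, (χ : G → ℂ) 1 = 12 ∧ (ψ : G → ℂ) 1 = 27 ∧ (θ : G → ℂ) 1 = 16 ∧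
    (∀ g : G, orderOf g ≠ 13 → (ψ : G → ℂ) g = (χ : G → ℂ) g - 1 + (θ : G → ℂ) g) ∧
    (∀ g : G, orderOf g ≠ 13 → 1 + ‖(χ : G → ℂ) g‖ ^ 2 + ‖(ψ : G → ℂ) g‖ ^ 2 + 4 * ‖(θ : G → ℂ) g‖ ^ 2 ≤ (Nat.card (Subgroup.centralizer ({g} : Set G)) : ℝ)) ∧
    (∀ g : G, 3 ∣ orderOf g → (ψ : G → ℂ) g = 0) ∧ (∀ g : G, 2 ∣ orderOf g → (θ : G → ℂ) g = 0) ∧
    ∀ g h : G, g ≠ 1 → h ≠ 1 → orderOf g ≠ 13 → orderOf h ≠ 13 → ∃ n : ℕ,
      (13 * n : ℂ) * Nat.card (Subgroup.centralizer ({g} : Set G)) * Nat.card (Subgroup.centralizer ({h} : Set G)) =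
        5616 * (1 - (χ : G → ℂ) g * (χ : G → ℂ) h / 12 + (ψ : G → ℂ) g * (ψ : G → ℂ) h / 27 - (θ : G → ℂ) g * (θ : G → ℂ) h / 16) := by
  classical
  have : Fintype (IrrCharacter G) := Fintype.ofFinite _
  have hp13 : Fact (Nat.Prime 13) := ⟨by norm_num⟩
  obtain ⟨T, E, χ, ψ, hTc, hT, hE4, h1E, hχE, hψE, hχ1, hψ1, hχψ, dχ, dψ, dE, hnon, vχ, vψ, vz⟩ := pre hG
  obtain ⟨x, hxT, hx1⟩ : ∃ y ∈ T, y ≠ 1 := by
    have : Nontrivial T := by
      rw [← Finite.one_lt_card_iff_nontrivial, hTc]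
      norm_num
    obtain ⟨y, hy⟩ := exists_ne (1 : T)
    exact ⟨y, y.2, fun h => hy (Subtype.ext h)⟩
  have hx13 : orderOf x = 13 := H17.orderOf_eq_of_mem_of_card_prime hTc hxT hx1
  -- the splitting of a sum
  have hsplit : ∀ f : IrrCharacter G → ℂ, ∑ ζ, f ζ * conj ((ζ : G → ℂ) x) = f (oneIrr G) - f χ + f ψ + ∑ ζ ∈ E, f ζ * conj ((ζ : G → ℂ) x) := by
    intro f
    have h1 : ∀ A B : Finset (IrrCharacter G), Disjoint A B → (∀ ζ, ζ ∉ A → ζ ∉ B → f ζ * conj ((ζ : G → ℂ) x) = 0) →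
        ∑ ζ, f ζ * conj ((ζ : G → ℂ) x) = ∑ ζ ∈ A, f ζ * conj ((ζ : G → ℂ) x) + ∑ ζ ∈ B, f ζ * conj ((ζ : G → ℂ) x) := by
      intro A B hAB hz
      rw [← Finset.sum_union hAB]
      symm
      apply Finset.sum_subset (Finset.subset_univ _)
      intro ζ _ hζ
      rw [Finset.mem_union, not_or] at hζ
      exact hz ζ hζ.1 hζ.2
    rw [h1 {oneIrr G, χ, ψ} E ?_ ?_]
    · congr 1
      rw [Finset.sum_insert (by simp [hχ1.symm, hψ1.symm]), Finset.sum_insert (by simp [hχψ]), Finset.sum_singleton, oneIrr_apply,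
        vχ x hxT hx1, vψ x hxT hx1]
      simp
      ring
    · rw [Finset.disjoint_left]
      intro ζ hζ
      simp only [Finset.mem_insert, Finset.mem_singleton] at hζ
      rcases hζ with rfl | rfl | rfl
      · exact h1E
      · exact hχE
      · exact hψE
    · intro ζ h2 h3
      simp only [Finset.mem_insert, Finset.mem_singleton, not_or] at h2
      rw [vz ζ h3 h2.1 h2.2.1 h2.2.2 x hxT hx1]
      simp
  have hnc : ∀ g : G, orderOf g ≠ 13 → ¬ IsConj g x := by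
    intro g hg h
    obtain ⟨t, ht⟩ := isConj_iff.1 h
    apply hg
    rw [← hx13, ← ht]
    exact (MulEquiv.orderOf_eq (MulAut.conj t) g).symm
  have hS : ∑ ζ ∈ E, conj ((ζ : G → ℂ) x) = -1 := by
    have h1 := column_orthogonality_of_not_isConj (hnc 1 (by rw [orderOf_one]; norm_num))
    rw [hsplit (fun ζ => (ζ : G → ℂ) 1)] at h1
    simp only [dg_spec, dχ, dψ, dg_one] at h1
    rw [Finset.sum_congr rfl (fun ζ hζ => by rw [dE ζ hζ]), ← Finset.mul_sum] at h1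
    push_cast at h1
    linear_combination h1 / 16
  obtain ⟨θ, hθ⟩ : ∃ e, e ∈ E := by
    have : E.Nonempty := by rw [← Finset.card_pos]; omega
    exact this
  have hag : ∀ g : G, orderOf g ≠ 13 → ∀ ζ ∈ E, (ζ : G → ℂ) g = (θ : G → ℂ) g := by
    intro g hg ζ hζ
    by_cases hg1 : g = 1
    · rw [hg1, dg_spec, dg_spec, dE ζ hζ, dE θ hθ]
    · refine agree hT ?_ (hnon ζ hζ) (hnon θ hθ)
      intro t ht
      have h1 : t⁻¹ * g * t ≠ 1 := by
        intro h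
        apply hg1
        calc g = t * (t⁻¹ * g * t) * t⁻¹ := by group
          _ = 1 := by rw [h]; group
      have h2 := H17.orderOf_eq_of_mem_of_card_prime hTc ht h1
      apply hg
      rw [← h2]
      have h3 := MulEquiv.orderOf_eq (MulAut.conj t⁻¹) g
      rw [MulAut.conj_apply, inv_inv] at h3
      exact h3.symm
  refine ⟨χ, ψ, θ, by rw [dg_spec, dχ]; norm_num, by rw [dg_spec, dψ]; norm_num, by rw [dg_spec, dE θ hθ]; norm_num, ?_, ?_, ?_, ?_, ?_⟩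
  · intro g hg
    have h1 := column_orthogonality_of_not_isConj (hnc g hg)
    rw [hsplit (fun ζ => (ζ : G → ℂ) g)] at h1
    rw [Finset.sum_congr rfl (fun ζ hζ => by rw [hag g hg ζ hζ]), ← Finset.mul_sum, hS, oneIrr_apply] at h1
    linear_combination h1
  · intro g hg
    rw [← SuzDeg.sum_norm_sq g]
    have h1 : ∑ ζ ∈ ({oneIrr G, χ, ψ} : Finset (IrrCharacter G)) ∪ E, ‖(ζ : G → ℂ) g‖ ^ 2 ≤ ∑ ζ : IrrCharacter G, ‖(ζ : G → ℂ) g‖ ^ 2 :=
      Finset.sum_le_sum_of_subset_of_nonneg (Finset.subset_univ _) (fun ζ _ _ => by positivity)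
    rw [Finset.sum_union, Finset.sum_insert (by simp [hχ1.symm, hψ1.symm]), Finset.sum_insert (by simp [hχψ]), Finset.sum_singleton,
      oneIrr_apply, Finset.sum_congr rfl (fun ζ hζ => by rw [hag g hg ζ hζ]), Finset.sum_const, hE4, nsmul_eq_mul] at h1
    · simp only [norm_one, one_pow] at h1
      push_cast at h1
      linarith
    · rw [Finset.disjoint_left]
      intro ζ hζ
      simp only [Finset.mem_insert, Finset.mem_singleton] at hζ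
      rcases hζ with rfl | rfl | rfl
      · exact h1E
      · exact hχE
      · exact hψE
  · intro g hg
    exact Char.DZ.eq_zero_of_defect_zero 3 3 (by norm_num) (by rw [hG]; norm_num) ψ.2 (dg_spec ψ) (by rw [dψ]; norm_num) g hg
  · intro g hg
    exact Char.DZ.eq_zero_of_defect_zero 2 4 (by norm_num) (by rw [hG]; norm_num) θ.2 (dg_spec θ) (by rw [dE θ hθ]; norm_num) g hg
  · intro g h hg1 hh1 hg hh
    obtain ⟨n, hn⟩ := dvd_pairs hTc (fun y hy hy1 => hT.cent y hy hy1) hxT hx1 hg1 hg (h := h)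
    refine ⟨n, ?_⟩
    have h1 := class_const g h x
    rw [hn, hG] at h1
    have h2 : ∑ ζ : IrrCharacter G, (ζ : G → ℂ) g * (ζ : G → ℂ) h * conj ((ζ : G → ℂ) x) / (ζ : G → ℂ) 1 =
        ∑ ζ : IrrCharacter G, ((ζ : G → ℂ) g * (ζ : G → ℂ) h / (ζ : G → ℂ) 1) * conj ((ζ : G → ℂ) x) :=
      Finset.sum_congr rfl fun ζ _ => by ring
    rw [h2, hsplit (fun ζ => (ζ : G → ℂ) g * (ζ : G → ℂ) h / (ζ : G → ℂ) 1)] at h1
    simp only [dg_spec, dχ, dψ, dg_one, oneIrr_apply] at h1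
    rw [Finset.sum_congr rfl (fun ζ hζ => by rw [dE ζ hζ, hag g hg ζ hζ, hag h hh ζ hζ]), ← Finset.mul_sum, hS] at h1
    push_cast at h1
    linear_combination -h1

end Cfsg.Agent.H55.L33
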