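import Cfsg.Agent.SuzDeg.Tor
import Cfsg.Agent.H14.ClassMul
import Cfsg.Agent.Char.DefectZero

set_option autoImplicit false
set_option maxHeartbeats 1000000
set_option linter.unusedSectionVars false

/-!
Exceptional characters of a self-centralizing abelian subgroup agree outside the conjugates of the
subgroup; the case of a self-centralizing element of order 13 with normalizer of order 39.
-/

namespace Cfsg.Agent.H55.L33

open scoped ComplexConjugate BigOperators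
open Cfsg Cfsg.Agent.CharBase Cfsg.Agent.Char
open Cfsg.Agent.SuzDeg Cfsg.Agent.SuzDeg.Exc Cfsg.Agent.H74 Cfsg.Agent.H74.TIData

universe u

variable {G : Type u} [Group G]

/-- a character nonconstant on `T \ 1` is exceptional -/
theorem agree [Finite G] {T : Subgroup G} {w : ℕ} (hT : ST T w) {g : G} (hg : ∀ x : G, x⁻¹ * g * x ∉ T)
    {χ χ' : IrrCharacter G} (h : ¬ ∃ s : ℤ, ∀ y ∈ T, y ≠ 1 → (χ : G → ℂ) y = s)
    (h' : ¬ ∃ s : ℤ, ∀ y ∈ T, y ≠ 1 → (χ' : G → ℂ) y = s) : (χ : G → ℂ) g = (χ' : G → ℂ) g := by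
  classical
  cases nonempty_fintype G
  have : Fintype hT.data.C := Fintype.ofFinite _
  have : Fintype hT.data.N := Fintype.ofFinite _
  have : Fintype (IrrCharacter hT.data.C) := Fintype.ofFinite _
  have : Fintype {θ : IrrCharacter hT.data.C // θ ≠ oneIrr hT.data.C} := Fintype.ofFinite _
  have hne : ∃ θ : IrrCharacter hT.data.C, θ ≠ oneIrr hT.data.C := exists_ne_one hT.one_lt
  obtain ⟨n, ε, μ, κ, hε, hμ, hκs, hκ, hDf⟩ := exists_data hT.full hne
  obtain ⟨θ1, hθ1⟩ := hne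
  have key : ∀ ζ : IrrCharacter G, (¬ ∃ s : ℤ, ∀ y ∈ T, y ≠ 1 → (ζ : G → ℂ) y = s) → ∃ i, μ i = ζ := by
    intro ζ hζ
    by_contra hn
    push Not at hn
    apply hζ
    have K1 : ∀ θ : {θ : IrrCharacter hT.data.C // θ ≠ oneIrr hT.data.C},
        (hT.data.mu ζ θ.1 : ℤ) = hT.data.mu ζ θ1 := by
      intro θ
      have h1 := hT.data.classInner_Df_irr θ.1 θ1 ζ
      have h2 := hDf θ ⟨θ1, hθ1⟩
      simp only at h2
      rw [h2, classInner_smul_left, classInner_sub_left, classInner_irr_of_ne (hn _), classInner_irr_of_ne (hn _),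
        sub_self, mul_zero] at h1
      have h3 : ((0 : ℤ) : ℂ) = (((hT.data.mu ζ θ.1 : ℤ) - hT.data.mu ζ θ1 : ℤ) : ℂ) := by
        rw [← h1]; simp
      have h4 : (0 : ℤ) = (hT.data.mu ζ θ.1 : ℤ) - hT.data.mu ζ θ1 := by exact_mod_cast h3
      linarith
    refine ⟨(hT.data.mu ζ (oneIrr hT.data.C) : ℤ) - hT.data.mu ζ θ1, fun y hy hy1 => ?_⟩
    have hy1' : (⟨y, hy⟩ : hT.data.C) ≠ 1 := fun h => hy1 (congrArg Subtype.val h)
    have h0 := hT.data.restrict_eq_sum ζ ⟨y, hy⟩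
    have h0' : (ζ : G → ℂ) y = (ζ : G → ℂ) ((⟨y, hy⟩ : hT.data.C) : G) := rfl
    rw [h0', h0, sum_split hT.full]
    have h2 : ∀ θ : {θ : IrrCharacter hT.data.C // θ ≠ oneIrr hT.data.C},
        (hT.data.mu ζ θ.1 : ℂ) * (θ.1 : hT.data.C → ℂ) ⟨y, hy⟩ = (hT.data.mu ζ θ1 : ℂ) * (θ.1 : hT.data.C → ℂ) ⟨y, hy⟩ := by
      intro θ
      have := K1 θ
      have h3 : (hT.data.mu ζ θ.1 : ℂ) = hT.data.mu ζ θ1 := by exact_mod_cast this
      rw [h3]
    rw [Finset.sum_congr rfl (fun θ _ => h2 θ), ← Finset.mul_sum]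
    have h3 := sum_degree_mul (G := hT.data.C) ⟨y, hy⟩
    rw [if_neg hy1', sum_split hT.full] at h3
    simp only [deg_one hT.full, one_mul, oneIrr_apply] at h3
    have h4 : ∑ θ : {θ : IrrCharacter hT.data.C // θ ≠ oneIrr hT.data.C}, (θ.1 : hT.data.C → ℂ) ⟨y, hy⟩ = -1 := by
      linear_combination h3
    rw [h4, oneIrr_apply]
    push_cast
    ring
  obtain ⟨i, rfl⟩ := key χ h
  obtain ⟨j, rfl⟩ := key χ' h'
  obtain ⟨θ, rfl⟩ := hκs i
  obtain ⟨θ', rfl⟩ := hκs j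
  have h1 := congrFun (hDf θ θ') g
  have h2 : hT.data.Df θ.1 θ'.1 g = 0 := by
    unfold TIData.Df indFun
    rw [Finset.sum_eq_zero, mul_zero]
    intro x _
    exact extendByZero_of_notMem _ _ (hg x)
  rw [h2] at h1
  simp only [Pi.smul_apply, Pi.sub_apply, smul_eq_mul] at h1
  have hε0 : (ε : ℂ) ≠ 0 := by rcases hε with h | h <;> rw [h] <;> norm_num
  have h3 := (mul_eq_zero.1 h1.symm).resolve_left hε0
  exact sub_eq_zero.1 h3

end Cfsg.Agent.H55.L33
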