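import Cfsg.Agent.H55.L33X1
import Cfsg.Agent.S1001
import Cfsg.Agent.H17.Basic
import Cfsg.Agent.H17.SelfCent
import Cfsg.Agent.H79.LinChar

set_option autoImplicit false
set_option maxHeartbeats 1000000
set_option linter.unusedSectionVars false

/-!
Simple groups of order 5616: the Sylow 13-subgroup.
-/

namespace Cfsg.Agent.H55.L33

open scoped ComplexConjugate BigOperators
open Cfsg Cfsg.Agent.CharBase Cfsg.Agent.Char
open Cfsg.Agent.SuzDeg

universe u

variable {G : Type u} [Group G]

theorem not_comm [Finite G] [IsSimpleGroup G] (hG : Nat.card G = 5616) : ¬ IsMulCommutative G := by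
  apply H17.not_comm_of_not_prime
  rw [hG]; norm_num

theorem st13 [Finite G] [IsSimpleGroup G] (hG : Nat.card G = 5616) :
    ∃ T : Subgroup G, Nat.card T = 13 ∧ ST T 3 := by
  classical
  have h13 : Fact (Nat.Prime 13) := ⟨by norm_num⟩
  obtain ⟨P⟩ : Nonempty (Sylow 13 G) := inferInstance
  have hPc : Nat.card (P : Subgroup G) = 13 := by
    have h1 := P.card_eq_multiplicity
    rw [hG] at h1
    rw [h1]
    have : Nat.factorization 5616 13 = 1 := by
      have h2 : (5616 : ℕ) = 13 * 432 := by norm_num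
      rw [h2, Nat.factorization_mul (by norm_num) (by norm_num), Finsupp.add_apply,
        Nat.Prime.factorization_self (by norm_num), Nat.factorization_eq_zero_of_not_dvd (by norm_num)]
    rw [this, pow_one]
  set T : Subgroup G := (P : Subgroup G) with hTdef
  have hz : ∀ y ∈ T, y ≠ 1 → orderOf y = 13 ∧ Subgroup.zpowers y = T := by
    intro y hy hy1
    exact ⟨H17.orderOf_eq_of_mem_of_card_prime hPc hy hy1, H17.zpowers_eq_of_mem_of_card_prime hPc hy hy1⟩
  have hcent : ∀ y ∈ T, y ≠ 1 → Subgroup.centralizer ({y} : Set G) = T := by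
    intro y hy hy1
    rw [← (hz y hy hy1).2]
    exact Cfsg.Agent.S1001.result 13 3 4 (by norm_num) (by rw [hG]; norm_num) y (hz y hy hy1).1
  have hnt : ∃ y ∈ T, y ≠ 1 := by
    have : Nontrivial T := by
      rw [← Finite.one_lt_card_iff_nontrivial, hPc]
      norm_num
    obtain ⟨y, hy⟩ := exists_ne (1 : T)
    exact ⟨y, y.2, fun h => hy (Subtype.ext h)⟩
  obtain ⟨x, hxT, hx1⟩ := hnt
  obtain ⟨hx13, hxz⟩ := hz x hxT hx1
  have hxc : Subgroup.centralizer ({x} : Set G) = Subgroup.zpowers x := by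
    rw [hcent x hxT hx1, hxz]
  refine ⟨T, hPc, ?_, hcent, ?_, by rw [hPc]; norm_num⟩
  · intro a ha b hb
    by_cases hb1 : b = 1
    · rw [hb1, mul_one, one_mul]
    · have h1 : a ∈ Subgroup.centralizer ({b} : Set G) := by rw [hcent b hb hb1]; exact ha
      exact Subgroup.mem_centralizer_singleton_iff.1 h1
  · have h1 := H17.card_mul_classes hx13 hxc
    have h2 := H17.classes_dvd hx13 hxc
    set t := Nat.card {c : ConjClasses G // ∃ g : G, ConjClasses.mk g = c ∧ orderOf g = 13}
    have h3 : Nat.card (Sylow 13 G) ≡ 1 [MOD 13] := card_sylow_modEq_one 13 G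
    have h4 := H17.card_normalizer_mul P
    rw [hG] at h1 h4
    have h5 : Nat.card (Sylow 13 G) = 36 * t := by omega
    rw [h5] at h3 h4
    have h6 : t ≤ 12 := Nat.le_of_dvd (by norm_num) h2
    have h7 : t = 4 := by
      unfold Nat.ModEq at h3
      omega
    rw [h7] at h4
    change Nat.card (Subgroup.normalizer ((P : Subgroup G) : Set G)) = 3 * Nat.card T
    rw [hPc]
    omega

theorem deg_ne_one [Finite G] [IsSimpleGroup G] (hna : ¬ IsMulCommutative G) {χ : IrrCharacter G} (hχ : χ ≠ oneIrr G) : dg χ ≠ 1 := by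
  intro h
  have h1 : (χ : G → ℂ) 1 = 1 := by rw [dg_spec, h]; norm_num
  exact H79.commutator_ne_top_of_linear (irr_isCharacter χ) h1 (fun h2 => hχ (Subtype.ext h2)) (H17.commutator_eq_top hna)

/-- the number of pairs of conjugates with product `x` is divisible by the order of `x` if `x` is self-centralizing
of prime order -/
theorem dvd_pairs [Finite G] {p : ℕ} [hp : Fact p.Prime] {T : Subgroup G} (hTc : Nat.card T = p)
    (hcent : ∀ y ∈ T, y ≠ 1 → Subgroup.centralizer ({y} : Set G) = T) {x : G} (hxT : x ∈ T) (hx1 : x ≠ 1)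
    {g h : G} (hg1 : g ≠ 1) (hg : orderOf g ≠ p) :
    p ∣ Nat.card {q : G × G // IsConj g q.1 ∧ IsConj h q.2 ∧ q.1 * q.2 = x} := by
  classical
  let X := {q : G × G // IsConj g q.1 ∧ IsConj h q.2 ∧ q.1 * q.2 = x}
  have hcomm : ∀ t ∈ T, t * x = x * t := by
    intro t ht
    have h1 : t ∈ Subgroup.centralizer ({x} : Set G) := by rw [hcent x hxT hx1]; exact ht
    exact Subgroup.mem_centralizer_singleton_iff.1 h1
  have hconj : ∀ (a b t : G), IsConj a b → IsConj a (t * b * t⁻¹) := by
    intro a b t hab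
    exact hab.trans (isConj_iff.2 ⟨t, rfl⟩)
  letI act : MulAction T X :=
    { smul := fun t q => ⟨((t : G) * q.1.1 * (t : G)⁻¹, (t : G) * q.1.2 * (t : G)⁻¹), hconj _ _ _ q.2.1, hconj _ _ _ q.2.2.1, by
        have h1 := q.2.2.2
        have h2 := hcomm t t.2
        calc (t : G) * q.1.1 * (t : G)⁻¹ * ((t : G) * q.1.2 * (t : G)⁻¹) = (t : G) * (q.1.1 * q.1.2) * (t : G)⁻¹ := by group
          _ = x := by rw [h1, h2]; group⟩
      one_smul := fun q => by
        apply Subtype.ext
        apply Prod.ext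
        · change ((1 : T) : G) * q.1.1 * ((1 : T) : G)⁻¹ = q.1.1
          simp
        · change ((1 : T) : G) * q.1.2 * ((1 : T) : G)⁻¹ = q.1.2
          simp
      mul_smul := fun s t q => by
        apply Subtype.ext
        apply Prod.ext
        · change ((s * t : T) : G) * q.1.1 * ((s * t : T) : G)⁻¹ = (s : G) * ((t : G) * q.1.1 * (t : G)⁻¹) * (s : G)⁻¹
          rw [Subgroup.coe_mul]; group
        · change ((s * t : T) : G) * q.1.2 * ((s * t : T) : G)⁻¹ = (s : G) * ((t : G) * q.1.2 * (t : G)⁻¹) * (s : G)⁻¹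
          rw [Subgroup.coe_mul]; group }
  have hpg : IsPGroup p T := IsPGroup.of_card (n := 1) (by rw [hTc, pow_one])
  have hfin : Finite X := Subtype.finite
  have h1 := hpg.card_modEq_card_fixedPoints X
  have h2 : Nat.card (MulAction.fixedPoints T X) = 0 := by
    rw [Nat.card_eq_zero]
    left
    constructor
    rintro ⟨q, hq⟩
    have h3 := hq ⟨x, hxT⟩
    have h4 : x * q.1.1 * x⁻¹ = q.1.1 := congrArg (fun z : X => z.1.1) h3
    have h5 : q.1.1 ∈ T := by
      rw [← hcent x hxT hx1, Subgroup.mem_centralizer_singleton_iff]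
      calc q.1.1 * x = x * q.1.1 * x⁻¹ * x := by rw [h4]
        _ = x * q.1.1 := by group
    obtain ⟨c, hc⟩ := isConj_iff.1 q.2.1
    have h6 : orderOf q.1.1 = orderOf g := by
      rw [← hc]
      exact MulEquiv.orderOf_eq (MulAut.conj c) g
    have h7 : q.1.1 ≠ 1 := by
      intro h7
      rw [h7, orderOf_one] at h6
      exact hg1 (orderOf_eq_one_iff.1 h6.symm)
    exact hg (h6 ▸ H17.orderOf_eq_of_mem_of_card_prime hTc h5 h7)
  rw [h2] at h1
  exact (Nat.modEq_zero_iff_dvd).1 h1

end Cfsg.Agent.H55.L33
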