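import Cfsg.Agent.Stn.AutFin
import Cfsg.Prelude.Def_Spor_Mathieu

/-!
# Identification of `M₂₂` and `M₂₂:2` as automorphism groups of a Steiner system `S(3,6,22)`
-/

set_option autoImplicit false

namespace Cfsg.Agent.H55

open Finset Equiv Cfsg.Agent.Stn
open scoped Pointwise

section
variable {α : Type*} [Fintype α] [DecidableEq α]

/-- the stabiliser of two points as a subgroup of `M24`, and the group `M22` of the definitions -/
noncomputable def m22Equiv :
    ↥(MulAction.stabilizer ↥M24 (none : GolayPt) ⊓ MulAction.stabilizer ↥M24 (some 0 : GolayPt)) ≃* Spor.M22 :=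
  MulEquiv.ofBijective
    ({ toFun := fun σ => ⟨σ.1.1, by
          refine ⟨⟨σ.1.2, ?_⟩, ?_⟩
          · exact (σ.2.1 : σ.1 ∈ MulAction.stabilizer ↥M24 (none : GolayPt))
          · exact (σ.2.2 : σ.1 ∈ MulAction.stabilizer ↥M24 (some 0 : GolayPt))⟩
       map_one' := rfl
       map_mul' := fun a b => rfl } :
      ↥(MulAction.stabilizer ↥M24 (none : GolayPt) ⊓ MulAction.stabilizer ↥M24 (some 0 : GolayPt)) →* Spor.M22)
    (by
      constructor
      · intro a b hab
        have h1 := congrArg (fun x : Spor.M22 => x.1) hab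
        exact Subtype.ext (Subtype.ext h1)
      · intro σ
        refine ⟨⟨⟨σ.1, σ.2.1.1⟩, ?_, ?_⟩, rfl⟩
        · exact σ.2.1.2
        · exact σ.2.2)

theorem exists_m22 (hα : Fintype.card α = 22) {B : Set (Finset α)} (hB : IsSteinerSystem 3 6 B) :
    ∃ H : Subgroup (setSystemAut B), H.index = 2 ∧ Nat.card H = 443520 ∧ IsSimpleGroup H ∧ Nonempty (H ≃* Spor.M22) := by
  obtain ⟨f, h1, h2, h3, -⟩ := aut3 hα hB
  have hout : ∀ x : GolayPt, ¬ (x ≠ none ∧ x ≠ some 0) ↔ x = none ∨ x = some 0 := by
    intro x; tauto
  let H : Subgroup (setSystemAut B) := (Subgroup.comap (Perm.extendDomainHom f) M24).subgroupOf (setSystemAut B)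
  have hcomap : ∀ g, g ∈ Subgroup.comap (Perm.extendDomainHom f) M24 ↔ Perm.extendDomainHom f g ∈ M24 := fun g => Iff.rfl
  have e1 : Subgroup.comap (Perm.extendDomainHom f) M24 ≃* ↥(MulAction.stabilizer ↥M24 (none : GolayPt) ⊓ MulAction.stabilizer ↥M24 (some 0 : GolayPt)) :=
    cmpEquiv f hcomap (fun σ => by
      rw [Subgroup.mem_inf, MulAction.mem_stabilizer_iff, MulAction.mem_stabilizer_iff]
      constructor
      · rintro ⟨ha, hb⟩ x hx
        rcases (hout x).1 hx with rfl | rfl
        · exact ha
        · exact hb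
      · intro h; exact ⟨h none (by simp), h (some 0) (by simp)⟩)
  have e2 : H ≃* Subgroup.comap (Perm.extendDomainHom f) M24 := Subgroup.subgroupOfEquivOfLe (fun g hg => h1 g hg)
  have h22 := isM24_of _ (e2.trans e1) (Cfsg.Agent.Golay.simple_stab2_M24 none (some 0) (by decide)) (Cfsg.Agent.Golay.card_stab2_M24 none (some 0) (by decide))
  refine ⟨H, ?_, h22.2, h22.1, ⟨(e2.trans e1).trans m22Equiv⟩⟩
  have hc := (final3 hα hB).1
  have hmul := H.card_mul_index
  rw [h22.2, hc] at hmul
  omega

end

theorem m22_ident {G Ω : Type*} [Group G] [Finite G] [Fintype Ω] [DecidableEq Ω] [MulAction G Ω] [FaithfulSMul G Ω]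
    (h22 : Fintype.card Ω = 22) (B : Set (Finset Ω)) (hB : Cfsg.IsSteinerSystem 3 6 B)
    (hG : ∀ g : G, ∀ b ∈ B, b.image (g • ·) ∈ B) (hcard : 443520 ≤ Nat.card G) :
    Cfsg.Spor.IsoM22 G ∨ ∃ H : Subgroup G, H.index = 2 ∧ Cfsg.Spor.IsoM22 ↥H := by
  classical
  obtain ⟨H, hHi, hHc, hHs, ⟨eH⟩⟩ := exists_m22 h22 hB
  have hA : Nat.card (setSystemAut B) = 887040 := (final3 h22 hB).1
  -- the homomorphism into the automorphism group
  have hmem : ∀ g : G, MulAction.toPermHom G Ω g ∈ setSystemAut B := by
    intro g
    have key : ∀ g : G, ∀ b ∈ B, (MulAction.toPermHom G Ω g) • b ∈ B := by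
      intro g b hb
      exact hG g b hb
    rw [MulAction.mem_stabilizer_iff]
    apply Set.Subset.antisymm
    · rintro _ ⟨b, hb, rfl⟩
      exact key g b hb
    · intro b hb
      refine ⟨(MulAction.toPermHom G Ω g)⁻¹ • b, ?_, ?_⟩
      · have := key g⁻¹ b hb
        rwa [map_inv] at this
      · exact smul_inv_smul _ _
  let φ : G →* setSystemAut B :=
    { toFun := fun g => ⟨MulAction.toPermHom G Ω g, hmem g⟩
      map_one' := Subtype.ext (map_one _)
      map_mul' := fun a b => Subtype.ext (map_mul _ _ _) }
  have hφ : Function.Injective φ := by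
    intro a b hab
    have := congrArg (fun x : setSystemAut B => x.1) hab
    exact MulAction.toPerm_injective this
  have hRc : Nat.card φ.range = Nat.card G := by
    exact (Nat.card_congr (MonoidHom.ofInjective hφ).toEquiv).symm
  have hdvd : Nat.card G ∣ 887040 := by
    rw [← hRc, ← hA]; exact Subgroup.card_subgroup_dvd_card _
  have hcases : Nat.card G = 443520 ∨ Nat.card G = 887040 := by
    obtain ⟨k, hk⟩ := hdvd
    have hk0 : k ≠ 0 := by rintro rfl; omega
    have hk2 : k ≤ 2 := by
      by_contra hlt
      have : 3 ≤ k := by omega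
      have : 443520 * 3 ≤ Nat.card G * k := Nat.mul_le_mul hcard this
      omega
    interval_cases k
    · exact absurd rfl hk0
    · right; omega
    · left; omega
  rcases hcases with h | h
  · left
    -- range has index 2
    have hidx : φ.range.index = 2 := by
      have := φ.range.card_mul_index
      rw [hRc, h, hA] at this
      omega
    have hN : φ.range.Normal := Subgroup.normal_of_index_eq_two hidx
    have hle : H ≤ φ.range := by
      have hNH : (φ.range.subgroupOf H).Normal := inferInstance
      rcases hHs.eq_bot_or_eq_top_of_normal _ hNH with hb | ht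
      · exfalso
        have h1 : φ.range.relIndex H = 443520 := by
          rw [Subgroup.relIndex, hb, Subgroup.index_bot, hHc]
        have h2 : φ.range.relIndex H ∣ φ.range.index := Subgroup.relIndex_dvd_index_of_normal _ _
        rw [h1, hidx] at h2
        exact absurd (Nat.le_of_dvd (by norm_num) h2) (by norm_num)
      · exact Subgroup.subgroupOf_eq_top.1 ht
    have heq : H = φ.range := by
      apply Subgroup.eq_of_le_of_card_ge hle
      rw [hRc, h, hHc]
    have e : G ≃* H := (MonoidHom.ofInjective hφ).trans (MulEquiv.subgroupCongr heq.symm)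
    exact ⟨e.trans eH⟩
  · right
    have htop : φ.range = ⊤ := by
      apply Subgroup.eq_top_of_card_eq
      rw [hRc, h, hA]
    have hsurj : Function.Surjective φ := MonoidHom.range_eq_top.1 htop
    let e : G ≃* setSystemAut B := MulEquiv.ofBijective φ ⟨hφ, hsurj⟩
    refine ⟨H.comap e.toMonoidHom, ?_, ?_⟩
    · rw [Subgroup.index_comap_of_surjective _ e.surjective, hHi]
    · have e3 : ↥(H.comap e.toMonoidHom) ≃* H := by
        refine MulEquiv.ofBijective (((e.toMonoidHom.comp (H.comap e.toMonoidHom).subtype)).codRestrict H (fun x => x.2)) ⟨?_, ?_⟩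
        · intro a b hab
          have := congrArg (fun x : H => x.1) hab
          exact Subtype.ext (e.injective this)
        · intro y
          refine ⟨⟨e.symm y.1, ?_⟩, ?_⟩
          · rw [Subgroup.mem_comap]
            have : e.toMonoidHom (e.symm y.1) = y.1 := e.apply_symm_apply y.1
            rw [this]; exact y.2
          · apply Subtype.ext
            exact e.apply_symm_apply y.1
      exact ⟨e3.trans eH⟩

end Cfsg.Agent.H55
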