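import Mathlib

set_option autoImplicit false
set_option maxHeartbeats 800000

namespace Cfsg.Agent.H55.Out

universe u

section ML

variable {W : Type u} [CommGroup W]

/-- evaluation of automorphisms as endomorphisms of the additive group -/
def ev : MulAut W →* AddMonoid.End (Additive W) where
  toFun φ := MonoidHom.toAdditive φ.toMonoidHom
  map_one' := by ext x; rfl
  map_mul' φ ψ := by ext x; rfl

theorem ev_apply (φ : MulAut W) (x : Additive W) : ev φ x = Additive.ofMul (φ x.toMul) := rfl

theorem ev_inj {φ ψ : MulAut W} (h : ev φ = ev ψ) : φ = ψ := by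
  ext x
  have := DFunLike.congr_fun h (Additive.ofMul x)
  exact congrArg Additive.toMul this

variable (R : Subgroup (MulAut W)) (hc : ∀ a ∈ R, ∀ b ∈ R, a * b = b * a)
  (hirr : ∀ U : Subgroup W, (∀ r ∈ R, ∀ x ∈ U, r x ∈ U) → U = ⊥ ∨ U = ⊤)

include hc in
theorem ring_comm : ∀ x ∈ (ev '' (R : Set (MulAut W))), ∀ y ∈ (ev '' (R : Set (MulAut W))), x * y = y * x := by
  rintro _ ⟨a, ha, rfl⟩ _ ⟨b, hb, rfl⟩
  rw [← map_mul, ← map_mul, hc a ha b hb]

/-- the ring generated by `R` -/
def E : Subring (AddMonoid.End (Additive W)) := Subring.closure (ev '' (R : Set (MulAut W)))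

theorem mem_E {r : MulAut W} (hr : r ∈ R) : ev r ∈ E R := Subring.subset_closure ⟨r, hr, rfl⟩

include hc in
theorem E_comm {a b : AddMonoid.End (Additive W)} (ha : a ∈ E R) (hb : b ∈ E R) : a * b = b * a := by
  letI := Subring.closureCommRingOfComm (ring_comm R hc)
  have := mul_comm (⟨a, ha⟩ : Subring.closure (ev '' (R : Set (MulAut W)))) ⟨b, hb⟩
  exact congrArg Subtype.val this

/-- an element commuting with `R` commutes with `E` -/
theorem comm_E {y : AddMonoid.End (Additive W)} (hy : ∀ r ∈ R, y * ev r = ev r * y)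
    {a : AddMonoid.End (Additive W)} (ha : a ∈ E R) : y * a = a * y := by
  refine Subring.closure_induction (p := fun a _ => y * a = a * y) ?_ ?_ ?_ ?_ ?_ ?_ ha
  · rintro _ ⟨r, hr, rfl⟩
    exact hy r hr
  · simp
  · simp
  · intro x z _ _ h1 h2
    rw [mul_add, add_mul, h1, h2]
  · intro x _ h1
    have e1 : y * -x = -(y * x) := by
      apply AddMonoidHom.ext
      intro v
      exact map_neg y (x v)
    have e2 : -x * y = -(x * y) := rfl
    rw [e1, e2, h1]
  · intro x z _ _ h1 h2
    rw [← mul_assoc, h1, mul_assoc, h2, mul_assoc]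

include hirr in
/-- the orbit of a nonzero vector under `E` is everything -/
theorem orbit_E {w : Additive W} (hw : w ≠ 0) (v : Additive W) : ∃ a ∈ E R, a w = v := by
  let U : Subgroup W :=
    { carrier := {x | ∃ a ∈ E R, a w = Additive.ofMul x}
      one_mem' := ⟨0, Subring.zero_mem _, rfl⟩
      mul_mem' := by
        rintro x y ⟨a, ha, hax⟩ ⟨b, hb, hby⟩
        refine ⟨a + b, Subring.add_mem _ ha hb, ?_⟩
        change a w + b w = _
        rw [hax, hby]
        rfl
      inv_mem' := by
        rintro x ⟨a, ha, hax⟩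
        refine ⟨-a, Subring.neg_mem _ ha, ?_⟩
        change -(a w) = _
        rw [hax]
        rfl }
  have hU : U = ⊥ ∨ U = ⊤ := by
    apply hirr
    rintro r hr x ⟨a, ha, hax⟩
    refine ⟨ev r * a, Subring.mul_mem _ (mem_E R hr) ha, ?_⟩
    change ev r (a w) = _
    rw [hax]
    rfl
  have hwU : w.toMul ∈ U := ⟨1, Subring.one_mem _, rfl⟩
  rcases hU with h | h
  · rw [h, Subgroup.mem_bot] at hwU
    exact absurd hwU hw
  · have : v.toMul ∈ U := h ▸ Subgroup.mem_top _
    obtain ⟨a, ha, hav⟩ := this
    exact ⟨a, ha, hav⟩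

include hc hirr in
theorem E_inj {a : AddMonoid.End (Additive W)} (ha : a ∈ E R) (ha0 : a ≠ 0) {v : Additive W}
    (hv : a v = 0) : v = 0 := by
  let U : Subgroup W :=
    { carrier := {x | a (Additive.ofMul x) = 0}
      one_mem' := map_zero a
      mul_mem' := by
        intro x y hx hy
        change a (Additive.ofMul x + Additive.ofMul y) = 0
        rw [map_add]
        rw [show a (Additive.ofMul x) = 0 from hx, show a (Additive.ofMul y) = 0 from hy, add_zero]
      inv_mem' := by
        intro x hx
        change a (-(Additive.ofMul x)) = 0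
        rw [map_neg, show a (Additive.ofMul x) = 0 from hx, neg_zero] }
  have hU : U = ⊥ ∨ U = ⊤ := by
    apply hirr
    intro r hr x hx
    change a (ev r (Additive.ofMul x)) = 0
    have h1 : a * ev r = ev r * a := E_comm R hc ha (mem_E R hr)
    have h2 : (a * ev r) (Additive.ofMul x) = (ev r * a) (Additive.ofMul x) := by rw [h1]
    change a (ev r (Additive.ofMul x)) = ev r (a (Additive.ofMul x)) at h2
    rw [h2, show a (Additive.ofMul x) = 0 from hx, map_zero]
  rcases hU with h | h
  · have : v.toMul ∈ U := hv
    rw [h, Subgroup.mem_bot] at this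
    exact this
  · exfalso
    apply ha0
    ext x
    have : (x : Additive W).toMul ∈ U := h ▸ Subgroup.mem_top _
    exact this

include hc hirr in
/-- the centralizer of an abelian irreducible group is abelian -/
theorem cent_comm [Nontrivial W] {y z : MulAut W} (hy : ∀ r ∈ R, y * r = r * y)
    (hz : ∀ r ∈ R, z * r = r * z) : y * z = z * y := by
  obtain ⟨w, hw⟩ := exists_ne (0 : Additive W)
  have hyE : ∀ r ∈ R, ev y * ev r = ev r * ev y := fun r hr => by
    rw [← map_mul, ← map_mul, hy r hr]
  have hzE : ∀ r ∈ R, ev z * ev r = ev r * ev z := fun r hr => by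
    rw [← map_mul, ← map_mul, hz r hr]
  have key : ∀ y : MulAut W, (∀ r ∈ R, ev y * ev r = ev r * ev y) → ev y ∈ E R := by
    intro y hy
    obtain ⟨a, ha, haw⟩ := orbit_E R hirr hw (ev y w)
    have : ev y = a := by
      apply AddMonoidHom.ext
      intro v
      obtain ⟨b, hb, hbv⟩ := orbit_E R hirr hw v
      rw [← hbv]
      have h1 : (ev y * b) w = (b * ev y) w := by rw [comm_E R hy hb]
      have h2 : (a * b) w = (b * a) w := by rw [E_comm R hc ha hb]
      change ev y (b w) = b (ev y w) at h1
      change a (b w) = b (a w) at h2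
      exact h1.trans ((congrArg b haw.symm).trans h2.symm)
    rw [this]
    exact ha
  apply ev_inj
  rw [map_mul, map_mul]
  exact E_comm R hc (key y hyE) (key z hzE)

include hc hirr in
theorem cyc [Finite W] [Nontrivial W] : IsCyclic R := by
  letI iC : CommRing (Subring.closure (ev '' (R : Set (MulAut W)))) :=
    Subring.closureCommRingOfComm (ring_comm R hc)
  haveI : Nontrivial (Additive W) := inferInstanceAs (Nontrivial W)
  haveI hD : IsDomain (Subring.closure (ev '' (R : Set (MulAut W)))) := by
    haveI : NoZeroDivisors (Subring.closure (ev '' (R : Set (MulAut W)))) := by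
      constructor
      rintro ⟨a, ha⟩ ⟨b, hb⟩ hab
      by_cases ha0 : a = 0
      · left
        exact Subtype.ext ha0
      · right
        apply Subtype.ext
        apply AddMonoidHom.ext
        intro v
        have h1 : a * b = 0 := congrArg Subtype.val hab
        have h2 : (a * b) v = (0 : AddMonoid.End (Additive W)) v := by rw [h1]
        exact E_inj R hc hirr ha ha0 h2
    haveI : Nontrivial (Subring.closure (ev '' (R : Set (MulAut W)))) := by
      refine ⟨0, 1, ?_⟩
      intro h
      obtain ⟨w, hw⟩ := exists_ne (0 : Additive W)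
      have h1 : (0 : AddMonoid.End (Additive W)) = 1 := congrArg Subtype.val h
      have h2 : (0 : AddMonoid.End (Additive W)) w = (1 : AddMonoid.End (Additive W)) w := by rw [h1]
      exact hw h2.symm
    exact NoZeroDivisors.to_isDomain _
  haveI : Finite (MulAut W) := inferInstance
  refine isCyclic_of_injective_ringHom (R := Subring.closure (ev '' (R : Set (MulAut W)))) (G := R)
    { toFun := fun r => ⟨ev r.1, mem_E R r.2⟩
      map_one' := ?_
      map_mul' := ?_ } ?_
  · exact Subtype.ext (map_one ev)
  · intro a b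
    exact Subtype.ext (map_mul ev a.1 b.1)
  · intro a b hab
    apply Subtype.ext
    exact ev_inj (congrArg Subtype.val hab)

include hc hirr in
/-- the normalizer of an abelian irreducible group is solvable -/
theorem norm_solvable [Finite W] [Nontrivial W] : Group.IsSolvable (Subgroup.normalizer (R : Set (MulAut W))) := by
  haveI hcy : IsCyclic R := cyc R hc hirr
  haveI hfin : Finite (MulAut W) := inferInstance
  have hcomm : ∀ a b : MulAut R, a * b = b * a := by
    intro a b
    apply (IsCyclic.mulAutMulEquiv R).injective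
    rw [map_mul, map_mul, mul_comm]
  haveI : Group.IsSolvable (MulAut R) := Group.isSolvable_of_comm hcomm
  let f := Subgroup.normalizerMonoidHom R
  haveI : Group.IsSolvable f.ker := by
    apply Group.isSolvable_of_comm
    rintro ⟨a, ha⟩ ⟨b, hb⟩
    apply Subtype.ext
    apply Subtype.ext
    change a.1 * b.1 = b.1 * a.1
    apply cent_comm R hc hirr
    · intro r hr
      have h1 : f a ⟨r, hr⟩ = ⟨r, hr⟩ := by
        rw [MonoidHom.mem_ker] at ha
        rw [ha]; rfl
      have h2 : a.1 * r * a.1⁻¹ = r := congrArg Subtype.val h1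
      rw [mul_inv_eq_iff_eq_mul] at h2
      exact h2
    · intro r hr
      have h1 : f b ⟨r, hr⟩ = ⟨r, hr⟩ := by
        rw [MonoidHom.mem_ker] at hb
        rw [hb]; rfl
      have h2 : b.1 * r * b.1⁻¹ = r := congrArg Subtype.val h1
      rw [mul_inv_eq_iff_eq_mul] at h2
      exact h2
  exact Group.isSolvable_of_ker_le_range f.ker.subtype f (by simp)

end ML

end Cfsg.Agent.H55.Out
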