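import Mathlib
import Cfsg.Agent.F5.Complete

set_option autoImplicit false
set_option maxHeartbeats 800000

namespace Cfsg.Agent.H55.Out

universe u v

/-- conjugating a 2-group into its own centralizer modulo an odd normal subgroup -/
theorem frat {X : Type u} [Group X] [Finite X] (N0 T : Subgroup X) [N0.Normal] (hN0 : Odd (Nat.card N0))
    (hT : IsPGroup 2 T) (g : X) (hg : ∀ t ∈ T, g * t * g⁻¹ * t⁻¹ ∈ N0) :
    ∃ n ∈ N0, ∀ t ∈ T, (n * g) * t = t * (n * g) := by
  haveI : Fact (Nat.Prime 2) := ⟨Nat.prime_two⟩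
  have hinf : N0 ⊓ T = ⊥ := by
    rw [Subgroup.eq_bot_iff_forall]
    rintro x ⟨hx1, hx2⟩
    obtain ⟨k, hk⟩ := hT ⟨x, hx2⟩
    have h1 : x ^ (2 ^ k) = 1 := congrArg Subtype.val hk
    have h2 : orderOf x ∣ Nat.card N0 := by
      have := orderOf_dvd_natCard (⟨x, hx1⟩ : N0)
      rwa [← Subgroup.orderOf_coe] at this
    have h3 : orderOf x ∣ 2 ^ k := orderOf_dvd_of_pow_eq_one h1
    have h4 : Nat.Coprime (2 ^ k) (Nat.card N0) := Nat.Coprime.pow_left k (Nat.coprime_two_left.mpr hN0)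
    exact orderOf_eq_one_iff.mp (Nat.eq_one_of_dvd_coprimes h4 h3 h2)
  let L : Subgroup X := T ⊔ N0
  have hTL : T ≤ L := le_sup_left
  have hNL : N0 ≤ L := le_sup_right
  have hcardL : Nat.card L = Nat.card N0 * Nat.card T := by
    have h1 : N0.relIndex (T ⊔ N0) = N0.relIndex T := Subgroup.relIndex_sup_right _ _
    have h2 : N0.relIndex T = Nat.card T := by
      rw [← Subgroup.inf_relIndex_right, hinf, Subgroup.relIndex_bot_left]
    have h3 := Subgroup.card_mul_index (N0.subgroupOf L)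
    rw [Nat.card_congr (Subgroup.subgroupOfEquivOfLe hNL).toEquiv] at h3
    rw [← h3]
    congr 1
    exact h1.trans h2
  -- conjugate of T
  let T' : Subgroup X := T.map (MulAut.conj g).toMonoidHom
  have hT'L : T' ≤ L := by
    rintro _ ⟨t, ht, rfl⟩
    change g * t * g⁻¹ ∈ L
    have h1 : g * t * g⁻¹ = (g * t * g⁻¹ * t⁻¹) * t := by group
    rw [h1]
    exact L.mul_mem (hNL (hg t ht)) (hTL ht)
  have hT'card : Nat.card T' = Nat.card T :=
    Subgroup.card_map_of_injective (MulAut.conj g).injective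
  have mkSyl : ∀ P : Subgroup X, P ≤ L → Nat.card P = Nat.card T → ∃ S : Sylow 2 L, (S : Subgroup L) = P.subgroupOf L := by
    intro P hPL hPc
    have h1 : IsPGroup 2 (P.subgroupOf L) := by
      obtain ⟨k, hk⟩ := IsPGroup.iff_card.mp hT
      apply IsPGroup.of_card (n := k)
      rw [Nat.card_congr (Subgroup.subgroupOfEquivOfLe hPL).toEquiv, hPc, hk]
    have h2 : ¬ 2 ∣ (P.subgroupOf L).index := by
      have h3 := Subgroup.card_mul_index (P.subgroupOf L)
      rw [Nat.card_congr (Subgroup.subgroupOfEquivOfLe hPL).toEquiv, hPc, hcardL, mul_comm (Nat.card N0)] at h3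
      have h4 : (P.subgroupOf L).index = Nat.card N0 := Nat.eq_of_mul_eq_mul_left Nat.card_pos h3
      rw [h4]
      intro h5
      exact (Nat.not_even_iff_odd.mpr hN0) (even_iff_two_dvd.mpr h5)
    exact ⟨h1.toSylow h2, rfl⟩
  obtain ⟨S1, hS1⟩ := mkSyl T hTL rfl
  obtain ⟨S2, hS2⟩ := mkSyl T' hT'L hT'card
  obtain ⟨l, hl⟩ := MulAction.exists_smul_eq L S2 S1
  have hl1 : ∀ t ∈ T, l.1 * (g * t * g⁻¹) * l.1⁻¹ ∈ T := by
    intro t ht
    have h1 : (⟨g * t * g⁻¹, hT'L ⟨t, ht, rfl⟩⟩ : L) ∈ S2 := by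
      change _ ∈ (S2 : Subgroup L)
      rw [hS2, Subgroup.mem_subgroupOf]
      exact ⟨t, ht, rfl⟩
    have h2 : l * (⟨g * t * g⁻¹, hT'L ⟨t, ht, rfl⟩⟩ : L) * l⁻¹ ∈ S1 := by
      rw [← hl]
      exact ⟨_, h1, rfl⟩
    have h3 : l * (⟨g * t * g⁻¹, hT'L ⟨t, ht, rfl⟩⟩ : L) * l⁻¹ ∈ (S1 : Subgroup L) := h2
    rw [hS1, Subgroup.mem_subgroupOf] at h3
    exact h3
  obtain ⟨t0, ht0, n, hn, htn⟩ := Subgroup.mem_sup_of_normal_right.mp (show l.1 ∈ T ⊔ N0 from l.2)
  refine ⟨n, hn, ?_⟩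
  intro t ht
  have h1 : n * (g * t * g⁻¹) * n⁻¹ ∈ T := by
    have h2 := hl1 t ht
    rw [← htn] at h2
    have h3 := T.mul_mem (T.mul_mem (T.inv_mem ht0) h2) ht0
    have h4 : t0⁻¹ * (t0 * n * (g * t * g⁻¹) * (t0 * n)⁻¹) * t0 = n * (g * t * g⁻¹) * n⁻¹ := by group
    rwa [h4] at h3
  have h2 : n * (g * t * g⁻¹) * n⁻¹ * t⁻¹ ∈ N0 ⊓ T := by
    refine ⟨?_, T.mul_mem h1 (T.inv_mem ht)⟩
    have h3 : n * (g * t * g⁻¹) * n⁻¹ * t⁻¹ = n * (g * t * g⁻¹ * t⁻¹) * (t * n⁻¹ * t⁻¹) := by group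
    rw [h3]
    exact N0.mul_mem (N0.mul_mem hn (hg t ht)) (Subgroup.Normal.conj_mem inferInstance _ (N0.inv_mem hn) t)
  rw [hinf, Subgroup.mem_bot] at h2
  have h3 : n * g * t = (n * (g * t * g⁻¹) * n⁻¹ * t⁻¹) * t * (n * g) := by group
  rw [h3, h2, one_mul]

/-- a group whose Sylow 2-subgroup has order at most 2 is solvable -/
theorem solvable_of_small (FT : ∀ (X : Type u) [Group X] [Finite X], Odd (Nat.card X) → Group.IsSolvable X)
    {N : Type u} [Group N] [Finite N] (T : Sylow 2 N)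
    (hT : ∀ s ∈ (T : Subgroup N), ∀ t ∈ (T : Subgroup N), s ≠ 1 → t ≠ 1 → s = t) : Group.IsSolvable N := by
  haveI : Fact (Nat.Prime 2) := ⟨Nat.prime_two⟩
  by_cases hodd : Odd (Nat.card N)
  · exact FT N hodd
  · have heven : 2 ∣ Nat.card N := by
      rw [Nat.not_odd_iff_even] at hodd
      exact even_iff_two_dvd.mp hodd
    have hle : Nat.card (T : Subgroup N) ≤ 2 := by
      by_contra hlt
      push Not at hlt
      haveI := Fintype.ofFinite (T : Subgroup N)
      rw [Nat.card_eq_fintype_card] at hlt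
      obtain ⟨a, b, c, hab, hac, hbc⟩ := Fintype.two_lt_card_iff.mp hlt
      have key : ∀ x y : (T : Subgroup N), x ≠ y → x ≠ 1 → y ≠ 1 → False := by
        intro x y hxy hx hy
        apply hxy
        exact Subtype.ext (hT x.1 x.2 y.1 y.2 (fun h => hx (Subtype.ext h)) (fun h => hy (Subtype.ext h)))
      by_cases ha : a = 1
      · exact key b c hbc (fun h => hab (ha.trans h.symm)) (fun h => hac (ha.trans h.symm))
      · by_cases hb : b = 1
        · exact key a c hac ha (fun h => hbc (hb.trans h.symm))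
        · exact key a b hab ha hb
    have h2 : 2 ∣ Nat.card (T : Subgroup N) := T.dvd_card_of_dvd_card heven
    have h3 : Nat.card (T : Subgroup N) = 2 := le_antisymm hle (Nat.le_of_dvd Nat.card_pos h2)
    have h4 := (T : Subgroup N).card_mul_index
    rw [h3] at h4
    have h5 : Odd (T : Subgroup N).index := by
      rw [← Nat.not_even_iff_odd, even_iff_two_dvd]
      exact T.not_dvd_index
    obtain ⟨K, hKn, hKc, -⟩ := Cfsg.Agent.F5.exists_index_two h5 h4.symm
    haveI := hKn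
    haveI : Group.IsSolvable K := FT K (by rw [hKc]; exact h5)
    have h6 : K.index = 2 := by
      have h7 := K.card_mul_index
      rw [hKc, ← h4, mul_comm 2] at h7
      exact Nat.eq_of_mul_eq_mul_left (Nat.pos_of_ne_zero (by rintro h; rw [h] at h5; exact absurd h5 (by decide))) h7
    haveI : IsCyclic (N ⧸ K) := isCyclic_of_prime_card (p := 2) (by rw [← h6]; rfl)
    haveI : Group.IsSolvable (N ⧸ K) := by
      apply Group.isSolvable_of_comm
      intro a b
      exact (IsCyclic.commutative (α := N ⧸ K)).is_comm.comm a b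
    exact Group.isSolvable_of_ker_le_range K.subtype (QuotientGroup.mk' K) (by simp)

end Cfsg.Agent.H55.Out
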