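import Cfsg.Agent.H55.Out9
import Cfsg.Agent.H55.Out10

set_option autoImplicit false
set_option maxHeartbeats 800000

namespace Cfsg.Agent.H55.Out

universe u v

/-- central extension `1 → W → R → V → 1` in which `W` is the set of solutions of `x² = 1` and
contains all squares -/
structure Ext {R V W : Type u} [Group R] [CommGroup V] [CommGroup W] (ι : W →* R) (π : R →* V) : Prop where
  inj : Function.Injective ι
  surj : Function.Surjective π
  ex : ∀ x, π x = 1 ↔ ∃ w, ι w = x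
  cen : ∀ w x, ι w * x = x * ι w
  inv : ∀ x, x * x = 1 ↔ π x = 1
  sq : ∀ x, π (x * x) = 1

namespace Ext

variable {R V W : Type u} [Group R] [CommGroup V] [CommGroup W] {ι : W →* R} {π : R →* V} (h : Ext ι π)

include h

theorem wwo (w : W) : w * w = 1 := by
  apply h.inj
  rw [map_mul, map_one, h.inv, h.ex]
  exact ⟨w, rfl⟩

theorem vvo (v : V) : v * v = 1 := by
  obtain ⟨x, rfl⟩ := h.surj v
  rw [← map_mul, h.sq]

theorem eqker {x y : R} (hxy : π x = π y) : ∃ w, y = x * ι w := by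
  have h1 : π (x⁻¹ * y) = 1 := by rw [map_mul, map_inv, hxy, inv_mul_cancel]
  obtain ⟨w, hw⟩ := (h.ex _).mp h1
  exact ⟨w, by rw [hw]; group⟩

/-- a section -/
noncomputable def s (v : V) : R := (h.surj v).choose

theorem s_spec (v : V) : π (h.s v) = v := (h.surj v).choose_spec

/-- square -/
noncomputable def q (x : R) : W := ((h.ex _).mp (h.sq x)).choose

theorem q_spec (x : R) : ι (h.q x) = x * x := ((h.ex _).mp (h.sq x)).choose_spec

theorem comm_ker (x y : R) : π (x⁻¹ * y * x * y⁻¹) = 1 := by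
  rw [map_mul, map_mul, map_mul, map_inv, map_inv]
  rw [mul_comm (π x)⁻¹ (π y), mul_assoc (π y), inv_mul_cancel, mul_one, mul_inv_cancel]

/-- commutator -/
noncomputable def c (x y : R) : W := ((h.ex _).mp (h.comm_ker x y)).choose

theorem c_spec (x y : R) : ι (h.c x y) = x⁻¹ * y * x * y⁻¹ := ((h.ex _).mp (h.comm_ker x y)).choose_spec

theorem q_congr {x y : R} (hxy : π x = π y) : h.q x = h.q y := by
  obtain ⟨w, rfl⟩ := h.eqker hxy
  apply h.inj
  rw [h.q_spec, h.q_spec]
  have h1 : x * ι w * (x * ι w) = x * x * (ι w * ι w) := by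
    have := h.cen w x
    calc x * ι w * (x * ι w) = x * (ι w * x) * ι w := by group
      _ = x * (x * ι w) * ι w := by rw [this]
      _ = x * x * (ι w * ι w) := by group
  rw [h1, ← map_mul ι w w, h.wwo, map_one, mul_one]

theorem q_mul (x y : R) : h.q (x * y) = h.q x * h.q y * h.c x y := by
  apply h.inj
  rw [map_mul, map_mul, h.q_spec, h.q_spec, h.q_spec]
  have h1 : y * y * ι (h.c x y) = ι (h.c x y) * (y * y) := (h.cen _ _).symm
  rw [mul_assoc (x * x), h1, h.c_spec]
  group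

theorem c_mul (x x' y : R) : h.c (x * x') y = h.c x y * h.c x' y := by
  apply h.inj
  rw [map_mul, h.c_spec (x * x') y, h.c_spec x' y]
  have h1 : (x * x')⁻¹ * y * (x * x') * y⁻¹ = x'⁻¹ * ι (h.c x y) * (y * x' * y⁻¹) := by
    rw [h.c_spec]; group
  rw [h1, ← h.cen]
  group

theorem c_congr {x x' y y' : R} (hx : π x = π x') (hy : π y = π y') : h.c x y = h.c x' y' := by
  obtain ⟨w, rfl⟩ := h.eqker hx
  obtain ⟨w', rfl⟩ := h.eqker hy
  apply h.inj
  rw [h.c_spec, h.c_spec]
  have h1 : (x * ι w)⁻¹ * (y * ι w') * (x * ι w) * (y * ι w')⁻¹ = (ι w)⁻¹ * x⁻¹ * (y * ι w' * x * ι w * (ι w')⁻¹ * y⁻¹) := by group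
  have h2 : y * ι w' * x * ι w * (ι w')⁻¹ * y⁻¹ = y * x * ι w * y⁻¹ := by
    have h3 : ι w' * x = x * ι w' := h.cen w' x
    have h4 : ι w' * ι w = ι w * ι w' := h.cen w' (ι w)
    calc y * ι w' * x * ι w * (ι w')⁻¹ * y⁻¹ = y * (ι w' * x) * ι w * (ι w')⁻¹ * y⁻¹ := by group
      _ = y * x * (ι w' * ι w) * (ι w')⁻¹ * y⁻¹ := by rw [h3]; group
      _ = y * x * ι w * y⁻¹ := by rw [h4]; group
  rw [h1, h2]
  have h5 : y * x * ι w * y⁻¹ = ι w * (y * x * y⁻¹) := by
    rw [← h.cen w (y * x)]; group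
  rw [h5]
  have h6 : (ι w)⁻¹ * x⁻¹ * (ι w * (y * x * y⁻¹)) = (ι w)⁻¹ * (x⁻¹ * ι w) * (y * x * y⁻¹) := by group
  rw [h6, ← h.cen w x⁻¹]
  group

theorem pres (φ : MulAut R) {x y : R} (hxy : π x = π y) : π (φ x) = π (φ y) := by
  obtain ⟨w, rfl⟩ := h.eqker hxy
  rw [map_mul, map_mul]
  have h1 : π (φ (ι w)) = 1 := by
    rw [← h.inv, ← map_mul, ← map_mul, h.wwo, map_one, map_one]
  rw [h1, mul_one]

/-- induced endomorphism of `V` -/
noncomputable def ind (φ : MulAut R) : AddMonoid.End (Additive V) :=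
  MonoidHom.toAdditive
    { toFun := fun v => π (φ (h.s v))
      map_one' := by
        rw [h.pres φ (x := h.s 1) (y := 1) (by rw [h.s_spec, map_one]), map_one, map_one]
      map_mul' := fun a b => by
        rw [h.pres φ (x := h.s (a * b)) (y := h.s a * h.s b) (by rw [h.s_spec, map_mul, h.s_spec, h.s_spec]),
          map_mul, map_mul] }

theorem ind_apply (φ : MulAut R) (x : R) : h.ind φ (Additive.ofMul (π x)) = Additive.ofMul (π (φ x)) := by
  change Additive.ofMul (π (φ (h.s (π x)))) = _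
  rw [h.pres φ (h.s_spec (π x))]

theorem res_ex (φ : MulAut R) (w : W) : ∃ w', ι w' = φ (ι w) := by
  rw [← h.ex, ← h.inv, ← map_mul, ← map_mul, h.wwo, map_one, map_one]

/-- restriction to `W` -/
noncomputable def res (φ : MulAut R) : AddMonoid.End (Additive W) :=
  MonoidHom.toAdditive
    { toFun := fun w => (h.res_ex φ w).choose
      map_one' := by
        apply h.inj
        rw [(h.res_ex φ 1).choose_spec, map_one, map_one]
      map_mul' := fun a b => by
        apply h.inj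
        have e1 := (h.res_ex φ (a * b)).choose_spec
        have e2 := (h.res_ex φ a).choose_spec
        have e3 := (h.res_ex φ b).choose_spec
        calc ι (h.res_ex φ (a * b)).choose = φ (ι (a * b)) := e1
          _ = φ (ι a) * φ (ι b) := by rw [map_mul, map_mul]
          _ = ι (h.res_ex φ a).choose * ι (h.res_ex φ b).choose := by rw [e2, e3]
          _ = ι ((h.res_ex φ a).choose * (h.res_ex φ b).choose) := (map_mul ι _ _).symm }

theorem res_apply (φ : MulAut R) (w : W) : ι ((h.res φ (Additive.ofMul w)).toMul) = φ (ι w) :=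
  (h.res_ex φ w).choose_spec

/-- the quadratic map -/
noncomputable def Q (v : Additive V) : Additive W := Additive.ofMul (h.q (h.s v.toMul))

theorem Q_apply (x : R) : h.Q (Additive.ofMul (π x)) = Additive.ofMul (h.q x) := by
  change Additive.ofMul (h.q (h.s (π x))) = _
  rw [h.q_congr (h.s_spec (π x))]

/-- the bilinear map -/
noncomputable def B (u v : Additive V) : Additive W := Additive.ofMul (h.c (h.s u.toMul) (h.s v.toMul))

theorem B_apply (x y : R) : h.B (Additive.ofMul (π x)) (Additive.ofMul (π y)) = Additive.ofMul (h.c x y) := by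
  change Additive.ofMul (h.c (h.s (π x)) (h.s (π y))) = _
  rw [h.c_congr (h.s_spec (π x)) (h.s_spec (π y))]

theorem rep (v : Additive V) : ∃ x, v = Additive.ofMul (π x) := by
  obtain ⟨x, hx⟩ := h.surj v.toMul
  exact ⟨x, by rw [hx]; rfl⟩

theorem dat (T : Set (AddMonoid.End (Additive V))) (C : Set (AddMonoid.End (Additive V) × AddMonoid.End (Additive W)))
    (hT : ∀ t ∈ T, ∃ φ : MulAut R, (∀ w, φ (ι w) = ι w) ∧ t = h.ind φ)
    (hC : ∀ c ∈ C, ∃ φ : MulAut R, c = (h.ind φ, h.res φ))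
    (hct : ∀ c ∈ C, ∀ t ∈ T, ∀ v, c.1 (t v) = t (c.1 v))
    (htr : ∀ a b : Additive W, a ≠ 0 → b ≠ 0 → ∃ c ∈ C, c.2 a = b) : Dat h.Q h.B T C where
  v2 := fun v => h.vvo v.toMul
  w2 := fun w => h.wwo w.toMul
  qadd := by
    intro u v
    obtain ⟨x, rfl⟩ := h.rep u
    obtain ⟨y, rfl⟩ := h.rep v
    rw [← ofMul_mul, ← map_mul, h.Q_apply, h.Q_apply, h.Q_apply, h.B_apply, h.q_mul]
    rfl
  badd := by
    intro u v w
    obtain ⟨x, rfl⟩ := h.rep u
    obtain ⟨y, rfl⟩ := h.rep v
    obtain ⟨z, rfl⟩ := h.rep w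
    rw [← ofMul_mul, ← map_mul, h.B_apply, h.B_apply, h.B_apply, h.c_mul]
    rfl
  ani := by
    intro v hv
    obtain ⟨x, rfl⟩ := h.rep v
    rw [h.Q_apply] at hv
    have h1 : h.q x = 1 := hv
    have h2 : x * x = 1 := by rw [← h.q_spec, h1, map_one]
    rw [(h.inv x).mp h2]
    rfl
  tQ := by
    intro t ht v
    obtain ⟨φ, hφ, rfl⟩ := hT t ht
    obtain ⟨x, rfl⟩ := h.rep v
    rw [h.ind_apply, h.Q_apply, h.Q_apply]
    congr 1
    apply h.inj
    rw [h.q_spec, h.q_spec, ← map_mul, ← h.q_spec x, hφ]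
  cQ := by
    intro c hc v
    obtain ⟨φ, rfl⟩ := hC c hc
    obtain ⟨x, rfl⟩ := h.rep v
    change h.Q (h.ind φ _) = h.res φ _
    rw [h.ind_apply, h.Q_apply, h.Q_apply]
    apply Additive.toMul.injective
    apply h.inj
    rw [h.res_apply, h.q_spec, map_mul]
    exact h.q_spec _
  ct := hct
  tr := htr

end Ext

end Cfsg.Agent.H55.Out
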