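import Cfsg.Agent.H55.Out11

set_option autoImplicit false
set_option maxHeartbeats 800000

namespace Cfsg.Agent.H55.Out

universe u v

theorem L2 (FT : ∀ (X : Type u) [Group X] [Finite X], Odd (Nat.card X) → Group.IsSolvable X)
    {R V W : Type u} [Group R] [CommGroup V] [CommGroup W] [Finite W] {ι : W →* R} {π : R →* V} (h : Ext ι π)
    {M : Type u} [Group M] [Finite M] (ρ : M →* MulAut R) (N K K1 : Subgroup M) [N.Normal] [K1.Normal]
    (hK : ∀ m, m ∈ K ↔ ∀ w, ρ m (ι w) = ι w)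
    (hK1 : ∀ m, m ∈ K1 ↔ m ∈ K ∧ ∀ x, π (ρ m x) = π x)
    (htr : ∀ a b : W, a ≠ 1 → b ≠ 1 → ∃ n ∈ N, ρ n (ι a) = ι b)
    (hodd : ∀ m ∈ N ⊓ K, m * m ∈ K1 → m ∈ K1) :
    Group.IsSolvable (K.map (QuotientGroup.mk' K1)) := by
  haveI : Fact (Nat.Prime 2) := ⟨Nat.prime_two⟩
  haveI hKn : K.Normal := by
    constructor
    intro m hm g
    rw [hK]
    intro w
    obtain ⟨w', hw'⟩ := h.res_ex (ρ g⁻¹) w
    have h1 : ρ (g * m * g⁻¹) (ι w) = ρ g (ρ m (ρ g⁻¹ (ι w))) := by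
      rw [map_mul, map_mul]; rfl
    rw [h1, ← hw', (hK m).mp hm, hw']
    have h2 : ρ g (ρ g⁻¹ (ι w)) = (ρ g * ρ g⁻¹) (ι w) := rfl
    rw [h2, ← map_mul, mul_inv_cancel, map_one]
    rfl
  let p : M →* M ⧸ K1 := QuotientGroup.mk' K1
  have hpsurj : Function.Surjective p := QuotientGroup.mk'_surjective K1
  have hpker : ∀ m, p m = 1 ↔ m ∈ K1 := fun m => QuotientGroup.eq_one_iff m
  let N0 : Subgroup (M ⧸ K1) := (N ⊓ K).map p
  haveI : N0.Normal := Subgroup.Normal.map inferInstance p hpsurj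
  have hN0 : Odd (Nat.card N0) := by
    rw [← Nat.not_even_iff_odd]
    intro hev
    obtain ⟨⟨x, hx⟩, hx2⟩ := exists_prime_orderOf_dvd_card' 2 (even_iff_two_dvd.mp hev)
    obtain ⟨m, hm, rfl⟩ := hx
    have h1 : p m * p m = 1 := by
      have h2 := pow_orderOf_eq_one (⟨p m, ⟨m, hm, rfl⟩⟩ : N0)
      rw [hx2, pow_two] at h2
      exact congrArg Subtype.val h2
    have h3 : m * m ∈ K1 := by rw [← hpker, map_mul]; exact h1
    have h4 := hodd m hm h3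
    have h5 : (⟨p m, ⟨m, hm, rfl⟩⟩ : N0) = 1 := Subtype.ext ((hpker m).mpr h4)
    rw [h5, orderOf_one] at hx2
    omega
  let Tb : Sylow 2 (K.map p) := default
  let T' : Subgroup (M ⧸ K1) := (Tb : Subgroup (K.map p)).map (K.map p).subtype
  have hT'2 : IsPGroup 2 T' := Tb.isPGroup'.map _
  have hT'K : ∀ t ∈ T', ∃ k ∈ K, p k = t := by
    rintro _ ⟨t, ht, rfl⟩
    exact t.2
  have hcorr : ∀ n ∈ N, ∃ n' ∈ N, (∀ w, ρ n' (ι w) = ρ n (ι w)) ∧ ∀ t ∈ T', p n' * t = t * p n' := by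
    intro n hn
    obtain ⟨n0, hn0, hc⟩ := frat N0 T' hN0 hT'2 (p n) (by
      intro t ht
      obtain ⟨k, hk, rfl⟩ := hT'K t ht
      refine ⟨n * k * n⁻¹ * k⁻¹, ⟨?_, ?_⟩, ?_⟩
      · have h1 : n * k * n⁻¹ * k⁻¹ = n * (k * n⁻¹ * k⁻¹) := by group
        rw [h1]
        exact N.mul_mem hn (Subgroup.Normal.conj_mem inferInstance _ (N.inv_mem hn) k)
      · exact K.mul_mem (Subgroup.Normal.conj_mem hKn _ hk n) (K.inv_mem hk)
      · rw [map_mul, map_mul, map_mul, map_inv, map_inv])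
    obtain ⟨m, hm, rfl⟩ := hn0
    refine ⟨m * n, N.mul_mem hm.1 hn, ?_, ?_⟩
    · intro w
      obtain ⟨w', hw'⟩ := h.res_ex (ρ n) w
      have h1 : ρ (m * n) (ι w) = ρ m (ρ n (ι w)) := by rw [map_mul]; rfl
      rw [h1, ← hw', (hK m).mp hm.2]
    · intro t ht
      rw [map_mul]
      exact hc t ht
  let T : Set (AddMonoid.End (Additive V)) := {f | ∃ m ∈ K, p m ∈ T' ∧ f = h.ind (ρ m)}
  let C : Set (AddMonoid.End (Additive V) × AddMonoid.End (Additive W)) :=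
    {c | ∃ n ∈ N, (∀ t ∈ T', p n * t = t * p n) ∧ c = (h.ind (ρ n), h.res (ρ n))}
  have hD : Dat h.Q h.B T C := by
    apply h.dat
    · rintro _ ⟨m, hm, -, rfl⟩
      exact ⟨ρ m, (hK m).mp hm, rfl⟩
    · rintro _ ⟨n, -, -, rfl⟩
      exact ⟨ρ n, rfl⟩
    · rintro _ ⟨n, hn, hnT, rfl⟩ _ ⟨m, hm, hmT, rfl⟩ v
      obtain ⟨x, rfl⟩ := h.rep v
      change h.ind (ρ n) (h.ind (ρ m) _) = h.ind (ρ m) (h.ind (ρ n) _)
      rw [h.ind_apply, h.ind_apply, h.ind_apply, h.ind_apply]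
      congr 1
      have h1 : (m * n)⁻¹ * (n * m) ∈ K1 := by
        rw [← hpker, map_mul, map_inv, map_mul, map_mul, hnT _ hmT, inv_mul_cancel]
      have h2 := ((hK1 _).mp h1).2 x
      have h3 : ρ (n * m) x = ρ (m * n) (ρ ((m * n)⁻¹ * (n * m)) x) := by
        have : n * m = (m * n) * ((m * n)⁻¹ * (n * m)) := by group
        conv_lhs => rw [this, map_mul]
        rfl
      have h4 : ρ n (ρ m x) = ρ (n * m) x := by rw [map_mul]; rfl
      have h5 : ρ m (ρ n x) = ρ (m * n) x := by rw [map_mul]; rfl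
      rw [h4, h5, h3]
      exact h.pres _ h2
    · intro a b ha hb
      obtain ⟨n, hn, hnab⟩ := htr a.toMul b.toMul ha hb
      obtain ⟨n', hn', hnn, hnc⟩ := hcorr n hn
      refine ⟨_, ⟨n', hn', hnc, rfl⟩, ?_⟩
      change h.res (ρ n') a = b
      apply Additive.toMul.injective
      apply h.inj
      have h1 : ι ((h.res (ρ n') (Additive.ofMul a.toMul)).toMul) = ρ n' (ι a.toMul) := h.res_apply _ _
      exact h1.trans ((hnn _).trans hnab)
  have ind_mul : ∀ a b : M, h.ind (ρ a) * h.ind (ρ b) = h.ind (ρ (a * b)) := by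
    intro a b
    apply AddMonoidHom.ext
    intro v
    obtain ⟨x, rfl⟩ := h.rep v
    have e1 : h.ind (ρ a) (h.ind (ρ b) (Additive.ofMul (π x))) = Additive.ofMul (π (ρ a (ρ b x))) := by
      rw [h.ind_apply, h.ind_apply]
    have e2 : h.ind (ρ (a * b)) (Additive.ofMul (π x)) = Additive.ofMul (π (ρ (a * b) x)) := h.ind_apply _ _
    have e3 : ρ (a * b) x = ρ a (ρ b x) := by rw [map_mul]; rfl
    rw [e3] at e2
    exact e1.trans e2.symm
  have ind_one : ∀ m ∈ K, h.ind (ρ m) = 1 ↔ m ∈ K1 := by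
    intro m hm
    rw [hK1]
    constructor
    · intro h1
      refine ⟨hm, fun x => ?_⟩
      have h2 : h.ind (ρ m) (Additive.ofMul (π x)) = Additive.ofMul (π x) := by rw [h1]; rfl
      rw [h.ind_apply] at h2
      exact h2
    · rintro ⟨-, h1⟩
      apply AddMonoidHom.ext
      intro v
      obtain ⟨x, rfl⟩ := h.rep v
      have e1 : h.ind (ρ m) (Additive.ofMul (π x)) = Additive.ofMul (π (ρ m x)) := h.ind_apply _ _
      rw [h1 x] at e1
      exact e1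
  have hmain := hD.main (by
    rintro _ ⟨a, ha, haT, rfl⟩ _ ⟨b, hb, hbT, rfl⟩
    exact ⟨a * b, K.mul_mem ha hb, by rw [map_mul]; exact T'.mul_mem haT hbT, ind_mul a b⟩) (by
    rintro _ ⟨a, ha, haT, rfl⟩
    obtain ⟨k, hk⟩ := hT'2 ⟨p a, haT⟩
    refine ⟨k, ?_⟩
    have h1 : p (a ^ (2 ^ k)) = 1 := by rw [map_pow]; exact congrArg Subtype.val hk
    have h2 := (ind_one (a ^ (2 ^ k)) (K.pow_mem ha _)).mpr ((hpker _).mp h1)
    have h3 : ∀ n : ℕ, (h.ind (ρ a)) ^ n = h.ind (ρ (a ^ n)) := by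
      intro n
      induction n with
      | zero =>
        rw [pow_zero, pow_zero]
        exact ((ind_one 1 K.one_mem).mpr K1.one_mem).symm
      | succ n ih => rw [pow_succ, pow_succ, ih, ind_mul]
    rw [h3, h2]) ⟨1, K.one_mem, by rw [map_one]; exact T'.one_mem, ((ind_one 1 K.one_mem).mpr K1.one_mem).symm⟩
  apply solvable_of_small FT Tb
  rintro ⟨s, hs⟩ hsT ⟨t, ht⟩ htT hs1 ht1
  obtain ⟨a, ha, rfl⟩ := hs
  obtain ⟨b, hb, rfl⟩ := ht
  have haT : p a ∈ T' := ⟨_, hsT, rfl⟩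
  have hbT : p b ∈ T' := ⟨_, htT, rfl⟩
  have ha1 : h.ind (ρ a) ≠ 1 := by
    intro h1
    exact hs1 (Subtype.ext ((hpker a).mpr ((ind_one a ha).mp h1)))
  have hb1 : h.ind (ρ b) ≠ 1 := by
    intro h1
    exact ht1 (Subtype.ext ((hpker b).mpr ((ind_one b hb).mp h1)))
  have hab := hmain _ ⟨a, ha, haT, rfl⟩ _ ⟨b, hb, hbT, rfl⟩ ha1 hb1
  apply Subtype.ext
  change p a = p b
  have h1 : h.ind (ρ (b⁻¹ * a)) = 1 := by
    rw [← ind_mul, hab, ind_mul, inv_mul_cancel]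
    exact (ind_one 1 K.one_mem).mpr K1.one_mem
  have h2 := (hpker _).mpr ((ind_one _ (K.mul_mem (K.inv_mem hb) ha)).mp h1)
  rw [map_mul, map_inv, inv_mul_eq_one] at h2
  exact h2.symm

end Cfsg.Agent.H55.Out
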