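import Mathlib
import Cfsg.Agent.H14.QuatSylow
import Cfsg.Agent.Alperin.Basic

set_option autoImplicit false
set_option maxHeartbeats 800000

namespace Cfsg.Agent.H55.Out

universe u

theorem mem_norm_of_le {G : Type u} [Group G] [Finite G] (H : Subgroup G) {n : G}
    (hn : ∀ x ∈ H, n * x * n⁻¹ ∈ H) : n ∈ Subgroup.normalizer (H : Set G) := by
  have h1 : H.map (MulAut.conj n).toMonoidHom ≤ H := by
    rintro _ ⟨x, hx, rfl⟩
    exact hn x hx
  have h2 : H.map (MulAut.conj n).toMonoidHom = H := by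
    apply Subgroup.eq_of_le_of_card_ge h1
    rw [Subgroup.card_map_of_injective (MulAut.conj n).injective]
  rw [Subgroup.mem_normalizer_iff]
  intro x
  constructor
  · exact hn x
  · intro hx
    rw [← h2] at hx
    obtain ⟨y, hy, hyx⟩ := hx
    have h3 : n * y * n⁻¹ = n * x * n⁻¹ := hyx
    have h4 : y = x := mul_left_cancel (mul_right_cancel h3)
    rw [← h4]
    exact hy

/-- hypothesis (c) -/
structure HypC {G : Type u} [Group G] (S : Sylow 2 G) : Prop where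
  com : ∀ s ∈ (S : Subgroup G), ∀ t ∈ (S : Subgroup G), s * s = 1 → t * t = 1 → s * t = t * s
  con : ∀ s ∈ (S : Subgroup G), ∀ t ∈ (S : Subgroup G), s * s = 1 → t * t = 1 → s ≠ 1 → t ≠ 1 →
    ∃ g : G, g * s * g⁻¹ = t

namespace HypC

variable {G : Type u} [Group G] {S : Sylow 2 G} (h : HypC S)

/-- the involutions of `S` -/
def Om (h : HypC S) : Subgroup G where
  carrier := {x | x ∈ (S : Subgroup G) ∧ x * x = 1}
  one_mem' := ⟨(S : Subgroup G).one_mem, one_mul 1⟩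
  mul_mem' := by
    rintro a b ⟨ha, ha2⟩ ⟨hb, hb2⟩
    refine ⟨(S : Subgroup G).mul_mem ha hb, ?_⟩
    have h1 := h.com a ha b hb ha2 hb2
    calc a * b * (a * b) = a * (b * a) * b := by group
      _ = a * (a * b) * b := by rw [h1]
      _ = (a * a) * (b * b) := by group
      _ = 1 := by rw [ha2, hb2, one_mul]
  inv_mem' := by
    rintro a ⟨ha, ha2⟩
    refine ⟨(S : Subgroup G).inv_mem ha, ?_⟩
    rw [← mul_inv_rev, ha2, inv_one]

theorem mem_Om {x : G} : x ∈ h.Om ↔ x ∈ (S : Subgroup G) ∧ x * x = 1 := Iff.rfl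

theorem Om_le : h.Om ≤ (S : Subgroup G) := fun _ hx => hx.1

theorem Om_comm {a b : G} (ha : a ∈ h.Om) (hb : b ∈ h.Om) : a * b = b * a :=
  h.com a ha.1 b hb.1 ha.2 hb.2

/-- the centralizer of the involutions -/
def S0 (h : HypC S) : Subgroup G := (S : Subgroup G) ⊓ Subgroup.centralizer (h.Om : Set G)

theorem Om_le_S0 : h.Om ≤ h.S0 := by
  intro x hx
  refine ⟨hx.1, ?_⟩
  change x ∈ Subgroup.centralizer (h.Om : Set G)
  rw [Subgroup.mem_centralizer_iff]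
  intro y hy
  exact h.Om_comm hy hx

theorem S0_le : h.S0 ≤ (S : Subgroup G) := inf_le_left

theorem S0_cent {x a : G} (hx : x ∈ h.S0) (ha : a ∈ h.Om) : a * x = x * a := by
  have h1 : x ∈ Subgroup.centralizer (h.Om : Set G) := hx.2
  rw [Subgroup.mem_centralizer_iff] at h1
  exact h1 a ha

theorem mem_Om_of_S0 {x : G} (hx : x ∈ h.S0) (hx2 : x * x = 1) : x ∈ h.Om := ⟨hx.1, hx2⟩

theorem S_norm_Om : (S : Subgroup G) ≤ Subgroup.normalizer (h.Om : Set G) := by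
  have key : ∀ s ∈ (S : Subgroup G), ∀ x ∈ h.Om, s * x * s⁻¹ ∈ h.Om := by
    intro s hs x hx
    refine ⟨(S : Subgroup G).mul_mem ((S : Subgroup G).mul_mem hs hx.1) ((S : Subgroup G).inv_mem hs), ?_⟩
    have : s * x * s⁻¹ * (s * x * s⁻¹) = s * (x * x) * s⁻¹ := by group
    rw [this, hx.2]; group
  intro s hs
  rw [Subgroup.mem_normalizer_iff]
  intro x
  constructor
  · exact key s hs x
  · intro hx
    have := key s⁻¹ ((S : Subgroup G).inv_mem hs) _ hx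
    have h2 : s⁻¹ * (s * x * s⁻¹) * s⁻¹⁻¹ = x := by group
    rwa [h2] at this

variable [Finite G]

theorem norm1 {a b : G} (ha : a ∈ h.Om) (hb : b ∈ h.Om) (ha1 : a ≠ 1) (hb1 : b ≠ 1) :
    ∃ n ∈ Subgroup.normalizer (h.Om : Set G), n * a * n⁻¹ = b := by
  haveI : Fact (Nat.Prime 2) := ⟨Nat.prime_two⟩
  obtain ⟨g, hg⟩ := h.con a ha.1 b hb.1 ha.2 hb.2 ha1 hb1
  let C := Subgroup.centralizer ({b} : Set G)
  have hOp : IsPGroup 2 h.Om := S.isPGroup'.to_le h.Om_le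
  have h1 : h.Om ≤ C := by
    intro x hx
    change x ∈ Subgroup.centralizer ({b} : Set G)
    rw [Subgroup.mem_centralizer_singleton_iff]
    exact h.Om_comm hx hb
  have h2 : h.Om.map (MulAut.conj g).toMonoidHom ≤ C := by
    rintro _ ⟨x, hx, rfl⟩
    change g * x * g⁻¹ ∈ Subgroup.centralizer ({b} : Set G)
    rw [Subgroup.mem_centralizer_singleton_iff, ← hg]
    have h3 : x * a = a * x := h.Om_comm hx ha
    calc g * x * g⁻¹ * (g * a * g⁻¹) = g * (x * a) * g⁻¹ := by group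
      _ = g * (a * x) * g⁻¹ := by rw [h3]
      _ = g * a * g⁻¹ * (g * x * g⁻¹) := by group
  obtain ⟨P, hP, hP2⟩ := Cfsg.Agent.Alperin.exists_sylow_inf hOp h1
  obtain ⟨U, hU, hU2⟩ := Cfsg.Agent.Alperin.exists_sylow_inf (hOp.map (MulAut.conj g).toMonoidHom) h2
  obtain ⟨y, hy, hyU⟩ := Cfsg.Agent.Alperin.exists_conj_inf P U C hP2 hU2
  obtain ⟨z, hz⟩ := MulAction.exists_smul_eq G S P
  have hzP : ∀ x ∈ (P : Subgroup G), x * x = 1 → z⁻¹ * x * z ∈ h.Om := by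
    intro x hx hx2
    rw [← hz] at hx
    obtain ⟨s, hs, hsx⟩ := hx
    have h3 : z * s * z⁻¹ = x := hsx
    have h4 : z⁻¹ * x * z = s := by rw [← h3]; group
    rw [h4]
    refine ⟨hs, ?_⟩
    rw [← h4]
    have : z⁻¹ * x * z * (z⁻¹ * x * z) = z⁻¹ * (x * x) * z := by group
    rw [this, hx2]; group
  have hzn : z⁻¹ ∈ Subgroup.normalizer (h.Om : Set G) := by
    apply mem_norm_of_le
    intro x hx
    rw [inv_inv]
    exact hzP x (hP hx) hx.2
  have hn : y⁻¹ * g ∈ Subgroup.normalizer (h.Om : Set G) := by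
    have h5 : z⁻¹ * (y⁻¹ * g) ∈ Subgroup.normalizer (h.Om : Set G) := by
      apply mem_norm_of_le
      intro x hx
      have h6 : g * x * g⁻¹ ∈ (U : Subgroup G) ⊓ C := ⟨hU ⟨x, hx, rfl⟩, h2 ⟨x, hx, rfl⟩⟩
      have h7 := (hyU _ h6).1
      have h8 := hzP _ h7 (by
        have : y⁻¹ * (g * x * g⁻¹) * y * (y⁻¹ * (g * x * g⁻¹) * y) = y⁻¹ * g * (x * x) * g⁻¹ * y := by group
        rw [this, hx.2]; group)
      have h9 : z⁻¹ * (y⁻¹ * g) * x * (z⁻¹ * (y⁻¹ * g))⁻¹ = z⁻¹ * (y⁻¹ * (g * x * g⁻¹) * y) * z := by group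
      rw [h9]
      exact h8
    have h6 := Subgroup.mul_mem _ (Subgroup.inv_mem _ hzn) h5
    have h7 : z⁻¹⁻¹ * (z⁻¹ * (y⁻¹ * g)) = y⁻¹ * g := by group
    rwa [h7] at h6
  refine ⟨y⁻¹ * g, hn, ?_⟩
  have hyb : y * b = b * y := by
    have : y ∈ Subgroup.centralizer ({b} : Set G) := hy
    rw [Subgroup.mem_centralizer_singleton_iff] at this
    exact this
  calc y⁻¹ * g * a * (y⁻¹ * g)⁻¹ = y⁻¹ * (g * a * g⁻¹) * y := by group
    _ = y⁻¹ * (b * y) := by rw [hg]; group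
    _ = b := by rw [← hyb]; group

theorem cent_norm {n c : G} (hn : n ∈ Subgroup.normalizer (h.Om : Set G))
    (hc : c ∈ Subgroup.centralizer (h.Om : Set G)) : n * c * n⁻¹ ∈ Subgroup.centralizer (h.Om : Set G) := by
  rw [Subgroup.mem_centralizer_iff] at hc ⊢
  intro x hx
  have h1 : n⁻¹ * x * n ∈ h.Om := by
    have := (Subgroup.mem_normalizer_iff.mp (Subgroup.inv_mem _ hn) x).mp hx
    rwa [inv_inv] at this
  have h2 := hc _ h1
  calc x * (n * c * n⁻¹) = n * (n⁻¹ * x * n * c) * n⁻¹ := by group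
    _ = n * (c * (n⁻¹ * x * n)) * n⁻¹ := by rw [h2]
    _ = n * c * n⁻¹ * x := by group

theorem sylC : ∃ Q : Sylow 2 (Subgroup.centralizer (h.Om : Set G)),
    (Q : Subgroup (Subgroup.centralizer (h.Om : Set G))) = h.S0.subgroupOf (Subgroup.centralizer (h.Om : Set G)) := by
  haveI : Fact (Nat.Prime 2) := ⟨Nat.prime_two⟩
  apply Cfsg.Agent.H14.QuatSylow.exists_sylow_inf S (Subgroup.normalizer (h.Om : Set G)) _ h.S_norm_Om
  · intro c hc
    apply mem_norm_of_le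
    intro x hx
    have h1 := (Subgroup.mem_centralizer_iff.mp hc) x hx
    rw [← h1]
    simpa using hx
  · intro n hn c hc
    exact h.cent_norm hn hc

theorem norm2 {a b : G} (ha : a ∈ h.Om) (hb : b ∈ h.Om) (ha1 : a ≠ 1) (hb1 : b ≠ 1) :
    ∃ n ∈ Subgroup.normalizer (h.S0 : Set G), n * a * n⁻¹ = b := by
  haveI : Fact (Nat.Prime 2) := ⟨Nat.prime_two⟩
  obtain ⟨n, hn, hnab⟩ := h.norm1 ha hb ha1 hb1
  obtain ⟨Q, hQ⟩ := h.sylC
  -- the conjugate of S0
  let C := Subgroup.centralizer (h.Om : Set G)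
  have h1 : h.S0.map (MulAut.conj n).toMonoidHom ≤ C := by
    rintro _ ⟨x, hx, rfl⟩
    exact h.cent_norm hn hx.2
  have h2 : IsPGroup 2 ((h.S0.map (MulAut.conj n).toMonoidHom).subgroupOf C) := by
    apply IsPGroup.comap_of_injective _ _ (Subgroup.subtype_injective _)
    exact (S.isPGroup'.to_le h.S0_le).map _
  obtain ⟨P, hP⟩ := h2.exists_le_sylow
  obtain ⟨c, hc⟩ := MulAction.exists_smul_eq C P Q
  have key : ∀ x ∈ h.S0, (c : G) * (n * x * n⁻¹) * (c : G)⁻¹ ∈ h.S0 := by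
    intro x hx
    have h3 : (⟨n * x * n⁻¹, h1 ⟨x, hx, rfl⟩⟩ : C) ∈ (P : Subgroup C) := by
      apply hP
      rw [Subgroup.mem_subgroupOf]
      exact ⟨x, hx, rfl⟩
    have h4 : c * (⟨n * x * n⁻¹, h1 ⟨x, hx, rfl⟩⟩ : C) * c⁻¹ ∈ (Q : Subgroup C) := by
      rw [← hc]
      exact ⟨_, h3, rfl⟩
    rw [hQ, Subgroup.mem_subgroupOf] at h4
    exact h4
  refine ⟨c * n, ?_, ?_⟩
  · apply mem_norm_of_le
    intro x hx
    have := key x hx
    have h5 : (c : G) * n * x * ((c : G) * n)⁻¹ = (c : G) * (n * x * n⁻¹) * (c : G)⁻¹ := by group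
    rw [h5]
    exact this
  · have h5 : (c : G) * n * a * ((c : G) * n)⁻¹ = (c : G) * (n * a * n⁻¹) * (c : G)⁻¹ := by group
    rw [h5, hnab]
    have h6 := (Subgroup.mem_centralizer_iff.mp c.2) b hb
    rw [← h6]
    group

end HypC

end Cfsg.Agent.H55.Out
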