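import Cfsg.Agent.H55.Out1

set_option autoImplicit false
set_option maxHeartbeats 800000

namespace Cfsg.Agent.H55.Out

universe u

section Fix

variable {W : Type u} [CommGroup W]

/-- fixed points of a group of automorphisms -/
def fixS (P : Subgroup (MulAut W)) : Subgroup W where
  carrier := {w | ∀ y ∈ P, y w = w}
  one_mem' := fun y _ => map_one y
  mul_mem' := fun {a b} ha hb y hy => by rw [map_mul, ha y hy, hb y hy]
  inv_mem' := fun {a} ha y hy => by rw [map_inv, ha y hy]

theorem card_fix [Finite W] {r : ℕ} [Fact r.Prime] (P : Subgroup (MulAut W)) (hP : IsPGroup r P)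
    (U : Subgroup W) (hU : ∀ y ∈ P, ∀ u ∈ U, y u ∈ U) :
    Nat.card U ≡ Nat.card (fixS P ⊓ U : Subgroup W) [MOD r] := by
  letI : MulAction P U :=
    { smul := fun y u => ⟨y.1 u.1, hU y.1 y.2 u.1 u.2⟩
      one_smul := fun u => rfl
      mul_smul := fun a b u => rfl }
  have h := hP.card_modEq_card_fixedPoints U
  have e : Nat.card (MulAction.fixedPoints P U) = Nat.card (fixS P ⊓ U : Subgroup W) := by
    apply Nat.card_congr
    refine ⟨fun u => ⟨u.1.1, ⟨fun y hy => congrArg Subtype.val (u.2 ⟨y, hy⟩), u.1.2⟩⟩,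
      fun w => ⟨⟨w.1, w.2.2⟩, fun y => Subtype.ext (w.2.1 y.1 y.2)⟩, fun u => rfl, fun w => rfl⟩
  rw [← e]; exact h

theorem pow_cancel {r a b : ℕ} (hr : r.Prime) (h2 : r ≠ 2) (hab : b ≤ a) (h : 2 ^ a ≡ 2 ^ b [MOD r]) :
    r ∣ 2 ^ (a - b) - 1 := by
  have h1 := (Nat.modEq_iff_dvd' (Nat.pow_le_pow_right (by norm_num) hab)).mp h.symm
  have h3 : 2 ^ a - 2 ^ b = 2 ^ b * (2 ^ (a - b) - 1) := by
    rw [Nat.mul_sub, ← pow_add, Nat.add_sub_cancel' hab, mul_one]
  rw [h3] at h1
  have hc : Nat.Coprime r (2 ^ b) := by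
    apply Nat.Coprime.pow_right
    exact (Nat.coprime_primes hr Nat.prime_two).mpr h2
  exact hc.dvd_of_dvd_mul_left h1

theorem card_pow_two [Finite W] (hW2 : ∀ w : W, w * w = 1) (U : Subgroup W) :
    ∃ k, Nat.card U = 2 ^ k := by
  have : IsPGroup 2 U := fun w => ⟨1, by
    apply Subtype.ext
    rw [pow_one, pow_two]
    exact hW2 w.1⟩
  haveI hf : Fact (Nat.Prime 2) := ⟨Nat.prime_two⟩
  exact IsPGroup.iff_card.mp this

/-- a primitive prime element is irreducible -/
theorem irr_of_ppd [Finite W] (hW2 : ∀ w : W, w * w = 1) {n r : ℕ} (hn0 : 0 < n) (hn : Nat.card W = 2 ^ n) (hr : r.Prime)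
    (hrn : r ∣ 2 ^ n - 1) (hrk : ∀ k, 0 < k → k < n → ¬ r ∣ 2 ^ k - 1) (x : MulAut W)
    (hx : orderOf x = r) (U : Subgroup W)
    (hU : ∀ y ∈ Subgroup.zpowers x, ∀ u ∈ U, y u ∈ U) : U = ⊥ ∨ U = ⊤ := by
  haveI : Fact r.Prime := ⟨hr⟩
  have hr2 : r ≠ 2 := by
    rintro rfl
    have : 2 ∣ 2 ^ n := dvd_pow_self 2 hn0.ne'
    have h1 : 1 ≤ 2 ^ n := Nat.one_le_two_pow
    omega
  have hP : IsPGroup r (Subgroup.zpowers x) := by
    apply IsPGroup.of_card (n := 1)
    rw [Nat.card_zpowers, hx, pow_one]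
  -- fixed points trivial
  have hF : fixS (Subgroup.zpowers x) = ⊥ := by
    obtain ⟨j, hj⟩ := card_pow_two hW2 (fixS (Subgroup.zpowers x))
    have h1 := card_fix (Subgroup.zpowers x) hP ⊤ (fun _ _ _ _ => Subgroup.mem_top _)
    rw [inf_top_eq, hj, Subgroup.card_top, hn] at h1
    have hjn : j ≤ n := by
      have h2 : Nat.card (fixS (Subgroup.zpowers x)) ≤ Nat.card W := Nat.card_le_card_of_injective _ Subtype.val_injective
      rw [hj, hn] at h2
      exact (Nat.pow_le_pow_iff_right (by norm_num)).mp h2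
    have h2 := pow_cancel hr hr2 hjn h1
    rcases Nat.eq_zero_or_pos (n - j) with h3 | h3
    · exfalso
      have hjn' : j = n := by omega
      have h4 : fixS (Subgroup.zpowers x) = ⊤ := by
        apply Subgroup.eq_top_of_card_eq
        rw [hj, hn, hjn']
      have h5 : x = 1 := by
        ext w
        have : w ∈ fixS (Subgroup.zpowers x) := h4 ▸ Subgroup.mem_top w
        exact this x (Subgroup.mem_zpowers x)
      rw [h5, orderOf_one] at hx
      exact hr.one_lt.ne hx
    · by_cases hj0 : j = 0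
      · apply Subgroup.eq_bot_of_card_eq
        rw [hj, hj0, pow_zero]
      · exact absurd h2 (hrk _ h3 (by omega))
  obtain ⟨k, hk⟩ := card_pow_two hW2 U
  have h1 := card_fix (Subgroup.zpowers x) hP U hU
  rw [hF, bot_inf_eq, Subgroup.card_bot, hk] at h1
  have h2 := pow_cancel (b := 0) hr hr2 (Nat.zero_le k) (by simpa using h1)
  rw [Nat.sub_zero] at h2
  by_cases hk0 : k = 0
  · left
    apply Subgroup.eq_bot_of_card_eq
    rw [hk, hk0, pow_zero]
  · right
    have hkn : k ≤ n := by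
      have h2 : Nat.card U ≤ Nat.card W := Nat.card_le_card_of_injective _ Subtype.val_injective
      rw [hk, hn] at h2
      exact (Nat.pow_le_pow_iff_right (by norm_num)).mp h2
    have : k = n := by
      by_contra hne
      exact hrk k (Nat.pos_of_ne_zero hk0) (by omega) h2
    apply Subgroup.eq_top_of_card_eq
    rw [hk, hn, this]

/-- index of point stabilizers -/
theorem stab_index [Finite W] {H : Type u} [Group H] [Finite H] [MulDistribMulAction H W]
    (htr : ∀ a b : W, a ≠ 1 → b ≠ 1 → ∃ g : H, g • a = b) {w : W} (hw : w ≠ 1) :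
    (MulAction.stabilizer H w).index = Nat.card W - 1 := by
  rw [MulAction.index_stabilizer]
  have : MulAction.orbit H w = {1}ᶜ := by
    ext v
    rw [Set.mem_compl_singleton_iff]
    constructor
    · rintro ⟨g, rfl⟩ h
      apply hw
      have h1 : g • w = 1 := h
      have h2 : g⁻¹ • g • w = w := inv_smul_smul g w
      rw [h1, smul_one] at h2
      exact h2.symm
    · intro hv
      obtain ⟨g, hgv⟩ := htr w v hw hv
      exact ⟨g, hgv⟩
  rw [this]
  have h1 := Set.ncard_add_ncard_compl ({1} : Set W)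
  rw [Set.ncard_singleton] at h1
  omega

theorem fix_contra [Finite W] {H : Type u} [Group H] [Finite H] [MulDistribMulAction H W]
    (htr : ∀ a b : W, a ≠ 1 → b ≠ 1 → ∃ g : H, g • a = b) {w : W} (hw : w ≠ 1) {r : ℕ} [Fact r.Prime]
    (R : Sylow r H) (hR : ∀ y ∈ (R : Subgroup H), y • w = w) (hr : r ∣ Nat.card W - 1) : False := by
  have h1 : (R : Subgroup H) ≤ MulAction.stabilizer H w := by
    intro y hy
    rw [MulAction.mem_stabilizer_iff]
    exact hR y hy
  have h2 := Subgroup.index_dvd_of_le h1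
  rw [stab_index htr hw] at h2
  exact R.not_dvd_index (hr.trans h2)

end Fix

section Frattini

theorem solv_of_R {A : Type u} [Group A] [Finite A] (N : Subgroup A) [N.Normal] {r : ℕ} [Fact r.Prime]
    (P : Sylow r N)
    (hK : Group.IsSolvable (Subgroup.normalizer (((P : Subgroup N).map N.subtype : Subgroup A) : Set A))) :
    Group.IsSolvable (A ⧸ N) := by
  have hsup := P.normalizer_sup_eq_top
  let K := Subgroup.normalizer (((P : Subgroup N).map N.subtype : Subgroup A) : Set A)
  haveI : Group.IsSolvable K := hK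
  have hs : Function.Surjective ((QuotientGroup.mk' N).comp K.subtype) := by
    intro q
    obtain ⟨a, rfl⟩ := QuotientGroup.mk'_surjective N q
    have ha : a ∈ K ⊔ N := by
      rw [show K ⊔ N = ⊤ from hsup]; exact Subgroup.mem_top _
    rw [Subgroup.mem_sup_of_normal_right] at ha
    obtain ⟨k, hk, n, hn, rfl⟩ := ha
    refine ⟨⟨k, hk⟩, ?_⟩
    change QuotientGroup.mk' N k = _
    rw [map_mul, (QuotientGroup.eq_one_iff n).mpr hn |> fun h => (show QuotientGroup.mk' N n = 1 from h), mul_one]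
  exact Group.isSolvable_of_surjective hs

theorem exists_of_dvd {A : Type u} [Group A] [Finite A] (N : Subgroup A) [N.Normal] {r : ℕ} [Fact r.Prime]
    (P : Sylow r N) {l : ℕ} (hl : l.Prime) (h : l ∣ Nat.card (A ⧸ N)) :
    ∃ y : A, y ∈ Subgroup.normalizer (((P : Subgroup N).map N.subtype : Subgroup A) : Set A) ∧ orderOf y = l := by
  have hsup := P.normalizer_sup_eq_top
  let K := Subgroup.normalizer (((P : Subgroup N).map N.subtype : Subgroup A) : Set A)
  have hs : Function.Surjective ((QuotientGroup.mk' N).comp K.subtype) := by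
    intro q
    obtain ⟨a, rfl⟩ := QuotientGroup.mk'_surjective N q
    have ha : a ∈ K ⊔ N := by
      rw [show K ⊔ N = ⊤ from hsup]; exact Subgroup.mem_top _
    rw [Subgroup.mem_sup_of_normal_right] at ha
    obtain ⟨k, hk, n, hn, rfl⟩ := ha
    refine ⟨⟨k, hk⟩, ?_⟩
    change QuotientGroup.mk' N k = _
    rw [map_mul, (QuotientGroup.eq_one_iff n).mpr hn |> fun h => (show QuotientGroup.mk' N n = 1 from h), mul_one]
  have h1 : Nat.card (A ⧸ N) ∣ Nat.card K := Subgroup.card_dvd_of_surjective _ hs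
  haveI : Fact l.Prime := ⟨hl⟩
  obtain ⟨y, hy⟩ := exists_prime_orderOf_dvd_card' l (h.trans h1)
  exact ⟨y.1, y.2, by rw [Subgroup.orderOf_coe]; exact hy⟩

end Frattini

end Cfsg.Agent.H55.Out
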