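import Mathlib

set_option autoImplicit false
set_option maxHeartbeats 800000

namespace Cfsg.Agent.H55.Out

universe u v

section FieldPart

variable {W : Type u} [AddCommGroup W]

theorem eq_of_add_zero (w2 : ∀ w : W, w + w = 0) {x y : W} (h : x + y = 0) : x = y := by
  have h1 : x + y + y = y := by rw [h, zero_add]
  rw [add_assoc, w2, add_zero] at h1
  exact h1

theorem end_irr {C : Set (AddMonoid.End W)} (tr : ∀ a b : W, a ≠ 0 → b ≠ 0 → ∃ c ∈ C, c a = b)
    {E : AddMonoid.End W} (hE : ∀ c ∈ C, ∀ w, E (c w) = c (E w)) {w0 : W} (h0 : E w0 ≠ 0) {w : W}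
    (hw : E w = 0) : w = 0 := by
  by_contra hne
  have hw0 : w0 ≠ 0 := by
    rintro rfl
    exact h0 (map_zero E)
  obtain ⟨c, hc, hcw⟩ := tr w w0 hne hw0
  apply h0
  rw [← hcw, hE c hc, hw, map_zero]

theorem field_contra [Finite W] (w2 : ∀ w : W, w + w = 0) {C : Set (AddMonoid.End W)}
    (tr : ∀ a b : W, a ≠ 0 → b ≠ 0 → ∃ c ∈ C, c a = b)
    (D : AddMonoid.End W) (hD : ∀ c ∈ C, ∀ w, D (c w) = c (D w))
    (b : W → W → W) (b1 : ∀ x y z, b (x + y) z = b x z + b y z) (b2 : ∀ x y z, b x (y + z) = b x y + b x z)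
    (bw : ∀ w, b w w = w) (bD : ∀ w, b w (D w) = D w) (hD0 : ∃ w, D w ≠ 0) (hD1 : ∃ w, D w ≠ w) : False := by
  obtain ⟨w0, hw0⟩ := hD0
  obtain ⟨w1, hw1⟩ := hD1
  -- symmetry
  have hsym : ∀ x y, b x y = b y x := by
    intro x y
    have h1 := bw (x + y)
    rw [b1, b2, b2, bw, bw] at h1
    apply eq_of_add_zero w2
    have h2 : x + b x y + (b y x + y) = (b x y + b y x) + (x + y) := by abel
    rw [h2] at h1
    exact add_eq_right.mp h1
  have hself : ∀ x y, b x (D y) = b (D x) y := by
    intro x y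
    have h1 := bD (x + y)
    rw [map_add, b1, b2, b2, bD, bD] at h1
    have h2 : D x + b x (D y) + (b y (D x) + D y) = (b x (D y) + b y (D x)) + (D x + D y) := by abel
    rw [h2] at h1
    have h3 := eq_of_add_zero w2 (add_eq_right.mp h1)
    rw [h3, hsym]
  let γ : AddMonoid.End W := D * D + D
  have hγ : ∀ w, γ w = D (D w) + D w := fun w => rfl
  have hγself : ∀ x y, b x (γ y) = b (γ x) y := by
    intro x y
    rw [hγ, hγ, b1, b2, hself, hself, hself]
  have hb0 : ∀ w, b w (γ w) = 0 := by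
    intro w
    rw [hγ, b2, hself, bw, bD, w2]
  have hDinj : ∀ w, D w = 0 → w = 0 := fun w hw => end_irr tr hD hw0 hw
  have hD1inj : ∀ w, (D + 1) w = 0 → w = 0 := by
    intro w hw
    refine end_irr (E := D + 1) tr ?_ (w0 := w1) ?_ hw
    · intro c hc w
      change D (c w) + c w = c (D w + w)
      rw [map_add, hD c hc]
    · intro h
      exact hw1 (eq_of_add_zero w2 h)
  have hγinj : ∀ w, γ w = 0 → w = 0 := by
    intro w hw
    apply hD1inj
    change D w + w = 0
    apply hDinj
    rw [map_add]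
    exact hw
  have hγC : ∀ k : ℕ, ∀ c ∈ C, ∀ w, (γ ^ k) (c w) = c ((γ ^ k) w) := by
    intro k
    induction k with
    | zero => intro c _ w; rfl
    | succ k ih =>
      intro c hc w
      rw [pow_succ]
      change (γ ^ k) (γ (c w)) = c ((γ ^ k) (γ w))
      rw [← ih c hc]
      congr 1
      rw [hγ, hγ, map_add, hD c hc, hD c hc]
  have hpinj : ∀ k : ℕ, ∀ w, (γ ^ k) w = 0 → w = 0 := by
    intro k
    induction k with
    | zero => intro w hw; exact hw
    | succ k ih =>
      intro w hw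
      rw [pow_succ] at hw
      exact hγinj w (ih _ hw)
  haveI : Finite (AddMonoid.End W) := by
    apply Finite.of_injective (fun f : AddMonoid.End W => (f : W → W))
    intro f g h
    exact DFunLike.coe_injective h
  have hex : ∃ n, 0 < n ∧ γ ^ n = 1 := by
    obtain ⟨i, j, hij, h⟩ := Finite.exists_ne_map_eq_of_infinite (fun n : ℕ => γ ^ n)
    have key : ∀ i j : ℕ, i < j → γ ^ i = γ ^ j → ∃ n, 0 < n ∧ γ ^ n = 1 := by
      intro i j hij h
      refine ⟨j - i, by omega, ?_⟩
      apply AddMonoidHom.ext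
      intro w
      have h1 : γ ^ j = γ ^ i * γ ^ (j - i) := by rw [← pow_add]; congr 1; omega
      have h2 : (γ ^ i) ((γ ^ (j - i)) w - w) = 0 := by
        rw [map_sub]
        have h3 : (γ ^ i) ((γ ^ (j - i)) w) = (γ ^ j) w := by rw [h1]; rfl
        rw [h3, ← h, sub_self]
      have h4 := hpinj i _ h2
      exact sub_eq_zero.mp h4
    rcases lt_or_gt_of_ne hij with h1 | h1
    · exact key i j h1 h
    · exact key j i h1 h.symm
  classical
  obtain ⟨hn0, hn⟩ := Nat.find_spec hex
  set n := Nat.find hex with hndef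
  have hodd : ∃ f, n = 2 * f + 1 := by
    rcases Nat.even_or_odd' n with ⟨f, hf | hf⟩
    · exfalso
      have hf0 : 0 < f := by omega
      have hg1 : γ ^ f ≠ 1 := by
        intro h
        have := Nat.find_min hex (m := f) (by omega)
        exact this ⟨hf0, h⟩
      have hg2 : ∀ w, (γ ^ f) ((γ ^ f) w) = w := by
        intro w
        have h1 : γ ^ f * γ ^ f = 1 := by rw [← pow_add, ← two_mul, ← hf, hn]
        have h2 : (γ ^ f * γ ^ f) w = (1 : AddMonoid.End W) w := by rw [h1]
        exact h2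
      obtain ⟨w3, hw3⟩ : ∃ w, (γ ^ f) w ≠ w := by
        by_contra hno
        push Not at hno
        apply hg1
        apply AddMonoidHom.ext
        exact hno
      have hinj : ∀ w, (γ ^ f + 1) w = 0 → w = 0 := by
        intro w hw
        refine end_irr (E := γ ^ f + 1) tr ?_ (w0 := w3) ?_ hw
        · intro c hc w
          change (γ ^ f) (c w) + c w = c ((γ ^ f) w + w)
          rw [map_add, hγC f c hc]
        · intro h
          exact hw3 (eq_of_add_zero w2 h)
      have hz : ∀ w : W, w = 0 := by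
        intro w
        apply hinj
        apply hinj
        change (γ ^ f) ((γ ^ f) w + w) + ((γ ^ f) w + w) = 0
        rw [map_add, hg2]
        have : w + (γ ^ f) w + ((γ ^ f) w + w) = (w + w) + ((γ ^ f) w + (γ ^ f) w) := by abel
        rw [this, w2, w2, add_zero]
      exact hw0 (hz _)
    · exact ⟨f, hf⟩
  obtain ⟨f, hf⟩ := hodd
  have hpself : ∀ k : ℕ, ∀ x y, b x ((γ ^ k) y) = b ((γ ^ k) x) y := by
    intro k
    induction k with
    | zero => intro x y; rfl
    | succ k ih =>
      intro x y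
      have h1 : (γ ^ (k + 1)) y = γ ((γ ^ k) y) := by rw [pow_succ']; rfl
      have h2 : (γ ^ (k + 1)) x = (γ ^ k) (γ x) := by rw [pow_succ]; rfl
      rw [h1, h2, hγself, ih]
  have hall : ∀ w : W, w = 0 := by
    intro w
    have h1 : (γ ^ f) (γ ((γ ^ f) w)) = w := by
      have h2 : γ ^ f * (γ * γ ^ f) = 1 := by
        rw [← pow_succ', ← pow_add]
        rw [show f + (f + 1) = n by omega, hn]
      have h3 : (γ ^ f * (γ * γ ^ f)) w = (1 : AddMonoid.End W) w := by rw [h2]
      exact h3
    have h2 := bw w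
    have h3 : b w w = b w ((γ ^ f) (γ ((γ ^ f) w))) := by rw [h1]
    rw [h3, hpself, hb0] at h2
    exact h2.symm
  exact hw0 (hall _)

end FieldPart

end Cfsg.Agent.H55.Out
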