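import Cfsg.Agent.H55.Out8

set_option autoImplicit false
set_option maxHeartbeats 800000

namespace Cfsg.Agent.H55.Out

universe u v

/-- anisotropic quadratic map with an isometry group `T` and a transitive group of similarities `C`
commuting with `T` -/
structure Dat {V : Type u} {W : Type v} [AddCommGroup V] [AddCommGroup W] (Q : V → W) (B : V → V → W)
    (T : Set (AddMonoid.End V)) (C : Set (AddMonoid.End V × AddMonoid.End W)) : Prop where
  v2 : ∀ v : V, v + v = 0
  w2 : ∀ w : W, w + w = 0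
  qadd : ∀ u v, Q (u + v) = Q u + Q v + B u v
  badd : ∀ u v w, B (u + v) w = B u w + B v w
  ani : ∀ v, Q v = 0 → v = 0
  tQ : ∀ t ∈ T, ∀ v, Q (t v) = Q v
  cQ : ∀ c ∈ C, ∀ v, Q (c.1 v) = c.2 (Q v)
  ct : ∀ c ∈ C, ∀ t ∈ T, ∀ v, c.1 (t v) = t (c.1 v)
  tr : ∀ a b : W, a ≠ 0 → b ≠ 0 → ∃ c ∈ C, c.2 a = b

namespace Dat

variable {V : Type u} {W : Type v} [AddCommGroup V] [AddCommGroup W] {Q : V → W} {B : V → V → W}
  {T : Set (AddMonoid.End V)} {C : Set (AddMonoid.End V × AddMonoid.End W)} (h : Dat Q B T C)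

include h

theorem q0 : Q 0 = 0 := by
  have h1 := h.qadd 0 0
  have h2 := h.badd 0 0 0
  rw [add_zero] at h1 h2
  have h3 : B 0 0 = 0 := by
    have : B 0 0 + 0 = B 0 0 + B 0 0 := by rw [add_zero]; exact h2
    exact (add_left_cancel this).symm
  rw [h3, add_zero, h.w2] at h1
  exact h1

theorem bsymm (u v : V) : B u v = B v u := by
  have h1 := h.qadd u v
  have h2 := h.qadd v u
  rw [add_comm v u, h1, add_comm (Q v) (Q u)] at h2
  exact add_left_cancel h2

theorem badd' (u v w : V) : B u (v + w) = B u v + B u w := by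
  rw [h.bsymm, h.badd, h.bsymm v, h.bsymm w]

theorem bT {t : AddMonoid.End V} (ht : t ∈ T) (u v : V) : B (t u) (t v) = B u v := by
  have h1 := h.qadd (t u) (t v)
  rw [← map_add, h.tQ t ht, h.tQ t ht, h.tQ t ht, h.qadd] at h1
  exact (add_left_cancel h1).symm

theorem eqw {x y : W} (hxy : x + y = 0) : x = y := eq_of_add_zero h.w2 hxy

theorem eqv {x y : V} (hxy : x + y = 0) : x = y := eq_of_add_zero h.v2 hxy

theorem b0 (u : V) : B u 0 = 0 := by
  have := h.badd' u 0 0
  rw [add_zero] at this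
  have h2 : B u 0 + 0 = B u 0 + B u 0 := by rw [add_zero]; exact this
  exact (add_left_cancel h2).symm

/-- `[V,t]` is orthogonal to `C_V(t)` -/
theorem bdel {t : AddMonoid.End V} (ht : t ∈ T) (v c : V) (hc : t c = c) : B (v + t v) c = 0 := by
  rw [h.badd]
  have h1 := h.bT ht v c
  rw [hc] at h1
  rw [h1, h.w2]

theorem bdel' {t : AddMonoid.End V} (ht : t ∈ T) (v c : V) (hc : t c = c) : B c (v + t v) = 0 := by
  rw [h.bsymm, h.bdel ht v c hc]

theorem tdel {t : AddMonoid.End V} (ht2 : ∀ v, t (t v) = v) (v : V) : t (v + t v) = v + t v := by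
  rw [map_add, ht2, add_comm]

theorem tinj {t : AddMonoid.End V} (ht : t ∈ T) (ht2 : ∀ v, t (t v) = v) {v v' : V}
    (hq : Q (v + t v) = Q (v' + t v')) : v + t v = v' + t v' := by
  apply h.eqv
  apply h.ani
  rw [h.qadd, hq, h.w2, zero_add]
  exact h.bdel ht v _ (h.tdel ht2 v')

theorem qdel_add {t : AddMonoid.End V} (ht : t ∈ T) (ht2 : ∀ v, t (t v) = v) (v v' : V) :
    Q (v + v' + t (v + v')) = Q (v + t v) + Q (v' + t v') := by
  have h1 : v + v' + t (v + v') = (v + t v) + (v' + t v') := by rw [map_add]; abel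
  rw [h1, h.qadd, h.bdel ht v _ (h.tdel ht2 v'), add_zero]

theorem cdel {t : AddMonoid.End V} (ht : t ∈ T) {c : AddMonoid.End V × AddMonoid.End W} (hc : c ∈ C) (v : V) :
    c.1 (v + t v) = c.1 v + t (c.1 v) := by
  rw [map_add, h.ct c hc t ht]

theorem tsurj {t : AddMonoid.End V} (ht : t ∈ T) (ht1 : t ≠ 1) (w : W) :
    ∃ v, Q (v + t v) = w := by
  by_cases hw : w = 0
  · exact ⟨0, by rw [map_zero, add_zero, h.q0, hw]⟩
  · obtain ⟨v0, hv0⟩ : ∃ v, t v ≠ v := by
      by_contra hno
      push Not at hno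
      apply ht1
      apply AddMonoidHom.ext
      exact hno
    have h1 : Q (v0 + t v0) ≠ 0 := fun hq => hv0 (h.eqv (h.ani _ hq)).symm
    obtain ⟨c, hc, hcw⟩ := h.tr _ _ h1 hw
    refine ⟨c.1 v0, ?_⟩
    rw [← h.cdel ht hc, h.cQ c hc, hcw]

/-- no elements of order 4 -/
theorem no_four {x : AddMonoid.End V} (hx : x ∈ T) (hxx : x * x ∈ T)
    (hx4 : ∀ v, x (x (x (x v))) = v) : x * x = 1 := by
  by_contra hne
  have ht2 : ∀ v, (x * x) ((x * x) v) = v := hx4
  apply hne
  apply AddMonoidHom.ext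
  intro v
  change x (x v) = v
  have hfix : x (v + (x * x) v) = v + (x * x) v := by
    have h1 : x (v + (x * x) v) = x v + (x * x) (x v) := by rw [map_add]; rfl
    rw [h1]
    apply h.tinj hxx ht2
    rw [← h1, h.tQ x hx]
  have ha : (v + x v) + x (v + x v) = v + (x * x) v := by
    rw [map_add]
    change v + x v + (x v + x (x v)) = v + x (x v)
    have : v + x v + (x v + x (x v)) = v + x (x v) + (x v + x v) := by abel
    rw [this, h.v2, add_zero]
  have h1 : Q (x (v + x v)) = Q (v + x v) := h.tQ x hx _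
  have h2 : x (v + x v) = (v + x v) + (v + (x * x) v) := by
    rw [← ha, ← add_assoc, h.v2, zero_add]
  rw [h2, h.qadd] at h1
  have h3 : B (v + x v) (v + (x * x) v) = 0 := h.bdel hx v _ hfix
  rw [h3, add_zero] at h1
  have h4 : Q (v + (x * x) v) = 0 := add_eq_left.mp h1
  exact (h.eqv (h.ani _ h4)).symm

section two

variable {s t : AddMonoid.End V} (hs : s ∈ T) (ht : t ∈ T) (hs2 : ∀ v, s (s v) = v) (ht2 : ∀ v, t (t v) = v)
  (hst : ∀ v, s (t v) = t (s v)) (hs1 : s ≠ 1) (ht1 : t ≠ 1)

include hs ht ht2 hst in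
theorem fix_del (v : V) : s (v + t v) = v + t v := by
  have h1 : s (v + t v) = s v + t (s v) := by rw [map_add, hst]
  rw [h1]
  apply h.tinj ht ht2
  rw [← h1, h.tQ s hs]

include hs ht hs2 ht2 hst ht1 in
theorem U_sub (v : V) : ∃ v', v' + t v' = v + s v := by
  obtain ⟨v', hv'⟩ := h.tsurj ht ht1 (Q (v + s v))
  refine ⟨v', ?_⟩
  apply h.eqv
  apply h.ani
  rw [h.qadd, hv', h.w2, zero_add, h.bsymm]
  exact h.bdel hs v _ (h.fix_del hs ht ht2 hst v')

include hs ht hs2 ht2 hst hs1 ht1 in
/-- the fixed points agree -/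
theorem ker_sub {v0 : V} (hv0 : s v0 = v0) : t v0 = v0 := by
  by_contra hne
  have hst' : ∀ v, t (s v) = s (t v) := fun v => (hst v).symm
  have hq0 : Q (v0 + t v0) ≠ 0 := fun hq => hne (h.eqv (h.ani _ hq)).symm
  have hcl : ∀ v, ∃ v', s v' = v' ∧ v' + t v' = v + t v := by
    intro v
    by_cases hv : Q (v + t v) = 0
    · refine ⟨0, map_zero s, ?_⟩
      rw [map_zero, add_zero, h.ani _ hv]
    · obtain ⟨c, hc, hcw⟩ := h.tr _ _ hq0 hv
      refine ⟨c.1 v0, ?_, ?_⟩
      · rw [← h.ct c hc s hs, hv0]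
      · apply h.tinj ht ht2
        rw [← h.cdel ht hc, h.cQ c hc, hcw]
  apply hs1
  apply AddMonoidHom.ext
  intro v
  change s v = v
  obtain ⟨v', hv', hvt⟩ := hcl v
  have h1 : t (v + v') = v + v' := by
    apply Eq.symm
    apply h.eqv
    rw [map_add]
    have : v + v' + (t v + t v') = (v + t v) + (v' + t v') := by abel
    rw [this, hvt, h.v2]
  obtain ⟨u', hu'⟩ := h.U_sub hs ht hs2 ht2 hst ht1 v
  have h2 : B (v + v') (v + s v) = 0 := by
    rw [← hu']
    exact h.bdel' ht u' _ h1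
  have h3 : B v' (v + s v) = 0 := h.bdel' hs v _ hv'
  have h4 : B v (v + s v) = 0 := by
    have h5 : v = (v + v') + v' := by rw [add_assoc, h.v2, add_zero]
    have h6 : B v (v + s v) = B ((v + v') + v') (v + s v) := by rw [← h5]
    rw [h6, h.badd, h2, h3, add_zero]
  have h5 : Q (s v) = Q v := h.tQ s hs v
  have h6 : s v = v + (v + s v) := by rw [← add_assoc, h.v2, zero_add]
  rw [h6, h.qadd, h4, add_zero] at h5
  have h7 := add_eq_left.mp h5
  exact (h.eqv (h.ani _ h7)).symm

include hs ht hs2 ht2 hst hs1 ht1 in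
theorem two_eq [Finite W] : s = t := by
  by_contra hne
  have hst' : ∀ v, t (s v) = s (t v) := fun v => (hst v).symm
  have hU := h.U_sub hs ht hs2 ht2 hst ht1
  have hU' := h.U_sub ht hs ht2 hs2 hst' hs1
  have hk : ∀ v, s v = v → t v = v := fun v => h.ker_sub hs ht hs2 ht2 hst hs1 ht1
  have hk' : ∀ v, t v = v → s v = v := fun v => h.ker_sub ht hs ht2 hs2 hst' ht1 hs1
  choose p hp using h.tsurj hs hs1
  -- same `s`-value implies same `t`-value
  have key : ∀ v v', v + s v = v' + s v' → v + t v = v' + t v' := by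
    intro v v' hvv
    have h1 : s (v + v') = v + v' := by
      apply Eq.symm
      apply h.eqv
      rw [map_add]
      have : v + v' + (s v + s v') = (v + s v) + (v' + s v') := by abel
      rw [this, hvv, h.v2]
    have h2 := hk _ h1
    apply h.eqv
    have : v + t v + (v' + t v') = (v + v') + (t v + t v') := by abel
    rw [this, ← map_add, h2, h.v2]
  have keyp : ∀ v, v + s v = p (Q (v + s v)) + s (p (Q (v + s v))) := by
    intro v
    apply h.tinj hs hs2
    rw [hp]
  let D : AddMonoid.End W :=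
    { toFun := fun w => Q (p w + t (p w))
      map_zero' := by
        have h1 : p 0 + s (p 0) = 0 := h.ani _ (hp 0)
        have h2 := hk _ (h.eqv h1).symm
        change Q (p 0 + t (p 0)) = 0
        rw [h2, h.v2, h.q0]
      map_add' := by
        intro x y
        change Q (p (x + y) + t (p (x + y))) = Q (p x + t (p x)) + Q (p y + t (p y))
        rw [← h.qdel_add ht ht2]
        congr 1
        apply key
        apply h.tinj hs hs2
        rw [hp, h.qdel_add hs hs2, hp, hp] }
  have hDapp : ∀ w, D w = Q (p w + t (p w)) := fun w => rfl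
  have hDQ : ∀ v, D (Q (v + s v)) = Q (v + t v) := by
    intro v
    rw [hDapp, ← key v _ (keyp v)]
  let b : W → W → W := fun x w => B (p x) (p w + s (p w))
  have hbw : ∀ v, B v (v + s v) = Q (v + s v) := by
    intro v
    have h5 : Q (s v) = Q v := h.tQ s hs v
    have h6 : s v = v + (v + s v) := by rw [← add_assoc, h.v2, zero_add]
    rw [h6, h.qadd] at h5
    have h7 : Q v + (Q (v + s v) + B v (v + s v)) = Q v + 0 := by rw [← add_assoc, add_zero]; exact h5
    exact (h.eqw (add_left_cancel h7)).symm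
  have hbt : ∀ v, B v (v + t v) = Q (v + t v) := by
    intro v
    have h5 : Q (t v) = Q v := h.tQ t ht v
    have h6 : t v = v + (v + t v) := by rw [← add_assoc, h.v2, zero_add]
    rw [h6, h.qadd] at h5
    have h7 : Q v + (Q (v + t v) + B v (v + t v)) = Q v + 0 := by rw [← add_assoc, add_zero]; exact h5
    exact (h.eqw (add_left_cancel h7)).symm
  refine field_contra (C := {f | ∃ c ∈ C, c.2 = f}) h.w2 ?_ D ?_ b ?_ ?_ ?_ ?_ ?_ ?_
  · intro a a' ha ha'
    obtain ⟨c, hc, hca⟩ := h.tr a a' ha ha'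
    exact ⟨c.2, ⟨c, hc, rfl⟩, hca⟩
  · rintro _ ⟨c, hc, rfl⟩ w
    have h1 : c.2 w = Q (c.1 (p w) + s (c.1 (p w))) := by
      rw [← h.cdel hs hc, h.cQ c hc, hp]
    rw [h1, hDQ, ← h.cdel ht hc, h.cQ c hc, hDapp]
  · intro x y z
    change B (p (x + y)) (p z + s (p z)) = B (p x) (p z + s (p z)) + B (p y) (p z + s (p z))
    rw [← h.badd]
    have h1 : s (p (x + y) + (p x + p y)) = p (x + y) + (p x + p y) := by
      apply Eq.symm
      apply h.eqv
      rw [map_add]
      have h2 : p (x + y) + s (p (x + y)) = (p x + p y) + s (p x + p y) := by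
        apply h.tinj hs hs2
        rw [hp, h.qdel_add hs hs2, hp, hp]
      have h3 : p (x + y) + (p x + p y) + (s (p (x + y)) + s (p x + p y)) =
        (p (x + y) + s (p (x + y))) + ((p x + p y) + s (p x + p y)) := by abel
      rw [h3, h2, h.v2]
    have h2 := h.bdel' hs (p z) _ h1
    rw [h.badd] at h2
    exact h.eqw h2
  · intro x y z
    change B (p x) (p (y + z) + s (p (y + z))) = B (p x) (p y + s (p y)) + B (p x) (p z + s (p z))
    rw [← h.badd']
    congr 1
    have h2 : p (y + z) + s (p (y + z)) = (p y + p z) + s (p y + p z) := by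
      apply h.tinj hs hs2
      rw [hp, h.qdel_add hs hs2, hp, hp]
    rw [h2, map_add]
    abel
  · intro w
    change B (p w) (p w + s (p w)) = w
    rw [hbw, hp]
  · intro w
    change B (p w) (p (D w) + s (p (D w))) = D w
    obtain ⟨v', hv'⟩ := hU' (p w)
    have h1 : p (D w) + s (p (D w)) = p w + t (p w) := by
      rw [← hv']
      apply h.tinj hs hs2
      rw [hp, hv', hDapp]
    rw [h1, hbt, hDapp]
  · obtain ⟨v, hv⟩ : ∃ v, s v ≠ v := by
      by_contra hno
      push Not at hno
      exact hs1 (AddMonoidHom.ext hno)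
    refine ⟨Q (v + s v), ?_⟩
    rw [hDQ]
    intro h0
    exact hv (hk' v (h.eqv (h.ani _ h0)).symm)
  · by_contra hno
    push Not at hno
    apply hne
    apply AddMonoidHom.ext
    intro v
    have h1 := hno (Q (v + s v))
    rw [hDQ] at h1
    obtain ⟨v', hv'⟩ := hU' v
    have h2 : v + t v = v + s v := by
      rw [← hv']
      apply h.tinj hs hs2
      rw [hv', h1]
    exact (add_left_cancel h2).symm

end two

/-- a 2-group of isometries commuting with a transitive group of similarities has order at most 2 -/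
theorem main [Finite W] (hmul : ∀ s ∈ T, ∀ t ∈ T, s * t ∈ T) (hpow : ∀ t ∈ T, ∃ k : ℕ, t ^ (2 ^ k) = 1)
    (hone : (1 : AddMonoid.End V) ∈ T) :
    ∀ s ∈ T, ∀ t ∈ T, s ≠ 1 → t ≠ 1 → s = t := by
  have hTpow : ∀ t ∈ T, ∀ n : ℕ, t ^ n ∈ T := by
    intro t ht n
    induction n with
    | zero => rw [pow_zero]; exact hone
    | succ n ih => rw [pow_succ]; exact hmul _ ih _ ht
  have hsq : ∀ k : ℕ, ∀ t ∈ T, t ^ (2 ^ k) = 1 → t * t = 1 := by
    intro k
    induction k with
    | zero => intro t _ h1; rw [pow_zero, pow_one] at h1; rw [h1, mul_one]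
    | succ k ih =>
      intro t ht h1
      have h2 : (t * t) ^ (2 ^ k) = 1 := by
        rw [← pow_two, ← pow_mul, ← pow_succ', h1]
      have h3 := ih (t * t) (hmul t ht t ht) h2
      apply h.no_four ht (hmul t ht t ht)
      intro v
      have h4 : (t * t * (t * t)) v = (1 : AddMonoid.End V) v := by rw [h3]
      exact h4
  have hinv : ∀ t ∈ T, t * t = 1 := fun t ht => by
    obtain ⟨k, hk⟩ := hpow t ht
    exact hsq k t ht hk
  intro s hs t ht hs1 ht1
  have hs2 : ∀ v, s (s v) = v := fun v => by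
    have : (s * s) v = (1 : AddMonoid.End V) v := by rw [hinv s hs]
    exact this
  have ht2 : ∀ v, t (t v) = v := fun v => by
    have : (t * t) v = (1 : AddMonoid.End V) v := by rw [hinv t ht]
    exact this
  have hst : ∀ v, s (t v) = t (s v) := by
    intro v
    have h1 : s * t * (s * t) = 1 := hinv _ (hmul s hs t ht)
    have h2 : (s * t * (s * t)) (t (s v)) = t (s v) := by rw [h1]; rfl
    change s (t (s (t (t (s v))))) = t (s v) at h2
    rw [ht2, hs2] at h2
    exact h2
  exact h.two_eq hs ht hs2 ht2 hst hs1 ht1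

end Dat

end Cfsg.Agent.H55.Out
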