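import Cfsg.Agent.H55.PS3e
import Cfsg.Agent.ClassBase.PSL

/-!
# The plane of a subgroup isomorphic to `PSL₃(2ⁿ)`
-/

set_option autoImplicit false

namespace Cfsg.Agent.H55

open Matrix Cfsg.Agent.P3
open scoped MatrixGroups LinearAlgebra.Projectivization

namespace PS3

variable {F : Type} [Field F] {G : Type*} [Group G] {ψ : S3 F →* G}

theorem sq_inj (h2 : (2 : F) = 0) {x y : F} (h : x * x = y * y) : x = y := by
  have : (x - y) * (x - y) = 0 := by linear_combination h + (y * y - x * y) * h2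
  exact sub_eq_zero.1 (mul_self_eq_zero.1 this)

theorem pow_inj2 (h2 : (2 : F) = 0) (k : ℕ) {x y : F} (h : x ^ 2 ^ k = y ^ 2 ^ k) : x = y := by
  induction k with
  | zero => simpa using h
  | succ k ih =>
    apply ih
    apply sq_inj h2
    rw [pow_succ, pow_mul, pow_mul, pow_two, pow_two] at h
    exact h

theorem exists_flag {v χ : V3 F} (hv : v ≠ 0) (hχ : χ ≠ 0) (h : χ ⬝ᵥ v = 0) :
    ∃ M : S3 F, vact M (Pi.single 0 1) = v ∧ ∃ c : F, c ≠ 0 ∧ fact M (Pi.single 2 1) = c • χ := by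
  have h1 : ∃ w : V3 F, w ∈ W χ ∧ ∀ c : F, w ≠ c • v := by
    by_contra hcon
    push Not at hcon
    have hvW : v ∈ W χ := by rw [mem_W, dotProduct_comm]; exact h
    have h2 : Module.finrank F (W χ) ≤ 1 := by
      apply finrank_le_one (⟨v, hvW⟩ : W χ)
      rintro ⟨w, hw⟩
      obtain ⟨c, hc⟩ := hcon w hw
      exact ⟨c, Subtype.ext hc.symm⟩
    rw [finrank_W hχ] at h2
    omega
  obtain ⟨w, hw, hwv⟩ := h1
  have hc := not_par_cross hv hwv
  obtain ⟨M, hM0, hM1⟩ := exists_frame hc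
  refine ⟨M, hM0, ?_⟩
  have h3 : fact M (Pi.single 2 1) ⬝ᵥ v = 0 := by
    rw [← hM0, fact_dot_vact]; simp
  have h4 : fact M (Pi.single 2 1) ⬝ᵥ w = 0 := by
    rw [← hM1, fact_dot_vact]; simp
  have hw' : χ ⬝ᵥ w = 0 := by rw [dotProduct_comm]; exact hw
  exact par_of_perp hc h hw' h3 h4 hχ (fact_ne_zero M (single_ne 2))

theorem vact_pow {h : S3 F} {u : V3 F} {a : F} (ha : vact h u = a • u) (n : ℕ) : vact (h ^ n) u = a ^ n • u := by
  induction n with
  | zero => rw [pow_zero, pow_zero, vact_one, one_smul]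
  | succ n ih => rw [pow_succ, vact_mul, ha, vact_smul, ih, smul_smul, pow_succ, mul_comm]

theorem fact_pow {h : S3 F} {u : V3 F} {a : F} (ha : fact h u = a • u) (n : ℕ) : fact (h ^ n) u = a ^ n • u := by
  induction n with
  | zero => rw [pow_zero, pow_zero, fact_one, one_smul]
  | succ n ih => rw [pow_succ, fact_mul, ha, fact_smul, ih, smul_smul, pow_succ, mul_comm]

theorem Good.syl (hψ : Good ψ) : ∀ A ∈ PP ψ, ∀ B ∈ LL ψ, A ⊓ B ≠ ⊥ → ∀ g ∈ ψ.range, (∃ k : ℕ, g ^ 2 ^ k = 1) →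
    cj g A = A → cj g B = B → g ∈ A ⊔ B := by
  rintro _ ⟨v, hv, rfl⟩ _ ⟨χ, hχ, rfl⟩ hAB _ ⟨s, rfl⟩ ⟨k, hk⟩ hA hB
  rw [hψ.meet_iff hv hχ] at hAB
  obtain ⟨M, hM0, c, hc0, hM2⟩ := exists_flag hv hχ hAB
  have hAx : Ax χ = Ax (fact M (Pi.single 2 1)) := by rw [hM2, Ax_smul _ hc0]
  rw [hAx] at hB ⊢
  rw [← hM0] at hA ⊢
  obtain ⟨h, rfl⟩ : ∃ h, M * h * M⁻¹ = s := ⟨M⁻¹ * s * M, by group⟩
  rw [cj_PP, vact_conj] at hA
  rw [cj_LL, fact_conj] at hB
  obtain ⟨a, ha0, ha⟩ := hψ.El_eq (vact_ne_zero M (vact_ne_zero _ (single_ne 0))) hA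
  obtain ⟨d, hd0, hd⟩ := hψ.Ax_eq (fact_ne_zero M (fact_ne_zero _ (single_ne 2))) hB
  have ha' : vact h (Pi.single 0 1) = a • (Pi.single 0 1 : V3 F) := by
    have := congrArg (vact M⁻¹) ha
    rwa [vact_inv_vact, vact_smul, vact_inv_vact] at this
  have hd' : fact h (Pi.single 2 1) = d • (Pi.single 2 1 : V3 F) := by
    have := congrArg (fact M⁻¹) hd
    rwa [fact_inv_fact, fact_smul, fact_inv_fact] at this
  -- the scalar
  have hcen : h ^ 2 ^ k ∈ Subgroup.center (S3 F) := by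
    have h1 : M * h ^ 2 ^ k * M⁻¹ ∈ Subgroup.center (S3 F) := by
      rw [← hψ.ker, MonoidHom.mem_ker, ← conj_pow, map_pow, hk]
    have := (inferInstance : (Subgroup.center (S3 F)).Normal).conj_mem _ h1 M⁻¹
    have e : M⁻¹ * (M * h ^ 2 ^ k * M⁻¹) * M⁻¹⁻¹ = h ^ 2 ^ k := by group
    rwa [e] at this
  obtain ⟨z, hz3, hz⟩ := exists_scalar hcen
  have hz0 : z ≠ 0 := by rintro rfl; norm_num at hz3
  have e1 : a ^ 2 ^ k = z := by
    have h1 := vact_pow ha' (2 ^ k)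
    rw [vact, hz, smul_mulVec, one_mulVec] at h1
    have := congrFun h1 0
    simp at this
    exact this.symm
  have e2 : d ^ 2 ^ k * z = 1 := by
    have h1 := row_of_fact (fact_pow hd' (2 ^ k))
    rw [hz] at h1
    simpa using h1.2.2
  have hd1 : d = a⁻¹ := by
    apply pow_inj2 hψ.two k
    rw [inv_pow, e1]
    exact eq_inv_of_mul_eq_one_left e2
  obtain ⟨r0, r1, r2⟩ := row_of_fact hd'
  have r0' : mat h 2 0 = 0 := (mul_eq_zero.1 r0).resolve_left hd0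
  have r1' : mat h 2 1 = 0 := (mul_eq_zero.1 r1).resolve_left hd0
  have r2' : mat h 2 2 = a := by
    have : mat h 2 2 = d⁻¹ := eq_inv_of_mul_eq_one_right r2
    rw [this, hd1, inv_inv]
  have c00 : mat h 0 0 = a := by rw [col_of_vact 0 ha' 0]; simp
  have c10 : mat h 1 0 = 0 := by rw [col_of_vact 0 ha' 1]; simp
  have hdet : a * mat h 1 1 * a = 1 := by
    have := det_mat h
    rw [det_fin_three, r0', r1', r2', c00, c10] at this
    linear_combination this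
  have c11 : mat h 1 1 = a := by
    apply pow_inj2 hψ.two k
    have h1 := congrArg (· ^ 2 ^ k) hdet
    simp only [mul_pow, one_pow] at h1
    rw [e1] at h1 ⊢
    have h2 : z * z * mat h 1 1 ^ 2 ^ k = z * z * z := by
      rw [← pow_three', hz3]
      linear_combination h1
    exact mul_left_cancel₀ (mul_ne_zero hz0 hz0) h2
  have ha3 : a * a * a = 1 := by rw [c11] at hdet; exact hdet
  have hx0 : ((a⁻¹ * mat h 0 1) • (Pi.single 1 1 : V3 F) + (a⁻¹ * mat h 0 2 - a⁻¹ * mat h 0 1 * (a⁻¹ * mat h 1 2)) • (Pi.single 2 1 : V3 F)) ⬝ᵥ (Pi.single 0 1 : V3 F) = 0 := by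
    simp [add_dotProduct, smul_dotProduct]
  have hy0 : (Pi.single 2 1 : V3 F) ⬝ᵥ ((a⁻¹ * mat h 1 2) • (Pi.single 1 1 : V3 F)) = 0 := by
    simp [dotProduct_smul]
  have hE : mat h = a • mat (elS (Pi.single 0 1) _ hx0 * elS _ (Pi.single 2 1) hy0) := by
    rw [mat_mul]
    change mat h = a • (el _ _ * el _ _)
    have k1 : el (Pi.single 0 1 : V3 F) ((a⁻¹ * mat h 0 1) • (Pi.single 1 1 : V3 F) + (a⁻¹ * mat h 0 2 - a⁻¹ * mat h 0 1 * (a⁻¹ * mat h 1 2)) • (Pi.single 2 1 : V3 F)) = !![1, a⁻¹ * mat h 0 1, (a⁻¹ * mat h 0 2 - a⁻¹ * mat h 0 1 * (a⁻¹ * mat h 1 2)); 0, 1, 0; 0, 0, 1] := by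
      ext i j
      rw [el_apply]
      fin_cases i <;> fin_cases j <;> simp
    have k2 : el ((a⁻¹ * mat h 1 2) • (Pi.single 1 1 : V3 F)) (Pi.single 2 1 : V3 F) = !![1, 0, 0; 0, 1, a⁻¹ * mat h 1 2; 0, 0, 1] := by
      ext i j
      rw [el_apply]
      fin_cases i <;> fin_cases j <;> simp
    rw [k1, k2]
    ext i j
    fin_cases i <;> fin_cases j <;>
      simp [Matrix.mul_apply, Fin.sum_univ_three, r0', r1', r2', c00, c10, c11, ha0]
  have hfin : ψ (M * h * M⁻¹) = ψ (M * elS (Pi.single 0 1) _ hx0 * M⁻¹) * ψ (M * elS _ (Pi.single 2 1) hy0 * M⁻¹) := by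
    rw [← map_mul]
    have e : M * elS (Pi.single 0 1) _ hx0 * M⁻¹ * (M * elS _ (Pi.single 2 1) hy0 * M⁻¹) = M * (elS (Pi.single 0 1) _ hx0 * elS _ (Pi.single 2 1) hy0) * M⁻¹ := by group
    rw [e, map_mul, map_mul, hψ.eq_of_smul hE, ← map_mul, ← map_mul]
  rw [hfin]
  apply Subgroup.mul_mem
  · exact Subgroup.mem_sup_left ⟨_, conj_mem_El M (elS_mem_El _ _ _), rfl⟩
  · exact Subgroup.mem_sup_right ⟨_, conj_mem_Ax M (elS_mem_Ax _ _ _), rfl⟩

end PS3

open PS3 in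
/-- A subgroup isomorphic to `PSL₃(2ⁿ)` has a plane `PS`. -/
theorem exists_ps {G : Type*} [Group G] [Finite G] (N : Subgroup G)
    {F : Type} [Field F] [Fintype F] (n : ℕ) (hn : 1 ≤ n) (hF : Fintype.card F = 2 ^ n)
    (e : ↥N ≃* Matrix.ProjectiveSpecialLinearGroup (Fin 3) F) :
    ∃ P L : Set (Subgroup G), PS N (2 ^ n) P L := by
  have h2 : (2 : F) = 0 := by
    have h := FiniteField.cast_card_eq_zero F
    rw [hF] at h
    push_cast at h
    exact eq_zero_of_pow_eq_zero h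
  let q : S3 F →* Matrix.ProjectiveSpecialLinearGroup (Fin 3) F := QuotientGroup.mk' (Subgroup.center (S3 F))
  have hq : Function.Surjective q := QuotientGroup.mk'_surjective _
  let ψ : S3 F →* G := N.subtype.comp (e.symm.toMonoidHom.comp q)
  have hψ : Good ψ := by
    refine ⟨h2, ?_⟩
    ext g
    rw [MonoidHom.mem_ker]
    have h1 : ψ g = 1 ↔ q g = 1 := by
      change ((e.symm (q g) : N) : G) = 1 ↔ _
      rw [OneMemClass.coe_eq_one, EmbeddingLike.map_eq_one_iff]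
    rw [h1]
    exact QuotientGroup.eq_one_iff g
  have hr : ψ.range = N := by
    apply le_antisymm
    · rintro _ ⟨g, rfl⟩
      exact (e.symm (q g)).2
    · intro x hx
      obtain ⟨g, hg⟩ := hq (e ⟨x, hx⟩)
      refine ⟨g, ?_⟩
      change ((e.symm (q g) : N) : G) = x
      rw [hg, MulEquiv.symm_apply_apply]
  refine ⟨PP ψ, LL ψ, ⟨⟨n, hn, rfl⟩, ?_, ?_, ?_, ?_⟩⟩
  · haveI := Cfsg.Agent.ClassBase.psl_fin_simple (F := F) 3 le_rfl
    exact (MulEquiv.isSimpleGroup_congr e).2 inferInstance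
  · have := hψ.half
    rwa [hr, hF] at this
  · have := hψ.half'
    rwa [hr, hF] at this
  · have := hψ.syl
    rwa [hr] at this

end Cfsg.Agent.H55
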