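import Cfsg.Agent.P3.Def

/-!
# Elations in `SL₃(F)`
-/

set_option autoImplicit false

namespace Cfsg.Agent.H55.PS3

open Matrix Cfsg.Agent.P3
open scoped MatrixGroups

variable {F : Type} [Field F]

abbrev V3 (F : Type) := Fin 3 → F
abbrev S3 (F : Type) [Field F] := Matrix.SpecialLinearGroup (Fin 3) F

/-- the matrix of an element -/
def mat (g : S3 F) : Matrix (Fin 3) (Fin 3) F := g.1
theorem mat_mul (a b : S3 F) : mat (a * b) = mat a * mat b := rfl
theorem mat_one : mat (1 : S3 F) = 1 := rfl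
theorem mat_inj {a b : S3 F} (h : mat a = mat b) : a = b := Subtype.ext h
theorem mat_mul_inv (g : S3 F) : mat g * mat g⁻¹ = 1 := by rw [← mat_mul, mul_inv_cancel, mat_one]
theorem mat_inv_mul (g : S3 F) : mat g⁻¹ * mat g = 1 := by rw [← mat_mul, inv_mul_cancel, mat_one]
theorem det_mat (g : S3 F) : (mat g).det = 1 := g.2

/-- The matrix `1 + v ⊗ φ`. -/
def el (v φ : V3 F) : Matrix (Fin 3) (Fin 3) F := 1 + vecMulVec v φ

theorem el_apply (v φ : V3 F) (i j : Fin 3) : el v φ i j = (1 : Matrix (Fin 3) (Fin 3) F) i j + v i * φ j := rfl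

theorem el_mulVec (v φ x : V3 F) : el v φ *ᵥ x = x + (φ ⬝ᵥ x) • v := by
  rw [el, add_mulVec, one_mulVec, vecMulVec_mulVec]
  congr 1
  ext i
  simp [mul_comm]

theorem vecMul_el (v φ x : V3 F) : x ᵥ* el v φ = x + (x ⬝ᵥ v) • φ := by
  rw [el, vecMul_add, vecMul_one, vecMul_vecMulVec]

theorem el_mul (v φ v' φ' : V3 F) : el v φ * el v' φ' = 1 + vecMulVec v φ + vecMulVec v' φ' + (φ ⬝ᵥ v') • vecMulVec v φ' := by
  simp only [el, mul_add, add_mul, one_mul, mul_one]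
  rw [vecMulVec_mul_vecMulVec]
  have : vecMulVec v ((φ ⬝ᵥ v') • φ') = (φ ⬝ᵥ v') • vecMulVec v φ' := vecMulVec_smul _ _ _
  rw [this]
  abel

theorem det_el (v φ : V3 F) (h : φ ⬝ᵥ v = 0) : (el v φ).det = 1 := by
  have h' : φ 0 * v 0 + φ 1 * v 1 + φ 2 * v 2 = 0 := by
    have := h
    simpa [dotProduct, Fin.sum_univ_three] using this
  rw [det_fin_three]
  simp only [el_apply]
  have e01 : (1 : Matrix (Fin 3) (Fin 3) F) 0 1 = 0 := by simp
  have e02 : (1 : Matrix (Fin 3) (Fin 3) F) 0 2 = 0 := by simp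
  have e10 : (1 : Matrix (Fin 3) (Fin 3) F) 1 0 = 0 := by simp
  have e12 : (1 : Matrix (Fin 3) (Fin 3) F) 1 2 = 0 := by simp
  have e20 : (1 : Matrix (Fin 3) (Fin 3) F) 2 0 = 0 := by simp
  have e21 : (1 : Matrix (Fin 3) (Fin 3) F) 2 1 = 0 := by simp
  have e00 : (1 : Matrix (Fin 3) (Fin 3) F) 0 0 = 1 := by simp
  have e11 : (1 : Matrix (Fin 3) (Fin 3) F) 1 1 = 1 := by simp
  have e22 : (1 : Matrix (Fin 3) (Fin 3) F) 2 2 = 1 := by simp
  rw [e00, e01, e02, e10, e11, e12, e20, e21, e22]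
  linear_combination h'

/-- The elation `1 + v ⊗ φ` as an element of `SL₃`. -/
def elS (v φ : V3 F) (h : φ ⬝ᵥ v = 0) : S3 F := ⟨el v φ, det_el v φ h⟩

/-- Elations with centre `v`. -/
def El (v : V3 F) : Subgroup (S3 F) where
  carrier := {g | ∃ φ : V3 F, φ ⬝ᵥ v = 0 ∧ mat g = el v φ}
  one_mem' := ⟨0, by simp, by simp [el, mat_one]⟩
  mul_mem' := by
    rintro a b ⟨φ, h1, h2⟩ ⟨ψ, h3, h4⟩
    refine ⟨φ + ψ, by rw [add_dotProduct, h1, h3, add_zero], ?_⟩
    rw [mat_mul, h2, h4, el_mul, h1, zero_smul, add_zero, el, vecMulVec_add, add_assoc]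
  inv_mem' := by
    rintro a ⟨φ, h1, h2⟩
    have h1' : (-φ) ⬝ᵥ v = 0 := by rw [neg_dotProduct, h1, neg_zero]
    refine ⟨-φ, h1', ?_⟩
    have : a⁻¹ = elS v (-φ) h1' := by
      rw [inv_eq_iff_mul_eq_one]
      apply Subtype.ext
      change mat a * el v (-φ) = 1
      rw [h2, el_mul, h1, zero_smul, add_zero, vecMulVec_neg]
      abel
    rw [this]; rfl

/-- Elations with axis `φ`. -/
def Ax (φ : V3 F) : Subgroup (S3 F) where
  carrier := {g | ∃ v : V3 F, φ ⬝ᵥ v = 0 ∧ mat g = el v φ}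
  one_mem' := ⟨0, by simp, by simp [el, mat_one]⟩
  mul_mem' := by
    rintro a b ⟨v, h1, h2⟩ ⟨w, h3, h4⟩
    refine ⟨v + w, by rw [dotProduct_add, h1, h3, add_zero], ?_⟩
    rw [mat_mul, h2, h4, el_mul, h3, zero_smul, add_zero, el, add_vecMulVec, add_assoc]
  inv_mem' := by
    rintro a ⟨v, h1, h2⟩
    have h1' : φ ⬝ᵥ (-v) = 0 := by rw [dotProduct_neg, h1, neg_zero]
    refine ⟨-v, h1', ?_⟩
    have : a⁻¹ = elS (-v) φ h1' := by
      rw [inv_eq_iff_mul_eq_one]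
      apply Subtype.ext
      change mat a * el (-v) φ = 1
      rw [h2, el_mul, h1', zero_smul, add_zero, neg_vecMulVec]
      abel
    rw [this]; rfl

theorem mem_El {v : V3 F} {g : S3 F} : g ∈ El v ↔ ∃ φ : V3 F, φ ⬝ᵥ v = 0 ∧ mat g = el v φ := Iff.rfl
theorem mem_Ax {φ : V3 F} {g : S3 F} : g ∈ Ax φ ↔ ∃ v : V3 F, φ ⬝ᵥ v = 0 ∧ mat g = el v φ := Iff.rfl

theorem elS_mem_El (v φ : V3 F) (h : φ ⬝ᵥ v = 0) : elS v φ h ∈ El v := ⟨φ, h, rfl⟩
theorem elS_mem_Ax (v φ : V3 F) (h : φ ⬝ᵥ v = 0) : elS v φ h ∈ Ax φ := ⟨v, h, rfl⟩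

/-- The action on functionals: `g • φ = φ g⁻¹`. -/
def fact (g : S3 F) (φ : V3 F) : V3 F := φ ᵥ* mat g⁻¹

def vact (g : S3 F) (v : V3 F) : V3 F := mat g *ᵥ v

theorem vact_one (v : V3 F) : vact 1 v = v := by simp [vact, mat_one]
theorem vact_mul (g h : S3 F) (v : V3 F) : vact (g * h) v = vact g (vact h v) := by
  rw [vact, vact, vact, mat_mul, mulVec_mulVec]
theorem fact_one (v : V3 F) : fact 1 v = v := by simp [fact, mat_one]
theorem fact_mul (g h : S3 F) (v : V3 F) : fact (g * h) v = fact g (fact h v) := by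
  rw [fact, fact, fact, _root_.mul_inv_rev, mat_mul, ← vecMul_vecMul]
theorem vact_inv_vact (g : S3 F) (v : V3 F) : vact g⁻¹ (vact g v) = v := by
  rw [← vact_mul, inv_mul_cancel, vact_one]
theorem vact_vact_inv (g : S3 F) (v : V3 F) : vact g (vact g⁻¹ v) = v := by
  rw [← vact_mul, mul_inv_cancel, vact_one]
theorem fact_inv_fact (g : S3 F) (v : V3 F) : fact g⁻¹ (fact g v) = v := by
  rw [← fact_mul, inv_mul_cancel, fact_one]
theorem fact_fact_inv (g : S3 F) (v : V3 F) : fact g (fact g⁻¹ v) = v := by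
  rw [← fact_mul, mul_inv_cancel, fact_one]
theorem vact_smul (g : S3 F) (c : F) (v : V3 F) : vact g (c • v) = c • vact g v := by
  simp [vact, mulVec_smul]
theorem vact_add (g : S3 F) (v w : V3 F) : vact g (v + w) = vact g v + vact g w := by
  simp [vact, mulVec_add]
theorem fact_smul (g : S3 F) (c : F) (v : V3 F) : fact g (c • v) = c • fact g v := by
  simp [fact, smul_vecMul]
theorem fact_add (g : S3 F) (v w : V3 F) : fact g (v + w) = fact g v + fact g w := by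
  simp [fact, add_vecMul]
theorem vact_zero (g : S3 F) : vact g 0 = 0 := by simp [vact]
theorem fact_zero (g : S3 F) : fact g 0 = 0 := by simp [fact]
theorem vact_ne_zero (g : S3 F) {v : V3 F} (h : v ≠ 0) : vact g v ≠ 0 := by
  intro h0
  apply h
  rw [← vact_inv_vact g v, h0, vact_zero]
theorem fact_ne_zero (g : S3 F) {v : V3 F} (h : v ≠ 0) : fact g v ≠ 0 := by
  intro h0
  apply h
  rw [← fact_inv_fact g v, h0, fact_zero]

theorem fact_dot_vact (g : S3 F) (φ v : V3 F) : fact g φ ⬝ᵥ vact g v = φ ⬝ᵥ v := by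
  have : fact g φ ⬝ᵥ vact g v = φ ⬝ᵥ vact g⁻¹ (vact g v) := by
    rw [fact]
    rw [← dotProduct_mulVec]
    rfl
  rw [this, vact_inv_vact]

theorem conj_el (g : S3 F) (v φ : V3 F) :
    mat g * el v φ * mat g⁻¹ = el (vact g v) (fact g φ) := by
  have h1 : mat g * mat g⁻¹ = 1 := mat_mul_inv g
  rw [el, mul_add, mul_one, add_mul, h1, mul_vecMulVec, vecMulVec_mul]
  rfl

theorem conj_mem_El (g : S3 F) {v : V3 F} {a : S3 F} (ha : a ∈ El v) : g * a * g⁻¹ ∈ El (vact g v) := by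
  obtain ⟨φ, h1, h2⟩ := ha
  refine ⟨fact g φ, by rw [fact_dot_vact, h1], ?_⟩
  rw [mat_mul, mat_mul, h2, conj_el]

theorem conj_mem_Ax (g : S3 F) {φ : V3 F} {a : S3 F} (ha : a ∈ Ax φ) : g * a * g⁻¹ ∈ Ax (fact g φ) := by
  obtain ⟨v, h1, h2⟩ := ha
  refine ⟨vact g v, by rw [fact_dot_vact, h1], ?_⟩
  rw [mat_mul, mat_mul, h2, conj_el]

theorem cj_El (g : S3 F) (v : V3 F) : cj g (El v) = El (vact g v) := by
  apply le_antisymm
  · rintro _ ⟨a, ha, rfl⟩
    exact conj_mem_El g ha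
  · intro a ha
    refine ⟨g⁻¹ * a * g, ?_, ?_⟩
    · have := conj_mem_El g⁻¹ ha
      rw [vact_inv_vact, inv_inv] at this
      exact this
    · change g * (g⁻¹ * a * g) * g⁻¹ = a
      group

theorem cj_Ax (g : S3 F) (φ : V3 F) : cj g (Ax φ) = Ax (fact g φ) := by
  apply le_antisymm
  · rintro _ ⟨a, ha, rfl⟩
    exact conj_mem_Ax g ha
  · intro a ha
    refine ⟨g⁻¹ * a * g, ?_, ?_⟩
    · have := conj_mem_Ax g⁻¹ ha
      rw [fact_inv_fact, inv_inv] at this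
      exact this
    · change g * (g⁻¹ * a * g) * g⁻¹ = a
      group

theorem el_smul (v φ : V3 F) (c : F) : el (c • v) φ = el v (c • φ) := by
  rw [el, el, smul_vecMulVec, vecMulVec_smul]

theorem El_smul (v : V3 F) {c : F} (hc : c ≠ 0) : El (c • v) = El v := by
  ext a
  constructor
  · rintro ⟨φ, h1, h2⟩
    refine ⟨c • φ, ?_, by rw [h2, el_smul]⟩
    rw [smul_dotProduct, ← dotProduct_smul, h1]
  · rintro ⟨φ, h1, h2⟩
    refine ⟨c⁻¹ • φ, ?_, ?_⟩
    · rw [smul_dotProduct, dotProduct_smul, h1, smul_zero, smul_zero]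
    · rw [h2, el_smul, smul_smul, mul_inv_cancel₀ hc, one_smul]

theorem Ax_smul (v : V3 F) {c : F} (hc : c ≠ 0) : Ax (c • v) = Ax v := by
  ext a
  constructor
  · rintro ⟨φ, h1, h2⟩
    refine ⟨c • φ, ?_, by rw [h2, ← el_smul]⟩
    rw [dotProduct_smul, ← smul_dotProduct, h1]
  · rintro ⟨φ, h1, h2⟩
    refine ⟨c⁻¹ • φ, ?_, ?_⟩
    · rw [smul_dotProduct, dotProduct_smul, h1, smul_zero, smul_zero]
    · rw [h2, ← el_smul, smul_smul, mul_inv_cancel₀ hc, one_smul]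

theorem el_inj {v φ v' φ' : V3 F} (h : el v φ = el v' φ') : vecMulVec v φ = vecMulVec v' φ' := by
  rw [el, el] at h
  exact add_left_cancel h

theorem prop_right {v φ v' φ' : V3 F} (h : vecMulVec v φ = vecMulVec v' φ') (hv : v ≠ 0) : ∃ c : F, φ = c • φ' := by
  obtain ⟨i, hi⟩ := Function.ne_iff.1 hv
  refine ⟨v' i / v i, ?_⟩
  ext j
  have := congrFun (congrFun h i) j
  rw [vecMulVec_apply, vecMulVec_apply] at this
  have hi' : v i ≠ 0 := hi
  rw [Pi.smul_apply, smul_eq_mul, div_mul_eq_mul_div, eq_div_iff hi']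
  linear_combination this

theorem prop_left {v φ v' φ' : V3 F} (h : vecMulVec v φ = vecMulVec v' φ') (hv : φ ≠ 0) : ∃ c : F, v = c • v' := by
  obtain ⟨j, hj⟩ := Function.ne_iff.1 hv
  refine ⟨φ' j / φ j, ?_⟩
  ext i
  have := congrFun (congrFun h i) j
  rw [vecMulVec_apply, vecMulVec_apply] at this
  have hj' : φ j ≠ 0 := hj
  rw [Pi.smul_apply, smul_eq_mul, div_mul_eq_mul_div, eq_div_iff hj']
  linear_combination this

theorem el_ne_one {v φ : V3 F} (hv : v ≠ 0) (hφ : φ ≠ 0) : el v φ ≠ 1 := by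
  intro h
  have : vecMulVec v φ = 0 := by
    rw [el] at h
    simpa using h
  rw [vecMulVec_eq_zero] at this
  rcases this with h | h
  · exact hv h
  · exact hφ h

/-- for every nonzero vector there is a functional not vanishing on it etc. -/
theorem exists_fun_ne {v : V3 F} (hv : v ≠ 0) : ∃ φ : V3 F, φ ⬝ᵥ v = 1 := by
  obtain ⟨i, hi⟩ := Function.ne_iff.1 hv
  have hi' : v i ≠ 0 := hi
  refine ⟨Pi.single i (v i)⁻¹, ?_⟩
  rw [single_dotProduct, inv_mul_cancel₀ hi']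

end Cfsg.Agent.H55.PS3
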