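import Cfsg.Agent.H55.PS3a

/-!
# Elation groups in the image of `SL₃(F)`, characteristic two
-/

set_option autoImplicit false

namespace Cfsg.Agent.H55.PS3

open Matrix Cfsg.Agent.P3
open scoped MatrixGroups LinearAlgebra.Projectivization

variable {F : Type} [Field F]

/-! ### vectors -/

theorem exists_perp (v : V3 F) : ∃ φ : V3 F, φ ≠ 0 ∧ φ ⬝ᵥ v = 0 := by
  by_cases h : v 0 = 0
  · refine ⟨![1, 0, 0], ?_, ?_⟩
    · intro h'
      have := congrFun h' 0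
      simp at this
    · simp [dotProduct, Fin.sum_univ_three, h]
  · refine ⟨![v 1, - v 0, 0], ?_, ?_⟩
    · intro h'
      have := congrFun h' 1
      simp at this
      exact h this
    · simp [dotProduct, Fin.sum_univ_three]
      ring

theorem par_of_cross {x y : V3 F} (h : x ⨯₃ y = 0) (hx : x ≠ 0) : ∃ c : F, y = c • x := by
  obtain ⟨i, hi⟩ := Function.ne_iff.1 hx
  have hi' : x i ≠ 0 := hi
  rw [cross_apply] at h
  have h0 : x 1 * y 2 - x 2 * y 1 = 0 := by simpa using congrFun h 0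
  have h1 : x 2 * y 0 - x 0 * y 2 = 0 := by simpa using congrFun h 1
  have h2 : x 0 * y 1 - x 1 * y 0 = 0 := by simpa using congrFun h 2
  refine ⟨y i / x i, ?_⟩
  ext j
  rw [Pi.smul_apply, smul_eq_mul, div_mul_eq_mul_div, eq_div_iff hi']
  fin_cases i <;> fin_cases j <;> simp only [Fin.zero_eta, Fin.mk_one, Fin.reduceFinMk, Fin.isValue]
  · linear_combination h2
  · linear_combination -h1
  · linear_combination -h2
  · linear_combination h0
  · linear_combination h1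
  · linear_combination -h0

/-- two functionals vanishing on two independent vectors are proportional -/
theorem par_of_perp {v w χ χ' : V3 F} (hvw : v ⨯₃ w ≠ 0) (h1 : χ ⬝ᵥ v = 0) (h2 : χ ⬝ᵥ w = 0) (h3 : χ' ⬝ᵥ v = 0)
    (h4 : χ' ⬝ᵥ w = 0) (hχ : χ ≠ 0) (hχ' : χ' ≠ 0) : ∃ c : F, c ≠ 0 ∧ χ' = c • χ := by
  have key : ∀ x : V3 F, x ⬝ᵥ v = 0 → x ⬝ᵥ w = 0 → x ≠ 0 → ∃ c : F, (v ⨯₃ w) = c • x := by
    intro x hx1 hx2 hx
    apply par_of_cross _ hx
    have : v ⬝ᵥ x = 0 := by rw [dotProduct_comm]; exact hx1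
    rw [cross_cross_eq_smul_sub_smul', hx2, this]
    simp
  obtain ⟨c, hc⟩ := key χ h1 h2 hχ
  obtain ⟨c', hc'⟩ := key χ' h3 h4 hχ'
  have hc0 : c ≠ 0 := by rintro rfl; rw [zero_smul] at hc; exact hvw hc
  have hc0' : c' ≠ 0 := by rintro rfl; rw [zero_smul] at hc'; exact hvw hc'
  refine ⟨c'⁻¹ * c, mul_ne_zero (inv_ne_zero hc0') hc0, ?_⟩
  rw [mul_smul, ← hc, hc', smul_smul, inv_mul_cancel₀ hc0', one_smul]

/-- The space of functionals vanishing at `v`. -/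
def W (v : V3 F) : Submodule F (V3 F) where
  carrier := {φ | φ ⬝ᵥ v = 0}
  zero_mem' := by simp
  add_mem' := by
    intro a b ha hb
    have ha' : a ⬝ᵥ v = 0 := ha
    have hb' : b ⬝ᵥ v = 0 := hb
    change (a + b) ⬝ᵥ v = 0
    rw [add_dotProduct, ha', hb', add_zero]
  smul_mem' := by
    intro c a ha
    have ha' : a ⬝ᵥ v = 0 := ha
    change (c • a) ⬝ᵥ v = 0
    rw [smul_dotProduct, ha', smul_zero]

theorem mem_W {v φ : V3 F} : φ ∈ W v ↔ φ ⬝ᵥ v = 0 := Iff.rfl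

theorem finrank_W {v : V3 F} (hv : v ≠ 0) : Module.finrank F (W v) = 2 := by
  let f : V3 F →ₗ[F] F :=
    { toFun := fun φ => φ ⬝ᵥ v
      map_add' := fun a b => add_dotProduct _ _ _
      map_smul' := fun c a => by simp [smul_dotProduct] }
  have hker : LinearMap.ker f = W v := by
    ext φ; rw [LinearMap.mem_ker]; exact Iff.rfl
  have hr : LinearMap.range f = ⊤ := by
    rw [LinearMap.range_eq_top]
    intro c
    obtain ⟨φ, hφ⟩ := exists_fun_ne hv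
    refine ⟨c • φ, ?_⟩
    rw [map_smul]
    change c • (φ ⬝ᵥ v) = c
    rw [hφ, smul_eq_mul, mul_one]
  have := LinearMap.finrank_range_add_finrank_ker f
  rw [hr, hker] at this
  simp at this
  omega

theorem card_W [Fintype F] {v : V3 F} (hv : v ≠ 0) : Nat.card (W v) = Fintype.card F ^ 2 := by
  rw [Module.natCard_eq_pow_finrank (K := F), finrank_W hv, Nat.card_eq_fintype_card]

/-! ### the homomorphism -/

variable {G : Type*} [Group G]

structure Good (ψ : S3 F →* G) : Prop where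
  two : (2 : F) = 0
  ker : ψ.ker = Subgroup.center (S3 F)

def PP (ψ : S3 F →* G) : Set (Subgroup G) := {A | ∃ v : V3 F, v ≠ 0 ∧ A = (El v).map ψ}
def LL (ψ : S3 F →* G) : Set (Subgroup G) := {A | ∃ v : V3 F, v ≠ 0 ∧ A = (Ax v).map ψ}

theorem exists_scalar {g : S3 F} (h : g ∈ Subgroup.center (S3 F)) : ∃ c : F, c ^ 3 = 1 ∧ mat g = c • (1 : Matrix (Fin 3) (Fin 3) F) := by
  obtain ⟨c, h1, h2⟩ := Matrix.SpecialLinearGroup.mem_center_iff.1 h
  refine ⟨c, by simpa using h1, ?_⟩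
  change g.1 = _
  rw [← h2, smul_one_eq_diagonal]
  rfl

theorem center_of_scalar {g : S3 F} {c : F} (h : mat g = c • (1 : Matrix (Fin 3) (Fin 3) F)) : g ∈ Subgroup.center (S3 F) := by
  rw [Matrix.SpecialLinearGroup.mem_center_iff]
  refine ⟨c, ?_, ?_⟩
  · have := det_mat g
    rw [h, det_smul, det_one, mul_one] at this
    exact this
  · change _ = mat g
    rw [h, smul_one_eq_diagonal]
    rfl

variable {ψ : S3 F →* G}

theorem one_of_sq (h2 : (2 : F) = 0) {c : F} (h : c * c = 1) : c = 1 := by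
  have : (c - 1) * (c - 1) = 0 := by linear_combination h + (1 - c) * h2
  have := mul_self_eq_zero.1 this
  exact sub_eq_zero.1 this

theorem Good.inj2 (hψ : Good ψ) {a b : S3 F} (ha : a * a = 1) (hb : b * b = 1) (h : ψ a = ψ b) : a = b := by
  have hk : a * b⁻¹ ∈ ψ.ker := by
    rw [MonoidHom.mem_ker, map_mul, map_inv, h, mul_inv_cancel]
  rw [hψ.ker] at hk
  obtain ⟨c, -, hc⟩ := exists_scalar hk
  have hab : mat a = c • mat b := by
    have : mat a = mat (a * b⁻¹) * mat b := by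
      rw [← mat_mul]; congr 1; group
    rw [this, hc, smul_mul, one_mul]
  have h1 : mat a * mat a = 1 := by rw [← mat_mul, ha, mat_one]
  have h2 : mat b * mat b = 1 := by rw [← mat_mul, hb, mat_one]
  rw [hab, smul_mul_smul_comm, h2] at h1
  have h3 : c * c = 1 := by
    have := congrFun (congrFun h1 0) 0
    simpa using this
  have hc1 : c = 1 := one_of_sq hψ.two h3
  apply mat_inj
  rw [hab, hc1, one_smul]

theorem sq_of_el (h2 : (2 : F) = 0) {g : S3 F} {v φ : V3 F} (h : φ ⬝ᵥ v = 0) (hg : mat g = el v φ) : g * g = 1 := by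
  apply mat_inj
  rw [mat_mul, mat_one, hg, el_mul, h, zero_smul, add_zero, add_assoc]
  have : vecMulVec v φ + vecMulVec v φ = 0 := by
    ext i j
    rw [Matrix.add_apply, Matrix.zero_apply, vecMulVec_apply]
    linear_combination (v i * φ j) * h2
  rw [this, add_zero]

theorem Good.sq_El (hψ : Good ψ) {v : V3 F} {g : S3 F} (hg : g ∈ El v) : g * g = 1 := by
  obtain ⟨φ, h1, h2⟩ := hg
  exact sq_of_el hψ.two h1 h2

theorem Good.sq_Ax (hψ : Good ψ) {v : V3 F} {g : S3 F} (hg : g ∈ Ax v) : g * g = 1 := by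
  obtain ⟨φ, h1, h2⟩ := hg
  exact sq_of_el hψ.two h1 h2

theorem cj_map (g : S3 F) (H : Subgroup (S3 F)) : cj (ψ g) (H.map ψ) = (cj g H).map ψ := by
  rw [cj, cj, Subgroup.map_map, Subgroup.map_map]
  congr 1
  ext x
  simp

theorem cj_PP (g : S3 F) (v : V3 F) : cj (ψ g) ((El v).map ψ) = (El (vact g v)).map ψ := by
  rw [cj_map, cj_El]

theorem cj_LL (g : S3 F) (v : V3 F) : cj (ψ g) ((Ax v).map ψ) = (Ax (fact g v)).map ψ := by
  rw [cj_map, cj_Ax]

/-- members of the image of `El v` meeting the image of `El w` -/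
theorem Good.par_El (hψ : Good ψ) {v w : V3 F} {x : G} (hx : x ≠ 1) (h1 : x ∈ (El v).map ψ) (h2 : x ∈ (El w).map ψ) :
    ∃ c : F, v = c • w := by
  obtain ⟨a, ha, rfl⟩ := h1
  obtain ⟨b, hb, hab⟩ := h2
  have e := hψ.inj2 (hψ.sq_El hb) (hψ.sq_El ha) hab
  subst e
  obtain ⟨φ, h3, h4⟩ := ha
  obtain ⟨φ', h5, h6⟩ := hb
  have h7 := el_inj (h4.symm.trans h6)
  apply prop_left h7
  rintro rfl
  apply hx
  have : b = 1 := by
    apply mat_inj; rw [h4, mat_one, el]; simp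
  rw [this, map_one]

theorem Good.par_Ax (hψ : Good ψ) {v w : V3 F} {x : G} (hx : x ≠ 1) (h1 : x ∈ (Ax v).map ψ) (h2 : x ∈ (Ax w).map ψ) :
    ∃ c : F, v = c • w := by
  obtain ⟨a, ha, rfl⟩ := h1
  obtain ⟨b, hb, hab⟩ := h2
  have e := hψ.inj2 (hψ.sq_Ax hb) (hψ.sq_Ax ha) hab
  subst e
  obtain ⟨φ, h3, h4⟩ := ha
  obtain ⟨φ', h5, h6⟩ := hb
  have h7 := el_inj (h4.symm.trans h6)
  apply prop_right h7
  rintro rfl
  apply hx
  have : b = 1 := by
    apply mat_inj; rw [h4, mat_one, el]; simp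
  rw [this, map_one]

theorem Good.ne_one (hψ : Good ψ) {v φ : V3 F} (h : φ ⬝ᵥ v = 0) (hv : v ≠ 0) (hφ : φ ≠ 0) : ψ (elS v φ h) ≠ 1 := by
  intro h1
  have h2 : ψ (elS v φ h) = ψ 1 := by rw [h1, map_one]
  have h3 := hψ.inj2 (hψ.sq_El (elS_mem_El v φ h)) (by rw [mul_one]) h2
  have h4 : el v φ = 1 := by
    have := congrArg mat h3
    exact this
  exact el_ne_one hv hφ h4

theorem Good.exists_El (hψ : Good ψ) {v : V3 F} (hv : v ≠ 0) : ∃ x ∈ (El v).map ψ, x ≠ 1 := by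
  obtain ⟨φ, h1, h2⟩ := exists_perp v
  exact ⟨_, ⟨_, elS_mem_El v φ h2, rfl⟩, hψ.ne_one h2 hv h1⟩

theorem Good.exists_Ax (hψ : Good ψ) {v : V3 F} (hv : v ≠ 0) : ∃ x ∈ (Ax v).map ψ, x ≠ 1 := by
  obtain ⟨φ, h1, h2⟩ := exists_perp v
  have h3 : v ⬝ᵥ φ = 0 := by rw [dotProduct_comm]; exact h2
  exact ⟨_, ⟨_, elS_mem_Ax φ v h3, rfl⟩, hψ.ne_one h3 h1 hv⟩

theorem Good.El_eq (hψ : Good ψ) {v w : V3 F} (hv : v ≠ 0) (h : (El v).map ψ = (El w).map ψ) : ∃ c : F, c ≠ 0 ∧ v = c • w := by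
  obtain ⟨x, hx, hx1⟩ := hψ.exists_El hv
  obtain ⟨c, hc⟩ := hψ.par_El hx1 hx (h ▸ hx)
  refine ⟨c, ?_, hc⟩
  rintro rfl
  rw [zero_smul] at hc
  exact hv hc

theorem Good.Ax_eq (hψ : Good ψ) {v w : V3 F} (hv : v ≠ 0) (h : (Ax v).map ψ = (Ax w).map ψ) : ∃ c : F, c ≠ 0 ∧ v = c • w := by
  obtain ⟨x, hx, hx1⟩ := hψ.exists_Ax hv
  obtain ⟨c, hc⟩ := hψ.par_Ax hx1 hx (h ▸ hx)
  refine ⟨c, ?_, hc⟩
  rintro rfl
  rw [zero_smul] at hc
  exact hv hc

/-- The intersection of a point group and a line group. -/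
theorem Good.mem_inter (hψ : Good ψ) {v φ : V3 F} {x : G} (h1 : x ∈ (El v).map ψ) (h2 : x ∈ (Ax φ).map ψ) (hx : x ≠ 1) :
    ∃ h : φ ⬝ᵥ v = 0, ∃ c : F, ∃ h' : φ ⬝ᵥ (c • v) = 0, x = ψ (elS (c • v) φ h') := by
  obtain ⟨a, ha, rfl⟩ := h1
  obtain ⟨b, hb, hab⟩ := h2
  have e := hψ.inj2 (hψ.sq_Ax hb) (hψ.sq_El ha) hab
  subst e
  obtain ⟨φ', h3, h4⟩ := ha
  obtain ⟨v', h5, h6⟩ := hb
  have h7 := el_inj (h4.symm.trans h6)
  have hφ' : φ' ≠ 0 := by
    rintro rfl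
    apply hx
    have : b = 1 := by
      apply mat_inj; rw [h4, mat_one, el]; simp
    rw [this, map_one]
  have hv : v ≠ 0 := by
    rintro rfl
    apply hx
    have : b = 1 := by
      apply mat_inj; rw [h4, mat_one, el]; simp
    rw [this, map_one]
  obtain ⟨c, hc⟩ := prop_right h7 hv
  have hc0 : c ≠ 0 := by
    rintro rfl; rw [zero_smul] at hc; exact hφ' hc
  have h8 : φ ⬝ᵥ v = 0 := by
    rw [hc, smul_dotProduct, smul_eq_mul] at h3
    rcases mul_eq_zero.1 h3 with h | h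
    · exact absurd h hc0
    · exact h
  refine ⟨h8, c, by rw [dotProduct_smul, h8, smul_zero], ?_⟩
  congr 1
  apply mat_inj
  rw [h4, hc]
  exact (el_smul v φ c).symm

theorem Good.meet_iff (hψ : Good ψ) {v φ : V3 F} (hv : v ≠ 0) (hφ : φ ≠ 0) :
    (El v).map ψ ⊓ (Ax φ).map ψ ≠ ⊥ ↔ φ ⬝ᵥ v = 0 := by
  constructor
  · intro h
    obtain ⟨x, hx, hx1⟩ := (Subgroup.bot_or_exists_ne_one _).resolve_left h
    exact (hψ.mem_inter hx.1 hx.2 hx1).1
  · intro h hb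
    have hx : ψ (elS v φ h) ∈ (El v).map ψ ⊓ (Ax φ).map ψ := ⟨⟨_, elS_mem_El v φ h, rfl⟩, ⟨_, elS_mem_Ax v φ h, rfl⟩⟩
    rw [hb, Subgroup.mem_bot] at hx
    exact hψ.ne_one h hv hφ hx

theorem Good.card_inter (hψ : Good ψ) [Fintype F] {v φ : V3 F} (hv : v ≠ 0) (hφ : φ ≠ 0) (h : φ ⬝ᵥ v = 0) :
    Nat.card ↥((El v).map ψ ⊓ (Ax φ).map ψ) = Fintype.card F := by
  have hd : ∀ c : F, φ ⬝ᵥ (c • v) = 0 := fun c => by rw [dotProduct_smul, h, smul_zero]
  have hmem : ∀ c : F, ψ (elS (c • v) φ (hd c)) ∈ (El v).map ψ ⊓ (Ax φ).map ψ := by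
    intro c
    refine ⟨⟨_, ?_, rfl⟩, ⟨_, elS_mem_Ax _ φ (hd c), rfl⟩⟩
    exact ⟨c • φ, by rw [smul_dotProduct, h, smul_zero], el_smul v φ c⟩
  rw [← Nat.card_eq_fintype_card]
  symm
  apply Nat.card_congr
  refine Equiv.ofBijective (fun c => (⟨ψ (elS (c • v) φ (hd c)), hmem c⟩ : ↥((El v).map ψ ⊓ (Ax φ).map ψ))) ⟨?_, ?_⟩
  · intro c c' hcc
    have h1 : ψ (elS (c • v) φ (hd c)) = ψ (elS (c' • v) φ (hd c')) := congrArg Subtype.val hcc
    have h2 := hψ.inj2 (hψ.sq_El (elS_mem_El _ φ (hd c))) (hψ.sq_El (elS_mem_El _ φ (hd c'))) h1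
    have h3 : el (c • v) φ = el (c' • v) φ := congrArg mat h2
    have h4 := el_inj h3
    obtain ⟨i, hi⟩ := Function.ne_iff.1 hv
    obtain ⟨j, hj⟩ := Function.ne_iff.1 hφ
    have h5 := congrFun (congrFun h4 i) j
    rw [vecMulVec_apply, vecMulVec_apply, Pi.smul_apply, Pi.smul_apply, smul_eq_mul, smul_eq_mul] at h5
    have h6 : v i * φ j ≠ 0 := mul_ne_zero hi hj
    apply mul_right_cancel₀ h6
    linear_combination h5
  · rintro ⟨x, hx⟩
    by_cases hx1 : x = 1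
    · refine ⟨0, ?_⟩
      apply Subtype.ext
      change ψ _ = x
      rw [hx1, ← map_one ψ]
      congr 1
      apply mat_inj
      change el ((0 : F) • v) φ = 1
      rw [el]; simp
    · obtain ⟨-, c, hc, hxc⟩ := hψ.mem_inter hx.1 hx.2 hx1
      exact ⟨c, Subtype.ext hxc.symm⟩

theorem Good.card_El (hψ : Good ψ) [Fintype F] {v : V3 F} (hv : v ≠ 0) : Nat.card ↥((El v).map ψ) = Fintype.card F ^ 2 := by
  rw [← card_W hv]
  symm
  apply Nat.card_congr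
  refine Equiv.ofBijective (fun φ : W v => (⟨ψ (elS v φ.1 φ.2), ⟨_, elS_mem_El _ _ _, rfl⟩⟩ : ↥((El v).map ψ))) ⟨?_, ?_⟩
  · intro a b hab
    have h1 : ψ (elS v a.1 a.2) = ψ (elS v b.1 b.2) := congrArg Subtype.val hab
    have h2 := hψ.inj2 (hψ.sq_El (elS_mem_El _ _ _)) (hψ.sq_El (elS_mem_El _ _ _)) h1
    have h3 : el v a.1 = el v b.1 := congrArg mat h2
    have h4 := el_inj h3
    obtain ⟨i, hi⟩ := Function.ne_iff.1 hv
    apply Subtype.ext
    ext j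
    have h5 := congrFun (congrFun h4 i) j
    exact mul_left_cancel₀ hi h5
  · rintro ⟨x, a, ⟨φ, h1, h2⟩, rfl⟩
    refine ⟨⟨φ, h1⟩, ?_⟩
    apply Subtype.ext
    change ψ _ = ψ _
    congr 1
    exact mat_inj h2.symm

end Cfsg.Agent.H55.PS3
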