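import Cfsg.Agent.H55.PS3b

/-!
# The plane of the image of `SL₃(F)`, characteristic two: incidence axioms
-/

set_option autoImplicit false

namespace Cfsg.Agent.H55.PS3

open Matrix Cfsg.Agent.P3
open scoped MatrixGroups LinearAlgebra.Projectivization

variable {F : Type} [Field F] {G : Type*} [Group G] {ψ : S3 F →* G}

theorem rep_par {V : Type*} [AddCommGroup V] [Module F V] {v : V} (hv : v ≠ 0) :
    ∃ c : F, c ≠ 0 ∧ c • v = (Projectivization.mk F v hv).rep := by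
  obtain ⟨a, ha⟩ := Projectivization.exists_smul_eq_mk_rep F v hv
  exact ⟨a, a.ne_zero, ha⟩

theorem PP_eq_range : PP ψ = Set.range (fun p : ℙ F (V3 F) => (El p.rep).map ψ) := by
  ext A
  constructor
  · rintro ⟨v, hv, rfl⟩
    refine ⟨Projectivization.mk F v hv, ?_⟩
    obtain ⟨c, hc, h⟩ := rep_par (F := F) hv
    change (El (Projectivization.mk F v hv).rep).map ψ = _
    rw [← h, El_smul v hc]
  · rintro ⟨p, rfl⟩
    exact ⟨p.rep, p.rep_nonzero, rfl⟩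

theorem proj_eq {V : Type*} [AddCommGroup V] [Module F V] {p p' : ℙ F V} {c : F} (hc : c ≠ 0) (h : p.rep = c • p'.rep) : p = p' := by
  rw [← p.mk_rep, ← p'.mk_rep, Projectivization.mk_eq_mk_iff]
  exact ⟨Units.mk0 c hc, h.symm⟩

theorem Good.ncard_PP (hψ : Good ψ) [Fintype F] : (PP ψ).ncard = Fintype.card F ^ 2 + Fintype.card F + 1 := by
  rw [PP_eq_range, Set.ncard_range_of_injective, Projectivization.card_of_finrank (k := F) (V := V3 F) (n := 3) (by simp),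
    Finset.sum_range_succ, Finset.sum_range_succ, Finset.sum_range_one, Nat.card_eq_fintype_card]
  · ring
  · intro p p' h
    obtain ⟨c, hc, h1⟩ := hψ.El_eq p.rep_nonzero h
    exact proj_eq hc h1

theorem Good.deg_PP (hψ : Good ψ) [Fintype F] {v : V3 F} (hv : v ≠ 0) :
    {B | B ∈ LL ψ ∧ (El v).map ψ ⊓ B ≠ ⊥}.ncard = Fintype.card F + 1 := by
  have he : {B | B ∈ LL ψ ∧ (El v).map ψ ⊓ B ≠ ⊥} = Set.range (fun p : ℙ F (W v) => (Ax (p.rep : V3 F)).map ψ) := by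
    ext B
    constructor
    · rintro ⟨⟨φ, hφ, rfl⟩, h⟩
      rw [hψ.meet_iff hv hφ] at h
      have hφ' : (⟨φ, h⟩ : W v) ≠ 0 := fun h' => hφ (congrArg Subtype.val h')
      refine ⟨Projectivization.mk F ⟨φ, h⟩ hφ', ?_⟩
      obtain ⟨c, hc, h⟩ := rep_par (F := F) hφ'
      change (Ax ((Projectivization.mk F (⟨φ, _⟩ : W v) hφ').rep : V3 F)).map ψ = _
      rw [← h]
      change (Ax (c • φ)).map ψ = _
      rw [Ax_smul φ hc]
    · rintro ⟨p, rfl⟩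
      have h0 : (p.rep : V3 F) ≠ 0 := fun h' => p.rep_nonzero (Subtype.ext h')
      refine ⟨⟨_, h0, rfl⟩, ?_⟩
      rw [hψ.meet_iff hv h0]
      exact p.rep.2
  rw [he, Set.ncard_range_of_injective, Projectivization.card_of_finrank_two (k := F) (V := W v) (finrank_W hv), Nat.card_eq_fintype_card]
  intro p p' h
  have h0 : (p.rep : V3 F) ≠ 0 := fun h' => p.rep_nonzero (Subtype.ext h')
  obtain ⟨c, hc, h1⟩ := hψ.Ax_eq h0 h
  exact proj_eq hc (Subtype.ext h1)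

theorem not_par_cross {v w : V3 F} (hv : v ≠ 0) (h : ∀ c : F, w ≠ c • v) : v ⨯₃ w ≠ 0 := by
  intro h0
  obtain ⟨c, hc⟩ := par_of_cross h0 hv
  exact h c hc

theorem Good.cross_ne (hψ : Good ψ) {v w : V3 F} (hv : v ≠ 0) (hw : w ≠ 0) (h : (El v).map ψ ≠ (El w).map ψ) : v ⨯₃ w ≠ 0 := by
  apply not_par_cross hv
  rintro c rfl
  apply h
  have hc : c ≠ 0 := by rintro rfl; rw [zero_smul] at hw; exact hw rfl
  rw [El_smul v hc]

theorem Good.ti (hψ : Good ψ) : ∀ A ∈ PP ψ, ∀ A' ∈ PP ψ, A ≠ A' → A ⊓ A' = ⊥ := by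
  rintro _ ⟨v, hv, rfl⟩ _ ⟨w, hw, rfl⟩ h
  by_contra hb
  obtain ⟨x, hx, hx1⟩ := (Subgroup.bot_or_exists_ne_one _).resolve_left hb
  obtain ⟨c, rfl⟩ := hψ.par_El hx1 hx.1 hx.2
  apply h
  have hc : c ≠ 0 := by rintro rfl; rw [zero_smul] at hv; exact hv rfl
  rw [El_smul w hc]

theorem Good.join (hψ : Good ψ) : ∀ A ∈ PP ψ, ∀ A' ∈ PP ψ, A ≠ A' → ∃! B, B ∈ LL ψ ∧ A ⊓ B ≠ ⊥ ∧ A' ⊓ B ≠ ⊥ := by
  rintro _ ⟨v, hv, rfl⟩ _ ⟨w, hw, rfl⟩ h
  have hc := hψ.cross_ne hv hw h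
  have h1 : (v ⨯₃ w) ⬝ᵥ v = 0 := by rw [dotProduct_comm]; exact dot_self_cross v w
  have h2 : (v ⨯₃ w) ⬝ᵥ w = 0 := by rw [dotProduct_comm]; exact dot_cross_self v w
  refine ⟨(Ax (v ⨯₃ w)).map ψ, ⟨⟨_, hc, rfl⟩, (hψ.meet_iff hv hc).2 h1, (hψ.meet_iff hw hc).2 h2⟩, ?_⟩
  rintro _ ⟨⟨χ, hχ, rfl⟩, h3, h4⟩
  rw [hψ.meet_iff hv hχ] at h3
  rw [hψ.meet_iff hw hχ] at h4
  obtain ⟨c, hc0, e⟩ := par_of_perp hc h1 h2 h3 h4 hc hχ
  rw [e, Ax_smul _ hc0]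

theorem fact_of_mem_El {v χ : V3 F} (h : χ ⬝ᵥ v = 0) {a : S3 F} (ha : a ∈ El v) : fact a χ = χ := by
  obtain ⟨φ, h1, h2⟩ := (El v).inv_mem ha
  rw [fact, h2, vecMul_el, h, zero_smul, add_zero]

theorem vact_of_mem_Ax {v χ : V3 F} (h : χ ⬝ᵥ v = 0) {a : S3 F} (ha : a ∈ Ax χ) : vact a v = v := by
  obtain ⟨φ, h1, h2⟩ := ha
  rw [vact, h2, el_mulVec, h, zero_smul, add_zero]

theorem Good.norm (hψ : Good ψ) : ∀ A ∈ PP ψ, ∀ B ∈ LL ψ, A ⊓ B ≠ ⊥ → ∀ a ∈ A, cj a B = B := by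
  rintro _ ⟨v, hv, rfl⟩ _ ⟨χ, hχ, rfl⟩ h _ ⟨a, ha, rfl⟩
  rw [hψ.meet_iff hv hχ] at h
  rw [cj_LL, fact_of_mem_El h ha]

theorem Good.reg (hψ : Good ψ) : ∀ A ∈ PP ψ, ∀ B ∈ LL ψ, ∀ B' ∈ LL ψ, A ⊓ B = ⊥ → A ⊓ B' = ⊥ → ∃ a ∈ A, cj a B = B' := by
  rintro _ ⟨v, hv, rfl⟩ _ ⟨χ, hχ, rfl⟩ _ ⟨χ', hχ', rfl⟩ h h'
  have h1 : χ ⬝ᵥ v ≠ 0 := fun h0 => (hψ.meet_iff hv hχ).2 h0 h
  have h2 : χ' ⬝ᵥ v ≠ 0 := fun h0 => (hψ.meet_iff hv hχ').2 h0 h'
  set c := χ ⬝ᵥ v with hc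
  set c' := χ' ⬝ᵥ v with hc'
  have h3 : (c'⁻¹ • χ' - c⁻¹ • χ) ⬝ᵥ v = 0 := by
    rw [sub_dotProduct, smul_dotProduct, smul_dotProduct, ← hc, ← hc', smul_eq_mul, smul_eq_mul, inv_mul_cancel₀ h1, inv_mul_cancel₀ h2, sub_self]
  refine ⟨ψ (elS v _ h3), ⟨_, elS_mem_El v _ h3, rfl⟩, ?_⟩
  rw [cj_LL]
  have h4 : (elS v _ h3)⁻¹ = elS v _ h3 := by
    rw [inv_eq_iff_mul_eq_one]
    exact sq_of_el hψ.two h3 rfl
  have h5 : fact (elS v _ h3) χ = (c * c'⁻¹) • χ' := by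
    rw [fact, h4]
    change χ ᵥ* el v _ = _
    rw [vecMul_el, ← hc, smul_sub, smul_smul, smul_smul, mul_inv_cancel₀ h1, one_smul]
    abel
  rw [h5, Ax_smul _ (mul_ne_zero h1 (inv_ne_zero h2))]

theorem center_of_fix {g : S3 F} (h : ∀ v : V3 F, v ≠ 0 → ∃ c : F, vact g v = c • v) : g ∈ Subgroup.center (S3 F) := by
  have he : ∀ i : Fin 3, (Pi.single i 1 : V3 F) ≠ 0 := by
    intro i h0
    have := congrFun h0 i
    simp at this
  have h1 : ∀ i : Fin 3, ∃ c : F, vact g (Pi.single i 1) = c • Pi.single i 1 := fun i => h _ (he i)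
  choose c hc using h1
  have h2 : ∀ i j : Fin 3, i ≠ j → c i = c j := by
    intro i j hij
    have hs : (Pi.single i 1 + Pi.single j 1 : V3 F) ≠ 0 := by
      intro h0
      have := congrFun h0 i
      simp [Pi.single_apply, hij] at this
    obtain ⟨d, hd⟩ := h _ hs
    rw [vact_add, hc, hc] at hd
    have e1 := congrFun hd i
    have e2 := congrFun hd j
    simp [Pi.single_apply, hij] at e1
    simp [Pi.single_apply, hij.symm] at e2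
    rw [e1, e2]
  have h3 : ∀ i, c i = c 0 := by
    intro i
    by_cases hi : i = 0
    · rw [hi]
    · exact h2 i 0 hi
  apply center_of_scalar (c := c 0)
  ext i j
  have h4 := congrFun (hc j) i
  rw [h3 j] at h4
  have h5 : vact g (Pi.single j 1) i = mat g i j := by
    rw [vact, mulVec_single_one]; rfl
  rw [h5] at h4
  rw [h4, Matrix.smul_apply, Pi.smul_apply]
  congr 1
  rw [Matrix.one_apply, Pi.single_apply]

theorem Good.faith (hψ : Good ψ) : ∀ g ∈ ψ.range, (∀ A ∈ PP ψ, cj g A = A) → g = 1 := by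
  rintro _ ⟨s, rfl⟩ h
  have : s ∈ ψ.ker := by
    rw [hψ.ker]
    apply center_of_fix
    intro v hv
    have h1 := h _ ⟨v, hv, rfl⟩
    rw [cj_PP] at h1
    obtain ⟨c, -, hc⟩ := hψ.El_eq (vact_ne_zero s hv) h1
    exact ⟨c, hc⟩
  exact this

/-! ### the torus -/

theorem exists_frame {v w : V3 F} (h : v ⨯₃ w ≠ 0) :
    ∃ M : S3 F, vact M (Pi.single 0 1) = v ∧ vact M (Pi.single 1 1) = w := by
  obtain ⟨x, hx⟩ := exists_fun_ne h
  refine ⟨⟨(Matrix.of ![v, w, x])ᵀ, ?_⟩, ?_, ?_⟩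
  · rw [det_transpose]
    change Matrix.det ![v, w, x] = 1
    rw [← triple_product_eq_det, ← triple_product_permutation]
    exact hx
  · change (Matrix.of ![v, w, x])ᵀ *ᵥ _ = v
    rw [mulVec_single_one]
    rfl
  · change (Matrix.of ![v, w, x])ᵀ *ᵥ _ = w
    rw [mulVec_single_one]
    rfl

/-- the one-dimensional torus `diag(s, s⁻¹, 1)` -/
def tor : Fˣ →* S3 F where
  toFun s := ⟨!![(s : F), 0, 0; 0, ((s⁻¹ : Fˣ) : F), 0; 0, 0, 1], by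
    rw [det_fin_three]; simp⟩
  map_one' := by
    apply Subtype.ext
    ext i j
    fin_cases i <;> fin_cases j <;> simp
  map_mul' := by
    intro s t
    apply Subtype.ext
    change !![((s * t : Fˣ) : F), 0, 0; 0, (((s * t)⁻¹ : Fˣ) : F), 0; 0, 0, 1] = !![(s : F), 0, 0; 0, ((s⁻¹ : Fˣ) : F), 0; 0, 0, 1] * !![(t : F), 0, 0; 0, ((t⁻¹ : Fˣ) : F), 0; 0, 0, 1]
    ext i j
    fin_cases i <;> fin_cases j <;> simp [Matrix.mul_apply, Fin.sum_univ_three, mul_comm]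

theorem mat_tor (s : Fˣ) : mat (tor s) = !![(s : F), 0, 0; 0, ((s⁻¹ : Fˣ) : F), 0; 0, 0, 1] := rfl

theorem e01 (c : F) : (c • (Pi.single 1 1 : V3 F)) ⬝ᵥ Pi.single 0 1 = 0 := by
  simp [smul_dotProduct]
theorem e10 (c : F) : (c • (Pi.single 0 1 : V3 F)) ⬝ᵥ Pi.single 1 1 = 0 := by
  simp [smul_dotProduct]

def E12 (c : F) : S3 F := elS (Pi.single 0 1) (c • Pi.single 1 1) (e01 c)
def E21 (c : F) : S3 F := elS (Pi.single 1 1) (c • Pi.single 0 1) (e10 c)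

theorem mat_E12 (c : F) : mat (E12 c) = !![1, c, 0; 0, 1, 0; 0, 0, 1] := by
  change el _ _ = _
  ext i j
  rw [el_apply]
  fin_cases i <;> fin_cases j <;> simp
theorem mat_E21 (c : F) : mat (E21 c) = !![1, 0, 0; c, 1, 0; 0, 0, 1] := by
  change el _ _ = _
  ext i j
  rw [el_apply]
  fin_cases i <;> fin_cases j <;> simp

theorem tor_eq (s : Fˣ) : tor s = E12 (s : F) * E21 (-((s⁻¹ : Fˣ) : F)) * E12 (s : F) * (E12 (-1) * E21 1 * E12 (-1)) := by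
  apply mat_inj
  simp only [mat_mul, mat_E12, mat_E21, mat_tor]
  ext i j
  fin_cases i <;> fin_cases j <;> simp [Matrix.mul_apply, Fin.sum_univ_three]

theorem tor_mem {H : Subgroup (S3 F)} (h1 : ∀ c, E12 c ∈ H) (h2 : ∀ c, E21 c ∈ H) (s : Fˣ) : tor s ∈ H := by
  rw [tor_eq]
  exact H.mul_mem (H.mul_mem (H.mul_mem (h1 _) (h2 _)) (h1 _)) (H.mul_mem (H.mul_mem (h1 _) (h2 _)) (h1 _))

theorem Good.yy_P (hψ : Good ψ) {v χ : V3 F} (hv : v ≠ 0) (hχ : χ ≠ 0) (h : χ ⬝ᵥ v = 0) :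
    (El v).map ψ ≤ YY (PP ψ) ((Ax χ).map ψ) := by
  rw [YY]
  exact le_iSup₂_of_le ((El v).map ψ) ⟨⟨v, hv, rfl⟩, (hψ.meet_iff hv hχ).2 h⟩ le_rfl

theorem Good.yy_L (hψ : Good ψ) {v χ : V3 F} (hv : v ≠ 0) (hχ : χ ≠ 0) (h : χ ⬝ᵥ v = 0) :
    (Ax χ).map ψ ≤ YY (LL ψ) ((El v).map ψ) := by
  rw [YY]
  exact le_iSup₂_of_le ((Ax χ).map ψ) ⟨⟨χ, hχ, rfl⟩, by rw [inf_comm]; exact (hψ.meet_iff hv hχ).2 h⟩ le_rfl

theorem single_ne (i : Fin 3) : (Pi.single i 1 : V3 F) ≠ 0 := by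
  intro h0
  have := congrFun h0 i
  simp at this

theorem Good.tor_P (hψ : Good ψ) (M : S3 F) (s : Fˣ) :
    ψ (M * tor s * M⁻¹) ∈ YY (PP ψ) ((Ax (fact M (Pi.single 2 1))).map ψ) := by
  have hx : ∀ (i : Fin 3), i ≠ 2 → fact M (Pi.single 2 1) ⬝ᵥ vact M (Pi.single i 1) = 0 := by
    intro i hi
    rw [fact_dot_vact]
    simp [hi.symm]
  have key : ∀ g, g ∈ (YY (PP ψ) ((Ax (fact M (Pi.single 2 1))).map ψ)).comap (ψ.comp (MulAut.conj M).toMonoidHom) ↔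
      ψ (M * g * M⁻¹) ∈ YY (PP ψ) ((Ax (fact M (Pi.single 2 1))).map ψ) := fun g => Iff.rfl
  rw [← key]
  apply tor_mem
  · intro c
    rw [key]
    apply hψ.yy_P (vact_ne_zero M (single_ne 0)) (fact_ne_zero M (single_ne 2)) (hx 0 (by decide))
    exact ⟨_, conj_mem_El M (elS_mem_El _ _ _), rfl⟩
  · intro c
    rw [key]
    apply hψ.yy_P (vact_ne_zero M (single_ne 1)) (fact_ne_zero M (single_ne 2)) (hx 1 (by decide))
    exact ⟨_, conj_mem_El M (elS_mem_El _ _ _), rfl⟩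

theorem E12_mem_Ax (c : F) : E12 c ∈ Ax (Pi.single 1 1 : V3 F) := by
  refine ⟨c • Pi.single 0 1, ?_, ?_⟩
  · simp [dotProduct_smul]
  · exact (el_smul _ _ _).symm
theorem E21_mem_Ax (c : F) : E21 c ∈ Ax (Pi.single 0 1 : V3 F) := by
  refine ⟨c • Pi.single 1 1, ?_, ?_⟩
  · simp [dotProduct_smul]
  · exact (el_smul _ _ _).symm

theorem Good.tor_L (hψ : Good ψ) (M : S3 F) (s : Fˣ) :
    ψ (M * tor s * M⁻¹) ∈ YY (LL ψ) ((El (vact M (Pi.single 2 1))).map ψ) := by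
  have hx : ∀ (i : Fin 3), i ≠ 2 → fact M (Pi.single i 1) ⬝ᵥ vact M (Pi.single 2 1) = 0 := by
    intro i hi
    rw [fact_dot_vact]
    simp [hi]
  have key : ∀ g, g ∈ (YY (LL ψ) ((El (vact M (Pi.single 2 1))).map ψ)).comap (ψ.comp (MulAut.conj M).toMonoidHom) ↔
      ψ (M * g * M⁻¹) ∈ YY (LL ψ) ((El (vact M (Pi.single 2 1))).map ψ) := fun g => Iff.rfl
  rw [← key]
  apply tor_mem
  · intro c
    rw [key]
    apply hψ.yy_L (vact_ne_zero M (single_ne 2)) (fact_ne_zero M (single_ne 1)) (hx 1 (by decide))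
    exact ⟨_, conj_mem_Ax M (E12_mem_Ax c), rfl⟩
  · intro c
    rw [key]
    apply hψ.yy_L (vact_ne_zero M (single_ne 2)) (fact_ne_zero M (single_ne 0)) (hx 0 (by decide))
    exact ⟨_, conj_mem_Ax M (E21_mem_Ax c), rfl⟩

theorem vact_tor (s : Fˣ) (u : V3 F) : vact (tor s) u = ![(s : F) * u 0, ((s⁻¹ : Fˣ) : F) * u 1, u 2] := by
  rw [vact, mat_tor]
  ext i
  fin_cases i <;> simp [mulVec, dotProduct, Fin.sum_univ_three]

theorem Good.tor_one (hψ : Good ψ) (M : S3 F) (s : Fˣ) : ψ (M * tor s * M⁻¹) = 1 ↔ s = 1 := by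
  constructor
  · intro h
    have h1 : M * tor s * M⁻¹ ∈ Subgroup.center (S3 F) := by
      rw [← hψ.ker]; exact h
    have h2 : tor s ∈ Subgroup.center (S3 F) := by
      have := (inferInstance : (Subgroup.center (S3 F)).Normal).conj_mem _ h1 M⁻¹
      have e : M⁻¹ * (M * tor s * M⁻¹) * M⁻¹⁻¹ = tor s := by group
      rwa [e] at this
    obtain ⟨c, -, hc⟩ := exists_scalar h2
    rw [mat_tor] at hc
    have e0 := congrFun (congrFun hc 0) 0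
    have e2 := congrFun (congrFun hc 2) 2
    simp at e0 e2
    apply Units.ext
    rw [e0, ← e2]; rfl
  · rintro rfl
    rw [map_one, mul_one, mul_inv_cancel, map_one]

end Cfsg.Agent.H55.PS3
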