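import Cfsg.Agent.H55.PS3c

/-!
# The plane of the image of `SL₃(F)`, characteristic two: the torus axioms
-/

set_option autoImplicit false

namespace Cfsg.Agent.H55.PS3

open Matrix Cfsg.Agent.P3
open scoped MatrixGroups LinearAlgebra.Projectivization

variable {F : Type} [Field F] {G : Type*} [Group G] {ψ : S3 F →* G}

/-- the stabiliser of a functional -/
def St (χ : V3 F) : Subgroup (S3 F) where
  carrier := {g | fact g χ = χ}
  one_mem' := fact_one χ
  mul_mem' := by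
    intro a b ha hb
    change fact (a * b) χ = χ
    rw [fact_mul, show fact b χ = χ from hb]
    exact ha
  inv_mem' := by
    intro a ha
    change fact a⁻¹ χ = χ
    have h1 : fact a χ = χ := ha
    have h2 := fact_inv_fact a χ
    rwa [h1] at h2

theorem Good.YY_le (hψ : Good ψ) {χ : V3 F} (hχ : χ ≠ 0) {r : G} (hr : r ∈ YY (PP ψ) ((Ax χ).map ψ)) :
    ∃ g : S3 F, ψ g = r ∧ fact g χ = χ := by
  have h : YY (PP ψ) ((Ax χ).map ψ) ≤ (St χ).map ψ := by
    rw [YY]
    apply iSup₂_le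
    rintro _ ⟨⟨v, hv, rfl⟩, hA⟩
    rw [hψ.meet_iff hv hχ] at hA
    apply Subgroup.map_mono
    intro a ha
    exact fact_of_mem_El hA ha
  obtain ⟨g, hg, rfl⟩ := h hr
  exact ⟨g, rfl, hg⟩

theorem tpow (M : S3 F) (s : Fˣ) (i : ℕ) : (ψ (M * tor s * M⁻¹)) ^ i = ψ (M * tor (s ^ i) * M⁻¹) := by
  rw [← map_pow, conj_pow, ← map_pow]

theorem vact_conj (M g : S3 F) (u : V3 F) : vact (M * g * M⁻¹) (vact M u) = vact M (vact g u) := by
  rw [vact_mul, vact_mul, vact_inv_vact]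

theorem fact_conj (M g : S3 F) (u : V3 F) : fact (M * g * M⁻¹) (fact M u) = fact M (fact g u) := by
  rw [fact_mul, fact_mul, fact_inv_fact]

theorem vact_tor0 (s : Fˣ) : vact (tor s) (Pi.single 0 1) = (s : F) • (Pi.single 0 1 : V3 F) := by
  rw [vact_tor]
  ext i
  fin_cases i <;> simp

theorem vact_tor1 (s : Fˣ) : vact (tor s) (Pi.single 1 1) = ((s⁻¹ : Fˣ) : F) • (Pi.single 1 1 : V3 F) := by
  rw [vact_tor]
  ext i
  fin_cases i <;> simp

theorem fact_tor2 (s : Fˣ) : fact (tor s) (Pi.single 2 1) = (Pi.single 2 1 : V3 F) := by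
  rw [fact, ← map_inv, mat_tor, single_one_vecMul]
  ext i
  fin_cases i <;> simp

theorem smul_zero_of {u : V3 F} (h2 : u 2 = 0) (h0 : u 0 = 0) : u = u 1 • (Pi.single 1 1 : V3 F) := by
  ext i
  fin_cases i <;> simp [h2, h0]

theorem smul_zero_of' {u : V3 F} (h2 : u 2 = 0) (h0 : u 1 = 0) : u = u 0 • (Pi.single 0 1 : V3 F) := by
  ext i
  fin_cases i <;> simp [h2, h0]

theorem smul_zero_of'' {u : V3 F} (h2 : u 0 = 0) (h0 : u 1 = 0) : u = u 2 • (Pi.single 2 1 : V3 F) := by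
  ext i
  fin_cases i <;> simp [h2, h0]

theorem row_of_fact {h : S3 F} {d : F} (hd : fact h (Pi.single 2 1) = d • (Pi.single 2 1 : V3 F)) :
    d * mat h 2 0 = 0 ∧ d * mat h 2 1 = 0 ∧ d * mat h 2 2 = 1 := by
  have h1 : (Pi.single 2 1 : V3 F) = d • ((Pi.single 2 1 : V3 F) ᵥ* mat h) := by
    have h2 : fact h⁻¹ (fact h (Pi.single 2 1)) = (Pi.single 2 1 : V3 F) := fact_inv_fact _ _
    rw [hd, fact_smul, fact, inv_inv] at h2
    exact h2.symm
  rw [single_one_vecMul] at h1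
  have a0 := congrFun h1 0
  have a1 := congrFun h1 1
  have a2 := congrFun h1 2
  simp [Pi.smul_apply] at a0 a1 a2
  refine ⟨?_, ?_, a2.symm⟩
  · rcases a0 with h | h
    · rw [h, zero_mul]
    · rw [h, mul_zero]
  · rcases a1 with h | h
    · rw [h, zero_mul]
    · rw [h, mul_zero]

theorem col_of_vact {h : S3 F} {d : F} (i : Fin 3) (hd : vact h (Pi.single i 1) = d • (Pi.single i 1 : V3 F)) (j : Fin 3) :
    mat h j i = if j = i then d else 0 := by
  rw [vact, mulVec_single_one] at hd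
  have h1 := congrFun hd j
  have h2 : mat h j i = (d • (Pi.single i 1 : V3 F)) j := h1
  rw [h2, Pi.smul_apply, Pi.single_apply]
  split_ifs <;> simp

theorem Good.torus_aux (hψ : Good ψ) [Fintype F] (M : S3 F) :
    ∃ t ∈ YY (PP ψ) ((Ax (fact M (Pi.single 2 1))).map ψ), orderOf t = Fintype.card F - 1 ∧
      cj t ((El (vact M (Pi.single 0 1))).map ψ) = (El (vact M (Pi.single 0 1))).map ψ ∧
      cj t ((El (vact M (Pi.single 1 1))).map ψ) = (El (vact M (Pi.single 1 1))).map ψ ∧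
      cj t ((Ax (fact M (Pi.single 2 1))).map ψ) = ((Ax (fact M (Pi.single 2 1))).map ψ) ∧
      (∀ A'' ∈ PP ψ, A'' ⊓ ((Ax (fact M (Pi.single 2 1))).map ψ) ≠ ⊥ → ∀ i : ℕ, t ^ i ≠ 1 → cj (t ^ i) A'' = A'' →
        A'' = (El (vact M (Pi.single 0 1))).map ψ ∨ A'' = (El (vact M (Pi.single 1 1))).map ψ) ∧
      (∀ r ∈ YY (PP ψ) ((Ax (fact M (Pi.single 2 1))).map ψ),
        cj r ((El (vact M (Pi.single 0 1))).map ψ) = (El (vact M (Pi.single 0 1))).map ψ →
        cj r ((El (vact M (Pi.single 1 1))).map ψ) = (El (vact M (Pi.single 1 1))).map ψ →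
        ∃ i : ℕ, ∃ b ∈ ((Ax (fact M (Pi.single 2 1))).map ψ), r = t ^ i * b) := by
  obtain ⟨s, hs⟩ := IsCyclic.exists_monoid_generator (α := Fˣ)
  refine ⟨ψ (M * tor s * M⁻¹), hψ.tor_P M s, ?_, ?_, ?_, ?_, ?_, ?_⟩
  · have h1 : orderOf (ψ (M * tor s * M⁻¹)) = orderOf s := by
      rw [orderOf_eq_orderOf_iff]
      intro n
      rw [tpow, hψ.tor_one]
    rw [h1, orderOf_eq_card_of_forall_mem_powers hs, Nat.card_units, Nat.card_eq_fintype_card]
  · rw [cj_PP, vact_conj, vact_tor0, vact_smul, El_smul _ s.ne_zero]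
  · rw [cj_PP, vact_conj, vact_tor1, vact_smul, El_smul _ s⁻¹.ne_zero]
  · rw [cj_LL, fact_conj, fact_tor2]
  · rintro _ ⟨u, hu, rfl⟩ h i hi hc
    rw [hψ.meet_iff hu (fact_ne_zero M (single_ne 2))] at h
    rw [tpow] at hi hc
    rw [Ne, hψ.tor_one] at hi
    obtain ⟨u', rfl⟩ : ∃ u', vact M u' = u := ⟨vact M⁻¹ u, vact_vact_inv M u⟩
    rw [fact_dot_vact] at h
    have hu2 : u' 2 = 0 := by simpa using h
    rw [cj_PP, vact_conj] at hc
    have hu' : u' ≠ 0 := by rintro rfl; rw [vact_zero] at hu; exact hu rfl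
    obtain ⟨c, hc0, hc1⟩ := hψ.El_eq (vact_ne_zero M (vact_ne_zero _ hu')) hc
    have hc2 : vact (tor (s ^ i)) u' = c • u' := by
      have := congrArg (vact M⁻¹) hc1
      rwa [vact_inv_vact, vact_smul, vact_inv_vact] at this
    rw [vact_tor] at hc2
    have a0 := congrFun hc2 0
    have a1 := congrFun hc2 1
    simp only [Pi.smul_apply, smul_eq_mul, Matrix.cons_val_zero, Matrix.cons_val_one] at a0 a1
    by_cases z0 : u' 0 = 0
    · right
      have z1 : u' 1 ≠ 0 := by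
        intro z1
        apply hu'
        rw [smul_zero_of hu2 z0, z1, zero_smul]
      rw [smul_zero_of hu2 z0, vact_smul, El_smul _ z1]
    · by_cases z1 : u' 1 = 0
      · left
        rw [smul_zero_of' hu2 z1, vact_smul, El_smul _ z0]
      · exfalso
        apply hi
        have b0 : ((s ^ i : Fˣ) : F) = c := mul_right_cancel₀ z0 a0
        have b1 : (((s ^ i)⁻¹ : Fˣ) : F) = c := mul_right_cancel₀ z1 a1
        apply Units.ext
        rw [Units.val_one]
        apply one_of_sq hψ.two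
        nth_rewrite 2 [b0]
        rw [← b1]
        exact Units.mul_inv _
  · intro r hr hA hA'
    obtain ⟨g, rfl, hg⟩ := hψ.YY_le (fact_ne_zero M (single_ne 2)) hr
    obtain ⟨h, rfl⟩ : ∃ h, M * h * M⁻¹ = g := ⟨M⁻¹ * g * M, by group⟩
    rw [cj_PP, vact_conj] at hA hA'
    obtain ⟨a, ha0, ha⟩ := hψ.El_eq (vact_ne_zero M (vact_ne_zero _ (single_ne 0))) hA
    obtain ⟨b, hb0, hb⟩ := hψ.El_eq (vact_ne_zero M (vact_ne_zero _ (single_ne 1))) hA'
    have ha' : vact h (Pi.single 0 1) = a • (Pi.single 0 1 : V3 F) := by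
      have := congrArg (vact M⁻¹) ha
      rwa [vact_inv_vact, vact_smul, vact_inv_vact] at this
    have hb' : vact h (Pi.single 1 1) = b • (Pi.single 1 1 : V3 F) := by
      have := congrArg (vact M⁻¹) hb
      rwa [vact_inv_vact, vact_smul, vact_inv_vact] at this
    rw [fact_conj] at hg
    have hg' : fact h (Pi.single 2 1) = (1 : F) • (Pi.single 2 1 : V3 F) := by
      have := congrArg (fact M⁻¹) hg
      rw [fact_inv_fact, fact_inv_fact] at this
      rw [one_smul]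
      exact this
    obtain ⟨r0, r1, r2⟩ := row_of_fact hg'
    rw [one_mul] at r0 r1 r2
    have c00 : mat h 0 0 = a := by rw [col_of_vact 0 ha' 0]; simp
    have c10 : mat h 1 0 = 0 := by rw [col_of_vact 0 ha' 1]; simp
    have c01 : mat h 0 1 = 0 := by rw [col_of_vact 1 hb' 0]; simp
    have c11 : mat h 1 1 = b := by rw [col_of_vact 1 hb' 1]; simp
    have hdet : a * b = 1 := by
      have := det_mat h
      rw [det_fin_three, r0, r1, r2, c00, c10, c01, c11] at this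
      linear_combination this
    obtain ⟨i, hi⟩ := hs (Units.mk0 a ha0)
    refine ⟨i, ψ (M * elS ![b * mat h 0 2, a * mat h 1 2, 0] (Pi.single 2 1) (by simp) * M⁻¹), ?_, ?_⟩
    · exact ⟨_, conj_mem_Ax M (elS_mem_Ax _ _ _), rfl⟩
    · rw [tpow, ← map_mul]
      have hi' : s ^ i = Units.mk0 a ha0 := hi
      rw [hi']
      congr 1
      have e : h = tor (Units.mk0 a ha0) * elS ![b * mat h 0 2, a * mat h 1 2, 0] (Pi.single 2 1) (by simp) := by
        apply mat_inj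
        rw [mat_mul, mat_tor]
        change mat h = _ * el _ _
        have hb2 : ((Units.mk0 a ha0)⁻¹ : Fˣ) = b := by
          rw [Units.val_inv_eq_inv_val, Units.val_mk0]
          exact inv_eq_of_mul_eq_one_right hdet
        rw [hb2, Units.val_mk0]
        have k : el ![b * mat h 0 2, a * mat h 1 2, 0] (Pi.single 2 1) = !![1, 0, b * mat h 0 2; 0, 1, a * mat h 1 2; 0, 0, 1] := by
          ext i j
          rw [el_apply]
          fin_cases i <;> fin_cases j <;> simp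
        rw [k]
        ext i j
        fin_cases i <;> fin_cases j <;> simp [Matrix.mul_apply, Fin.sum_univ_three, r0, r1, r2, c00, c10, c01, c11]
        · linear_combination (- mat h 0 2) * hdet
        · linear_combination (- mat h 1 2) * hdet
      nth_rewrite 1 [e]
      group

theorem Good.torus (hψ : Good ψ) [Fintype F] : ∀ B ∈ LL ψ, ∀ A ∈ PP ψ, ∀ A' ∈ PP ψ, A ≠ A' → A ⊓ B ≠ ⊥ → A' ⊓ B ≠ ⊥ →
    ∃ t ∈ YY (PP ψ) B, orderOf t = Fintype.card F - 1 ∧ cj t A = A ∧ cj t A' = A' ∧ cj t B = B ∧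
      (∀ A'' ∈ PP ψ, A'' ⊓ B ≠ ⊥ → ∀ i : ℕ, t ^ i ≠ 1 → cj (t ^ i) A'' = A'' →
        A'' = A ∨ A'' = A') ∧
      (∀ r ∈ YY (PP ψ) B, cj r A = A → cj r A' = A' → ∃ i : ℕ, ∃ b ∈ B, r = t ^ i * b) := by
  rintro _ ⟨χ, hχ, rfl⟩ _ ⟨v, hv, rfl⟩ _ ⟨w, hw, rfl⟩ hne h1 h2
  rw [hψ.meet_iff hv hχ] at h1
  rw [hψ.meet_iff hw hχ] at h2
  have hc := hψ.cross_ne hv hw hne
  obtain ⟨M, hM0, hM1⟩ := exists_frame hc
  have h3 : fact M (Pi.single 2 1) ⬝ᵥ v = 0 := by
    rw [← hM0, fact_dot_vact]; simp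
  have h4 : fact M (Pi.single 2 1) ⬝ᵥ w = 0 := by
    rw [← hM1, fact_dot_vact]; simp
  obtain ⟨c, hc0, e⟩ := par_of_perp hc h1 h2 h3 h4 hχ (fact_ne_zero M (single_ne 2))
  have h5 : Ax χ = Ax (fact M (Pi.single 2 1)) := by rw [e, Ax_smul _ hc0]
  rw [h5, ← hM0, ← hM1]
  exact hψ.torus_aux M

end Cfsg.Agent.H55.PS3
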