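import Cfsg.Agent.H55.PS3d

/-!
# The plane of the image of `SL₃(F)`, characteristic two: `Half`, duality
-/

set_option autoImplicit false

namespace Cfsg.Agent.H55.PS3

open Matrix Cfsg.Agent.P3
open scoped MatrixGroups LinearAlgebra.Projectivization

variable {F : Type} [Field F] {G : Type*} [Group G] {ψ : S3 F →* G}

theorem Good.eq_of_smul (hψ : Good ψ) {a b : S3 F} {c : F} (h : mat a = c • mat b) : ψ a = ψ b := by
  have h1 : mat (a * b⁻¹) = c • (1 : Matrix (Fin 3) (Fin 3) F) := by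
    rw [mat_mul, h, smul_mul, mat_mul_inv]
  have h2 : a * b⁻¹ ∈ ψ.ker := by
    rw [hψ.ker]; exact center_of_scalar h1
  rw [MonoidHom.mem_ker, map_mul, map_inv] at h2
  exact mul_inv_eq_one.1 h2

/-- the cyclic permutation matrix -/
def perm (F : Type) [Field F] : S3 F := ⟨!![0, 0, 1; 1, 0, 0; 0, 1, 0], by rw [det_fin_three]; simp⟩
def perm' (F : Type) [Field F] : S3 F := ⟨!![0, 1, 0; 0, 0, 1; 1, 0, 0], by rw [det_fin_three]; simp⟩

theorem mat_perm : mat (perm F) = !![0, 0, 1; 1, 0, 0; 0, 1, 0] := rfl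
theorem mat_perm' : mat (perm' F) = !![0, 1, 0; 0, 0, 1; 1, 0, 0] := rfl

theorem perm_inv : (perm F)⁻¹ = perm' F := by
  rw [inv_eq_iff_mul_eq_one]
  apply mat_inj
  rw [mat_mul, mat_perm, mat_perm', mat_one]
  ext i j
  fin_cases i <;> fin_cases j <;> simp [Matrix.mul_apply, Fin.sum_univ_three]

theorem perm'_inv : (perm' F)⁻¹ = perm F := by
  rw [← perm_inv, inv_inv]

theorem vact_perm : vact (perm F) (Pi.single 2 1) = Pi.single 0 1 := by
  rw [vact, mat_perm, mulVec_single_one]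
  ext i
  fin_cases i <;> simp

theorem vact_perm' : vact (perm' F) (Pi.single 2 1) = Pi.single 1 1 := by
  rw [vact, mat_perm', mulVec_single_one]
  ext i
  fin_cases i <;> simp

theorem Good.El_ne (hψ : Good ψ) {i j : Fin 3} (h : i ≠ j) :
    (El (Pi.single i 1 : V3 F)).map ψ ≠ (El (Pi.single j 1 : V3 F)).map ψ := by
  intro h0
  obtain ⟨c, -, hc⟩ := hψ.El_eq (single_ne i) h0
  have := congrFun hc i
  simp [Pi.single_apply, h] at this

theorem Good.omega (hψ : Good ψ) [Fintype F] : 3 ∣ Fintype.card F - 1 → Fintype.card F ≠ 1 → ∃ x ∈ ψ.range, x ≠ 1 ∧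
    ∃ A₁ ∈ PP ψ, ∃ A₂ ∈ PP ψ, ∃ A₃ ∈ PP ψ,
    A₁ ≠ A₂ ∧ A₁ ≠ A₃ ∧ A₂ ≠ A₃ ∧ x ∈ YY (LL ψ) A₁ ∧ x ∈ YY (LL ψ) A₂ ∧ x ∈ YY (LL ψ) A₃ ∧
    ∀ A ∈ PP ψ, cj x A = A → A = A₁ ∨ A = A₂ ∨ A = A₃ := by
  intro h3 _
  classical
  have hcard : 3 ∣ Fintype.card Fˣ := by rwa [Fintype.card_units]
  haveI : Fact (Nat.Prime 3) := ⟨Nat.prime_three⟩
  obtain ⟨w, hw⟩ := exists_prime_orderOf_dvd_card 3 hcard
  have hw3 : w ^ 3 = 1 := by rw [← hw]; exact pow_orderOf_eq_one w
  have hw1 : w ≠ 1 := by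
    rintro rfl
    rw [orderOf_one] at hw
    omega
  have hwinv : w⁻¹ = w * w := by
    rw [inv_eq_iff_mul_eq_one, ← hw3, pow_succ, pow_two, ← mul_assoc]
  have hwF : (w : F) * (w * w) = 1 := by
    have := congrArg (Units.val) hw3
    rw [Units.val_pow_eq_pow_val, Units.val_one] at this
    rw [← this]; ring
  have hww : w⁻¹ ≠ w := by
    intro h
    rw [hwinv] at h
    exact hw1 (mul_eq_left.1 h)
  have hwF1 : (w : F) ≠ 1 := fun h => hw1 (Units.ext h)
  have hwFi : ((w⁻¹ : Fˣ) : F) = w * w := by rw [hwinv]; rfl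
  have ht : ψ (tor w) = ψ (1 * tor w * 1⁻¹) := by rw [one_mul, inv_one, mul_one]
  refine ⟨ψ (tor w), ⟨_, rfl⟩, ?_, _, ⟨Pi.single 2 1, single_ne 2, rfl⟩, _, ⟨Pi.single 0 1, single_ne 0, rfl⟩,
    _, ⟨Pi.single 1 1, single_ne 1, rfl⟩, hψ.El_ne (by decide), hψ.El_ne (by decide), hψ.El_ne (by decide), ?_, ?_, ?_, ?_⟩
  · rw [ht, Ne, hψ.tor_one]; exact hw1
  · have := hψ.tor_L 1 w
    rw [← ht, vact_one] at this
    exact this
  · have := hψ.tor_L (perm F) w
    rw [vact_perm] at this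
    have e : ψ (perm F * tor w * (perm F)⁻¹) = ψ (tor w) := by
      apply hψ.eq_of_smul (c := w * w)
      rw [perm_inv, mat_mul, mat_mul, mat_perm, mat_perm', mat_tor, hwFi]
      ext i j
      fin_cases i <;> fin_cases j <;> simp [Matrix.mul_apply, Fin.sum_univ_three]
      · linear_combination -hwF
      · linear_combination (-(w : F)) * hwF
    rwa [e] at this
  · have := hψ.tor_L (perm' F) w
    rw [vact_perm'] at this
    have e : ψ (perm' F * tor w * (perm' F)⁻¹) = ψ (tor w) := by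
      apply hψ.eq_of_smul (c := w)
      rw [perm'_inv, mat_mul, mat_mul, mat_perm, mat_perm', mat_tor, hwFi]
      ext i j
      fin_cases i <;> fin_cases j <;> simp [Matrix.mul_apply, Fin.sum_univ_three]
      · linear_combination -hwF
    rwa [e] at this
  · rintro _ ⟨u, hu, rfl⟩ hc
    rw [cj_PP] at hc
    obtain ⟨c, -, hc1⟩ := hψ.El_eq (vact_ne_zero _ hu) hc
    rw [vact_tor] at hc1
    have a0 : (w : F) * u 0 = c * u 0 := by simpa using congrFun hc1 0
    have a1 : ((w⁻¹ : Fˣ) : F) * u 1 = c * u 1 := congrFun hc1 1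
    have a2 : u 2 = c * u 2 := congrFun hc1 2
    by_cases z2 : u 2 = 0
    · by_cases z0 : u 0 = 0
      · right; right
        have z1 : u 1 ≠ 0 := by
          intro z1
          apply hu
          rw [smul_zero_of z2 z0, z1, zero_smul]
        rw [smul_zero_of z2 z0, El_smul _ z1]
      · by_cases z1 : u 1 = 0
        · right; left
          rw [smul_zero_of' z2 z1, El_smul _ z0]
        · exfalso
          have b0 := mul_right_cancel₀ z0 a0
          have b1 := mul_right_cancel₀ z1 a1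
          exact hww (Units.ext (b1.trans b0.symm))
    · have b2 : c = 1 := by
        have : (1 : F) * u 2 = c * u 2 := by rw [one_mul]; exact a2
        exact (mul_right_cancel₀ z2 this).symm
      rw [b2] at a0 a1
      by_cases z0 : u 0 = 0
      · by_cases z1 : u 1 = 0
        · left
          rw [smul_zero_of'' z0 z1, El_smul _ z2]
        · exfalso
          have b1 := mul_right_cancel₀ z1 a1
          apply hw1
          have : w⁻¹ = 1 := Units.ext b1
          exact inv_eq_one.1 this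
      · exfalso
        exact hwF1 (mul_right_cancel₀ z0 a0)

theorem Good.half (hψ : Good ψ) [Fintype F] : Half ψ.range (Fintype.card F) (PP ψ) (LL ψ) where
  le := by
    rintro _ ⟨v, hv, rfl⟩
    exact Subgroup.map_le_range _ _
  card := by
    rintro _ ⟨v, hv, rfl⟩
    exact hψ.card_El hv
  sq := by
    rintro _ ⟨v, hv, rfl⟩ _ ⟨a, ha, rfl⟩
    rw [← map_mul, hψ.sq_El ha, map_one]
  conj := by
    rintro _ ⟨s, rfl⟩ _ ⟨v, hv, rfl⟩
    rw [cj_PP]
    exact ⟨_, vact_ne_zero _ hv, rfl⟩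
  ncard := hψ.ncard_PP
  ti := hψ.ti
  join := hψ.join
  inc := by
    rintro _ ⟨v, hv, rfl⟩ _ ⟨χ, hχ, rfl⟩ h
    exact hψ.card_inter hv hχ ((hψ.meet_iff hv hχ).1 h)
  deg := by
    rintro _ ⟨v, hv, rfl⟩
    exact hψ.deg_PP hv
  norm := hψ.norm
  reg := hψ.reg
  faith := hψ.faith
  torus := hψ.torus
  omega := hψ.omega

/-! ### duality -/

/-- inverse transpose -/
def tau : S3 F →* S3 F where
  toFun g := ⟨(mat g⁻¹)ᵀ, by rw [det_transpose, det_mat]⟩
  map_one' := Subtype.ext (by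
    change (mat (1 : S3 F)⁻¹)ᵀ = 1
    rw [inv_one, mat_one, transpose_one])
  map_mul' a b := Subtype.ext (by
    change (mat (a * b)⁻¹)ᵀ = (mat a⁻¹)ᵀ * (mat b⁻¹)ᵀ
    rw [← transpose_mul, ← mat_mul, _root_.mul_inv_rev])

theorem mat_tau (g : S3 F) : mat (tau g) = (mat g⁻¹)ᵀ := rfl

theorem tau_tau (g : S3 F) : tau (tau g) = g := by
  apply mat_inj
  rw [mat_tau, ← map_inv, mat_tau, inv_inv, transpose_transpose]

theorem tau_surj : Function.Surjective (tau : S3 F →* S3 F) := fun g => ⟨tau g, tau_tau g⟩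

theorem tau_El {v : V3 F} {g : S3 F} (h : g ∈ El v) : tau g ∈ Ax v := by
  obtain ⟨φ, h1, h2⟩ := (El v).inv_mem h
  refine ⟨φ, by rw [dotProduct_comm]; exact h1, ?_⟩
  rw [mat_tau, h2, el, el, transpose_add, transpose_one, transpose_vecMulVec]

theorem tau_Ax {v : V3 F} {g : S3 F} (h : g ∈ Ax v) : tau g ∈ El v := by
  obtain ⟨φ, h1, h2⟩ := (Ax v).inv_mem h
  refine ⟨φ, by rw [dotProduct_comm]; exact h1, ?_⟩
  rw [mat_tau, h2, el, el, transpose_add, transpose_one, transpose_vecMulVec]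

theorem map_tau_El (v : V3 F) : (El v).map tau = Ax v := by
  apply le_antisymm
  · rintro _ ⟨g, hg, rfl⟩
    exact tau_El hg
  · intro g hg
    exact ⟨tau g, tau_Ax hg, tau_tau g⟩

theorem map_tau_Ax (v : V3 F) : (Ax v).map tau = El v := by
  apply le_antisymm
  · rintro _ ⟨g, hg, rfl⟩
    exact tau_Ax hg
  · intro g hg
    exact ⟨tau g, tau_El hg, tau_tau g⟩

theorem PP_tau : PP (ψ.comp tau) = LL ψ := by
  ext A
  constructor
  · rintro ⟨v, hv, rfl⟩
    exact ⟨v, hv, by rw [← Subgroup.map_map, map_tau_El]⟩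
  · rintro ⟨v, hv, rfl⟩
    exact ⟨v, hv, by rw [← Subgroup.map_map, map_tau_El]⟩

theorem LL_tau : LL (ψ.comp tau) = PP ψ := by
  ext A
  constructor
  · rintro ⟨v, hv, rfl⟩
    exact ⟨v, hv, by rw [← Subgroup.map_map, map_tau_Ax]⟩
  · rintro ⟨v, hv, rfl⟩
    exact ⟨v, hv, by rw [← Subgroup.map_map, map_tau_Ax]⟩

theorem range_tau : (ψ.comp tau).range = ψ.range := by
  rw [MonoidHom.range_comp, MonoidHom.range_eq_top.2 tau_surj, ← MonoidHom.range_eq_map]

theorem tau_center {g : S3 F} (h : g ∈ Subgroup.center (S3 F)) : tau g ∈ Subgroup.center (S3 F) := by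
  rw [Subgroup.mem_center_iff] at h ⊢
  intro x
  have := congrArg tau (h (tau x))
  rwa [map_mul, map_mul, tau_tau] at this

theorem Good.dual (hψ : Good ψ) : Good (ψ.comp tau) := by
  refine ⟨hψ.two, ?_⟩
  ext g
  rw [MonoidHom.mem_ker, MonoidHom.comp_apply, ← MonoidHom.mem_ker, hψ.ker]
  constructor
  · intro h
    have := tau_center h
    rwa [tau_tau] at this
  · exact tau_center

theorem Good.half' (hψ : Good ψ) [Fintype F] : Half ψ.range (Fintype.card F) (LL ψ) (PP ψ) := by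
  have := hψ.dual.half
  rwa [range_tau, PP_tau, LL_tau] at this

end Cfsg.Agent.H55.PS3
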