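import Mathlib

set_option autoImplicit false
open Pointwise

namespace Cfsg.Agent.H55

/-- If a `p`-subgroup `P₀` maps into the image of a Sylow subgroup, it is contained in a Sylow
subgroup with the same image. -/
theorem exists_sylow_map_eq {G G' : Type*} [Group G] [Group G'] [Finite G] {p : ℕ} [Fact p.Prime]
    {f : G →* G'} (hf : Function.Surjective f) (Sb : Sylow p G') (P₀ : Subgroup G)
    (hP₀ : IsPGroup p P₀) (hle : P₀.map f ≤ Sb) :
    ∃ S : Sylow p G, P₀ ≤ (S : Subgroup G) ∧ (S : Subgroup G).map f = Sb := by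
  obtain ⟨S', hS'⟩ := Sylow.mapSurjective_surjective hf p Sb
  have hS'2 : (S' : Subgroup G).map f = Sb := by
    rw [← Sylow.coe_mapSurjective hf, hS']
  let N : Subgroup G := (Sb : Subgroup G').comap f
  have h1 : (S' : Subgroup G) ≤ N := by
    rw [← Subgroup.map_le_iff_le_comap, hS'2]
  have h2 : P₀ ≤ N := by
    rw [← Subgroup.map_le_iff_le_comap]; exact hle
  have h3 : IsPGroup p (P₀.subgroupOf N) :=
    hP₀.of_injective (Subgroup.subgroupOfEquivOfLe h2).toMonoidHom
      (Subgroup.subgroupOfEquivOfLe h2).injective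
  obtain ⟨Q, hQ⟩ := h3.exists_le_sylow
  obtain ⟨h, hh⟩ := MulAction.exists_smul_eq N (S'.subtype h1) Q
  refine ⟨(h : G) • S', ?_, ?_⟩
  · intro a ha
    have ha' : (⟨a, h2 ha⟩ : N) ∈ P₀.subgroupOf N := ha
    have ha2 := hQ ha'
    rw [← hh] at ha2
    have ha3 : (⟨a, h2 ha⟩ : N) ∈ MulAut.conj h • ((S'.subtype h1 : Sylow p N) : Subgroup N) := ha2
    rw [Subgroup.mem_pointwise_smul_iff_inv_smul_mem] at ha3
    show a ∈ MulAut.conj (h : G) • (S' : Subgroup G)
    rw [Subgroup.mem_pointwise_smul_iff_inv_smul_mem]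
    rw [Sylow.coe_subtype, Subgroup.mem_subgroupOf] at ha3
    simpa using ha3
  · show (MulAut.conj (h : G) • (S' : Subgroup G)).map f = Sb
    have hhS : f h ∈ (Sb : Subgroup G') := h.2
    ext b
    constructor
    · rintro ⟨a, ha, rfl⟩
      have ha' : a ∈ MulAut.conj (h : G) • (S' : Subgroup G) := ha
      rw [Subgroup.mem_pointwise_smul_iff_inv_smul_mem] at ha'
      have h4 : f ((h : G)⁻¹ * a * h) ∈ (Sb : Subgroup G') := by
        rw [← hS'2]
        refine ⟨(h : G)⁻¹ * a * h, ?_, rfl⟩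
        have h5 : (MulAut.conj (h : G))⁻¹ • a = (h : G)⁻¹ * a * h := by
          simp
        rw [← h5]; exact ha'
      rw [map_mul, map_mul, map_inv] at h4
      have h5 := (Sb : Subgroup G').mul_mem ((Sb : Subgroup G').mul_mem hhS h4)
        ((Sb : Subgroup G').inv_mem hhS)
      have e : f h * ((f h)⁻¹ * f a * f h) * (f h)⁻¹ = f a := by group
      rwa [e] at h5
    · intro hb
      have h4 : (f h)⁻¹ * b * f h ∈ (Sb : Subgroup G') :=
        (Sb : Subgroup G').mul_mem ((Sb : Subgroup G').mul_mem ((Sb : Subgroup G').inv_mem hhS) hb) hhS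
      rw [← hS'2] at h4
      obtain ⟨a, ha, hab⟩ := h4
      refine ⟨h * a * (h : G)⁻¹, ?_, ?_⟩
      · show (h : G) * a * (h : G)⁻¹ ∈ MulAut.conj (h : G) • (S' : Subgroup G)
        exact Subgroup.smul_mem_pointwise_smul a (MulAut.conj (h : G)) _ ha
      · rw [map_mul, map_mul, hab, map_inv]; group

/-- Intersections of Sylow subgroups of a quotient lift. -/
theorem exists_sylow_pair {G G' : Type*} [Group G] [Group G'] [Finite G] {p : ℕ} [Fact p.Prime]
    {f : G →* G'} (hf : Function.Surjective f) (Sb Tb : Sylow p G') (hST : Sb ≠ Tb) :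
    ∃ S T : Sylow p G, S ≠ T ∧ (S : Subgroup G).map f = Sb ∧ (T : Subgroup G).map f = Tb ∧
      ∃ P : Subgroup G, P ≤ S ∧ P ≤ T ∧ P.map f = (Sb : Subgroup G') ⊓ (Tb : Subgroup G') := by
  let I : Subgroup G' := (Sb : Subgroup G') ⊓ (Tb : Subgroup G')
  let D : Subgroup G := I.comap f
  obtain ⟨P⟩ : Nonempty (Sylow p D) := inferInstance
  -- f restricted to D
  let g : D →* I := (f.comp D.subtype).codRestrict I (fun x => x.2)
  have hg : Function.Surjective g := by
    rintro ⟨b, hb⟩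
    obtain ⟨a, rfl⟩ := hf b
    exact ⟨⟨a, hb⟩, rfl⟩
  have hI : IsPGroup p I := Sb.isPGroup'.to_le inf_le_left
  have hPI : (P.mapSurjective hg : Subgroup I) = ⊤ := by
    have h1 : IsPGroup p (⊤ : Subgroup I) := hI.to_subgroup _
    exact ((P.mapSurjective hg).3 h1 le_top).symm
  let P₀ : Subgroup G := (P : Subgroup D).map D.subtype
  have hP₀ : IsPGroup p P₀ := P.isPGroup'.map _
  have hmap : P₀.map f = I := by
    ext b
    constructor
    · rintro ⟨a, ⟨d, hd, rfl⟩, rfl⟩
      exact d.2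
    · intro hb
      have : (⟨b, hb⟩ : I) ∈ (P.mapSurjective hg : Subgroup I) := by rw [hPI]; trivial
      rw [Sylow.coe_mapSurjective] at this
      obtain ⟨d, hd, hdb⟩ := this
      exact ⟨d, ⟨d, hd, rfl⟩, congrArg Subtype.val hdb⟩
  obtain ⟨S, hS1, hS2⟩ := exists_sylow_map_eq hf Sb P₀ hP₀ (by rw [hmap]; exact inf_le_left)
  obtain ⟨T, hT1, hT2⟩ := exists_sylow_map_eq hf Tb P₀ hP₀ (by rw [hmap]; exact inf_le_right)
  refine ⟨S, T, ?_, hS2, hT2, P₀, hS1, hT1, hmap⟩
  rintro rfl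
  apply hST
  apply Sylow.ext
  rw [← hS2, ← hT2]

end Cfsg.Agent.H55
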